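import Mathlib
import Cfsg.Prelude.Def_Solvable
import Cfsg.Agent.FGS3.ClassSize

/-! Finite groups whose two largest class sizes are coprime. -/

set_option autoImplicit false
set_option linter.unusedSectionVars false
set_option linter.style.haveILetI false

namespace Cfsg.Agent.FGS3.CaminaArad

open Subgroup
open scoped Pointwise

variable {G : Type*} [Group G] [Finite G]

/-- The class size. -/
noncomputable def idx (g : G) : ℕ := (centralizer ({g} : Set G)).index

theorem mem_cent {a g : G} : a ∈ centralizer ({g} : Set G) ↔ a * g = g * a :=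
  mem_centralizer_singleton_iff

theorem idx_ne_zero (g : G) : idx g ≠ 0 := index_ne_zero_of_finite

theorem idx_dvd {a b : G} (h : centralizer ({a} : Set G) ≤ centralizer ({b} : Set G)) : idx b ∣ idx a :=
  index_dvd_of_le h

theorem cent_eq_of_le {a b : G} (h : centralizer ({a} : Set G) ≤ centralizer ({b} : Set G))
    (hi : idx a ≤ idx b) : centralizer ({a} : Set G) = centralizer ({b} : Set G) := by
  refine eq_of_le_of_card_ge h ?_
  have ha := (centralizer ({a} : Set G)).card_mul_index
  have hb := (centralizer ({b} : Set G)).card_mul_index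
  refine Nat.le_of_mul_le_mul_right (c := idx a) ?_ (Nat.pos_of_ne_zero (idx_ne_zero a))
  calc Nat.card (centralizer ({b} : Set G)) * idx a ≤ Nat.card (centralizer ({b} : Set G)) * idx b :=
        Nat.mul_le_mul_left _ hi
    _ = Nat.card (centralizer ({a} : Set G)) * idx a := by rw [idx, idx, ha, hb]

theorem mem_center_iff_idx {g : G} : g ∈ center G ↔ idx g = 1 := by
  rw [idx, index_eq_one, eq_top_iff', mem_center_iff]
  simp only [mem_cent]

theorem cent_le_of_mem_zpowers {g u : G} (h : u ∈ zpowers g) :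
    centralizer ({g} : Set G) ≤ centralizer ({u} : Set G) := by
  obtain ⟨i, rfl⟩ := mem_zpowers_iff.1 h
  intro a ha
  exact mem_cent.2 (Commute.zpow_right (mem_cent.1 ha) i)

theorem cent_mul_coprime {u v : G} (hc : Commute u v) (ho : (orderOf u).Coprime (orderOf v)) :
    centralizer ({u * v} : Set G) = centralizer ({u} : Set G) ⊓ centralizer ({v} : Set G) := by
  have key : ∀ {a b : G}, Commute a b → (orderOf a).Coprime (orderOf b) → a ∈ zpowers (a * b) := by
    intro a b hab hco
    obtain ⟨k, hk⟩ := exists_pow_eq_self_of_coprime (x := a) hco.symm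
    refine mem_zpowers_iff.2 ⟨((orderOf b * k : ℕ) : ℤ), ?_⟩
    rw [zpow_natCast, pow_mul, hab.mul_pow, pow_orderOf_eq_one, mul_one, hk]
  refine le_antisymm (le_inf (cent_le_of_mem_zpowers (key hc ho))
    (cent_le_of_mem_zpowers (hc.symm.eq ▸ key hc.symm ho.symm))) fun a ha => ?_
  exact mem_cent.2 (Commute.mul_right (mem_cent.1 ha.1) (mem_cent.1 ha.2))

theorem relIndex_of_coprime {a b : G} (hco : (idx a).Coprime (idx b)) :
    (centralizer ({a} : Set G)).relIndex (centralizer ({b} : Set G)) = idx a := by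
  set A := centralizer ({a} : Set G)
  set B := centralizer ({b} : Set G)
  have h1 : A.relIndex B * idx b = (A ⊓ B).index := by
    rw [idx, ← inf_relIndex_right, relIndex_mul_index inf_le_right]
  have h2 : idx a ∣ A.relIndex B := by
    refine hco.dvd_of_dvd_mul_right ?_
    rw [h1]; exact index_dvd_of_le inf_le_left
  have h3 : A.relIndex B ≤ A.index := by
    rw [← relIndex_top_right A]
    exact relIndex_le_of_le_right le_top (by rw [relIndex_top_right]; exact index_ne_zero_of_finite)
  have hpos : 0 < A.relIndex B := by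
    refine Nat.pos_of_ne_zero fun h0 => ?_
    rw [h0, zero_mul] at h1
    exact index_ne_zero_of_finite h1.symm
  exact le_antisymm h3 (Nat.le_of_dvd hpos h2)

theorem exists_mul_of_coprime {a b : G} (hco : (idx a).Coprime (idx b)) (g : G) :
    ∃ α ∈ centralizer ({a} : Set G), ∃ β ∈ centralizer ({b} : Set G), g = α * β := by
  set A := centralizer ({a} : Set G)
  set B := centralizer ({b} : Set G)
  let f : B ⧸ A.subgroupOf B → G ⧸ A := Quotient.map' (fun x : B => (x : G)) fun x z hxz => by
    rw [QuotientGroup.leftRel_apply] at hxz ⊢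
    simpa [mem_subgroupOf] using hxz
  have hinj : Function.Injective f := by
    intro q r h
    induction q using QuotientGroup.induction_on with | _ x => ?_
    induction r using QuotientGroup.induction_on with | _ z => ?_
    have h' : ((x : G) : G ⧸ A) = ((z : G) : G ⧸ A) := h
    rw [QuotientGroup.eq] at h' ⊢
    simpa [mem_subgroupOf] using h'
  have hcard : Nat.card (G ⧸ A) ≤ Nat.card (B ⧸ A.subgroupOf B) := by
    rw [← index_eq_card, ← index_eq_card]
    exact (relIndex_of_coprime hco).ge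
  have hsurj := (hinj.bijective_of_nat_card_le hcard).2
  obtain ⟨q, hq⟩ := hsurj ((g⁻¹ : G) : G ⧸ A)
  induction q using QuotientGroup.induction_on with | _ z => ?_
  have h' : ((z : G) : G ⧸ A) = ((g⁻¹ : G) : G ⧸ A) := hq
  rw [QuotientGroup.eq] at h'
  refine ⟨((z : G)⁻¹ * g⁻¹)⁻¹, A.inv_mem h', (z : G)⁻¹, B.inv_mem z.2, ?_⟩
  group

/-- The conjugacy class. -/
def cls (u : G) : Set G := Set.range fun c : G => c * u * c⁻¹

theorem ncard_cls (u : G) : (cls u).ncard = idx u := by
  rw [idx, index_centralizer_eq_card_isConj, ← Nat.card_coe_set_eq]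
  refine Nat.card_congr (Equiv.subtypeEquivRight fun k => ?_)
  rw [isConj_iff]
  rfl

/-- The subgroup `[u, G]`. -/
def dif (u : G) : Subgroup G := closure (Set.range fun h : G => u⁻¹ * (h * u * h⁻¹))

theorem gen_mem_dif (u h : G) : u⁻¹ * (h * u * h⁻¹) ∈ dif u := subset_closure ⟨h, rfl⟩

theorem dif_normal (u : G) : (dif u).Normal := by
  refine ⟨fun a ha g => ?_⟩
  induction ha using closure_induction with
  | mem a ha =>
    obtain ⟨h, rfl⟩ := ha
    rw [show g * (u⁻¹ * (h * u * h⁻¹)) * g⁻¹ =
      (u⁻¹ * (g * u * g⁻¹))⁻¹ * (u⁻¹ * ((g * h) * u * (g * h)⁻¹)) by group]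
    exact mul_mem (inv_mem (gen_mem_dif u g)) (gen_mem_dif u _)
  | one => simp [one_mem]
  | mul a b _ _ ha hb =>
    rw [show g * (a * b) * g⁻¹ = (g * a * g⁻¹) * (g * b * g⁻¹) by group]
    exact mul_mem ha hb
  | inv a _ ha =>
    rw [show g * a⁻¹ * g⁻¹ = (g * a * g⁻¹)⁻¹ by group]
    exact inv_mem ha

/-- the left translations preserving a class -/
def lstab (v : G) : Subgroup G := MulAction.stabilizer G (cls v)

theorem mul_mem_cls {v s k : G} (hs : s ∈ lstab v) (hk : k ∈ cls v) : s * k ∈ cls v := by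
  have h : s • cls v = cls v := MulAction.mem_stabilizer_iff.1 hs
  rw [← h]
  exact ⟨k, hk, rfl⟩

theorem card_lstab_dvd (v : G) : Nat.card (lstab v) ∣ idx v := by
  set S := lstab v
  have hpre : (cls v)⁻¹ = QuotientGroup.mk ⁻¹' ((QuotientGroup.mk : G → G ⧸ S) '' (cls v)⁻¹) := by
    refine Set.Subset.antisymm (Set.subset_preimage_image _ _) ?_
    rintro a ⟨b, hb, hab⟩
    rw [QuotientGroup.eq] at hab
    have h := mul_mem_cls (S.inv_mem hab) (Set.mem_inv.1 hb)
    rw [Set.mem_inv]
    simpa [mul_assoc] using h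
  rw [← ncard_cls, ← Set.ncard_inv, hpre, ← Nat.card_coe_set_eq,
    Nat.card_congr (QuotientGroup.preimageMkEquivSubgroupProdSet S _), Nat.card_prod]
  exact dvd_mul_right _ _

theorem dif_le_lstab {u v : G} (hco : (idx u).Coprime (idx v)) (hle : idx (u * v) ≤ idx v) :
    dif u ≤ lstab v := by
  have key : ∀ h : G, (fun k => h * u * h⁻¹ * k) '' cls v = cls (u * v) := by
    intro h
    refine Set.eq_of_subset_of_ncard_le ?_ ?_
    · rintro _ ⟨_, ⟨b, rfl⟩, rfl⟩
      obtain ⟨α, hα, β, hβ, e⟩ := exists_mul_of_coprime hco (h⁻¹ * b)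
      refine ⟨h * α, ?_⟩
      have hb : b = h * α * β := by rw [mul_assoc, ← e, mul_inv_cancel_left]
      show h * α * (u * v) * (h * α)⁻¹ = h * u * h⁻¹ * (b * v * b⁻¹)
      calc h * α * (u * v) * (h * α)⁻¹ = h * (α * u) * α⁻¹ * h⁻¹ * (h * α * v * (h * α)⁻¹) := by group
        _ = h * (u * α) * α⁻¹ * h⁻¹ * (h * α * v * (h * α)⁻¹) := by rw [mem_cent.1 hα]
        _ = h * u * h⁻¹ * (h * α * (v * β) * (h * α * β)⁻¹) := by group
        _ = h * u * h⁻¹ * (b * v * b⁻¹) := by rw [← mem_cent.1 hβ, hb]; group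
    · rw [Set.ncard_image_of_injective _ (mul_right_injective _), ncard_cls, ncard_cls]
      exact hle
  rw [dif, closure_le]
  rintro _ ⟨h, rfl⟩
  rw [SetLike.mem_coe, lstab, MulAction.mem_stabilizer_iff]
  have h1 := key 1
  have h2 := key h
  simp only [one_mul, inv_one, mul_one] at h1
  rw [← h1] at h2
  apply Set.image_injective.2 (mul_right_injective u)
  show (fun k => u * k) '' ((u⁻¹ * (h * u * h⁻¹)) • cls v) = (fun k => u * k) '' cls v
  rw [← h2]
  ext a
  simp only [Set.mem_image, Set.mem_smul_set, smul_eq_mul]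
  constructor
  · rintro ⟨_, ⟨k, hk, rfl⟩, rfl⟩
    exact ⟨k, hk, by group⟩
  · rintro ⟨k, hk, rfl⟩
    exact ⟨_, ⟨k, hk, rfl⟩, by group⟩

theorem le_cent_of_coprime {N : Subgroup G} [N.Normal] {g : G} (hco : (Nat.card N).Coprime (idx g)) :
    N ≤ centralizer ({g} : Set G) := by
  rw [← relIndex_eq_one]
  refine Nat.eq_one_of_dvd_coprimes hco (relIndex_dvd_card _ _) ?_
  set C := centralizer ({g} : Set G)
  obtain ⟨t, ht⟩ := relIndex_dvd_index_of_normal N C
  refine ⟨t, Nat.eq_of_mul_eq_mul_left (n := N.relIndex C) ?_ ?_⟩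
  · refine Nat.pos_of_ne_zero fun h0 => ?_
    rw [h0, zero_mul] at ht
    exact index_ne_zero_of_finite ht
  · calc N.relIndex C * C.index = (N ⊓ C).index := by
          rw [← inf_relIndex_right, relIndex_mul_index inf_le_right]
      _ = C.relIndex N * N.index := by
          rw [inf_comm, ← inf_relIndex_right C N, relIndex_mul_index inf_le_right]
      _ = N.relIndex C * (C.relIndex N * t) := by rw [ht]; ring

/-- `[u, G]` is abelian and `u` is a central translate of one of its elements. -/
theorem exists_translate {u : G} (hco : (Nat.card (dif u)).Coprime (idx u)) :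
    dif u ≤ centralizer ({u} : Set G) ∧ IsMulCommutative (dif u) ∧
      ∃ w ∈ dif u, u * w⁻¹ ∈ center G ∧
        centralizer ({w} : Set G) = centralizer ({u} : Set G) := by
  classical
  haveI := dif_normal u
  have hle := le_cent_of_coprime hco
  have hconj : ∀ a ∈ dif u, ∀ h : G, Commute a (h * u * h⁻¹) := by
    intro a ha h
    have := mem_cent.1 (hle ((dif_normal u).conj_mem a ha h⁻¹))
    rw [inv_inv] at this
    show a * (h * u * h⁻¹) = h * u * h⁻¹ * a
    calc a * (h * u * h⁻¹) = h * ((h⁻¹ * a * h) * u) * h⁻¹ := by group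
      _ = h * (u * (h⁻¹ * a * h)) * h⁻¹ := by rw [this]
      _ = _ := by group
  have hab : IsMulCommutative (dif u) := by
    refine ⟨⟨fun a b => Subtype.ext ?_⟩⟩
    obtain ⟨b, hb⟩ := b
    show (a : G) * b = b * a
    induction hb using closure_induction with
    | mem b hb =>
      obtain ⟨h, rfl⟩ := hb
      exact (Commute.mul_right (Commute.inv_right (mem_cent.1 (hle a.2))) (hconj a a.2 h)).eq
    | one => simp
    | mul b c _ _ hb hc => exact (Commute.mul_right hb hc).eq
    | inv b _ hb => exact (Commute.inv_right hb).eq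
  refine ⟨hle, hab, ?_⟩
  letI : CommGroup (dif u) := { (inferInstance : Group (dif u)) with mul_comm := hab.is_comm.comm }
  let F : G → dif u := fun g => ⟨u⁻¹ * (g * u * g⁻¹), gen_mem_dif u g⟩
  let c : G → (dif u) →* (dif u) := fun h => (MulAut.conjNormal h).toMonoidHom
  have hF : ∀ h g, F (h * g) = F h * c h (F g) := fun h g => by
    apply Subtype.ext
    show u⁻¹ * (h * g * u * (h * g)⁻¹) = u⁻¹ * (h * u * h⁻¹) * (h * (u⁻¹ * (g * u * g⁻¹)) * h⁻¹)
    group
  set C := centralizer ({u} : Set G)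
  haveI := Fintype.ofFinite (G ⧸ C)
  have hFc : ∀ g : G, F (g : G ⧸ C).out = F g := by
    intro g
    obtain ⟨a, ha⟩ := QuotientGroup.mk_out_eq_mul C g
    apply Subtype.ext
    show u⁻¹ * ((g : G ⧸ C).out * u * ((g : G ⧸ C).out)⁻¹) = u⁻¹ * (g * u * g⁻¹)
    rw [ha]
    congr 1
    calc g * (a : G) * u * (g * (a : G))⁻¹ = g * ((a : G) * u * (a : G)⁻¹) * g⁻¹ := by group
      _ = g * u * g⁻¹ := by rw [mem_cent.1 a.2, mul_inv_cancel_right]
  set W := ∏ q : G ⧸ C, F q.out
  have hW : ∀ h, W = F h ^ idx u * c h W := by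
    intro h
    calc W = ∏ q : G ⧸ C, F (h • (q : G ⧸ C)).out := (Equiv.prod_comp (MulAction.toPerm h) fun q : G ⧸ C => F q.out).symm
      _ = ∏ q : G ⧸ C, F h * c h (F q.out) := Finset.prod_congr rfl fun q _ => by
        conv_lhs => rw [← QuotientGroup.out_eq' q, MulAction.Quotient.smul_coe, hFc, smul_eq_mul, hF]
      _ = F h ^ idx u * c h W := by
        rw [Finset.prod_mul_distrib, Finset.prod_const, map_prod, Finset.card_univ, idx, index_eq_card,
          Nat.card_eq_fintype_card]
  obtain ⟨w', hw'⟩ := (Nat.Coprime.pow_left_bijective (G := dif u) hco).2 W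
  simp only at hw'
  set w := w'⁻¹
  have hw : ∀ h, c h w = w * F h := by
    intro h
    have h1 := hW h
    rw [← hw', map_pow, ← mul_pow] at h1
    have h2 : w' = F h * c h w' := (Nat.Coprime.pow_left_bijective (G := dif u) hco).1 h1
    rw [map_inv]
    conv_rhs => rw [show w = w'⁻¹ from rfl, h2, _root_.mul_inv_rev, mul_assoc, inv_mul_cancel, mul_one]
  refine ⟨w, w.2, mem_center_iff.2 fun h => ?_, ?_⟩
  · have h1 : h * (w : G) * h⁻¹ = (w : G) * (u⁻¹ * (h * u * h⁻¹)) := congrArg Subtype.val (hw h)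
    have hwu : Commute (w : G) u := mem_cent.1 (hle w.2)
    have h2 : h * (u * (w : G)⁻¹) * h⁻¹ = u * (w : G)⁻¹ := by
      calc h * (u * (w : G)⁻¹) * h⁻¹ = (h * u * h⁻¹) * (h * (w : G) * h⁻¹)⁻¹ := by group
        _ = u * (w : G)⁻¹ := by rw [h1]; group
    calc h * (u * (w : G)⁻¹) = h * (u * (w : G)⁻¹) * h⁻¹ * h := by group
      _ = u * (w : G)⁻¹ * h := by rw [h2]
  · ext h
    have h1 : h * (w : G) * h⁻¹ = (w : G) * (u⁻¹ * (h * u * h⁻¹)) := congrArg Subtype.val (hw h)
    rw [mem_cent, mem_cent]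
    constructor
    · intro e
      rw [e, mul_inv_cancel_right, eq_comm, mul_eq_left, inv_mul_eq_one] at h1
      calc h * u = h * u * h⁻¹ * h := by group
        _ = u * h := by rw [← h1]
    · intro e
      rw [e, mul_inv_cancel_right, inv_mul_cancel, mul_one] at h1
      calc h * (w : G) = h * (w : G) * h⁻¹ * h := by group
        _ = (w : G) * h := by rw [h1]

/-- An element lies in a normal subgroup as soon as its prime power components do. -/
theorem mem_of_components {Z : Subgroup G} [Z.Normal] {g : G}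
    (h : ∀ u ∈ zpowers g, ∀ r : ℕ, r.Prime → (∃ k, orderOf u = r ^ k) → u ∈ Z) : g ∈ Z := by
  by_contra hg
  set q : G ⧸ Z := (g : G ⧸ Z)
  have hq : orderOf q ≠ 1 := fun e => hg ((QuotientGroup.eq_one_iff g).1 (orderOf_eq_one_iff.1 e))
  obtain ⟨r, hr, hrq⟩ := Nat.exists_prime_and_dvd hq
  set o := orderOf g
  have ho : o ≠ 0 := (orderOf_pos g).ne'
  have hu : orderOf (g ^ (o / r ^ o.factorization r)) = r ^ o.factorization r := by
    rw [orderOf_pow_of_dvd (Nat.ordCompl_pos r ho).ne' (Nat.ordCompl_dvd o r),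
      Nat.div_div_self (Nat.ordProj_dvd o r) ho]
  have hz := h _ (pow_mem (mem_zpowers g) _) r hr ⟨_, hu⟩
  have h1 : q ^ (o / r ^ o.factorization r) = 1 := by
    rw [← QuotientGroup.mk_pow]; exact (QuotientGroup.eq_one_iff _).2 hz
  exact Nat.not_dvd_ordCompl hr ho (hrq.trans (orderOf_dvd_of_pow_eq_one h1))

theorem mem_center_of_pow {u : G} {k : ℕ} (h : u ^ k ∈ center G) (hk : k.Coprime (orderOf u)) :
    u ∈ center G := by
  obtain ⟨j, hj⟩ := exists_pow_eq_self_of_coprime hk
  exact hj ▸ pow_mem h j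

/-- The situation of the theorem. -/
structure Data (m n : ℕ) (x y : G) : Prop where
  hmn : n < m
  hn : 1 < n
  hcop : m.Coprime n
  htop : ∀ z : G, idx z ≤ m
  hsec : ∀ z : G, idx z < m → idx z ≤ n
  hx : idx x = n
  hy : idx y = m

variable {m n : ℕ} {x y : G}

theorem Data.cases (d : Data m n x y) (z : G) : idx z ≤ n ∨ idx z = m := by
  rcases lt_or_eq_of_le (d.htop z) with h | h
  · exact Or.inl (d.hsec z h)
  · exact Or.inr h

theorem Data.setup (d : Data m n x y) :
    Nat.card (dif x) ∣ m ∧ dif x ≤ centralizer ({x} : Set G) ∧ IsMulCommutative (dif x) ∧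
      ∃ w ∈ dif x, centralizer ({w} : Set G) = centralizer ({x} : Set G) := by
  have hco : (idx x).Coprime (idx y) := by rw [d.hx, d.hy]; exact d.hcop.symm
  have h1 : Nat.card (dif x) ∣ m := by
    rw [← d.hy]
    exact (card_dvd_of_le (dif_le_lstab hco (by rw [d.hy]; exact d.htop _))).trans (card_lstab_dvd y)
  obtain ⟨a, b, w, hw, -, hcw⟩ :=
    exists_translate (u := x) (by rw [d.hx]; exact (d.hcop.coprime_dvd_left h1))
  exact ⟨h1, a, b, w, hw, hcw⟩

/-- class sizes prime to `n` are `1` or `m` -/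
theorem Data.eq_m (d : Data m n x y) {g : G} (hg : g ∉ center G) (hco : (idx g).Coprime n) :
    idx g = m := by
  by_contra hne
  apply hg
  have hlt : idx g < m := lt_of_le_of_ne (d.htop g) hne
  have hco' : (idx g).Coprime (idx x) := by rwa [d.hx]
  have hdvd : idx (g * x) ∣ idx g * n := by
    rw [← d.hx, ← relIndex_of_coprime hco', idx, idx, ← inf_relIndex_right, relIndex_mul_index inf_le_right]
    exact index_dvd_of_le fun a ha =>
      mem_cent.2 (Commute.mul_right (mem_cent.1 ha.1) (mem_cent.1 ha.2))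
  have hle : idx (g * x) ≤ idx x := by
    rcases d.cases (g * x) with h | h
    · rw [d.hx]; exact h
    · exfalso
      rw [h] at hdvd
      have := Nat.le_of_dvd (Nat.pos_of_ne_zero (idx_ne_zero g)) (d.hcop.dvd_of_dvd_mul_right hdvd)
      omega
  have hS := dif_le_lstab hco' hle
  haveI := dif_normal x
  have hSN : lstab x ≤ dif x := by
    intro s hs
    obtain ⟨c, hc⟩ := mul_mem_cls hs (⟨1, by simp⟩ : x ∈ cls x)
    have hc' : c * x * c⁻¹ = s * x := hc
    have e : s = x * (x⁻¹ * (c * x * c⁻¹)) * x⁻¹ := by rw [hc']; group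
    rw [e]
    exact (dif_normal x).conj_mem _ (gen_mem_dif x c) x
  have h1 : Nat.card (dif g) ∣ n := by
    rw [← d.hx]; exact (card_dvd_of_le hS).trans (card_lstab_dvd x)
  have h2 : Nat.card (dif g) ∣ m := (card_dvd_of_le (hS.trans hSN)).trans d.setup.1
  have h3 : dif g = ⊥ := Subgroup.card_eq_one.1 (Nat.eq_one_of_dvd_coprimes d.hcop h2 h1)
  rw [mem_center_iff]
  intro h
  have h4 : g⁻¹ * (h * g * h⁻¹) ∈ dif g := gen_mem_dif g h
  rw [h3, mem_bot, inv_mul_eq_one] at h4
  calc h * g = h * g * h⁻¹ * h := by group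
    _ = g * h := by rw [← h4]

/-- Elements of order prime to `m` in `C(x)` are central. -/
theorem Data.central_of_mem (d : Data m n x y) {u : G} (ho : (orderOf u).Coprime m)
    (hu : u ∈ centralizer ({x} : Set G)) : u ∈ center G := by
  obtain ⟨hN, -, -, w, hw, hcw⟩ := d.setup
  have hwo : orderOf w ∣ m := by
    have h := orderOf_dvd_natCard (⟨w, hw⟩ : dif x)
    rw [Subgroup.orderOf_mk] at h
    exact h.trans hN
  have hcomm : Commute u w := by
    rw [← hcw] at hu; exact mem_cent.1 hu
  have hC := cent_mul_coprime hcomm (ho.coprime_dvd_right hwo)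
  have hn' : n ∣ idx (u * w) := by
    rw [← d.hx, idx, idx, ← hcw, hC]; exact index_dvd_of_le inf_le_right
  have hle : idx (u * w) ≤ idx w := by
    rcases d.cases (u * w) with h | h
    · rw [idx, idx, hcw]; exact h.trans d.hx.ge
    · rw [h] at hn'
      have := Nat.eq_one_of_dvd_coprimes d.hcop hn' dvd_rfl
      exact absurd this (by have := d.hn; omega)
  have hle' : centralizer ({w} : Set G) ≤ centralizer ({u} : Set G) := by
    rw [← cent_eq_of_le (hC ▸ inf_le_right) hle, hC]; exact inf_le_left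
  have hdn : idx u ∣ n := by
    have := idx_dvd hle'
    rwa [idx, idx, hcw, ← idx, ← idx, d.hx] at this
  have hco : (idx u).Coprime (idx y) := by rw [d.hy]; exact (d.hcop.coprime_dvd_right hdn).symm
  have hN' : Nat.card (dif u) ∣ m := by
    rw [← d.hy]
    exact (card_dvd_of_le (dif_le_lstab hco (by rw [d.hy]; exact d.htop _))).trans (card_lstab_dvd y)
  obtain ⟨-, -, v, hv, hz, -⟩ := exists_translate (u := u) ((d.hy ▸ hco).symm.coprime_dvd_left hN')
  set k := orderOf v
  have hk : k ∣ m := by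
    have h := orderOf_dvd_natCard (⟨v, hv⟩ : dif u)
    rw [Subgroup.orderOf_mk] at h
    exact h.trans hN'
  refine mem_center_of_pow (k := k) ?_ (ho.coprime_dvd_right hk).symm
  have hc : Commute (u * v⁻¹) v := ((mem_center_iff.1 hz) v).symm
  have e : (u * v⁻¹) ^ k = u ^ k := by
    conv_rhs => rw [show u = (u * v⁻¹) * v by group, hc.mul_pow, pow_orderOf_eq_one, mul_one]
  exact e ▸ pow_mem hz k

theorem shift_prod {M : Type*} [CommGroup M] (f : ℕ → M) (o : ℕ) (h : f o = f 0) :
    ∏ j ∈ Finset.range o, f (j + 1) = ∏ j ∈ Finset.range o, f j := by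
  have := (Finset.prod_range_succ' f o).symm.trans (Finset.prod_range_succ f o)
  rw [h] at this
  exact mul_right_cancel this

/-- Noncentral elements of order prime to `m` have class size `m`. -/
theorem Data.idx_eq_m (d : Data m n x y) {u : G} (ho : (orderOf u).Coprime m) (hu : u ∉ center G) :
    idx u = m := by
  classical
  by_contra hne
  have hux : u ∉ centralizer ({x} : Set G) := fun h => hu (d.central_of_mem ho h)
  obtain ⟨hN, hNC, hab, w, hw, hcw⟩ := d.setup
  haveI := dif_normal x
  letI : CommGroup (dif x) := { (inferInstance : Group (dif x)) with mul_comm := hab.is_comm.comm }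
  let c : G → (dif x) →* (dif x) := fun h => (MulAut.conjNormal h).toMonoidHom
  let φ : (dif x) →* (dif x) :=
    MonoidHom.mk' (fun v => c u v * v⁻¹) fun a b => by rw [map_mul, mul_inv]; exact mul_mul_mul_comm _ _ _ _
  set o := orderOf u
  set W : dif x := ⟨w, hw⟩
  set T := ∏ j ∈ Finset.range o, c (u ^ j) W
  have hcc : ∀ a b v, c a (c b v) = c (a * b) v := fun a b v => by
    apply Subtype.ext
    show a * (b * (v : G) * b⁻¹) * a⁻¹ = a * b * (v : G) * (a * b)⁻¹
    group
  have hT : c u T = T := by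
    rw [map_prod]
    simp only [hcc, ← pow_succ']
    exact shift_prod (fun j => c (u ^ j) W) o (by simp only [o, pow_orderOf_eq_one, pow_zero])
  have hTR : T * (W ^ o)⁻¹ ∈ φ.range := by
    rw [← QuotientGroup.eq_one_iff, QuotientGroup.mk_mul, QuotientGroup.mk_inv, mul_inv_eq_one,
      QuotientGroup.mk_pow, QuotientGroup.mk_prod]
    refine (Finset.prod_congr rfl fun j hj => ?_).trans (by rw [Finset.prod_const, Finset.card_range])
    clear hj
    induction j with
    | zero => simp [c]
    | succ j ih =>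
      rw [pow_succ', ← hcc, ← ih, ← mul_inv_eq_one, ← QuotientGroup.mk_inv, ← QuotientGroup.mk_mul,
        QuotientGroup.eq_one_iff]
      exact ⟨c (u ^ j) W, rfl⟩
  have hcoN : (Nat.card (dif x)).Coprime o := (ho.coprime_dvd_right hN).symm
  obtain ⟨W1, hW1⟩ := (Nat.Coprime.pow_left_bijective (G := dif x) hcoN).2 T
  simp only at hW1
  have hW1u : c u W1 = W1 := (Nat.Coprime.pow_left_bijective (G := dif x) hcoN).1 (by
    show c u W1 ^ o = W1 ^ o
    rw [← map_pow, hW1, hT])
  set W2 := W * W1⁻¹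
  have hW2 : W2 ∈ φ.range := by
    have h : W2⁻¹ ^ o ∈ φ.range := by
      rwa [show W2⁻¹ ^ o = T * (W ^ o)⁻¹ by rw [inv_pow, mul_pow, inv_pow, hW1, mul_inv, inv_inv, mul_comm]]
    obtain ⟨j, hj⟩ := exists_pow_eq_self_of_coprime (x := W2⁻¹) (n := o)
      (hcoN.coprime_dvd_left (orderOf_dvd_natCard _)).symm
    exact inv_mem_iff.1 (hj ▸ pow_mem h j)
  set w1 : G := W1.1
  have hcu : Commute u w1 := by
    have h : u * w1 * u⁻¹ = w1 := congrArg Subtype.val hW1u
    calc u * w1 = u * w1 * u⁻¹ * u := by group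
      _ = w1 * u := by rw [h]
  have hW2ne : W2 ≠ 1 := by
    intro h
    refine hux ?_
    rw [← hcw, mem_cent, show w = w1 from congrArg Subtype.val (mul_inv_eq_one.1 h)]
    exact hcu
  have hwo : orderOf w1 ∣ m := by
    have h := orderOf_dvd_natCard W1
    rw [← Subgroup.orderOf_coe] at h
    exact h.trans hN
  have hC := cent_mul_coprime hcu (ho.coprime_dvd_right hwo)
  set X := centralizer ({u * w1} : Set G)
  set S := centralizer ({w} : Set G) ⊓ centralizer ({u} : Set G)
  have hXn : idx (u * w1) ≤ n := by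
    rcases d.cases (u * w1) with h | h
    · exact h
    · refine absurd (d.eq_m hu ?_) hne
      have : idx u ∣ m := by rw [← h]; exact index_dvd_of_le (hC.le.trans inf_le_left)
      exact d.hcop.coprime_dvd_left this
  have hbig : Nat.card (centralizer ({w} : Set G)) ≤ Nat.card X := by
    have h1 := X.card_mul_index
    have h2 := (centralizer ({w} : Set G)).card_mul_index
    rw [hcw] at h2 ⊢
    rw [show (centralizer ({x} : Set G)).index = n from d.hx] at h2
    refine Nat.le_of_mul_le_mul_right (c := n) ?_ (by have := d.hn; omega)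
    rw [h2, ← h1]
    exact Nat.mul_le_mul_left _ hXn
  -- many cosets of `S` in `C(w)`
  have hR : Nat.card φ.range * Nat.card S ≤ Nat.card (centralizer ({w} : Set G)) := by
    have hsel : ∀ r : φ.range, ∃ v, φ v = r := fun r => r.2
    choose sel hselspec using hsel
    rw [← Nat.card_prod]
    refine Nat.card_le_card_of_injective (fun rs : φ.range × S => (⟨(sel rs.1).1 * rs.2.1,
      mul_mem (hcw.ge (hNC (sel rs.1).2)) rs.2.2.1⟩ : centralizer ({w} : Set G))) ?_
    rintro ⟨r, s⟩ ⟨r', s'⟩ h
    have h' : ((sel r).1 : G) * s.1 = (sel r').1 * s'.1 := congrArg Subtype.val h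
    have hd : ((sel r')⁻¹ * sel r : dif x).1 ∈ centralizer ({u} : Set G) := by
      rw [show (((sel r')⁻¹ * sel r : dif x) : G) = s'.1 * (s.1)⁻¹ by
        simp only [Subgroup.coe_mul, InvMemClass.coe_inv]
        rw [eq_mul_inv_iff_mul_eq, mul_assoc, h', inv_mul_cancel_left]]
      exact mul_mem s'.2.2 (inv_mem s.2.2)
    have hφ : φ ((sel r')⁻¹ * sel r) = 1 := by
      apply Subtype.ext
      show u * ((sel r')⁻¹ * sel r : dif x).1 * u⁻¹ * (((sel r')⁻¹ * sel r : dif x).1)⁻¹ = 1
      rw [← mem_cent.1 hd, mul_inv_cancel_right, mul_inv_cancel]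
    rw [map_mul, map_inv, hselspec, hselspec, inv_mul_eq_one] at hφ
    have hr : r = r' := Subtype.ext hφ.symm
    subst hr
    exact Prod.ext rfl (Subtype.ext (mul_left_cancel h'))
  -- but few in `X`
  have hXS : Nat.card X ≤ (Nat.card φ.range - 1) * Nat.card S := by
    have hmemX : ∀ a : X, Commute (a : G) u ∧ Commute (a : G) w1 := fun a => by
      have h := hC.le a.2
      exact ⟨mem_cent.1 h.1, mem_cent.1 h.2⟩
    have hR' : ∀ a : X, c (a : G) W2 ∈ φ.range ∧ c (a : G) W2 ≠ 1 := by
      intro a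
      refine ⟨?_, fun h => hW2ne ?_⟩
      · obtain ⟨v, hv⟩ := hW2
        refine ⟨c (a : G) v, ?_⟩
        rw [← hv]
        show c u (c (a : G) v) * (c (a : G) v)⁻¹ = c (a : G) (c u v * v⁻¹)
        rw [map_mul, map_inv, hcc, hcc, (hmemX a).1.eq]
      · exact (MulAut.conjNormal (a : G)).injective (h.trans (map_one _).symm)
    let o2 : X → {r : φ.range // r ≠ 1} := fun a => ⟨⟨_, (hR' a).1⟩, fun h => (hR' a).2 (congrArg Subtype.val h)⟩
    have : Nonempty X := ⟨1⟩
    let rep := Function.invFun o2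
    have hrep : ∀ a, o2 (rep (o2 a)) = o2 a := fun a => Function.invFun_eq ⟨a, rfl⟩
    have hmemS : ∀ a : X, ((rep (o2 a) : G))⁻¹ * (a : G) ∈ S := by
      intro a
      set b := rep (o2 a)
      have h1 : c (b : G) W2 = c (a : G) W2 := congrArg (fun r => r.1.1) (hrep a)
      set e := ((b : G))⁻¹ * (a : G)
      have h2 : c e W2 = W2 := by
        rw [← hcc, ← h1, hcc, inv_mul_cancel]
        exact Subtype.ext (by simp [c])
      have hu' : Commute e u := ((hmemX b).1.inv_left).mul_left (hmemX a).1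
      have hw1 : Commute e w1 := ((hmemX b).2.inv_left).mul_left (hmemX a).2
      have h3 : Commute e (W2 : G) := by
        have h : e * (W2 : G) * e⁻¹ = W2 := congrArg Subtype.val h2
        show e * (W2 : G) = (W2 : G) * e
        calc e * (W2 : G) = e * (W2 : G) * e⁻¹ * e := by group
          _ = _ := by rw [h]
      have hwe : w = (W2 : G) * w1 := by show w = w * w1⁻¹ * w1; rw [inv_mul_cancel_right]
      exact ⟨mem_cent.2 (hwe ▸ h3.mul_right hw1), mem_cent.2 hu'⟩
    haveI := Fintype.ofFinite φ.range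
    have hcard : Nat.card {r : φ.range // r ≠ 1} = Nat.card φ.range - 1 := by
      rw [Nat.card_eq_fintype_card, Nat.card_eq_fintype_card, Fintype.card_subtype_compl, Fintype.card_subtype_eq]
    rw [← hcard, ← Nat.card_prod]
    refine Nat.card_le_card_of_injective (fun a => (o2 a, (⟨_, hmemS a⟩ : S))) ?_
    intro a b h
    rw [Prod.mk.injEq] at h
    have h2 : ((rep (o2 a) : G))⁻¹ * (a : G) = ((rep (o2 b) : G))⁻¹ * (b : G) := congrArg Subtype.val h.2
    rw [h.1] at h2
    exact Subtype.ext (mul_left_cancel h2)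
  have hS0 : 0 < Nat.card S := Nat.card_pos
  have hR0 : 0 < Nat.card φ.range := Nat.card_pos
  have hfin := hR.trans (hbig.trans hXS)
  have := Nat.le_of_mul_le_mul_right hfin hS0
  omega

theorem Data.exists_prime_element (d : Data m n x y) :
    ∃ p v, Nat.Prime p ∧ ¬ p ∣ m ∧ (∃ k, orderOf v = p ^ k) ∧
      centralizer ({v} : Set G) = centralizer ({y} : Set G) ∧ v ∉ center G := by
  have hy : y ∉ center G := fun h => by
    rw [mem_center_iff_idx, d.hy] at h
    have := d.hmn; have := d.hn; omega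
  obtain ⟨v, r, hr, hvy, hvo, hv⟩ : ∃ v r, Nat.Prime r ∧ v ∈ zpowers y ∧ (∃ k, orderOf v = r ^ k) ∧ v ∉ center G := by
    by_contra h
    exact hy (mem_of_components fun u hu r hr ho => not_not.1 fun hz => h ⟨u, r, hr, hu, ho, hz⟩)
  have hle := cent_le_of_mem_zpowers hvy
  have hvm : idx v = m := d.eq_m hv (d.hcop.coprime_dvd_left (d.hy ▸ idx_dvd hle))
  have hvC : centralizer ({y} : Set G) = centralizer ({v} : Set G) := cent_eq_of_le hle (by rw [hvm, d.hy])
  by_cases hrm : r ∣ m
  swap
  · exact ⟨r, v, hr, hrm, hvo, hvC.symm, hv⟩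
  obtain ⟨p, hp, hpn⟩ := Nat.exists_prime_and_dvd (show n ≠ 1 by have := d.hn; omega)
  have hpm : ¬ p ∣ m := fun h => hp.ne_one (Nat.eq_one_of_dvd_coprimes d.hcop h hpn)
  haveI : Fact p.Prime := ⟨hp⟩
  obtain ⟨Q⟩ : Nonempty (Sylow p (centralizer ({v} : Set G))) := inferInstance
  set Qg := (Q : Subgroup (centralizer ({v} : Set G))).map (centralizer ({v} : Set G)).subtype
  have hQg : IsPGroup p Qg := Q.2.map _
  obtain ⟨u, huQ, huz⟩ : ∃ u ∈ Qg, u ∉ center G := by
    by_contra h
    have hle' : Qg ≤ center G := fun u hu => not_not.1 fun hz => h ⟨u, hu, hz⟩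
    have hidx : Qg.index = (Q : Subgroup (centralizer ({v} : Set G))).index * m := by
      rw [index_map_subtype, show (centralizer ({v} : Set G)).index = m from hvm]
    have hnd : ¬ p ∣ Qg.index := by
      rw [hidx]
      exact fun h => (hp.dvd_mul.1 h).elim Q.not_dvd_index hpm
    refine hnd (hpn.trans ((d.hx ▸ dvd_rfl : n ∣ idx x).trans ((index_dvd_of_le ?_).trans (index_dvd_of_le hle'))))
    exact fun a ha => mem_cent.2 (mem_center_iff.1 ha x).symm
  obtain ⟨k, hk⟩ := hQg ⟨u, huQ⟩
  obtain ⟨j, -, hj⟩ := (Nat.dvd_prime_pow hp).1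
    (orderOf_dvd_of_pow_eq_one (congrArg Subtype.val hk : u ^ p ^ k = 1))
  have hum : idx u = m := d.idx_eq_m (by rw [hj]; exact (hp.coprime_iff_not_dvd.2 hpm).pow_left j) huz
  clear hle
  have huv : Commute u v := by
    obtain ⟨⟨u', hu'⟩, -, rfl⟩ := huQ
    exact mem_cent.1 hu'
  have hC := cent_mul_coprime huv (by
    obtain ⟨b, hb⟩ := hvo
    rw [hj, hb]
    exact Nat.Coprime.pow _ _ ((Nat.coprime_primes hp hr).2 fun e => hpm (e ▸ hrm)))
  have e1 := cent_eq_of_le (a := u * v) (b := u) (hC ▸ inf_le_left) (by rw [hum]; exact d.htop _)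
  have e2 := cent_eq_of_le (a := u * v) (b := v) (hC ▸ inf_le_right) (by rw [hvm]; exact d.htop _)
  exact ⟨p, u, hp, hpm, ⟨j, hj⟩, by rw [← e1, e2, hvC], huz⟩

theorem coprime_of_prime_pow {p m : ℕ} (hp : p.Prime) (hpm : ¬ p ∣ m) {v : G}
    (h : ∃ k, orderOf v = p ^ k) : (orderOf v).Coprime m := by
  obtain ⟨k, hk⟩ := h
  rw [hk]; exact (hp.coprime_iff_not_dvd.2 hpm).pow_left k

theorem Data.not_mem_cx (d : Data m n x y) {g : G} (ho : (orderOf g).Coprime m) (hg : g ∉ center G) :
    g ∉ centralizer ({x} : Set G) := fun h => hg (d.central_of_mem ho h)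

theorem Data.inf_eq (d : Data m n x y) :
    centralizer ({x} : Set G) ⊓ centralizer ({y} : Set G) = center G := by
  refine le_antisymm (fun g hg => ?_) (le_inf ?_ ?_)
  rotate_left
  · exact fun a ha => mem_cent.2 (mem_center_iff.1 ha x).symm
  · exact fun a ha => mem_cent.2 (mem_center_iff.1 ha y).symm
  obtain ⟨p, v, hp, hpm, hvo, hvC, hv⟩ := d.exists_prime_element
  refine mem_of_components fun u hu r hr ho => ?_
  have hux : u ∈ centralizer ({x} : Set G) := zpowers_le.2 hg.1 hu
  by_cases hrm : r ∣ m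
  swap
  · exact d.central_of_mem (coprime_of_prime_pow hr hrm ho) hux
  by_contra hz
  have huv : Commute u v := by
    have : u ∈ centralizer ({v} : Set G) := hvC ▸ zpowers_le.2 hg.2 hu
    exact mem_cent.1 this
  have hC := cent_mul_coprime huv (by
    obtain ⟨a, ha⟩ := ho; obtain ⟨b, hb⟩ := hvo
    rw [ha, hb]
    exact Nat.Coprime.pow _ _ ((Nat.coprime_primes hr hp).2 fun e => hpm (e ▸ hrm)))
  have hvm : idx v = m := by rw [idx, hvC]; exact d.hy
  have e := cent_eq_of_le (a := u * v) (b := v) (hC ▸ inf_le_right) (by rw [hvm]; exact d.htop _)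
  have hvu : centralizer ({v} : Set G) ≤ centralizer ({u} : Set G) := by
    rw [← e, hC]; exact inf_le_left
  have hum := d.eq_m hz (d.hcop.coprime_dvd_left (hvm ▸ idx_dvd hvu))
  have heq := cent_eq_of_le hvu (by rw [hum, hvm])
  have hxv : x ∈ centralizer ({v} : Set G) := by
    rw [heq, mem_cent]; exact (mem_cent.1 hux).symm
  exact d.not_mem_cx (coprime_of_prime_pow hp hpm hvo) hv (mem_cent.2 (mem_cent.1 hxv).symm)

theorem Data.index_center (d : Data m n x y) : (center G).index = n * m := by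
  have hco : (idx x).Coprime (idx y) := by rw [d.hx, d.hy]; exact d.hcop.symm
  rw [← d.inf_eq, ← relIndex_mul_index (inf_le_right (a := centralizer ({x} : Set G))), inf_relIndex_right,
    relIndex_of_coprime hco, d.hx, show (centralizer ({y} : Set G)).index = m from d.hy]

theorem relIndex_center_mul (d : Data m n x y) (g : G) :
    (center G).relIndex (centralizer ({g} : Set G)) * idx g = n * m := by
  rw [← d.index_center]
  exact relIndex_mul_index fun a ha => mem_cent.2 (mem_center_iff.1 ha g).symm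

theorem mem_center_of_coprime {H : Subgroup G} (hH : center G ≤ H) {u : G} (hu : u ∈ H)
    (hco : (orderOf u).Coprime ((center G).relIndex H)) : u ∈ center G := by
  refine mem_center_of_pow (k := (center G).relIndex H) ?_ hco.symm
  have h : ((center G).subgroupOf H).index = (center G).relIndex H := rfl
  have h2 := ((center G).subgroupOf H).pow_index_mem (⟨u, hu⟩ : H)
  rw [h] at h2
  exact h2

/-- all components for primes not dividing `m` are central -/
def MPart (m : ℕ) (g : G) : Prop :=
  ∀ u ∈ zpowers g, ∀ r : ℕ, r.Prime → ¬ r ∣ m → (∃ k, orderOf u = r ^ k) → u ∈ center G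

theorem Data.central_of_relIndex_n (d : Data m n x y) {H : Subgroup G} (hH : center G ≤ H)
    (hrel : (center G).relIndex H = n) {g : G} (hg : g ∈ H) (hM : MPart m g) : g ∈ center G := by
  refine mem_of_components fun u hu r hr ho => ?_
  by_cases hrm : r ∣ m
  · refine mem_center_of_coprime hH (zpowers_le.2 hg hu) ?_
    obtain ⟨k, hk⟩ := ho
    rw [hk, hrel]
    exact (d.hcop.coprime_dvd_left hrm).pow_left k
  · exact hM u hu r hr hrm ho

theorem center_le_cent (g : G) : center G ≤ centralizer ({g} : Set G) :=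
  fun a ha => mem_cent.2 (mem_center_iff.1 ha g).symm

theorem Data.relIndex_of_idx_m (d : Data m n x y) {g : G} (h : idx g = m) :
    (center G).relIndex (centralizer ({g} : Set G)) = n := by
  have h1 := relIndex_center_mul d g
  rw [h] at h1
  exact Nat.eq_of_mul_eq_mul_right (by have := d.hmn; omega) h1

theorem Data.mpart_structure (d : Data m n x y) {g : G} (hg : g ∉ center G) (hM : MPart m g) :
    idx g = n ∧ dif x ≤ centralizer ({g} : Set G) ∧
      ∀ h ∈ centralizer ({g} : Set G), MPart m h := by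
  have hall : ∀ h ∈ centralizer ({g} : Set G), MPart m h := by
    intro h hh u hu r hr hrm ho
    by_contra hz
    have hum := d.idx_eq_m (coprime_of_prime_pow hr hrm ho) hz
    refine hg (d.central_of_relIndex_n (center_le_cent u) (d.relIndex_of_idx_m hum) ?_ hM)
    have := zpowers_le.2 hh hu
    rw [mem_cent] at this ⊢
    exact this.symm
  have hrel := relIndex_center_mul d g
  set R := (center G).relIndex (centralizer ({g} : Set G)) with hR
  have hcoR : R.Coprime n := by
    refine Nat.coprime_of_dvd fun p hp h1 h2 => ?_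
    haveI : Fact p.Prime := ⟨hp⟩
    obtain ⟨q, hq⟩ := exists_prime_orderOf_dvd_card'
      (G := centralizer ({g} : Set G) ⧸ (center G).subgroupOf (centralizer ({g} : Set G))) p
      (by rw [← index_eq_card]; exact h1)
    obtain ⟨⟨h, hh⟩, rfl⟩ := QuotientGroup.mk_surjective q
    have hmem : h ^ p ∈ center G := by
      have := (QuotientGroup.eq_one_iff _).1 ((QuotientGroup.mk_pow _ _ p).trans (hq ▸ pow_orderOf_eq_one _))
      exact this
    have hz : h ∈ center G := by
      refine mem_of_components fun u hu r hr ho => ?_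
      by_cases hrm : r ∣ m
      · obtain ⟨i, rfl⟩ := mem_zpowers_iff.1 hu
        refine mem_center_of_pow (k := p) ?_ ?_
        · rw [← zpow_natCast, ← zpow_mul, mul_comm, zpow_mul, zpow_natCast]
          exact zpow_mem hmem i
        · obtain ⟨a, ha⟩ := ho
          rw [ha]
          exact Nat.Coprime.pow_right _ ((Nat.coprime_primes hp hr).2 fun e =>
            hp.ne_one (Nat.eq_one_of_dvd_coprimes d.hcop (e ▸ hrm) h2))
      · exact hall h hh u hu r hr hrm ho
    have h0 : ((⟨h, hh⟩ : centralizer ({g} : Set G)) :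
        centralizer ({g} : Set G) ⧸ (center G).subgroupOf (centralizer ({g} : Set G))) = 1 :=
      (QuotientGroup.eq_one_iff _).2 hz
    rw [h0, orderOf_one] at hq
    exact hp.ne_one hq.symm
  have hRm : R ∣ m := hcoR.dvd_of_dvd_mul_left ⟨idx g, hrel.symm⟩
  obtain ⟨c, hc⟩ := hRm
  have hidx : idx g = n * c := by
    have hRpos : 0 < R := by
      rcases Nat.eq_zero_or_pos R with h0 | h0
      · rw [h0, zero_mul] at hc; have := d.hmn; omega
      · exact h0
    refine Nat.eq_of_mul_eq_mul_left hRpos ?_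
    rw [hrel, hc]; ring
  have hgn : idx g = n := by
    rcases d.cases g with h | h
    · refine le_antisymm h ?_
      rw [hidx]
      exact Nat.le_mul_of_pos_right n (Nat.pos_of_ne_zero fun h0 => by
        rw [h0, mul_zero] at hc; have := d.hmn; omega)
    · have h1 : n ∣ m := ⟨c, by rw [← h, hidx]⟩
      have := Nat.eq_one_of_dvd_coprimes d.hcop h1 dvd_rfl
      exact absurd this (by have := d.hn; omega)
  haveI := dif_normal x
  exact ⟨hgn, le_cent_of_coprime (hgn ▸ d.hcop.coprime_dvd_left d.setup.1), hall⟩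

theorem Data.mem_cx (d : Data m n x y) {h : G} (hM : MPart m h) : h ∈ centralizer ({x} : Set G) := by
  by_cases hz : h ∈ center G
  · exact center_le_cent x hz
  obtain ⟨-, -, -, w, hw, hcw⟩ := d.setup
  rw [← hcw, mem_cent]
  exact (mem_cent.1 ((d.mpart_structure hz hM).2.1 hw)).symm

theorem Data.mpart_of_mem (d : Data m n x y) {g : G} (hg : g ∈ centralizer ({x} : Set G)) : MPart m g :=
  fun _ hu _ hr hrm ho => d.central_of_mem (coprime_of_prime_pow hr hrm ho) (zpowers_le.2 hg hu)

theorem Data.cx_comm (d : Data m n x y) : IsMulCommutative (centralizer ({x} : Set G)) := by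
  refine ⟨⟨fun a b => Subtype.ext ?_⟩⟩
  by_cases ha : (a : G) ∈ center G
  · exact (mem_center_iff.1 ha b).symm
  obtain ⟨han, -, hall⟩ := d.mpart_structure ha (d.mpart_of_mem a.2)
  have heq := cent_eq_of_le (a := (a : G)) (b := x) (fun h hh => d.mem_cx (hall h hh)) (by rw [han, d.hx])
  have hb : (b : G) ∈ centralizer ({(a : G)} : Set G) := heq.ge b.2
  exact (mem_cent.1 hb).symm

theorem Data.cx_normal (d : Data m n x y) : (centralizer ({x} : Set G)).Normal := by
  refine ⟨fun g hg a => d.mem_cx fun u hu r hr hrm ho => ?_⟩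
  obtain ⟨i, rfl⟩ := mem_zpowers_iff.1 hu
  rw [conj_zpow] at ho ⊢
  have he : orderOf (a * g ^ i * a⁻¹) = orderOf (g ^ i) :=
    orderOf_injective (MulAut.conj a).toMonoidHom (MulAut.conj a).injective _
  have := d.mpart_of_mem hg (g ^ i) (zpow_mem (mem_zpowers g) i) r hr hrm (he ▸ ho)
  exact (inferInstance : (center G).Normal).conj_mem _ this a

/-- All noncentral elements of `C(y)` have the same centralizer. -/
theorem Data.cy_eq (d : Data m n x y) {g : G} (hg : g ∈ centralizer ({y} : Set G)) (hgz : g ∉ center G) :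
    centralizer ({g} : Set G) = centralizer ({y} : Set G) := by
  classical
  obtain ⟨p, v, hp, hpm, hvo, hvC, hv⟩ := d.exists_prime_element
  rw [← hvC] at hg ⊢
  have hvm : idx v = m := by rw [idx, hvC]; exact d.hy
  have hrel := d.relIndex_of_idx_m hvm
  obtain ⟨u, r, hr, hug, hrm, huo, huz⟩ : ∃ u r, Nat.Prime r ∧ u ∈ zpowers g ∧ ¬ r ∣ m ∧
      (∃ k, orderOf u = r ^ k) ∧ u ∉ center G := by
    by_contra h
    exact hgz (d.central_of_relIndex_n (center_le_cent v) hrel hg
      fun u hu r hr hrm ho => not_not.1 fun hz => h ⟨u, r, hr, hu, hrm, ho, hz⟩)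
  have hum := d.idx_eq_m (coprime_of_prime_pow hr hrm huo) huz
  have hgu := cent_le_of_mem_zpowers hug
  have hgm : idx g = m :=
    le_antisymm (d.htop g) (hum ▸ Nat.le_of_dvd (Nat.pos_of_ne_zero (idx_ne_zero g)) (idx_dvd hgu))
  rw [cent_eq_of_le hgu (by rw [hgm, hum])]
  have hstep : ∀ a b : G, idx a = m → idx b = m → Commute a b → ∀ r s : ℕ, r.Prime → s.Prime → r ≠ s →
      (∃ k, orderOf a = r ^ k) → (∃ k, orderOf b = s ^ k) →
      centralizer ({a} : Set G) = centralizer ({b} : Set G) := by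
    intro a b ha hb hab r s hr hs hne hao hbo
    have hC := cent_mul_coprime hab (by
      obtain ⟨i, hi⟩ := hao; obtain ⟨j, hj⟩ := hbo
      rw [hi, hj]; exact Nat.Coprime.pow _ _ ((Nat.coprime_primes hr hs).2 hne))
    rw [← cent_eq_of_le (a := a * b) (b := a) (hC ▸ inf_le_left) (by rw [ha]; exact d.htop _),
      cent_eq_of_le (a := a * b) (b := b) (hC ▸ inf_le_right) (by rw [hb]; exact d.htop _)]
  have huv : Commute u v := mem_cent.1 (zpowers_le.2 hg hug)
  by_cases hrp : r = p
  swap
  · exact hstep u v hum hvm huv r p hr hp hrp huo hvo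
  subst hrp
  haveI : Fact r.Prime := ⟨hr⟩
  -- powers of order `p` modulo the centre
  have hpick : ∀ a : G, a ∉ center G → (∃ k, orderOf a = r ^ k) →
      ∃ t, t ∈ zpowers a ∧ t ∉ center G ∧ t ^ r ∈ center G ∧ (∃ k, orderOf t = r ^ k) := by
    rintro a ha ⟨k, hk⟩
    have hex : ∃ i, a ^ r ^ i ∈ center G := ⟨k, by rw [← hk, pow_orderOf_eq_one]; exact one_mem _⟩
    have hne : Nat.find hex ≠ 0 := fun h0 => ha (by simpa [h0] using Nat.find_spec hex)
    obtain ⟨j, hj⟩ : ∃ j, Nat.find hex = j + 1 := ⟨Nat.find hex - 1, by omega⟩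
    refine ⟨a ^ r ^ j, pow_mem (mem_zpowers a) _, Nat.find_min hex (by omega), ?_, ?_⟩
    · rw [← pow_mul, ← pow_succ, ← hj]; exact Nat.find_spec hex
    · obtain ⟨i, -, hi⟩ := (Nat.dvd_prime_pow hr).1 (hk ▸ orderOf_pow_dvd (r ^ j) : orderOf (a ^ r ^ j) ∣ r ^ k)
      exact ⟨i, hi⟩
  obtain ⟨c, hcu, hcz, hcp, hco⟩ := hpick u huz huo
  obtain ⟨t, htv, htz, htp, hto⟩ := hpick v hv hvo
  have hcm := d.idx_eq_m (coprime_of_prime_pow hr hpm hco) hcz
  have htm := d.idx_eq_m (coprime_of_prime_pow hr hpm hto) htz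
  rw [cent_eq_of_le (cent_le_of_mem_zpowers hcu) (by rw [hum, hcm]),
    cent_eq_of_le (cent_le_of_mem_zpowers htv) (by rw [hvm, htm])]
  have htc : Commute t c := by
    obtain ⟨i, rfl⟩ := mem_zpowers_iff.1 htv
    obtain ⟨j, rfl⟩ := mem_zpowers_iff.1 hcu
    exact huv.symm.zpow_zpow i j
  by_contra hne
  -- `⟨t, c⟩` is elementary of order `p²` modulo the centre and acts freely on `[x, G]`
  obtain ⟨hN, -, hab, w, hw, hcw⟩ := d.setup
  haveI := dif_normal x
  letI : CommGroup (dif x) := { (inferInstance : Group (dif x)) with mul_comm := hab.is_comm.comm }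
  let cj : G → (dif x) →* (dif x) := fun h => (MulAut.conjNormal h).toMonoidHom
  have hcc : ∀ a b q, cj a (cj b q) = cj (a * b) q := fun a b q => by
    apply Subtype.ext
    show a * (b * (q : G) * b⁻¹) * a⁻¹ = a * b * (q : G) * (a * b)⁻¹
    group
  have hzc : ∀ z ∈ center G, ∀ q, cj z q = q := fun z hz q => by
    apply Subtype.ext
    show z * (q : G) * z⁻¹ = q
    rw [← mem_center_iff.1 hz (q : G), mul_inv_cancel_right]
  set W : dif x := ⟨w, hw⟩
  set Z0 : Subgroup (dif x) := (center G).subgroupOf (dif x)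
  have hfix : ∀ b : G, b ∉ center G → b ^ r ∈ center G →
      ∀ q, (∏ j ∈ Finset.range r, cj (b ^ j) q) ∈ Z0 := by
    intro b hb hbp q
    -- `b` has class size `m`
    set f := ∏ j ∈ Finset.range r, cj (b ^ j) q
    have hf : cj b f = f := by
      rw [map_prod]
      simp only [hcc, ← pow_succ']
      exact shift_prod (fun j => cj (b ^ j) q) r (by
        simp only [pow_zero, hzc _ hbp, hzc 1 (one_mem _)])
    have hbm : idx b = m := by
      obtain ⟨u', r', hr', hu', ho', hz'⟩ : ∃ u' r', Nat.Prime r' ∧ u' ∈ zpowers b ∧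
          (∃ k, orderOf u' = r' ^ k) ∧ u' ∉ center G := by
        by_contra h
        exact hb (mem_of_components fun u hu r hr ho => not_not.1 fun hz => h ⟨u, r, hr, hu, ho, hz⟩)
      have hrr : r' = r := by
        by_contra hne'
        refine hz' (mem_center_of_pow (k := r) ?_ ?_)
        · obtain ⟨i, rfl⟩ := mem_zpowers_iff.1 hu'
          rw [← zpow_natCast, ← zpow_mul, mul_comm, zpow_mul, zpow_natCast]
          exact zpow_mem hbp i
        · obtain ⟨a, ha⟩ := ho'
          rw [ha]; exact Nat.Coprime.pow_right _ ((Nat.coprime_primes hr hr').2 (Ne.symm hne'))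
      subst hrr
      have h' := d.idx_eq_m (coprime_of_prime_pow hr hpm ho') hz'
      exact le_antisymm (d.htop b) (h' ▸ Nat.le_of_dvd (Nat.pos_of_ne_zero (idx_ne_zero b))
        (idx_dvd (cent_le_of_mem_zpowers hu')))
    refine mem_center_of_coprime (center_le_cent b) (u := (f : G)) ?_ ?_
    · have h : b * (f : G) * b⁻¹ = f := congrArg Subtype.val hf
      rw [mem_cent]
      calc (f : G) * b = b * (f : G) * b⁻¹ * b := by rw [h]
        _ = b * (f : G) := by group
    · rw [d.relIndex_of_idx_m hbm, Subgroup.orderOf_coe]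
      exact d.hcop.coprime_dvd_left ((orderOf_dvd_natCard f).trans hN)
  have hline : ∀ i : ℕ, t * c ^ i ∉ center G := by
    intro i hi
    apply hne
    by_cases hri : r ∣ i
    · obtain ⟨k, rfl⟩ := hri
      refine absurd ?_ htz
      have h1 : c ^ (r * k) ∈ center G := by rw [pow_mul]; exact pow_mem hcp k
      simpa using mul_mem hi (inv_mem h1)
    · -- `c` and `t` generate each other modulo the centre
      have hle : centralizer ({c} : Set G) ≤ centralizer ({t} : Set G) := by
        intro a ha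
        have h1 : Commute a (t * c ^ i) := mem_center_iff.1 hi a
        have h2 : Commute a (c ^ i) := Commute.pow_right (mem_cent.1 ha) i
        have h3 := h1.mul_right h2.inv_right
        rw [mul_inv_cancel_right] at h3
        exact mem_cent.2 h3
      exact cent_eq_of_le hle (by rw [hcm, htm])
  set f0 := ∏ k ∈ Finset.range r, cj (c ^ k) W
  have hf0 : f0 ∈ Z0 := hfix c hcz hcp W
  have hT : (∏ j ∈ Finset.range r, ∏ k ∈ Finset.range r, cj (t ^ j * c ^ k) W) ∈ Z0 := by
    refine Z0.prod_mem fun j _ => ?_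
    rw [Finset.prod_congr rfl fun k _ => (hcc (t ^ j) (c ^ k) W).symm, ← map_prod]
    show t ^ j * (f0 : G) * (t ^ j)⁻¹ ∈ center G
    exact (inferInstance : (center G).Normal).conj_mem _ hf0 _
  have hlines : (∏ i ∈ Finset.range r, ∏ j ∈ Finset.range r, cj ((t * c ^ i) ^ j) W) ∈ Z0 :=
    Z0.prod_mem fun i _ => hfix _ (hline i) (by
      rw [(htc.pow_right i).mul_pow, ← pow_mul, mul_comm, pow_mul]
      exact mul_mem htp (pow_mem hcp i)) W
  rw [Finset.prod_comm] at hlines
  have h0 : 0 ∈ Finset.range r := Finset.mem_range.2 hr.pos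
  rw [← Finset.mul_prod_erase _ _ h0] at hlines hT
  have hrest : ∏ j ∈ (Finset.range r).erase 0, ∏ i ∈ Finset.range r, cj ((t * c ^ i) ^ j) W =
      ∏ j ∈ (Finset.range r).erase 0, ∏ k ∈ Finset.range r, cj (t ^ j * c ^ k) W := by
    refine Finset.prod_congr rfl fun j hj => ?_
    rw [Finset.mem_erase, Finset.mem_range] at hj
    have hinj : Set.InjOn (fun i => i * j % r) (Finset.range r : Set ℕ) := by
      intro a ha b hb h
      simp only [Finset.coe_range, Set.mem_Iio] at ha hb
      have hco : Nat.gcd r j = 1 := hr.coprime_iff_not_dvd.2 fun hd => by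
        have := Nat.le_of_dvd (Nat.pos_of_ne_zero hj.1) hd; omega
      have := Nat.ModEq.cancel_right_of_coprime hco (show a * j ≡ b * j [MOD r] from h)
      unfold Nat.ModEq at this
      rwa [Nat.mod_eq_of_lt ha, Nat.mod_eq_of_lt hb] at this
    have himg : (Finset.range r).image (fun i => i * j % r) = Finset.range r :=
      Finset.eq_of_subset_of_card_le
        (Finset.image_subset_iff.2 fun i _ => Finset.mem_range.2 (Nat.mod_lt _ hr.pos))
        (by rw [Finset.card_image_of_injOn hinj])
    conv_rhs => rw [← himg, Finset.prod_image hinj]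
    refine Finset.prod_congr rfl fun i _ => ?_
    rw [(htc.pow_right i).mul_pow, ← pow_mul]
    conv_lhs => rw [← Nat.mod_add_div (i * j) r, pow_add, ← mul_assoc, ← hcc,
      pow_mul, hzc _ (pow_mem hcp _)]
  rw [hrest] at hlines
  simp only [pow_zero, one_mul, hzc 1 (one_mem _), Finset.prod_const, Finset.card_range] at hlines hT
  have hWr : W ^ r ∈ Z0 := by
    have h := Z0.mul_mem (Z0.mul_mem hlines (Z0.inv_mem hT)) hf0
    rw [_root_.mul_inv_rev] at h
    have e : ∀ a b c : dif x, a * c * (c⁻¹ * b⁻¹) * b = a := fun a b c => by group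
    rwa [e] at h
  have hwz : w ∈ center G := by
    refine mem_center_of_pow (k := r) hWr ?_
    rw [show orderOf w = orderOf W from (Subgroup.orderOf_mk w hw).symm]
    exact (hr.coprime_iff_not_dvd.2 hpm).coprime_dvd_right ((orderOf_dvd_natCard W).trans hN)
  have h1 : idx w = 1 := mem_center_iff_idx.1 hwz
  rw [idx, hcw, ← idx, d.hx] at h1
  have := d.hn; omega

theorem Data.cy_comm (d : Data m n x y) : IsMulCommutative (centralizer ({y} : Set G)) := by
  refine ⟨⟨fun a b => Subtype.ext ?_⟩⟩
  by_cases ha : (a : G) ∈ center G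
  · exact (mem_center_iff.1 ha b).symm
  exact (mem_cent.1 ((d.cy_eq a.2 ha).ge b.2)).symm

theorem Data.normalizer_cy (d : Data m n x y) {a : G}
    (ha : ∀ b ∈ centralizer ({y} : Set G), a * b * a⁻¹ ∈ centralizer ({y} : Set G)) :
    a ∈ centralizer ({y} : Set G) := by
  have hco : (idx x).Coprime (idx y) := by rw [d.hx, d.hy]; exact d.hcop.symm
  obtain ⟨α, hα, β, hβ, rfl⟩ := exists_mul_of_coprime hco a
  obtain ⟨p, v, hp, hpm, hvo, hvC, hv⟩ := d.exists_prime_element
  have hvy : v ∈ centralizer ({y} : Set G) := by rw [← hvC, mem_cent]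
  set z := α * v * α⁻¹ * v⁻¹
  have hav : α * v * α⁻¹ ∈ centralizer ({y} : Set G) := by
    have h1 := ha (β⁻¹ * v * β) (mul_mem (mul_mem (inv_mem hβ) hvy) hβ)
    rwa [show α * β * (β⁻¹ * v * β) * (α * β)⁻¹ = α * v * α⁻¹ by group] at h1
  have hz : z ∈ center G := by
    rw [← d.inf_eq]
    refine ⟨?_, mul_mem hav ((centralizer ({y} : Set G)).inv_mem hvy)⟩
    have h2 := mul_mem hα (d.cx_normal.conj_mem _ ((centralizer ({x} : Set G)).inv_mem hα) v)
    rwa [show α * (v * α⁻¹ * v⁻¹) = z by simp only [z]; group] at h2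
  have hcz : Commute z v := (mem_center_iff.1 hz v).symm
  have e1 : α * v * α⁻¹ = z * v := by simp only [z]; group
  obtain ⟨k, hk⟩ := hvo
  have hzp : z ^ p ^ k = 1 := by
    have h := congrArg (fun q => q ^ p ^ k) e1
    simp only [conj_pow, hcz.mul_pow, orderOf_dvd_iff_pow_eq_one.1 hk.dvd, mul_one, mul_inv_cancel] at h
    exact h.symm
  have hpw : ∀ i : ℕ, α ^ i * v * (α ^ i)⁻¹ = z ^ i * v := by
    intro i
    induction i with
    | zero => simp
    | succ i ih =>
      have hzα : Commute α (z ^ i) := Commute.pow_right (mem_center_iff.1 hz α) i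
      calc α ^ (i + 1) * v * (α ^ (i + 1))⁻¹ = α * (α ^ i * v * (α ^ i)⁻¹) * α⁻¹ := by rw [pow_succ']; group
        _ = z ^ i * (α * v * α⁻¹) := by rw [ih, ← mul_assoc, hzα.eq]; group
        _ = z ^ (i + 1) * v := by rw [pow_succ, mul_assoc (z ^ i) z v, ← e1]
  have hαm : α ^ m ∈ center G := by
    have h := ((center G).subgroupOf (centralizer ({x} : Set G))).pow_index_mem ⟨α, hα⟩
    have hrel : ((center G).subgroupOf (centralizer ({x} : Set G))).index = m := by
      have h1 := relIndex_center_mul d x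
      rw [d.hx, mul_comm n] at h1
      exact Nat.eq_of_mul_eq_mul_right (by have := d.hn; omega) h1
    rw [hrel] at h
    exact h
  have hzm : z ^ m = 1 := by
    have h := hpw m
    rw [← mem_center_iff.1 hαm v, mul_inv_cancel_right] at h
    exact mul_eq_right.1 h.symm
  have hz1 : z = 1 := by
    have hg := Nat.dvd_gcd (orderOf_dvd_of_pow_eq_one hzp) (orderOf_dvd_of_pow_eq_one hzm)
    rw [((hp.coprime_iff_not_dvd.2 hpm).pow_left k).gcd_eq_one, Nat.dvd_one] at hg
    exact orderOf_eq_one_iff.1 hg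
  refine mul_mem ?_ hβ
  rw [← hvC, mem_cent]
  rw [hz1, one_mul] at e1
  exact mul_inv_eq_iff_eq_mul.1 e1

theorem Data.frobenius (d : Data m n x y) :
    Cfsg.IsFrobeniusComplement ((centralizer ({y} : Set G)).map (QuotientGroup.mk' (center G))) ∧
    Cfsg.frobeniusKernel ((centralizer ({y} : Set G)).map (QuotientGroup.mk' (center G))) =
      ((centralizer ({x} : Set G)).map (QuotientGroup.mk' (center G)) : Set (G ⧸ center G)) := by
  set π := QuotientGroup.mk' (center G) with hπ
  set A := centralizer ({x} : Set G)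
  set B := centralizer ({y} : Set G)
  have hcomapA : ∀ g : G, π g ∈ A.map π ↔ g ∈ A := fun g => by
    rw [← mem_comap, comap_map_eq_self (by rw [hπ, QuotientGroup.ker_mk']; exact center_le_cent x)]
  have hcomapB : ∀ g : G, π g ∈ B.map π ↔ g ∈ B := fun g => by
    rw [← mem_comap, comap_map_eq_self (by rw [hπ, QuotientGroup.ker_mk']; exact center_le_cent y)]
  have hone : ∀ g : G, π g = 1 ↔ g ∈ center G := fun g => QuotientGroup.eq_one_iff g
  have hconj : ∀ a g : G, π g ∈ MulAut.conj (π a) • B.map π ↔ a⁻¹ * g * a ∈ B := fun a g => by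
    rw [mem_pointwise_smul_iff_inv_smul_mem, MulAut.smul_def, MulAut.conj_inv_apply, ← map_inv, ← map_mul,
      ← map_mul, hcomapB]
  refine ⟨⟨?_, ?_, ?_⟩, ?_⟩
  · intro h
    have hy : π y ∈ B.map π := (hcomapB y).2 (mem_cent.2 rfl)
    rw [h, mem_bot, hone, mem_center_iff_idx, d.hy] at hy
    have := d.hmn; have := d.hn; omega
  · intro h
    have htop : B = ⊤ := (eq_top_iff' _).2 fun g => (hcomapB g).1 (h ▸ mem_top _)
    have h1 : idx y = 1 := index_eq_one.2 htop
    rw [d.hy] at h1
    have := d.hmn; have := d.hn; omega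
  · intro q hq
    obtain ⟨a, rfl⟩ := QuotientGroup.mk'_surjective (center G) q
    rw [eq_bot_iff]
    rintro e ⟨he1, he2⟩
    obtain ⟨b, rfl⟩ := QuotientGroup.mk'_surjective (center G) e
    rw [mem_bot, hone]
    by_contra hbz
    refine hq ((hcomapB a).2 (d.normalizer_cy fun c hc => ?_))
    have hb' : a⁻¹ * b * a ∈ B := (hconj a b).1 he2
    have hb'z : a⁻¹ * b * a ∉ center G := fun h => hbz (by
      have := (inferInstance : (center G).Normal).conj_mem _ h a
      rwa [show a * (a⁻¹ * b * a) * a⁻¹ = b by group] at this)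
    have h1 := d.cy_eq hb' hb'z
    rw [← h1, mem_cent] at hc
    show a * c * a⁻¹ ∈ B
    have h2 := d.cy_eq ((hcomapB b).1 he1) hbz
    show a * c * a⁻¹ ∈ centralizer ({y} : Set G)
    rw [← h2, mem_cent]
    calc a * c * a⁻¹ * b = a * (c * (a⁻¹ * b * a)) * a⁻¹ := by group
      _ = a * ((a⁻¹ * b * a) * c) * a⁻¹ := by rw [hc]
      _ = _ := by group
  · ext q
    obtain ⟨g, rfl⟩ := QuotientGroup.mk'_surjective (center G) q
    rw [SetLike.mem_coe, hcomapA]
    constructor
    · rintro (h | h)
      · exact center_le_cent x ((hone g).1 h)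
      refine d.mem_cx fun u hu r hr hrm ho => ?_
      by_contra hz
      haveI : Fact r.Prime := ⟨hr⟩
      obtain ⟨Q⟩ : Nonempty (Sylow r B) := inferInstance
      have hQ : IsPGroup r ((Q : Subgroup B).map B.subtype) := Q.2.map _
      obtain ⟨P, hP⟩ := hQ.exists_le_sylow
      have hPeq : (P : Subgroup G) = (Q : Subgroup B).map B.subtype := by
        refine (eq_of_le_of_card_ge hP (Nat.le_of_dvd Nat.card_pos ?_)).symm
        obtain ⟨k, hk⟩ := IsPGroup.iff_card.1 P.2
        have h1 : r ^ k ∣ Nat.card ((Q : Subgroup B).map B.subtype) * ((Q : Subgroup B).map B.subtype).index := by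
          rw [card_mul_index, ← hk]; exact card_subgroup_dvd_card _
        rw [hk]
        refine (Nat.Coprime.pow_left k ?_).dvd_of_dvd_mul_right h1
        rw [hr.coprime_iff_not_dvd, index_map_subtype, show B.index = m from d.hy]
        exact fun h => (hr.dvd_mul.1 h).elim Q.not_dvd_index hrm
      have hup : IsPGroup r (zpowers u) := by
        obtain ⟨k, hk⟩ := ho
        exact IsPGroup.of_card (n := k) (by rw [Nat.card_zpowers, hk])
      obtain ⟨P', hP'⟩ := hup.exists_le_sylow
      obtain ⟨c, hc⟩ := MulAction.exists_smul_eq G P' P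
      have hcu : c * u * c⁻¹ ∈ B := by
        have h1 : c * u * c⁻¹ ∈ (P : Subgroup G) := by
          rw [← hc, Sylow.coe_subgroup_smul]
          exact smul_mem_pointwise_smul u (MulAut.conj c) _ (hP' (mem_zpowers u))
        rw [hPeq] at h1
        exact map_subtype_le _ h1
      have hcz : c * u * c⁻¹ ∉ center G := fun h => hz (by
        have := (inferInstance : (center G).Normal).conj_mem _ h c⁻¹
        rwa [show c⁻¹ * (c * u * c⁻¹) * c⁻¹⁻¹ = u by group] at this)
      refine h (π c⁻¹) ((hconj c⁻¹ g).2 ?_)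
      rw [inv_inv]
      show c * g * c⁻¹ ∈ centralizer ({y} : Set G)
      rw [← d.cy_eq hcu hcz, mem_cent]
      have hug : Commute g u := by
        obtain ⟨i, rfl⟩ := mem_zpowers_iff.1 hu
        exact (Commute.refl g).zpow_right i
      calc c * g * c⁻¹ * (c * u * c⁻¹) = c * (g * u) * c⁻¹ := by group
        _ = c * (u * g) * c⁻¹ := by rw [hug.eq]
        _ = _ := by group
    · intro hg
      by_cases hz : g ∈ center G
      · exact Or.inl ((hone g).2 hz)
      · refine Or.inr fun e he => hz ?_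
        obtain ⟨a, rfl⟩ := QuotientGroup.mk'_surjective (center G) e
        have h1 : a⁻¹ * g * a ∈ center G := by
          rw [← d.inf_eq]
          refine ⟨?_, (hconj a g).1 he⟩
          have := d.cx_normal.conj_mem g hg a⁻¹
          rwa [inv_inv] at this
        have := (inferInstance : (center G).Normal).conj_mem _ h1 a
        rwa [show a * (a⁻¹ * g * a) * a⁻¹ = g by group] at this

end Cfsg.Agent.FGS3.CaminaArad
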