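import Cfsg.Agent.FGS3.TwoSizesNormal
import Cfsg.Agent.FGS3.PGroupFrattini
import Cfsg.Agent.OddLocal.UniqueSubgroup
import Cfsg.Agent.Transfer.Tate
import Cfsg.Agent.Core.ThompsonFPF

/-!
Camina pairs: the trichotomy.
-/

set_option autoImplicit false

namespace Cfsg.Agent.FGS3.CaminaPair

open Subgroup
open scoped commutatorElement

variable {G : Type*} [Group G]

/-- The class of each element outside `N` is a union of cosets of `N`. -/
def Cam (N : Subgroup G) : Prop := ∀ g : G, g ∉ N → ∀ n ∈ N, ∃ x : G, x * g * x⁻¹ = g * n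

lemma isPGroup_element {p : ℕ} [Fact p.Prime] {g : G} {i : ℕ} (h : orderOf g = p ^ i) :
    IsPGroup p (zpowers g) :=
  IsPGroup.of_card (n := i) (by rw [Nat.card_zpowers, h])

variable [Finite G] {N : Subgroup G}

lemma Cam.orderOf_mul (h : Cam N) {g n : G} (hg : g ∉ N) (hn : n ∈ N) :
    orderOf (g * n) = orderOf g := by
  obtain ⟨x, hx⟩ := h g hg n hn
  rw [← hx]
  exact MulEquiv.orderOf_eq (MulAut.conj x) g

/-- Elements of `N` commuting with a `q`-element outside `N` are `q`-elements. -/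
lemma Cam.pow_eq_one (h : Cam N) {g n : G} {q i : ℕ} (hg : g ∉ N) (ho : orderOf g = q ^ i)
    (hn : n ∈ N) (hc : Commute g n) : n ^ q ^ i = 1 := by
  have h1 : (g * n) ^ q ^ i = 1 := by rw [← ho, ← h.orderOf_mul hg hn, pow_orderOf_eq_one]
  have h2 : g ^ q ^ i = 1 := by rw [← ho, pow_orderOf_eq_one]
  rwa [hc.mul_pow, h2, one_mul] at h1

lemma Cam.eq_one_of_commute (h : Cam N) {g n : G} {q i s j : ℕ} [Fact q.Prime] (hs : s.Prime)
    (hsq : s ≠ q) (hg : g ∉ N) (ho : orderOf g = q ^ i) (hn : n ∈ N) (hc : Commute g n)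
    (hos : n ^ s ^ j = 1) : n = 1 :=
  TwoSizesNormal.eq_one_of_coprime_orders (r := q) hs hsq hos (h.pow_eq_one hg ho hn hc)

lemma Cam.quotient (h : Cam N) (K : Subgroup G) [K.Normal] (hKN : K ≤ N) :
    Cam (N.map (QuotientGroup.mk' K)) := by
  intro g hg n hn
  obtain ⟨g, rfl⟩ := QuotientGroup.mk'_surjective K g
  obtain ⟨n, hn, rfl⟩ := hn
  obtain ⟨x, hx⟩ := h g (fun hgN => hg (mem_map_of_mem _ hgN)) n hn
  exact ⟨QuotientGroup.mk' K x, by rw [← map_inv, ← map_mul, ← map_mul, hx, map_mul]⟩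

/-- `|N|` divides the class size of an element outside `N`. -/
lemma Cam.card_dvd_index [hN : N.Normal] (h : Cam N) {g : G} (hg : g ∉ N) :
    Nat.card N ∣ (centralizer ({g} : Set G)).index := by
  classical
  let S : Set G := {y | ∃ x : G, x * g * x⁻¹ = y}
  have hpre : QuotientGroup.mk ⁻¹' ((QuotientGroup.mk : G → G ⧸ N) '' S) = S := by
    refine Set.Subset.antisymm ?_ (Set.subset_preimage_image _ _)
    rintro y ⟨_, ⟨x, rfl⟩, hxy⟩
    have hn : (x * g * x⁻¹)⁻¹ * y ∈ N := QuotientGroup.eq.mp hxy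
    obtain ⟨v, hv⟩ := h (x * g * x⁻¹) (fun hmem => hg (by
      simpa [mul_assoc] using hN.conj_mem _ hmem x⁻¹)) _ hn
    exact ⟨v * x, by rw [mul_inv_cancel_left] at hv; rw [← hv]; group⟩
  have hcard : Nat.card S = (centralizer ({g} : Set G)).index := by
    let C := centralizer ({g} : Set G)
    have hC : ∀ x y : G, x⁻¹ * y ∈ C ↔ x * g * x⁻¹ = y * g * y⁻¹ := by
      intro x y
      rw [mem_centralizer_singleton_iff]
      constructor
      · intro hxy
        calc x * g * x⁻¹ = x * (g * (x⁻¹ * y)) * y⁻¹ := by group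
          _ = y * g * y⁻¹ := by rw [← hxy]; group
      · intro hxy
        calc x⁻¹ * y * g = x⁻¹ * (y * g * y⁻¹) * y := by group
          _ = g * (x⁻¹ * y) := by rw [← hxy]; group
    refine (Nat.card_eq_of_bijective
      (fun q : G ⧸ C => (⟨Quotient.out q * g * (Quotient.out q)⁻¹, _, rfl⟩ : S)) ⟨?_, ?_⟩).symm
    · intro a b hab
      rw [← QuotientGroup.out_eq' a, ← QuotientGroup.out_eq' b]
      exact QuotientGroup.eq.mpr ((hC _ _).mpr (congrArg Subtype.val hab))
    · rintro ⟨_, x, rfl⟩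
      refine ⟨QuotientGroup.mk x, Subtype.ext ?_⟩
      refine ((hC _ _).mp ?_)
      exact QuotientGroup.eq.mp (QuotientGroup.out_eq' _)
  rw [← hcard, ← hpre, Nat.card_congr (QuotientGroup.preimageMkEquivSubgroupProdSet N _),
    Nat.card_prod]
  exact dvd_mul_right _ _

variable {r : ℕ} [hr : Fact r.Prime]

/-- An element outside `N` central in a Sylow subgroup modulo `N` has its whole coset in that
Sylow subgroup as one orbit. -/
lemma Cam.orbit [N.Normal] (h : Cam N) (W : Sylow r G) {g : G} (hgW : g ∈ (W : Subgroup G))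
    (hg : g ∉ N) (hgc : ∀ w ∈ (W : Subgroup G), g⁻¹ * (w * g * w⁻¹) ∈ N) {d : G}
    (hdW : d ∈ (W : Subgroup G)) (hdN : d ∈ N) : ∃ w ∈ (W : Subgroup G), w * g * w⁻¹ = g * d := by
  classical
  let P := (W : Subgroup G)
  let C := (centralizer ({g} : Set G)).subgroupOf P
  let D := N.subgroupOf P
  let orb : P ⧸ C → D := fun q => ⟨⟨g⁻¹ * ((Quotient.out q : P) * g * ((Quotient.out q : P) : G)⁻¹),
    mul_mem (inv_mem hgW) (mul_mem (mul_mem (Quotient.out q).2 hgW) (inv_mem (Quotient.out q).2))⟩,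
    hgc _ (Quotient.out q).2⟩
  have hinj : Function.Injective orb := by
    intro a b hab
    rw [← QuotientGroup.out_eq' a, ← QuotientGroup.out_eq' b]
    refine QuotientGroup.eq.mpr ?_
    show ((Quotient.out a)⁻¹ * Quotient.out b : P).1 ∈ centralizer ({g} : Set G)
    rw [mem_centralizer_singleton_iff]
    have h1 := mul_left_cancel (congrArg (fun t : D => ((t : P) : G)) hab)
    push_cast
    calc ((Quotient.out a : P) : G)⁻¹ * (Quotient.out b : P) * g =
        ((Quotient.out a : P) : G)⁻¹ * ((Quotient.out b : P) * g * ((Quotient.out b : P) : G)⁻¹) * (Quotient.out b : P) := by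
          group
      _ = g * (((Quotient.out a : P) : G)⁻¹ * (Quotient.out b : P)) := by rw [← h1]; group
  have hle : Nat.card D ≤ Nat.card (P ⧸ C) := by
    rw [← Subgroup.index_eq_card]
    have h1 : Nat.card C * Nat.card D ∣ Nat.card G := by
      rw [← (centralizer ({g} : Set G)).card_mul_index]
      refine Nat.mul_dvd_mul ?_ (dvd_trans ?_ (h.card_dvd_index hg))
      · exact Subgroup.card_dvd_of_injective
          ((P.subtype.comp C.subtype).codRestrict (centralizer ({g} : Set G)) fun c => c.2)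
          fun a b hab => by
            have := congrArg Subtype.val hab
            exact Subtype.ext (Subtype.ext this)
      · exact Subgroup.card_dvd_of_injective ((P.subtype.comp D.subtype).codRestrict N fun c => c.2)
          fun a b hab => by
            have := congrArg Subtype.val hab
            exact Subtype.ext (Subtype.ext this)
    have h2 : Nat.card C * Nat.card D ≤ Nat.card P := by
      obtain ⟨a, ha⟩ := (W.isPGroup'.to_subgroup C).exists_card_eq
      obtain ⟨b, hb⟩ := (W.isPGroup'.to_subgroup D).exists_card_eq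
      rw [ha, hb, ← pow_add] at h1 ⊢
      refine Nat.le_of_dvd Nat.card_pos ?_
      rw [W.card_eq_multiplicity]
      exact pow_dvd_pow r ((hr.out.pow_dvd_iff_le_factorization Nat.card_pos.ne').mp h1)
    rw [← C.card_mul_index] at h2
    exact Nat.le_of_mul_le_mul_left h2 Nat.card_pos
  have hbij : Function.Bijective orb := hinj.bijective_of_nat_card_le hle
  obtain ⟨q, hq⟩ := hbij.2 ⟨⟨d, hdW⟩, hdN⟩
  refine ⟨(Quotient.out q : P), (Quotient.out q).2, ?_⟩
  have hq' : g⁻¹ * ((Quotient.out q : P) * g * ((Quotient.out q : P) : G)⁻¹) = d :=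
    congrArg (fun t : D => ((t : P) : G)) hq
  rw [← hq', mul_inv_cancel_left]

lemma Cam.inf_le_frattini [N.Normal] (h : Cam N) (W : Sylow r G) (hWN : ¬ (W : Subgroup G) ≤ N) :
    N ⊓ (W : Subgroup G) ≤ (frattini (W : Subgroup G)).map (W : Subgroup G).subtype := by
  let P := (W : Subgroup G)
  obtain ⟨c, -, hcN, hcs⟩ := Screen.exists_central_mod W.isPGroup' (⊤ : Subgroup P) (N.subgroupOf P)
    (fun hle => hWN fun v hv => hle (mem_top (⟨v, hv⟩ : P)))
  rintro d ⟨hdN, hdW⟩
  have hgc : ∀ w ∈ P, (c : G)⁻¹ * (w * c * w⁻¹) ∈ N := fun w hw => by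
    have h1 : w * (c : G) * w⁻¹ * (c : G)⁻¹ ∈ N := hcs ⟨w, hw⟩
    have h2 := Subgroup.Normal.conj_mem inferInstance _ h1 (c : G)⁻¹
    convert h2 using 1
    group
  obtain ⟨w, hw, hwd⟩ := h.orbit W c.2 (fun hmem => hcN hmem) hgc hdW hdN
  refine ⟨⟨d, hdW⟩, Cfsg.Agent.FGS3.commutator_le_frattini W.isPGroup' ?_, rfl⟩
  open scoped commutatorElement in
  rw [show (⟨d, hdW⟩ : P) = ⁅c⁻¹, (⟨w, hw⟩ : P)⁆ from Subtype.ext (by
    show d = (c : G)⁻¹ * w * ((c : G)⁻¹)⁻¹ * w⁻¹
    rw [inv_inv, show (c : G)⁻¹ * w * c * w⁻¹ = (c : G)⁻¹ * (w * c * w⁻¹) by group, hwd,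
      inv_mul_cancel_left])]
  exact Subgroup.commutator_mem_commutator (mem_top _) (mem_top _)

/-- If `W / (W ∩ N)` has a unique subgroup of order `r`, then `W ∩ N = 1`. -/
lemma Cam.inf_eq_bot [N.Normal] (h : Cam N) (W : Sylow r G) (hWN : ¬ (W : Subgroup G) ≤ N)
    (hu : OddLocal.UniqueOrderP r ((W : Subgroup G) ⧸ N.subgroupOf (W : Subgroup G))) :
    N ⊓ (W : Subgroup G) = ⊥ := by
  classical
  set P := (W : Subgroup G) with hP
  set D := N.subgroupOf P with hD
  set π := QuotientGroup.mk' D with hπ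
  by_contra hne
  have hQ : IsPGroup r (P ⧸ D) := W.isPGroup'.to_quotient D
  have hcentral : ∀ g : P, g ∉ D → (∀ s : P, π s * π g = π g * π s) → ∀ d ∈ N, d ∈ P →
      ∃ w : P, (w : G) * g * (w : G)⁻¹ = (g : G) * d := by
    intro g hg hgc d hdN hdP
    obtain ⟨w, hw, hwd⟩ := h.orbit W g.2 hg (fun w hw => by
      have h1 : π ⟨w, hw⟩ * π g = π g * π ⟨w, hw⟩ := hgc _
      rw [← map_mul, ← map_mul] at h1
      have h2 : (((g * ⟨w, hw⟩ : P))⁻¹ * (⟨w, hw⟩ * g) : P) ∈ D := QuotientGroup.eq.mp h1.symm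
      have h3 : ((g : G) * w)⁻¹ * (w * g) ∈ N := h2
      have h4 := Subgroup.Normal.conj_mem inferInstance _ h3 w
      convert h4 using 1
      group) hdP hdN
    exact ⟨⟨w, hw⟩, hwd⟩
  obtain ⟨d₀, hd₀, hd₀1⟩ : ∃ d ∈ N ⊓ P, d ≠ 1 := by
    by_contra! hall
    exact hne (eq_bot_iff.mpr fun d hd => Subgroup.mem_bot.mpr (hall d hd))
  rcases OddLocal.isCyclic_or_quaternion hQ hu with hc | ⟨hr2, k, ⟨e⟩⟩
  · -- cyclic quotient: `P` is cyclic
    obtain ⟨γ, hγ⟩ := hc.exists_generator
    obtain ⟨a, rfl⟩ := QuotientGroup.mk'_surjective D γ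
    have hgen : zpowers a = ⊤ := by
      refine frattini_nongenerating (eq_top_iff.mpr fun v _ => ?_)
      obtain ⟨i, hi⟩ := mem_zpowers_iff.mp (hγ (π v))
      have hd : (a ^ i)⁻¹ * v ∈ D := QuotientGroup.eq.mp (by
        show π (a ^ i) = π v
        rw [map_zpow]; exact hi)
      obtain ⟨y, hy, hyd⟩ := h.inf_le_frattini W hWN ⟨hd, ((a ^ i)⁻¹ * v).2⟩
      have hmem : (a ^ i)⁻¹ * v ∈ frattini P := by
        rwa [← (Subtype.ext hyd : y = (a ^ i)⁻¹ * v)]
      have := mul_mem (mem_sup_left (zpow_mem (mem_zpowers a) i) : a ^ i ∈ zpowers a ⊔ frattini P)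
        (mem_sup_right hmem)
      rwa [mul_inv_cancel_left] at this
    have haN : a ∉ D := fun ha => hWN fun v hv => by
      obtain ⟨i, hi⟩ := mem_zpowers_iff.mp (hgen ▸ mem_top (⟨v, hv⟩ : P))
      have := D.zpow_mem ha i
      rw [hi] at this
      exact this
    obtain ⟨w, hw⟩ := hcentral a haN (fun s => by
      obtain ⟨i, rfl⟩ := mem_zpowers_iff.mp (hgen ▸ mem_top s)
      rw [← map_mul, ← map_mul, (Commute.zpow_self a i).eq]) d₀ hd₀.1 hd₀.2
    obtain ⟨i, rfl⟩ := mem_zpowers_iff.mp (hgen ▸ mem_top w)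
    have h1 : ((a ^ i : P) : G) * a = a * ((a ^ i : P) : G) := by
      rw [← Subgroup.coe_mul, ← Subgroup.coe_mul, (Commute.zpow_self a i).eq]
    rw [h1, mul_inv_cancel_right] at hw
    exact hd₀1 (by simpa using hw.symm)
  · -- quaternion quotient
    subst hr2
    haveI : NeZero (2 ^ k) := ⟨(Nat.two_pow_pos k).ne'⟩
    obtain ⟨a, ha⟩ := QuotientGroup.mk'_surjective D (e.symm (QuaternionGroup.a 1))
    obtain ⟨b, hb⟩ := QuotientGroup.mk'_surjective D (e.symm (QuaternionGroup.xa 0))
    have hea : e (π a) = QuaternionGroup.a 1 := by rw [ha, e.apply_symm_apply]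
    have heb : e (π b) = QuaternionGroup.xa 0 := by rw [hb, e.apply_symm_apply]
    set g := a ^ 2 ^ k with hgdef
    have heg : e (π g) = QuaternionGroup.a ((2 ^ k : ℕ) : ZMod (2 * 2 ^ k)) := by
      rw [hgdef, map_pow, map_pow, hea, QuaternionGroup.a_one_pow]
    have hgD : g ∉ D := by
      intro hgmem
      have h1 : π g = 1 := (QuotientGroup.eq_one_iff g).mpr hgmem
      rw [h1, map_one, ← QuaternionGroup.a_zero] at heg
      injection heg with h2
      have h3 : ((2 ^ k : ℕ) : ZMod (2 * 2 ^ k)).val = 2 ^ k := ZMod.val_natCast_of_lt (by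
        have := Nat.two_pow_pos k; omega)
      rw [← h2, ZMod.val_zero] at h3
      exact (Nat.two_pow_pos k).ne h3
    have hbb : e (π (b * b)) = e (π g) := by
      rw [map_mul, map_mul, heb, heg, QuaternionGroup.xa_mul_xa, add_sub_cancel_right]
    have hgc : ∀ s : P, π s * π g = π g * π s := by
      intro s
      apply e.injective
      rw [map_mul, map_mul, heg]
      rcases hs : e (π s) with i | i
      · rw [QuaternionGroup.a_mul_a, QuaternionGroup.a_mul_a, add_comm]
      · rw [QuaternionGroup.xa_mul_a, QuaternionGroup.a_mul_xa]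
        congr 1
        have h1 : ((2 ^ k : ℕ) : ZMod (2 * 2 ^ k)) + ((2 ^ k : ℕ) : ZMod (2 * 2 ^ k)) = 0 := by
          rw [← Nat.cast_add, show 2 ^ k + 2 ^ k = 2 * 2 ^ k by ring, ZMod.natCast_self]
        rw [eq_sub_iff_add_eq, add_assoc, h1, add_zero]
    -- the centralizer of `g` in `P`
    let C := centralizer ({g} : Set P)
    let Γ := zpowers (π a)
    have hΓn : Γ.Normal := by
      refine Subgroup.normal_of_index_eq_two ?_
      have h1 := Subgroup.card_mul_index Γ
      rw [Nat.card_zpowers, ← MulEquiv.orderOf_eq e, hea, QuaternionGroup.orderOf_a_one,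
        Nat.card_congr e.toEquiv, Nat.card_eq_fintype_card (α := QuaternionGroup (2 ^ k)),
        QuaternionGroup.card] at h1
      refine Nat.eq_of_mul_eq_mul_left (show 0 < 2 * 2 ^ k by positivity) ?_
      rw [h1]; ring
    have hΓC : Γ ≤ C.map π := zpowers_le.mpr (mem_map_of_mem π
      (mem_centralizer_singleton_iff.mpr (by rw [hgdef]; exact (Commute.pow_self a _).eq.symm)))
    have hCΓ : C.map π = Γ := by
      refine le_antisymm ?_ hΓC
      -- the image of `C` is proper
      have hΓidx : Γ.index = 2 := by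
        have h1 := Subgroup.card_mul_index Γ
        rw [Nat.card_zpowers, ← MulEquiv.orderOf_eq e, hea, QuaternionGroup.orderOf_a_one,
          Nat.card_congr e.toEquiv, Nat.card_eq_fintype_card (α := QuaternionGroup (2 ^ k)),
          QuaternionGroup.card] at h1
        refine Nat.eq_of_mul_eq_mul_left (show 0 < 2 * 2 ^ k by positivity) ?_
        rw [h1]; ring
      have hd : (C.map π).index ∣ 2 := hΓidx ▸ Subgroup.index_dvd_of_le hΓC
      rcases (Nat.dvd_prime Nat.prime_two).mp hd with h1 | h1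
      · exfalso
        rw [Subgroup.index_eq_one] at h1
        -- a central element of `P` inside `N`
        haveI : D.Normal := inferInstance
        obtain ⟨z, hzD, hz1, hzs⟩ := Screen.exists_central_mod W.isPGroup' D ⊥ (fun hle => hd₀1
          (congrArg Subtype.val (Subgroup.mem_bot.mp (hle (show (⟨d₀, hd₀.2⟩ : P) ∈ D from hd₀.1)))))
        have hzC : z ∈ C := mem_centralizer_singleton_iff.mpr
          (mul_inv_eq_iff_eq_mul.mp (mul_inv_eq_one.mp (Subgroup.mem_bot.mp (hzs g)))).symm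
        -- orbit of `g` has length at least `|D|`
        let orb : P ⧸ C → D := fun q => ⟨g⁻¹ * (Quotient.out q * g * (Quotient.out q)⁻¹), by
          refine QuotientGroup.eq.mp ?_
          show π g = π (Quotient.out q * g * (Quotient.out q)⁻¹)
          rw [map_mul, map_mul, hgc, map_inv, mul_inv_cancel_right]⟩
        have hsurj : Function.Surjective orb := by
          rintro ⟨d, hd⟩
          obtain ⟨w, hw⟩ := hcentral g hgD hgc (d : G) hd d.2
          refine ⟨QuotientGroup.mk w, Subtype.ext ?_⟩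
          obtain ⟨c, hc⟩ := QuotientGroup.mk_out_eq_mul C w
          show g⁻¹ * (Quotient.out (QuotientGroup.mk w : P ⧸ C) * g *
            (Quotient.out (QuotientGroup.mk w : P ⧸ C))⁻¹) = d
          rw [hc]
          have hcg : (c : P) * g = g * c := mem_centralizer_singleton_iff.mp c.2
          have hwP : w * g * w⁻¹ = g * d := Subtype.ext hw
          calc g⁻¹ * (w * c * g * (w * c)⁻¹) = g⁻¹ * (w * ((c : P) * g) * (c : P)⁻¹ * w⁻¹) := by group
            _ = g⁻¹ * (w * g * w⁻¹) := by rw [hcg]; group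
            _ = d := by rw [hwP, inv_mul_cancel_left]
        have h2 : Nat.card D ≤ C.index := by
          rw [Subgroup.index_eq_card]
          exact Nat.card_le_card_of_surjective orb hsurj
        have h3 := Subgroup.card_mul_index C
        have h4 : Nat.card (C.map π) * Nat.card (D ⊓ C : Subgroup P) = Nat.card C := by
          rw [← Subgroup.relIndex_ker (f := π), QuotientGroup.ker_mk', mul_comm, Subgroup.relIndex,
            ← Subgroup.card_mul_index (D.subgroupOf C)]
          congr 1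
          rw [← Subgroup.card_map_of_injective C.subtype_injective, Subgroup.subgroupOf_map_subtype]
        rw [h1, Subgroup.card_top] at h4
        have h5 := Subgroup.card_eq_card_quotient_mul_card_subgroup D
        have h6 : 1 < Nat.card (D ⊓ C : Subgroup P) := by
          refine (Subgroup.one_lt_card_iff_ne_bot _).mpr fun hb' => hz1 ?_
          rw [← hb']
          exact ⟨hzD, hzC⟩
        have h7 : Nat.card (P ⧸ D) * Nat.card (D ⊓ C : Subgroup P) * Nat.card D ≤ Nat.card P := by
          rw [h4, ← h3]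
          exact Nat.mul_le_mul_left _ h2
        have h8 : 0 < Nat.card (P ⧸ D) := Nat.card_pos
        have h9 : 0 < Nat.card D := Nat.card_pos
        nlinarith [Nat.mul_le_mul_right (Nat.card D) (Nat.mul_le_mul_left (Nat.card (P ⧸ D)) h6)]
      · exact (Subgroup.eq_of_le_of_card_ge hΓC (by
          have e1 := Subgroup.card_mul_index Γ
          have e2 := Subgroup.card_mul_index (C.map π)
          rw [hΓidx] at e1
          rw [h1] at e2
          omega)).ge
    -- `b` centralises a conjugate of `g`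
    have hbD : g⁻¹ * (b * b) ∈ D := QuotientGroup.eq.mp (e.injective hbb.symm)
    obtain ⟨u, hu'⟩ := hcentral g hgD hgc ((g⁻¹ * (b * b) : P) : G) hbD (g⁻¹ * (b * b)).2
    have hu2 : u * g * u⁻¹ = b * b := by
      apply Subtype.ext
      push_cast at hu' ⊢
      rw [hu', mul_inv_cancel_left]
    have hbC : u⁻¹ * b * u ∈ C := by
      refine mem_centralizer_singleton_iff.mpr ?_
      calc u⁻¹ * b * u * g = u⁻¹ * b * (u * g * u⁻¹) * u := by group
        _ = u⁻¹ * (u * g * u⁻¹) * b * u := by rw [hu2]; group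
        _ = g * (u⁻¹ * b * u) := by group
    have h1 : π u * π (u⁻¹ * b * u) * (π u)⁻¹ ∈ Γ := hΓn.conj_mem _ (hCΓ ▸ mem_map_of_mem π hbC) _
    rw [← map_inv, ← map_mul, ← map_mul, show u * (u⁻¹ * b * u) * u⁻¹ = b by group] at h1
    obtain ⟨i, hi⟩ : π b ∈ Submonoid.powers (π a) := mem_powers_iff_mem_zpowers.mpr h1
    have h2 : e (π a ^ i) = e (π b) := congrArg e hi
    rw [heb, map_pow, hea, QuaternionGroup.a_one_pow] at h2
    cases h2

/-- No normal `s`-subgroup of `N` is centralized by the `r`-elements of `N`, for a common prime `r`. -/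
lemma Cam.no_common [N.Normal] (h : Cam N) (hrN : r ∣ Nat.card N) (hrG : r ∣ N.index)
    {s : ℕ} [Fact s.Prime] (hsr : s ≠ r) (S : Subgroup G) [S.Normal] (hSN : S ≤ N) (hSp : IsPGroup s S)
    (hS : S ≠ ⊥) (hcomm : ∀ d ∈ N, ∀ i, orderOf d = r ^ i → ∀ u ∈ S, Commute d u) : False := by
  classical
  obtain ⟨W⟩ : Nonempty (Sylow r G) := inferInstance
  set P := (W : Subgroup G) with hP
  have hWN : ¬ P ≤ N := by
    intro hle
    have := Subgroup.index_dvd_of_le hle
    exact W.not_dvd_index (hrG.trans this)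
  -- the abelian group acted on
  let U : Subgroup G := (center S).map S.subtype
  haveI : U.Normal := inferInstance
  haveI : Nontrivial S := (Subgroup.nontrivial_iff_ne_bot S).mpr hS
  haveI := hSp.center_nontrivial
  letI : CommGroup U :=
    { (inferInstance : Group U) with
      mul_comm := by
        rintro ⟨_, a, ha, rfl⟩ ⟨_, b, hb, rfl⟩
        exact Subtype.ext (congrArg Subtype.val (Subgroup.mem_center_iff.mp hb a) : (a : G) * b = b * a) }
  let D := N.subgroupOf P
  let φ : P →* MulAut U := (MulAut.conjNormal : G →* MulAut U).comp P.subtype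
  have hker : D ≤ φ.ker := by
    intro d hd
    refine MulEquiv.ext fun u => Subtype.ext ?_
    show (d : G) * u * (d : G)⁻¹ = u
    obtain ⟨i, hi⟩ := IsPGroup.iff_orderOf.mp W.isPGroup' d
    rw [← Subgroup.orderOf_coe] at hi
    rw [(hcomm d hd i hi u (Subgroup.map_subtype_le _ u.2)).eq, mul_inv_cancel_right]
  let ψ := QuotientGroup.lift D φ hker
  have hfix : ∀ v : P ⧸ D, v ≠ 1 → ∀ u : U, ψ v u = u → u = 1 := by
    intro v hv u hu
    obtain ⟨w, rfl⟩ := QuotientGroup.mk'_surjective D v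
    have hwN : (w : G) ∉ N := fun hm => hv ((QuotientGroup.eq_one_iff w).mpr hm)
    obtain ⟨i, hi⟩ := IsPGroup.iff_orderOf.mp W.isPGroup' w
    rw [← Subgroup.orderOf_coe] at hi
    have huS : (u : G) ∈ S := Subgroup.map_subtype_le _ u.2
    obtain ⟨j, hj⟩ := hSp ⟨u, huS⟩
    exact Subtype.ext (h.eq_one_of_commute (Fact.out : s.Prime) hsr hwN hi (hSN huS)
      (mul_inv_eq_iff_eq_mul.mp (congrArg Subtype.val hu : (w : G) * u * (w : G)⁻¹ = u))
      (congrArg Subtype.val hj))
  have hu : OddLocal.UniqueOrderP r (P ⧸ D) := by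
    intro a b ha hb ha1
    by_contra hba
    have hQ : IsPGroup r (P ⧸ D) := W.isPGroup'.to_quotient D
    haveI : Nontrivial (P ⧸ D) := ⟨⟨a, 1, ha1⟩⟩
    obtain ⟨⟨c, hcc⟩, hc⟩ : ∃ c : center (P ⧸ D), orderOf c = r := by
      haveI := hQ.center_nontrivial
      obtain ⟨k, hk0, hk⟩ := (hQ.to_subgroup (center (P ⧸ D))).nontrivial_iff_card.mp inferInstance
      exact exists_prime_orderOf_dvd_card' r (hk ▸ dvd_pow_self r hk0.ne')
    rw [Subgroup.orderOf_mk] at hc
    obtain ⟨d, hd, hdc⟩ : ∃ d : P ⧸ D, d ^ r = 1 ∧ d ∉ zpowers c := by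
      by_contra! hall
      have hza : zpowers a = zpowers c := by
        refine Subgroup.eq_of_le_of_card_ge (zpowers_le.mpr (hall a ha)) ?_
        rw [Nat.card_zpowers, Nat.card_zpowers, hc, orderOf_eq_prime ha ha1]
      exact hba (hza ▸ hall b hb)
    let V : Subgroup (P ⧸ D) := closure {c, d}
    have hVc : ∀ x ∈ V, ∀ y ∈ V, x * y = y * x := by
      haveI := Subgroup.isMulCommutative_closure (k := {c, d}) (by
        rintro x (rfl | rfl) y (rfl | rfl)
        · rfl
        · exact (Subgroup.mem_center_iff.mp hcc y).symm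
        · exact Subgroup.mem_center_iff.mp hcc x
        · rfl)
      exact fun x hx y hy => congrArg Subtype.val
        (IsMulCommutative.is_comm.comm (⟨x, hx⟩ : V) ⟨y, hy⟩)
    letI : CommGroup V :=
      { (inferInstance : Group V) with mul_comm := fun x y => Subtype.ext (hVc x x.2 y y.2) }
    letI : MulDistribMulAction V U :=
      MulDistribMulAction.compHom U (ψ.comp V.subtype)
    have hexp : ∀ v : V, v ^ r = 1 := by
      intro v
      apply Subtype.ext
      show (v : P ⧸ D) ^ r = 1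
      obtain ⟨x₀, hx₀⟩ := v
      show x₀ ^ r = 1
      induction hx₀ using Subgroup.closure_induction with
      | mem x hx =>
        rcases hx with rfl | rfl
        · rw [← hc, pow_orderOf_eq_one]
        · exact hd
      | one => exact one_pow r
      | mul x y hx hy hx' hy' => rw [(show Commute x y from hVc x hx y hy).mul_pow, hx', hy', one_mul]
      | inv x _ hx' => rw [inv_pow, hx', inv_one]
    have hc1 : (⟨c, subset_closure (by simp)⟩ : V) ≠ 1 := fun h1 => by
      have : c = 1 := congrArg Subtype.val h1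
      rw [this, orderOf_one] at hc
      exact hr.out.one_lt.ne hc
    have hpow := TwoSizesNormal.pow_mem_of_rank_two (⊥ : Subgroup U) hexp
      (fun v hv u hu' => Subgroup.mem_bot.mpr (hfix v (fun h1 => hv (Subtype.ext h1)) u hu'))
      (g := (⟨c, subset_closure (by simp)⟩ : V)) (h := ⟨d, subset_closure (by simp)⟩) hc1
      (fun hm => hdc (by
        obtain ⟨i, hi⟩ := mem_zpowers_iff.mp hm
        exact mem_zpowers_iff.mpr ⟨i, congrArg Subtype.val hi⟩))
    obtain ⟨u, hu1⟩ := exists_ne (1 : center S)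
    let u' : U := ⟨((u : S) : G), mem_map_of_mem _ u.2⟩
    obtain ⟨j, hj⟩ := hSp (u : S)
    have h1 : ((u : S) : G) = 1 := TwoSizesNormal.eq_one_of_coprime_orders (r := r) (Fact.out : s.Prime) hsr
      (congrArg Subtype.val hj) (j := 1) (by
        rw [pow_one]
        exact congrArg Subtype.val (Subgroup.mem_bot.mp (hpow u')))
    exact hu1 (Subtype.ext (Subtype.ext h1))
  have hbot := h.inf_eq_bot W hWN hu
  -- but `r` divides `|N|`
  obtain ⟨x, hx⟩ := exists_prime_orderOf_dvd_card' (G := N) r hrN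
  obtain ⟨W', hW'⟩ := (isPGroup_element (g := (x : G)) (i := 1)
    (by rw [Subgroup.orderOf_coe, hx, pow_one])).exists_le_sylow
  obtain ⟨v, hv⟩ := MulAction.exists_smul_eq G W' W
  have hmem : v * (x : G) * v⁻¹ ∈ N ⊓ P := by
    refine ⟨Subgroup.Normal.conj_mem inferInstance _ x.2 v, ?_⟩
    show v * (x : G) * v⁻¹ ∈ (W : Subgroup G)
    rw [← hv, Sylow.smul_def, Sylow.pointwise_smul_def]
    exact ⟨x, hW' (mem_zpowers _), rfl⟩
  rw [hbot, Subgroup.mem_bot, conj_eq_one_iff, OneMemClass.coe_eq_one] at hmem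
  rw [hmem, orderOf_one] at hx
  exact hr.out.one_lt.ne hx

lemma exists_part_notMem (N : Subgroup G) {g : G} (hg : g ∉ N) :
    ∃ q k i : ℕ, q.Prime ∧ g ^ k ∉ N ∧ orderOf (g ^ k) = q ^ i := by
  by_contra! hall
  refine hg (TwoSizesNormal.mem_of_parts N fun q hq => ?_)
  by_contra hmem
  exact hall q _ _ hq hmem (TwoSizesNormal.part_order g q)

lemma prime_dvd_of_pow_eq_one {H : Type*} [Group H] [Finite H] {q i : ℕ} (hq : q.Prime) {x : H}
    (hx : x ≠ 1) (h : x ^ q ^ i = 1) : q ∣ Nat.card H := by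
  obtain ⟨j, -, hj⟩ := (Nat.dvd_prime_pow hq).mp (orderOf_dvd_of_pow_eq_one h)
  have hj0 : j ≠ 0 := fun h0 => hx (orderOf_eq_one_iff.mp (by rw [hj, h0, pow_zero]))
  exact ((dvd_pow_self q hj0).trans hj.symm.dvd).trans (orderOf_dvd_natCard x)

/-- A normal subgroup complementing a Sylow `p`-subgroup of `N` contains every element of `N` of order
prime to `p`. -/
lemma mem_complement_of_coprime {p : ℕ} [Fact p.Prime] {M : Subgroup N} [M.Normal] {P : Sylow p N}
    (hM : M.IsComplement' (P : Subgroup N)) {y : N} (hy : ¬ p ∣ orderOf y) : y ∈ M := by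
  have hi : M.index = Nat.card (P : Subgroup N) := hM.symm.index_eq_card
  obtain ⟨k, hk⟩ := P.isPGroup'.exists_card_eq
  have hpow : y ^ M.index ∈ M := M.pow_index_mem y
  have hcop : Nat.Coprime (M.index) (orderOf y) := by
    rw [hi, hk]
    exact ((Fact.out : p.Prime).coprime_iff_not_dvd.mpr hy).pow_left k
  obtain ⟨j, hj⟩ := exists_pow_eq_self_of_coprime hcop
  rw [← hj]
  exact M.pow_mem hpow j

lemma not_dvd_card_complement {p : ℕ} [Fact p.Prime] {M : Subgroup N} {P : Sylow p N}
    (hM : M.IsComplement' (P : Subgroup N)) : ¬ p ∣ Nat.card M := by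
  rw [← hM.index_eq_card]
  exact P.not_dvd_index

/-- The trichotomy for Camina pairs. -/
theorem trichotomy [hN : N.Normal] (h : Cam N) (hN1 : N ≠ ⊥) (hN2 : N ≠ ⊤) :
    (∀ x ∈ N, x ≠ 1 → centralizer ({x} : Set G) ≤ N) ∨ IsPrimePow (Nat.card N) ∨ IsPrimePow N.index := by
  classical
  by_contra! hcon
  obtain ⟨⟨x, hxN, hx1, hxC⟩, hNpp, hIpp⟩ := hcon
  obtain ⟨g₀, hg₀, hg₀N⟩ := SetLike.not_le_iff_exists.mp hxC
  obtain ⟨r, k, i, hr, hgN, hgo⟩ := exists_part_notMem N hg₀N
  haveI := Fact.mk hr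
  have hgx : Commute (g₀ ^ k) x :=
    (show Commute g₀ x from mem_centralizer_singleton_iff.mp hg₀).pow_left k
  have hrN : r ∣ Nat.card N := prime_dvd_of_pow_eq_one (x := (⟨x, hxN⟩ : N)) hr
    (fun h1 => hx1 (congrArg Subtype.val h1)) (Subtype.ext (h.pow_eq_one hgN hgo hxN hgx))
  have hrI : r ∣ N.index := by
    rw [Subgroup.index_eq_card]
    refine prime_dvd_of_pow_eq_one (x := QuotientGroup.mk' N (g₀ ^ k)) (i := i) hr
      (fun h1 => hgN ((QuotientGroup.eq_one_iff _).mp h1)) ?_
    rw [← map_pow, ← hgo, pow_orderOf_eq_one, map_one]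
  have hexp : ∀ m : ℕ, m ≠ 0 → r ∣ m → ¬ IsPrimePow m → ∃ s, s.Prime ∧ s ∣ m ∧ s ≠ r := by
    intro m hm hrm hmpp
    by_contra! hall
    exact hmpp (isPrimePow_iff_unique_prime_dvd.mpr ⟨r, ⟨hr, hrm⟩, fun s hs => hall s hs.1 hs.2⟩)
  obtain ⟨s, hs, hsN, hsr⟩ := hexp _ Nat.card_pos.ne' hrN hNpp
  obtain ⟨t, ht, htI, htr⟩ := hexp _ Subgroup.index_ne_zero_of_finite hrI hIpp
  haveI := Fact.mk hs
  haveI := Fact.mk ht
  by_cases htN : t ∣ Nat.card N
  swap
  · -- `N` is nilpotent by Thompson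
    obtain ⟨a, ha⟩ := exists_prime_orderOf_dvd_card' (G := G) t
      (htI.trans N.index_dvd_card)
    have haN : a ∉ N := fun hmem => htN (ha ▸ (Subgroup.orderOf_mk a hmem).symm ▸ orderOf_dvd_natCard (⟨a, hmem⟩ : N))
    let φ : N ≃* N := MulAut.conjNormal a
    have hfix : ∀ n, φ n = n → n = 1 := by
      intro n hn
      by_contra hn1
      refine htN (prime_dvd_of_pow_eq_one (x := n) (i := 1) ht hn1 (Subtype.ext ?_))
      exact h.pow_eq_one haN (by rw [pow_one, ha]) n.2
        (mul_inv_eq_iff_eq_mul.mp (congrArg Subtype.val hn : a * (n : G) * a⁻¹ = n))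
    have hiter : ∀ n, (φ : N → N)^[t] n = n := by
      intro n
      have hj : ∀ j : ℕ, (((φ : N → N)^[j] n : N) : G) = a ^ j * n * (a ^ j)⁻¹ := by
        intro j
        induction j with
        | zero => simp
        | succ j ih =>
          rw [Function.iterate_succ_apply', show ((φ ((φ : N → N)^[j] n) : N) : G) =
            a * ((φ : N → N)^[j] n : N) * a⁻¹ from rfl, ih, pow_succ']
          group
      apply Subtype.ext
      rw [hj, ← ha, pow_orderOf_eq_one]
      simp
    haveI := Core.ThompsonFPF.isNilpotent_of_fpf ht φ hfix hiter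
    obtain ⟨Q⟩ : Nonempty (Sylow s N) := inferInstance
    haveI hQn : (Q : Subgroup N).Normal := Sylow.normal_of_normalizerCondition Group.normalizerCondition_of_isNilpotent Q
    haveI : (Q : Subgroup N).Characteristic := Sylow.characteristic_of_normal Q hQn
    let S : Subgroup G := (Q : Subgroup N).map N.subtype
    haveI : S.Normal := ConjAct.normal_of_characteristic_of_normal
    obtain ⟨R⟩ : Nonempty (Sylow r N) := inferInstance
    haveI hRn : (R : Subgroup N).Normal := Sylow.normal_of_normalizerCondition Group.normalizerCondition_of_isNilpotent R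
    haveI : Subsingleton (Sylow r N) := @Unique.instSubsingleton _ (Sylow.unique_of_normal R hRn)
    refine h.no_common hrN hrI hsr S (Subgroup.map_subtype_le _) (Q.isPGroup'.map _) (fun hb => ?_) ?_
    · rw [Subgroup.map_eq_bot_iff_of_injective _ N.subtype_injective] at hb
      exact Q.ne_bot_of_dvd_card hsN hb
    · rintro d hd j hj _ ⟨u, hu, rfl⟩
      obtain ⟨R', hR'⟩ := (isPGroup_element (g := (⟨d, hd⟩ : N)) (i := j)
        (by rw [Subgroup.orderOf_mk, hj])).exists_le_sylow
      have hdR : (⟨d, hd⟩ : N) ∈ (R : Subgroup N) := Subsingleton.elim R' R ▸ hR' (mem_zpowers _)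
      have hdis : Disjoint (R : Subgroup N) (Q : Subgroup N) :=
        IsPGroup.disjoint_of_ne r s hsr.symm _ _ R.isPGroup' Q.isPGroup'
      exact congrArg Subtype.val
        (Subgroup.commute_of_normal_of_disjoint _ _ hRn hQn hdis _ _ hdR hu).eq
  -- both `r` and `t` are common primes
  have htate : ∀ (p : ℕ) [Fact p.Prime], p ∣ Nat.card N → p ∣ N.index →
      ∃ (P : Sylow p N) (M : Subgroup N), M.Normal ∧ M.IsComplement' (P : Subgroup N) := by
    intro p _ _ hpI
    obtain ⟨W⟩ : Nonempty (Sylow p G) := inferInstance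
    exact Transfer.hasNormalPComplement_of_inf_le_frattini W N (h.inf_le_frattini W fun hle =>
      W.not_dvd_index (hpI.trans (Subgroup.index_dvd_of_le hle)))
  obtain ⟨Pr, Mr, hMrn, hMr⟩ := htate r hrN hrI
  obtain ⟨Pt, Mt, hMtn, hMt⟩ := htate t htN htI
  haveI := hMrn
  haveI := hMtn
  have hchar : ∀ {p : ℕ} [Fact p.Prime] {P : Sylow p N} {M : Subgroup N} [M.Normal],
      M.IsComplement' (P : Subgroup N) → ∀ (g : G), ∀ m ∈ M, MulAut.conjNormal g m ∈ M := by
    intro p _ P M _ hM g m hm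
    refine mem_complement_of_coprime hM fun hd => not_dvd_card_complement hM ?_
    rw [MulEquiv.orderOf_eq] at hd
    exact hd.trans ((Subgroup.orderOf_mk m hm).symm ▸ orderOf_dvd_natCard (⟨m, hm⟩ : M))
  let K : Subgroup G := (Mr ⊓ Mt).map N.subtype
  haveI : K.Normal := by
    refine ⟨?_⟩
    rintro _ ⟨m, hm, rfl⟩ g
    exact ⟨MulAut.conjNormal g m, ⟨hchar hMr g m hm.1, hchar hMt g m hm.2⟩, rfl⟩
  set π := QuotientGroup.mk' K with hπ
  have hsurj : Function.Surjective π := QuotientGroup.mk'_surjective K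
  have hKN : K ≤ N := Subgroup.map_subtype_le _
  haveI : (N.map π).Normal := Subgroup.Normal.map hN π hsurj
  let S : Subgroup (G ⧸ K) := (Mr.map N.subtype).map π
  haveI : (Mr.map N.subtype).Normal := by
    refine ⟨?_⟩
    rintro _ ⟨m, hm, rfl⟩ g
    exact ⟨MulAut.conjNormal g m, hchar hMr g m hm, rfl⟩
  haveI : S.Normal := Subgroup.Normal.map inferInstance π hsurj
  -- elements of `N` lying in `K` modulo ...
  have hmemK : ∀ {m : N}, π (m : G) = 1 → m ∈ Mr ⊓ Mt := by
    intro m hm
    obtain ⟨m', hm', hmm⟩ := (QuotientGroup.eq_one_iff (m : G)).mp hm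
    rwa [← Subtype.ext hmm]
  refine (h.quotient K hKN).no_common (r := r) ?_ ?_ (s := t) htr S
    (Subgroup.map_mono (Subgroup.map_subtype_le _)) ?_ ?_ ?_
  · -- `r` divides `|N / K|`
    obtain ⟨y, hy⟩ := exists_prime_orderOf_dvd_card' (G := N) r hrN
    let y' : N.map π := ⟨π (y : G), mem_map_of_mem π y.2⟩
    refine prime_dvd_of_pow_eq_one (x := y') (i := 1) hr (fun h1 => ?_) (Subtype.ext ?_)
    · have hy1 : y ∈ Mr := (hmemK (congrArg Subtype.val h1)).1
      exact not_dvd_card_complement hMr (hy ▸ (Subgroup.orderOf_mk y hy1).symm ▸ orderOf_dvd_natCard (⟨y, hy1⟩ : Mr))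
    · show π (y : G) ^ r ^ 1 = 1
      rw [pow_one, ← map_pow, ← Subgroup.coe_pow, ← hy, pow_orderOf_eq_one, OneMemClass.coe_one, map_one]
  · rw [Subgroup.index_map_eq _ hsurj (by rw [QuotientGroup.ker_mk']; exact hKN)]
    exact hrI
  · -- `S` is a `t`-group
    rintro ⟨_, _, ⟨m, hm, rfl⟩, rfl⟩
    refine ⟨(orderOf m).factorization t, Subtype.ext ?_⟩
    show π (m : G) ^ t ^ (orderOf m).factorization t = 1
    rw [← map_pow, ← Subgroup.coe_pow]
    refine (QuotientGroup.eq_one_iff _).mpr ⟨_, ⟨Mr.pow_mem hm _, mem_complement_of_coprime hMt ?_⟩, rfl⟩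
    rw [orderOf_pow_of_dvd (pow_ne_zero _ ht.ne_zero) (Nat.ordProj_dvd _ _)]
    exact Nat.not_dvd_ordCompl ht (orderOf_pos m).ne'
  · intro hb
    obtain ⟨y, hy⟩ := exists_prime_orderOf_dvd_card' (G := N) t htN
    have hyr : y ∈ Mr := mem_complement_of_coprime hMr (by
      rw [hy]; exact fun hd => htr ((Nat.prime_dvd_prime_iff_eq hr ht).mp hd).symm)
    have h1 : π (y : G) = 1 := Subgroup.mem_bot.mp (hb ▸ mem_map_of_mem π (mem_map_of_mem N.subtype hyr))
    have hy1 : y ∈ Mt := (hmemK h1).2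
    exact not_dvd_card_complement hMt (hy ▸ (Subgroup.orderOf_mk y hy1).symm ▸ orderOf_dvd_natCard (⟨y, hy1⟩ : Mt))
  · -- `r`-elements centralize `S`
    rintro d ⟨n, hn, rfl⟩ j hj _ ⟨_, ⟨m, hm, rfl⟩, rfl⟩
    let n' : N := ⟨n, hn⟩
    -- replace `n` by its `r`-part
    set a := t ^ (orderOf n').factorization t with ha
    have hnt : n' ^ a ∈ Mt := mem_complement_of_coprime hMt (by
      rw [orderOf_pow_of_dvd (pow_ne_zero _ ht.ne_zero) (Nat.ordProj_dvd _ _)]
      exact Nat.not_dvd_ordCompl ht (orderOf_pos n').ne')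
    have hcm : ⁅n' ^ a, m⁆ ∈ Mr ⊓ Mt := ⟨by
      rw [commutatorElement_def]
      exact mul_mem (hMrn.conj_mem m hm _) (Subgroup.inv_mem _ hm), by
      rw [commutatorElement_def, mul_assoc (n' ^ a) m, mul_assoc]
      exact mul_mem hnt (hMtn.conj_mem _ (inv_mem hnt) m)⟩
    have h2 : Commute (π n ^ a) (π (m : G)) := by
      rw [← commutatorElement_eq_one_iff_commute, ← map_pow, ← map_commutatorElement]
      exact (QuotientGroup.eq_one_iff _).mpr ⟨_, hcm, by simp [n', map_commutatorElement]⟩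
    have hcop : Nat.Coprime a (orderOf (π n)) := by
      rw [hj, ha]; exact Nat.Coprime.pow _ _ ((Nat.coprime_primes ht hr).mpr htr)
    obtain ⟨e, he⟩ := exists_pow_eq_self_of_coprime hcop
    rw [← he]
    exact h2.pow_left e


end Cfsg.Agent.FGS3.CaminaPair
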