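import Mathlib

/-!
Covering the `p`-elements by proper subgroups.
-/

set_option autoImplicit false
set_option linter.unusedSectionVars false

namespace Cfsg.Agent.FGS3.CoverPElements

open Subgroup

variable {G : Type*} [Group G] [Finite G] {p : ℕ} [Fact p.Prime]

/-- The `p`-elements of `H`. -/
def pEl (p : ℕ) (H : Subgroup G) : Set G := {g | g ∈ H ∧ ∃ k : ℕ, orderOf g = p ^ k}

/-- `H` is generated by its `p`-elements. -/
def Gen (p : ℕ) (H : Subgroup G) : Prop := closure (pEl p H) = H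

theorem gen_of_le {A B H : Subgroup G} (hA : Gen p A) (hB : Gen p B) (h : H = A ⊔ B) : Gen p H := by
  refine le_antisymm ((closure_le _).mpr fun g hg => hg.1) ?_
  subst h
  refine sup_le ?_ ?_
  · conv_lhs => rw [← hA]
    exact closure_mono fun g hg => ⟨mem_sup_left hg.1, hg.2⟩
  · conv_lhs => rw [← hB]
    exact closure_mono fun g hg => ⟨mem_sup_right hg.1, hg.2⟩

theorem gen_of_pGroup {A : Subgroup G} (hA : IsPGroup p A) : Gen p A := by
  refine le_antisymm ((closure_le _).mpr fun g hg => hg.1) fun g hg => ?_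
  obtain ⟨k, hk⟩ := IsPGroup.iff_orderOf.mp hA ⟨g, hg⟩
  exact subset_closure ⟨hg, k, by rwa [Subgroup.orderOf_mk] at hk⟩

theorem gen_map {A : Subgroup G} (hA : Gen p A) (c : G) : Gen p (A.map (MulAut.conj c).toMonoidHom) := by
  refine le_antisymm ((closure_le _).mpr fun g hg => hg.1) ?_
  conv_lhs => rw [← hA]
  rw [MonoidHom.map_closure]
  refine closure_mono ?_
  rintro _ ⟨g, ⟨hg, k, hk⟩, rfl⟩
  exact ⟨mem_map_of_mem _ hg, k, by rw [orderOf_injective _ (MulAut.conj c).injective, hk]⟩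

theorem map_conj_map (A : Subgroup G) (a b : G) :
    (A.map (MulAut.conj a).toMonoidHom).map (MulAut.conj b).toMonoidHom =
      A.map (MulAut.conj (b * a)).toMonoidHom := by
  rw [map_map, map_mul]; rfl

theorem cover {ι : Type*} (K : ι → Subgroup G) :
    ∀ (H : Subgroup G) (I : Finset ι), Gen p H → (∀ g ∈ pEl p H, ∃ i ∈ I, g ∈ K i) → I.card ≤ p →
      ∃ i ∈ I, H ≤ K i := by
  intro H
  induction hn : Nat.card H using Nat.strong_induction_on generalizing H with
  | _ n ih =>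
  subst hn
  intro I hgen hcov hcard
  classical
  by_contra! hno
  have hind : ∀ Y : Subgroup G, Y ≤ H → Y ≠ H → Gen p Y → ∀ J : Finset ι,
      (∀ g ∈ pEl p H, ∃ i ∈ J, g ∈ K i) → J.card ≤ p → ∃ i ∈ J, Y ≤ K i := by
    intro Y hY hne hYg J hJ hJc
    exact ih _ (lt_of_not_ge fun h => hne (eq_of_le_of_card_ge hY h)) Y rfl J hYg
      (fun g hg => hJ g ⟨hY hg.1, hg.2⟩) hJc
  -- `H` is not a `p`-group
  have hHp : ¬ IsPGroup p H := by
    intro hHp
    cases nonempty_fintype G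
    obtain ⟨i₀, hi₀, -⟩ := hcov 1 ⟨one_mem H, 0, by simp⟩
    obtain ⟨m, hm⟩ := IsPGroup.iff_card.mp hHp
    let S : ι → Finset G := fun i => Finset.univ.filter (fun g => g ∈ H ⊓ K i ∧ g ≠ 1)
    have hsub : Finset.univ.filter (fun g => g ∈ H ∧ g ≠ 1) ⊆ I.biUnion S := by
      intro g hg
      rw [Finset.mem_filter] at hg
      obtain ⟨k, hk⟩ := IsPGroup.iff_orderOf.mp hHp ⟨g, hg.2.1⟩
      rw [Subgroup.orderOf_mk] at hk
      obtain ⟨i, hi, hgi⟩ := hcov g ⟨hg.2.1, k, hk⟩
      exact Finset.mem_biUnion.mpr ⟨i, hi, Finset.mem_filter.mpr ⟨Finset.mem_univ _, ⟨hg.2.1, hgi⟩, hg.2.2⟩⟩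
    have hS : ∀ A : Subgroup G, (Finset.univ.filter (fun g => g ∈ A ∧ g ≠ 1)).card + 1 = Nat.card A := by
      intro A
      rw [Nat.card_eq_fintype_card, Fintype.card_subtype, ← Finset.card_erase_add_one (a := (1 : G))
        (s := Finset.univ.filter fun g => g ∈ A) (by simp)]
      congr 2
      ext g; simp [and_comm]
    have hsmall : ∀ i ∈ I, p * ((S i).card + 1) ≤ Nat.card H := by
      intro i hi
      rw [hS (H ⊓ K i), ← Nat.card_congr (subgroupOfEquivOfLe (inf_le_left : H ⊓ K i ≤ H)).toEquiv,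
        ← card_mul_index ((H ⊓ K i).subgroupOf H), mul_comm]
      refine Nat.mul_le_mul_left _ ?_
      obtain ⟨j, -, hj⟩ := (Nat.dvd_prime_pow Fact.out).mp (hm ▸ index_dvd_card ((H ⊓ K i).subgroupOf H))
      rcases j with _ | j
      · exfalso
        rw [pow_zero, index_eq_one, subgroupOf_eq_top] at hj
        exact hno i hi (hj.trans inf_le_right)
      · rw [hj]; exact Nat.le_self_pow (by omega) _
    have h1 := (Finset.card_le_card hsub).trans Finset.card_biUnion_le
    have h2 : ∑ i ∈ I, p * ((S i).card + 1) ≤ I.card * Nat.card H := by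
      refine (Finset.sum_le_sum hsmall).trans ?_
      rw [Finset.sum_const, smul_eq_mul]
    rw [← Finset.mul_sum, Finset.sum_add_distrib, Finset.sum_const, smul_eq_mul, mul_one] at h2
    have h3 := Nat.mul_le_mul_left p h1
    have h4 := hS H
    have h5 : I.card * Nat.card H ≤ p * Nat.card H := Nat.mul_le_mul_right _ hcard
    have hp2 : 2 ≤ p := (Fact.out : p.Prime).two_le
    have hI : 1 ≤ I.card := Finset.card_pos.mpr ⟨i₀, hi₀⟩
    rcases Nat.lt_or_ge I.card p with hlt | hge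
    · nlinarith [Nat.mul_le_mul_right (Nat.card H) (Nat.succ_le_of_lt hlt)]
    · nlinarith
  -- every Sylow subgroup of `H` lies in one member
  have hsyl : ∀ P : Sylow p H, Gen p ((P : Subgroup H).map H.subtype) ∧
      (P : Subgroup H).map H.subtype ≤ H ∧ (P : Subgroup H).map H.subtype ≠ H :=
    fun P => ⟨gen_of_pGroup (P.2.map _), map_subtype_le _, fun h => hHp (h ▸ P.2.map _)⟩
  have hex : ∀ P : Sylow p H, ∃ i ∈ I, (P : Subgroup H).map H.subtype ≤ K i := fun P =>
    hind _ (hsyl P).2.1 (hsyl P).2.2 (hsyl P).1 I hcov hcard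
  obtain ⟨J, hJmem, hJmin⟩ := (I.powerset.filter fun J =>
      ∀ P : Sylow p H, ∃ i ∈ J, (P : Subgroup H).map H.subtype ≤ K i).exists_minimal
    ⟨I, Finset.mem_filter.mpr ⟨Finset.mem_powerset_self I, hex⟩⟩
  obtain ⟨hJI, hJs⟩ : J ⊆ I ∧ ∀ P : Sylow p H, ∃ i ∈ J, (P : Subgroup H).map H.subtype ≤ K i :=
    (Finset.mem_filter.mp hJmem).imp_left Finset.mem_powerset.mp
  have hJcov : ∀ g ∈ pEl p H, ∃ i ∈ J, g ∈ K i := by
    rintro g ⟨hg, k, hk⟩
    obtain ⟨P, hP⟩ := (IsPGroup.of_card (n := k) (by rw [Nat.card_zpowers, Subgroup.orderOf_mk, hk]) :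
      IsPGroup p (zpowers (⟨g, hg⟩ : H))).exists_le_sylow
    obtain ⟨i, hi, hle⟩ := hJs P
    exact ⟨i, hi, hle ⟨⟨g, hg⟩, hP (mem_zpowers _), rfl⟩⟩
  have hJcard : J.card ≤ p := (Finset.card_le_card hJI).trans hcard
  obtain ⟨P₀⟩ : Nonempty (Sylow p H) := inferInstance
  obtain ⟨i₀, hi₀, -⟩ := hJs P₀
  -- a Sylow subgroup in `K i₀` only
  obtain ⟨P, hPonly⟩ : ∃ P : Sylow p H, ∀ i ∈ J, (P : Subgroup H).map H.subtype ≤ K i → i = i₀ := by
    by_contra! hc
    have := hJmin (y := J.erase i₀) (Finset.mem_filter.mpr ⟨Finset.mem_powerset.mpr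
      ((Finset.erase_subset _ _).trans hJI), fun P => by
        obtain ⟨i, hi, hle, hne⟩ := hc P
        exact ⟨i, Finset.mem_erase.mpr ⟨hne, hi⟩, hle⟩⟩) (Finset.erase_subset _ _)
    exact Finset.notMem_erase i₀ J (this hi₀)
  have hPK : (P : Subgroup H).map H.subtype ≤ K i₀ := by
    obtain ⟨i, hi, hle⟩ := hJs P
    exact hPonly i hi hle ▸ hle
  set P' := (P : Subgroup H).map H.subtype with hP'
  -- a Sylow subgroup outside `K i₀`
  obtain ⟨Q, hQ⟩ : ∃ Q : Sylow p H, ¬ (Q : Subgroup H).map H.subtype ≤ K i₀ := by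
    by_contra! hc
    refine hno i₀ (hJI hi₀) ?_
    conv_lhs => rw [← hgen]
    refine (closure_le _).mpr ?_
    rintro g ⟨hg, k, hk⟩
    obtain ⟨Q, hQ⟩ := (IsPGroup.of_card (n := k) (by rw [Nat.card_zpowers, Subgroup.orderOf_mk, hk]) :
      IsPGroup p (zpowers (⟨g, hg⟩ : H))).exists_le_sylow
    exact hc Q ⟨⟨g, hg⟩, hQ (mem_zpowers _), rfl⟩
  obtain ⟨Y, hQY, ⟨⟨hYH, hYne, hYg, hY0⟩, hYmax⟩⟩ := (Set.toFinite
      {Y : Subgroup G | Y ≤ H ∧ Y ≠ H ∧ Gen p Y ∧ ¬ Y ≤ K i₀}).exists_le_maximal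
    (a := (Q : Subgroup H).map H.subtype) ⟨(hsyl Q).2.1, (hsyl Q).2.2, (hsyl Q).1, hQ⟩
  -- `P'` normalizes `Y`
  have hYmax' : ∀ Z : Subgroup G, Gen p Z → Z ≤ H → Z ≠ H → ¬ Z ≤ K i₀ → Y ≤ Z → Z = Y :=
    fun Z h1 h2 h3 h4 h5 => le_antisymm (hYmax ⟨h2, h3, h1, h4⟩ h5) h5
  have hPH : P' ≤ H := (hsyl P).2.1
  have hconj : ∀ c ∈ P', Y.map (MulAut.conj c).toMonoidHom ≤ H ∧ Y.map (MulAut.conj c).toMonoidHom ≠ H ∧
      Gen p (Y.map (MulAut.conj c).toMonoidHom) ∧ ¬ Y.map (MulAut.conj c).toMonoidHom ≤ K i₀ := by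
    intro c hc
    have e : ∀ A : Subgroup G, c ∈ A → A.map (MulAut.conj c).toMonoidHom = A := fun A h =>
      mem_normalizer_iff_map_conj_eq.mp (le_normalizer h)
    have hinj := map_injective (MulAut.conj c).injective (f := (MulAut.conj c).toMonoidHom)
    refine ⟨(map_mono hYH).trans (e H (hPH hc)).le, fun h => hYne (hinj (h.trans (e H (hPH hc)).symm)),
      gen_map hYg c, fun h => hY0 ?_⟩
    rw [← e (K i₀) (hPK hc)] at h
    exact (map_le_map_iff_of_injective (MulAut.conj c).injective).mp h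
  -- no element of `P'` moves `Y` in an orbit of length `p`
  have hfix : ∀ e : ℕ, ∀ a ∈ P', a ^ p ^ e ∈ normalizer (Y : Set G) → a ∈ normalizer (Y : Set G) := by
    intro e
    induction e with
    | zero => intro a _ h; simpa using h
    | succ e ihe =>
      intro a ha h
      refine ihe a ha ?_
      set c := a ^ p ^ e with hc
      have hcP : c ∈ P' := pow_mem ha _
      have hcp : c ^ p ∈ normalizer (Y : Set G) := by rwa [hc, ← pow_mul, ← pow_succ]
      have hcol : ∀ j ∈ Finset.range p, ∃ i ∈ J.erase i₀, Y.map (MulAut.conj (c ^ j)).toMonoidHom ≤ K i := by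
        intro j _
        obtain ⟨h1, h2, h3, h4⟩ := hconj _ (pow_mem hcP j)
        obtain ⟨i, hi, hle⟩ := hind _ h1 h2 h3 J hJcov hJcard
        exact ⟨i, Finset.mem_erase.mpr ⟨fun he => h4 (he ▸ hle), hi⟩, hle⟩
      haveI : Nonempty ι := ⟨i₀⟩
      choose! col hcolmem hcolle using hcol
      obtain ⟨i, hi, j, hj, hne, hij⟩ := Finset.exists_ne_map_eq_of_card_lt_of_maps_to
        (s := Finset.range p) (t := J.erase i₀) (f := col) (by
          rw [Finset.card_range, Finset.card_erase_of_mem hi₀]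
          have := Finset.card_pos.mpr ⟨i₀, hi₀⟩
          omega) hcolmem
      wlog hlt : i < j generalizing i j
      · exact this j hj i hi hne.symm hij.symm (by omega)
      set Yi := Y.map (MulAut.conj (c ^ i)).toMonoidHom with hYi
      set Yj := Y.map (MulAut.conj (c ^ j)).toMonoidHom with hYj
      obtain ⟨a1, a2, a3, a4⟩ := hconj _ (pow_mem hcP i)
      obtain ⟨b1, b2, b3, b4⟩ := hconj _ (pow_mem hcP j)
      have hZK : Yi ⊔ Yj ≤ K (col i) := sup_le (hcolle i hi) (hij ▸ hcolle j hj)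
      have hZne : Yi ⊔ Yj ≠ H := fun h => hno _ (hJI (Finset.mem_of_mem_erase (hcolmem i hi))) (h ▸ hZK)
      -- pull back to `Y`
      have back : ∀ l : ℕ, ∀ Z : Subgroup G, (Z.map (MulAut.conj (c ^ l)).toMonoidHom).map
          (MulAut.conj (c ^ l)⁻¹).toMonoidHom = Z := fun l Z => by
        rw [map_conj_map, inv_mul_cancel, map_one]
        exact map_id Z
      have hci : (c ^ i)⁻¹ ∈ P' := P'.inv_mem (pow_mem hcP i)
      have eH : H.map (MulAut.conj (c ^ i)⁻¹).toMonoidHom = H :=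
        mem_normalizer_iff_map_conj_eq.mp (le_normalizer (hPH hci))
      have eK : (K i₀).map (MulAut.conj (c ^ i)⁻¹).toMonoidHom = K i₀ :=
        mem_normalizer_iff_map_conj_eq.mp (le_normalizer (hPK hci))
      have hinj := map_injective (MulAut.conj (c ^ i)⁻¹).injective
        (f := (MulAut.conj (c ^ i)⁻¹).toMonoidHom)
      have hmax := hYmax' ((Yi ⊔ Yj).map (MulAut.conj (c ^ i)⁻¹).toMonoidHom)
        (gen_map (gen_of_le a3 b3 rfl) _) ((map_mono (sup_le a1 b1)).trans eH.le)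
        (fun h => hZne (hinj (h.trans eH.symm)))
        (fun h => by
          rw [← eK, map_le_map_iff_of_injective (MulAut.conj (c ^ i)⁻¹).injective] at h
          exact a4 (le_sup_left.trans h))
        (by rw [Subgroup.map_sup, back]; exact le_sup_left)
      have heq : Yj = Yi := by
        have h1 : Yj.map (MulAut.conj (c ^ i)⁻¹).toMonoidHom ≤ Yi.map (MulAut.conj (c ^ i)⁻¹).toMonoidHom := by
          rw [back i Y]; exact (map_mono le_sup_right).trans hmax.le
        refine eq_of_le_of_card_ge ((map_le_map_iff_of_injective (MulAut.conj (c ^ i)⁻¹).injective).mp h1)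
          (le_of_eq ?_)
        rw [hYi, hYj, card_map_of_injective (MulAut.conj (c ^ i)).injective,
          card_map_of_injective (MulAut.conj (c ^ j)).injective]
      have hd : c ^ (j - i) ∈ normalizer (Y : Set G) := by
        rw [mem_normalizer_iff_map_conj_eq]
        have h1 := congrArg (Subgroup.map (MulAut.conj (c ^ i)⁻¹).toMonoidHom) heq
        rw [back i Y, hYj, map_conj_map] at h1
        rwa [pow_sub c hlt.le, ((Commute.refl c).pow_pow j i).inv_right.eq]
      -- `c` is a combination of `c ^ (j - i)` and `c ^ p`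
      have hcop : Nat.Coprime (j - i) p := ((Fact.out : p.Prime).coprime_iff_not_dvd.mpr fun hd' => by
        have := Nat.le_of_dvd (by omega) hd'
        have := Finset.mem_range.mp hj
        omega).symm
      have hb : c = c ^ ((((j - i : ℕ) : ℤ)) * Nat.gcdA (j - i) p + (p : ℤ) * Nat.gcdB (j - i) p) := by
        rw [← Nat.gcd_eq_gcd_ab, hcop.gcd_eq_one]; simp
      rw [hb, zpow_add, zpow_mul, zpow_mul, zpow_natCast, zpow_natCast]
      exact mul_mem (zpow_mem hd _) (zpow_mem hcp _)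
  have hPN : P' ≤ normalizer (Y : Set G) := by
    intro a ha
    obtain ⟨k, hk⟩ := IsPGroup.iff_orderOf.mp (P.2.map H.subtype) ⟨a, ha⟩
    rw [Subgroup.orderOf_mk] at hk
    exact hfix k a ha (by rw [← hk, pow_orderOf_eq_one]; exact one_mem _)
  by_cases hYP : Y ⊔ P' = H
  · -- then `Y` is normal in `H` and contains all Sylow subgroups
    refine hYne (le_antisymm hYH ?_)
    haveI : (Y.subgroupOf H).Normal := normal_subgroupOf_of_le_normalizer
      (hYP ▸ sup_le le_normalizer hPN)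
    conv_lhs => rw [← hgen]
    refine (closure_le _).mpr ?_
    rintro g ⟨hg, k, hk⟩
    obtain ⟨R, hR⟩ := (IsPGroup.of_card (n := k) (by rw [Nat.card_zpowers, Subgroup.orderOf_mk, hk]) :
      IsPGroup p (zpowers (⟨g, hg⟩ : H))).exists_le_sylow
    obtain ⟨h, hh⟩ := MulAction.exists_smul_eq H Q R
    have h1 : (⟨g, hg⟩ : H) ∈ (R : Subgroup H) := hR (mem_zpowers _)
    rw [← hh, Sylow.coe_subgroup_smul] at h1
    obtain ⟨q, hq, hq'⟩ := h1
    have h2 : q ∈ Y.subgroupOf H := hQY ⟨q, hq, rfl⟩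
    have h3 : h * q * h⁻¹ ∈ Y.subgroupOf H := Normal.conj_mem inferInstance q h2 h
    have h4 : h * q * h⁻¹ = (⟨g, hg⟩ : H) := hq'
    rw [h4] at h3
    exact h3
  · have h1 := hYmax' (Y ⊔ P') (gen_of_le hYg (hsyl P).1 rfl) (sup_le hYH hPH) hYP
      (fun h => hY0 (le_sup_left.trans h)) le_sup_left
    obtain ⟨i, hi, hle⟩ := hind Y hYH hYne hYg J hJcov hJcard
    exact hY0 (hPonly i hi ((le_sup_right.trans h1.le).trans hle) ▸ hle)

end Cfsg.Agent.FGS3.CoverPElements
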