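import Mathlib

/-!
# Linear actions of a group of prime order over `ZMod p`
Homogeneity under a transitive normalizer forces `p` to be a primitive root; conversely, when the
cyclotomic polynomial is irreducible, any two fixed point free actions are equivalent by a map
sending any non-zero vector to any non-zero vector.
-/

set_option autoImplicit false
set_option linter.style.haveILetI false
set_option linter.unusedSectionVars false

namespace Cfsg.Agent.FGS3

open Polynomial

variable {p q : ℕ} [Fact p.Prime] [Fact q.Prime]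
variable {V : Type*} [AddCommGroup V] [Module (ZMod p) V] [Finite V]

section Invariant

variable {T : Module.End (ZMod p) V}

/-- The subspace is invariant. -/
def Inv (T : Module.End (ZMod p) V) (W : Submodule (ZMod p) V) : Prop := ∀ v ∈ W, T v ∈ W

theorem Inv.aeval {W : Submodule (ZMod p) V} (hW : Inv T W) (f : (ZMod p)[X]) {v : V} (hv : v ∈ W) :
    aeval T f v ∈ W := by
  induction f using Polynomial.induction_on' generalizing v with
  | add f g hf hg => rw [map_add, LinearMap.add_apply]; exact W.add_mem (hf hv) (hg hv)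
  | monomial n c =>
    rw [aeval_monomial, ← Algebra.smul_def, LinearMap.smul_apply]
    refine W.smul_mem c ?_
    induction n with
    | zero => simpa using hv
    | succ n ih => rw [pow_succ', Module.End.mul_apply]; exact hW _ ih

theorem inv_ker (f : (ZMod p)[X]) : Inv T (LinearMap.ker (Polynomial.aeval T f)) := by
  intro v hv
  rw [LinearMap.mem_ker] at hv ⊢
  have : Polynomial.aeval T f * T = T * Polynomial.aeval T f := by
    have h := congrArg (Polynomial.aeval T) (mul_comm f X)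
    rw [map_mul, map_mul, aeval_X] at h
    exact h
  rw [← Module.End.mul_apply, this, Module.End.mul_apply, hv, map_zero]

theorem exists_minimal_inv {T : Module.End (ZMod p) V} (ht : Nontrivial V) :
    ∃ U : Submodule (ZMod p) V, Minimal (fun W => Inv T W ∧ W ≠ ⊥) U := by
  haveI := ht
  haveI : Finite (Submodule (ZMod p) V) :=
    Finite.of_injective (fun W : Submodule (ZMod p) V => (W : Set V)) SetLike.coe_injective
  exact Set.Finite.exists_minimal (Set.toFinite {W : Submodule (ZMod p) V | Inv T W ∧ W ≠ ⊥})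
    ⟨⊤, fun v _ => Submodule.mem_top, top_ne_bot⟩

theorem eq_or_disjoint {U W : Submodule (ZMod p) V}
    (hU : Minimal (fun W => Inv T W ∧ W ≠ ⊥) U) (hW : Minimal (fun W => Inv T W ∧ W ≠ ⊥) W) :
    U = W ∨ U ⊓ W = ⊥ := by
  by_cases h : U ⊓ W = ⊥
  · exact Or.inr h
  · have hi : Inv T (U ⊓ W) := fun v hv => ⟨hU.1.1 v hv.1, hW.1.1 v hv.2⟩
    exact Or.inl (le_antisymm ((hU.2 ⟨hi, h⟩ inf_le_left).trans inf_le_right)
      ((hW.2 ⟨hi, h⟩ inf_le_right).trans inf_le_left))

theorem aeval_eq_zero_of_apply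
    (hcov : ∀ a : V, a ≠ 0 → ∃ S, Minimal (fun W => Inv T W ∧ W ≠ ⊥) S ∧ a ∈ S)
    (f : (ZMod p)[X]) {a : V} (ha : a ≠ 0) (hfa : aeval T f a = 0) : aeval T f = 0 := by
  obtain ⟨Sa, hSa, haSa⟩ := hcov a ha
  have hker : ∀ u ∈ Sa, aeval T f u = 0 := by
    intro u hu
    have h1 : Inv T (Sa ⊓ LinearMap.ker (aeval T f)) :=
      fun v hv => ⟨hSa.1.1 v hv.1, inv_ker f v hv.2⟩
    have h2 : Sa ⊓ LinearMap.ker (aeval T f) ≠ ⊥ := fun h => ha <| by
      have : a ∈ Sa ⊓ LinearMap.ker (aeval T f) := ⟨haSa, LinearMap.mem_ker.2 hfa⟩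
      rw [h] at this
      exact (Submodule.mem_bot _).1 this
    exact LinearMap.mem_ker.1 ((hSa.2 ⟨h1, h2⟩ inf_le_left) hu).2
  refine LinearMap.ext fun v => ?_
  by_cases hv : v ∈ Sa
  · exact hker v hv
  have hv0 : v ≠ 0 := fun h => hv (h ▸ Sa.zero_mem)
  obtain ⟨Sv, hSv, hvSv⟩ := hcov v hv0
  have hdis : Sv ⊓ Sa = ⊥ := (eq_or_disjoint hSv hSa).resolve_left fun h => hv (h ▸ hvSv)
  have hs : v + a ≠ 0 := fun h => hv <| by
    rw [eq_neg_of_add_eq_zero_left h]; exact Sa.neg_mem haSa
  obtain ⟨Ss, hSs, hsSs⟩ := hcov (v + a) hs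
  have h1 : aeval T f v ∈ Sv ⊓ Ss := by
    refine ⟨hSv.1.1.aeval f hvSv, ?_⟩
    have := hSs.1.1.aeval f hsSs
    rwa [map_add, hfa, add_zero] at this
  rcases eq_or_disjoint hSv hSs with h | h
  · exfalso
    apply ha
    have : a ∈ Sv ⊓ Sa := ⟨by
      have := Sv.sub_mem (h ▸ hsSs) hvSv
      simpa using this, haSa⟩
    rw [hdis] at this
    exact (Submodule.mem_bot _).1 this
  · rw [h] at h1
    exact (Submodule.mem_bot _).1 h1

end Invariant

theorem conj_aeval {T T' : Module.End (ZMod p) V} (b : V ≃ₗ[ZMod p] V)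
    (hb : ∀ v, b (T v) = T' (b v)) (f : (ZMod p)[X]) (v : V) :
    b (aeval T f v) = aeval T' f (b v) := by
  induction f using Polynomial.induction_on' generalizing v with
  | add f g hf hg => simp [map_add, hf, hg]
  | monomial n c =>
    simp only [aeval_monomial, ← Algebra.smul_def, LinearMap.smul_apply, map_smul]
    congr 1
    induction n generalizing v with
    | zero => simp
    | succ n ih => rw [pow_succ, Module.End.mul_apply, ih, hb, ← Module.End.mul_apply, ← pow_succ]

/-- If the normalizer of a fixed point free element of order `q` is transitive on non-zero vectors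
and induces all powers on the element, then `p` is a primitive root modulo `q`. -/
theorem orderOf_eq_of_transitive [Nontrivial V] (hpq : p ≠ q) (T : Module.End (ZMod p) V)
    (hT : T ≠ 1) (hsum : ∑ i ∈ Finset.range q, T ^ i = 0)
    (htr : ∀ a c : V, a ≠ 0 → c ≠ 0 → ∃ b : V ≃ₗ[ZMod p] V, b a = c ∧
      (∃ k : ℕ, ∀ v, b (T v) = (T ^ k) (b v)) ∧ ∃ l : ℕ, ∀ v, T (b v) = b ((T ^ l) v))
    (hpow : ∀ k : ℕ, k.Coprime q → ∃ b : V ≃ₗ[ZMod p] V, ∀ v, b (T v) = (T ^ k) (b v)) :
    orderOf (p : ZMod q) = q - 1 := by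
  have hinvpow : ∀ {W : Submodule (ZMod p) V}, Inv T W → ∀ (n : ℕ) {v}, v ∈ W → (T ^ n) v ∈ W := by
    intro W hW n
    induction n with
    | zero => intro v hv; simpa using hv
    | succ n ih => intro v hv; rw [pow_succ, Module.End.mul_apply]; exact ih (hW _ hv)
  have hcov : ∀ a : V, a ≠ 0 → ∃ S, Minimal (fun W => Inv T W ∧ W ≠ ⊥) S ∧ a ∈ S := by
    intro a ha
    obtain ⟨U, hU⟩ := exists_minimal_inv (p := p) (T := T) ‹Nontrivial V›
    obtain ⟨u, hu, hu0⟩ := (Submodule.ne_bot_iff _).1 hU.1.2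
    obtain ⟨b, hba, ⟨k, hk⟩, l, hl⟩ := htr u a hu0 ha
    refine ⟨U.map b.toLinearMap, ⟨⟨?_, ?_⟩, ?_⟩, hba ▸ Submodule.mem_map_of_mem hu⟩
    · rintro _ ⟨v, hv, rfl⟩
      exact ⟨(T ^ l) v, hinvpow hU.1.1 l hv, (hl v).symm⟩
    · intro h
      exact ha <| (Submodule.mem_bot _).1 (h ▸ hba ▸ Submodule.mem_map_of_mem (f := b.toLinearMap) hu)
    · rintro W ⟨hW, hW0⟩ hle
      have h1 : Inv T (W.comap b.toLinearMap) := fun v hv => by
        show b (T v) ∈ W
        rw [hk v]; exact hinvpow hW k hv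
      have h2 : W.comap b.toLinearMap ≤ U := fun v hv => by
        obtain ⟨v', hv', e⟩ := hle hv
        exact b.injective e ▸ hv'
      have h3 : W.comap b.toLinearMap ≠ ⊥ := by
        obtain ⟨w, hw, hw0⟩ := (Submodule.ne_bot_iff _).1 hW0
        refine (Submodule.ne_bot_iff _).2 ⟨b.symm w, ?_, ?_⟩
        · show b (b.symm w) ∈ W
          rwa [b.apply_symm_apply]
        · simpa using hw0
      rintro _ ⟨v, hv, rfl⟩
      exact hU.2 ⟨h1, h3⟩ h2 hv
  have hint : IsIntegral (ZMod p) T := IsIntegral.of_finite (ZMod p) T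
  set μ := minpoly (ZMod p) T with hμ
  have hirr : Irreducible μ := by
    refine irreducible_iff.2 ⟨minpoly.not_isUnit _ _, fun f g h => ?_⟩
    have h0 : aeval T f * aeval T g = 0 := by rw [← map_mul, ← h, hμ, minpoly.aeval]
    have hμ0 : μ ≠ 0 := minpoly.ne_zero hint
    rcases eq_or_ne (aeval T g) 0 with hg | hg
    · refine Or.inl ?_
      obtain ⟨c, hc⟩ := minpoly.dvd (ZMod p) T hg
      rw [← hμ] at hc
      refine IsUnit.of_mul_eq_one c (mul_left_cancel₀ hμ0 ?_)
      rw [mul_one]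
      calc μ * (f * c) = f * (μ * c) := by ring
        _ = μ := by rw [← hc, h]
    · obtain ⟨a, ha⟩ : ∃ a, aeval T g a ≠ 0 := by
        by_contra hne
        push Not at hne
        exact hg (LinearMap.ext hne)
      refine Or.inr ?_
      have hf : aeval T f = 0 := aeval_eq_zero_of_apply hcov f ha (by
        rw [← Module.End.mul_apply, h0]; rfl)
      obtain ⟨c, hc⟩ := minpoly.dvd (ZMod p) T hf
      rw [← hμ] at hc
      refine IsUnit.of_mul_eq_one c (mul_left_cancel₀ hμ0 ?_)
      rw [mul_one]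
      calc μ * (g * c) = (μ * c) * g := by ring
        _ = μ := by rw [← hc, h]
  have hdvd : μ ∣ cyclotomic q (ZMod p) := by
    refine minpoly.dvd _ _ ?_
    rw [cyclotomic_prime, map_sum]
    simpa using hsum
  have hpn : p.Coprime q := (Nat.coprime_primes Fact.out Fact.out).2 hpq
  have hdeg := natDegree_of_dvd_cyclotomic_of_irreducible (K := ZMod p) (p := p) (f := 1)
    (by simp) hpn hdvd hirr
  have hord : orderOf (p : ZMod q) = μ.natDegree := by
    rw [hdeg, ← orderOf_units]
    simp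
  have hle : orderOf (p : ZMod q) ≤ q - 1 := by
    rw [hord, hdeg]
    refine (orderOf_le_card_univ).trans ?_
    rw [ZMod.card_units q]
  refine le_antisymm hle ?_
  rw [hord]
  haveI : Fact (Irreducible μ) := ⟨hirr⟩
  classical
  set r := AdjoinRoot.root μ
  have hXq : μ ∣ X ^ q - 1 := hdvd.trans (cyclotomic.dvd_X_pow_sub_one q _)
  have hrq : r ^ q = 1 := by
    obtain ⟨c, hc⟩ := hXq
    have := congrArg (aeval r) hc
    rw [map_mul, show aeval r μ = 0 from (AdjoinRoot.aeval_eq μ).trans AdjoinRoot.mk_self,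
      zero_mul] at this
    simpa [sub_eq_zero] using this
  have hr1 : r ≠ 1 := by
    intro h
    apply hT
    have h1 : μ ∣ X - 1 := by
      rw [← AdjoinRoot.mk_eq_zero, map_sub, map_one, AdjoinRoot.mk_X, ← h, sub_self]
    obtain ⟨c, hc⟩ := h1
    have := congrArg (aeval T) hc
    rw [map_mul, hμ, minpoly.aeval, zero_mul] at this
    simpa [sub_eq_zero] using this
  have hordr : orderOf r = q := orderOf_eq_prime hrq hr1
  have hroot : ∀ k ∈ Finset.Ico 1 q, r ^ k ∈ (μ.aroots (AdjoinRoot μ)).toFinset := by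
    intro k hk
    rw [Finset.mem_Ico] at hk
    rw [Multiset.mem_toFinset, mem_aroots]
    refine ⟨hirr.ne_zero, ?_⟩
    obtain ⟨b, hb⟩ := hpow k ((Nat.coprime_comm.1 ((Fact.out : q.Prime).coprime_iff_not_dvd.2
      (fun hd => by have := Nat.le_of_dvd (by omega) hd; omega))))
    have hTk : aeval (T ^ k) μ = 0 := by
      refine LinearMap.ext fun v => ?_
      obtain ⟨w, rfl⟩ := b.surjective v
      rw [← conj_aeval b hb, hμ, minpoly.aeval]
      simp
    have h1 : μ ∣ μ.comp (X ^ k) := by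
      refine minpoly.dvd _ _ ?_
      rw [aeval_comp, map_pow, aeval_X, hTk]
    obtain ⟨c, hc⟩ := h1
    have := congrArg (aeval r) hc
    rw [aeval_comp, map_pow, aeval_X, map_mul,
      show aeval r μ = 0 from (AdjoinRoot.aeval_eq μ).trans AdjoinRoot.mk_self, zero_mul] at this
    exact this
  have hinj : Set.InjOn (fun k => r ^ k) (Finset.Ico 1 q : Finset ℕ) := by
    intro i hi j hj e
    refine pow_injOn_Iio_orderOf ?_ ?_ e
    · simp only [Finset.coe_Ico, Set.mem_Ico] at hi
      rw [Set.mem_Iio, hordr]; exact hi.2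
    · simp only [Finset.coe_Ico, Set.mem_Ico] at hj
      rw [Set.mem_Iio, hordr]; exact hj.2
  have h2 := Finset.card_le_card_of_injOn (fun k => r ^ k) hroot hinj
  rw [Nat.card_Ico] at h2
  refine h2.trans ((Multiset.toFinset_card_le _).trans ?_)
  exact (card_roots' _).trans (natDegree_map_le)

theorem aeval_cyclotomic (S : Module.End (ZMod p) V) (hS : ∑ i ∈ Finset.range q, S ^ i = 0) :
    ∀ g ∈ Ideal.span {cyclotomic q (ZMod p)}, (aeval S).toRingHom g = 0 := by
  intro g hg
  obtain ⟨c, rfl⟩ := Ideal.mem_span_singleton.1 hg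
  show aeval S (cyclotomic q (ZMod p) * c) = 0
  rw [map_mul, cyclotomic_prime, map_sum]
  simp only [map_pow, aeval_X, hS, zero_mul]

/-- Two fixed point free actions of a group of order `q` are equivalent when `p` is a primitive
root modulo `q`, by a map sending any non-zero vector to any other. -/
theorem exists_intertwine (hprim : orderOf (p : ZMod q) = q - 1) (hpq : p ≠ q)
    {W : Type*} [AddCommGroup W] [Module (ZMod p) W] [Finite W] (hcard : Nat.card V = Nat.card W)
    (T : Module.End (ZMod p) V) (T' : Module.End (ZMod p) W)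
    (hT : ∑ i ∈ Finset.range q, T ^ i = 0) (hT' : ∑ i ∈ Finset.range q, T' ^ i = 0)
    {y : V} {y' : W} (hy : y ≠ 0) (hy' : y' ≠ 0) :
    ∃ a : V ≃+ W, a y = y' ∧ ∀ v, a (T v) = T' (a v) := by
  have hq : q.Prime := Fact.out
  have hpn : ¬ p ∣ q := fun h => hpq ((Nat.prime_dvd_prime_iff_eq Fact.out hq).1 h)
  have hirr : Irreducible (cyclotomic q (ZMod p)) := by
    refine ZMod.irreducible_of_dvd_cyclotomic_of_natDegree hpn dvd_rfl ?_
    rw [natDegree_cyclotomic, Nat.totient_prime hq, ← hprim, ← orderOf_units]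
    simp
  haveI : Fact (Irreducible (cyclotomic q (ZMod p))) := ⟨hirr⟩
  let K := AdjoinRoot (cyclotomic q (ZMod p))
  let fV : K →+* Module.End (ZMod p) V := Ideal.Quotient.lift _ (aeval T).toRingHom (aeval_cyclotomic T hT)
  let fW : K →+* Module.End (ZMod p) W := Ideal.Quotient.lift _ (aeval T').toRingHom (aeval_cyclotomic T' hT')
  letI : Module K V := Module.compHom V fV
  letI : Module K W := Module.compHom W fW
  haveI : Module.Finite K V := Module.Finite.of_finite
  haveI : Module.Finite K W := Module.Finite.of_finite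
  haveI : Finite K := by
    haveI := (cyclotomic.monic q (ZMod p)).finite_adjoinRoot
    exact Module.finite_of_finite (ZMod p)
  have hfr : Module.finrank K V = Module.finrank K W := by
    apply Nat.pow_right_injective (Finite.one_lt_card (α := K))
    show Nat.card K ^ _ = Nat.card K ^ _
    rw [← Module.natCard_eq_pow_finrank, ← Module.natCard_eq_pow_finrank, hcard]
  obtain ⟨C, hC⟩ := Submodule.exists_isCompl (K ∙ y)
  obtain ⟨C', hC'⟩ := Submodule.exists_isCompl (K ∙ y')
  have hCC : Module.finrank K C = Module.finrank K C' := by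
    have h1 := Submodule.finrank_add_eq_of_isCompl hC
    have h2 := Submodule.finrank_add_eq_of_isCompl hC'
    rw [finrank_span_singleton hy] at h1
    rw [finrank_span_singleton hy'] at h2
    omega
  let e1 : (K ∙ y) ≃ₗ[K] (K ∙ y') :=
    (LinearEquiv.toSpanNonzeroSingleton K V y hy).symm.trans
      (LinearEquiv.toSpanNonzeroSingleton K W y' hy')
  let e : V ≃ₗ[K] W := (Submodule.prodEquivOfIsCompl _ _ hC).symm.trans
    ((e1.prodCongr (LinearEquiv.ofFinrankEq C C' hCC)).trans
      (Submodule.prodEquivOfIsCompl _ _ hC'))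
  have hey : (Submodule.prodEquivOfIsCompl _ _ hC).symm y =
      (⟨y, Submodule.mem_span_singleton_self y⟩, 0) := by
    rw [LinearEquiv.symm_apply_eq]; simp
  have hsym : (LinearEquiv.toSpanNonzeroSingleton K V y hy).symm
      ⟨y, Submodule.mem_span_singleton_self y⟩ = 1 := by
    rw [LinearEquiv.symm_apply_eq]; ext; simp
  refine ⟨e.toAddEquiv, ?_, fun v => ?_⟩
  · show e y = y'
    simp [e, e1, hey, hsym]
  · show e (T v) = T' (e v)
    have h1 : AdjoinRoot.root (cyclotomic q (ZMod p)) • v = T v := by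
      show aeval T X v = T v
      rw [aeval_X]
    have h2 : AdjoinRoot.root (cyclotomic q (ZMod p)) • e v = T' (e v) := by
      show aeval T' X (e v) = T' (e v)
      rw [aeval_X]
    rw [← h1, map_smul, h2]

/-- Endomorphisms of a `ZMod p`-module as linear maps. -/
def linHom {A : Type*} [AddCommGroup A] [Module (ZMod p) A] :
    AddMonoid.End A →+* Module.End (ZMod p) A where
  toFun f := f.toZModLinearMap p
  map_one' := rfl
  map_mul' _ _ := rfl
  map_zero' := rfl
  map_add' _ _ := rfl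

theorem orderOf_eq_of_transitive_aux {A : Type*} [AddCommGroup A] [Finite A] [Nontrivial A]
    [Module (ZMod p) A] (hpq : p ≠ q) (T : AddMonoid.End A)
    (hT : T ≠ 1) (hsum : ∑ i ∈ Finset.range q, T ^ i = 0)
    (htr : ∀ a c : A, a ≠ 0 → c ≠ 0 → ∃ b : A ≃+ A, b a = c ∧
      (∃ k : ℕ, ∀ v, b (T v) = (T ^ k) (b v)) ∧ ∃ l : ℕ, ∀ v, T (b v) = b ((T ^ l) v))
    (hpow : ∀ k : ℕ, k.Coprime q → ∃ b : A ≃+ A, ∀ v, b (T v) = (T ^ k) (b v)) :
    orderOf (p : ZMod q) = q - 1 := by
  have hTk : ∀ (k : ℕ) (v : A), (linHom (p := p) T ^ k) v = (T ^ k) v := fun k v => by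
    rw [← map_pow]; rfl
  have lift : ∀ b : A ≃+ A, ∃ b' : A ≃ₗ[ZMod p] A, ∀ v, b' v = b v := fun b =>
    ⟨{ b with map_smul' := fun c v => ZMod.map_smul b.toAddMonoidHom c v }, fun _ => rfl⟩
  refine orderOf_eq_of_transitive (V := A) hpq (linHom T) ?_ ?_ ?_ ?_
  · intro h
    exact hT (DFunLike.ext _ _ fun v => LinearMap.congr_fun h v)
  · rw [← Finset.sum_congr rfl fun i _ => map_pow (linHom (p := p)) T i, ← map_sum, hsum, map_zero]
  · intro a c ha hc
    obtain ⟨b, hba, ⟨k, hk⟩, l, hl⟩ := htr a c ha hc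
    obtain ⟨b', hb'⟩ := lift b
    refine ⟨b', (hb' a).trans hba, ⟨k, fun v => ?_⟩, l, fun v => ?_⟩
    · rw [hb', hb', hTk]; exact hk v
    · rw [hb', hb', hTk]; exact hl v
  · intro k hk
    obtain ⟨b, hb⟩ := hpow k hk
    obtain ⟨b', hb'⟩ := lift b
    exact ⟨b', fun v => by rw [hb', hb', hTk]; exact hb v⟩

/-- `orderOf_eq_of_transitive` for additive endomorphisms. -/
theorem orderOf_eq_of_transitive' {A : Type*} [AddCommGroup A] [Finite A] [Nontrivial A]
    (hexp : ∀ v : A, p • v = 0) (hpq : p ≠ q) (T : AddMonoid.End A)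
    (hT : T ≠ 1) (hsum : ∑ i ∈ Finset.range q, T ^ i = 0)
    (htr : ∀ a c : A, a ≠ 0 → c ≠ 0 → ∃ b : A ≃+ A, b a = c ∧
      (∃ k : ℕ, ∀ v, b (T v) = (T ^ k) (b v)) ∧ ∃ l : ℕ, ∀ v, T (b v) = b ((T ^ l) v))
    (hpow : ∀ k : ℕ, k.Coprime q → ∃ b : A ≃+ A, ∀ v, b (T v) = (T ^ k) (b v)) :
    orderOf (p : ZMod q) = q - 1 := by
  letI : Module (ZMod p) A := AddCommGroup.zmodModule hexp
  exact orderOf_eq_of_transitive_aux hpq T hT hsum htr hpow

theorem exists_intertwine_aux (hprim : orderOf (p : ZMod q) = q - 1) (hpq : p ≠ q)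
    {A : Type*} [AddCommGroup A] [Finite A] [Module (ZMod p) A]
    (T T' : AddMonoid.End A)
    (hT : ∑ i ∈ Finset.range q, T ^ i = 0) (hT' : ∑ i ∈ Finset.range q, T' ^ i = 0)
    {y y' : A} (hy : y ≠ 0) (hy' : y' ≠ 0) :
    ∃ a : A ≃+ A, a y = y' ∧ ∀ v, a (T v) = T' (a v) := by
  have key : ∀ S : AddMonoid.End A, ∑ i ∈ Finset.range q, S ^ i = 0 →
      ∑ i ∈ Finset.range q, linHom (p := p) S ^ i = 0 := fun S hS => by
    rw [← Finset.sum_congr rfl fun i _ => map_pow (linHom (p := p)) S i, ← map_sum, hS, map_zero]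
  exact exists_intertwine hprim hpq rfl (linHom (p := p) T) (linHom (p := p) T') (key T hT)
    (key T' hT') hy hy'

/-- `exists_intertwine` for additive endomorphisms. -/
theorem exists_intertwine' (hprim : orderOf (p : ZMod q) = q - 1) (hpq : p ≠ q)
    {A : Type*} [AddCommGroup A] [Finite A] (hexp : ∀ v : A, p • v = 0)
    (T T' : AddMonoid.End A)
    (hT : ∑ i ∈ Finset.range q, T ^ i = 0) (hT' : ∑ i ∈ Finset.range q, T' ^ i = 0)
    {y y' : A} (hy : y ≠ 0) (hy' : y' ≠ 0) :
    ∃ a : A ≃+ A, a y = y' ∧ ∀ v, a (T v) = T' (a v) := by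
  letI : Module (ZMod p) A := AddCommGroup.zmodModule hexp
  exact exists_intertwine_aux hprim hpq T T' hT hT' hy hy'

end Cfsg.Agent.FGS3
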