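import Cfsg.Agent.FGS3.F4InvCert
import Cfsg.Agent.Chev.TwistUnip
import Cfsg.Agent.Chev.CharTwoWords

/-! # Soundness of the decision tree for involutions of F₄ in characteristic two -/

set_option autoImplicit false
set_option maxHeartbeats 1000000
set_option linter.unusedSectionVars false

universe u

namespace Cfsg.Agent.FGS3.F4Inv

open Cfsg.Lie Cfsg.Agent.Chev
open scoped Matrix MatrixGroups

variable {F : Type u} [Field F] [CharP F 2]

/-- The certificate of F₄. -/
noncomputable abbrev cF : Cert.{u} chevF4 := certF4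

local notation "X" => Cert.xu cF

/-- The subgroup of a list of roots. -/
noncomputable abbrev W (F : Type u) [Field F] (S : List ℕ) : Subgroup (GL chevF4.Idx F) :=
  spanGroup chevF4 F (fun r => r ∈ S)

/-- Closedness as a proposition. -/
structure Cl (S : List ℕ) : Prop where
  eq : S = posL.filter (fun r => decide (r ∈ S))
  closed : ∀ a ∈ S, ∀ b ∈ S, ∀ t ∈ termsOf a b, t.1 ∈ S ∧ a < t.1 ∧ b < t.1

theorem cl_of_clB {S : List ℕ} (h : clB S = true) : Cl S := by
  simp only [clB, Bool.and_eq_true, decide_eq_true_eq, List.all_eq_true, Bool.or_eq_true,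
    Bool.not_eq_true', List.contains_eq_mem] at h
  refine ⟨h.1, fun a ha b hb t ht => ?_⟩
  obtain ⟨p, hp, htp⟩ := List.mem_flatMap.1 ht
  rw [List.mem_filter, beq_iff_eq] at hp
  obtain ⟨hp1, rfl⟩ := hp
  rcases h.2 a ha p hp1 with hn | hall
  · simp [hb] at hn
  · obtain ⟨⟨h1, h2⟩, h3⟩ := hall t htp
    exact ⟨h1, Nat.blt_eq ▸ h2, Nat.blt_eq ▸ h3⟩

theorem mem_posL {r : ℕ} : r ∈ posL ↔ 24 ≤ r ∧ r < 48 := by
  constructor
  · intro h
    obtain ⟨i, hi, rfl⟩ := List.mem_map.1 h
    rw [List.mem_range] at hi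
    omega
  · rintro ⟨h1, h2⟩
    exact List.mem_map.2 ⟨r - 24, List.mem_range.2 (by omega), by omega⟩

theorem Cl.pos {S : List ℕ} (h : Cl S) {r : ℕ} (hr : r ∈ S) : r ∈ posL :=
  (List.mem_filter.1 (h.eq ▸ hr)).1

theorem Cl.nodup {S : List ℕ} (h : Cl S) : S.Nodup := by
  rw [h.eq]
  exact (List.Nodup.map (fun a b e => by simpa using e) List.nodup_range).filter _

theorem Cl.sorted {S : List ℕ} (h : Cl S) : S.Pairwise (· < ·) := by
  rw [h.eq]
  exact (List.pairwise_lt_range.map _ fun a b e => by omega).filter _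

theorem Cl.tail {a : ℕ} {l : List ℕ} (h : Cl (a :: l)) : Cl l := by
  have hs := List.pairwise_cons.1 h.sorted
  have hnd := List.nodup_cons.1 h.nodup
  refine ⟨?_, fun x hx y hy t ht => ?_⟩
  · have e1 : l = (a :: l).filter (fun r => decide (r ∈ l)) := by
      rw [List.filter_cons_of_neg (by simpa using hnd.1)]
      exact (List.filter_eq_self.2 fun r hr => by simpa using hr).symm
    conv_lhs => rw [e1, h.eq]
    rw [List.filter_filter]
    refine List.filter_congr fun r _ => ?_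
    by_cases hr : r ∈ l <;> simp [hr]
  · obtain ⟨h1, h2, h3⟩ := h.closed x (List.mem_cons_of_mem _ hx) y (List.mem_cons_of_mem _ hy) t ht
    rcases List.mem_cons.1 h1 with e | e
    · have := hs.1 x hx; omega
    · exact ⟨e, h2, h3⟩

theorem xu_sq (r : ℕ) (t : F) : X r t * X r t = 1 := by
  rw [cF.xu_add, CharTwo.add_self_eq_zero, cF.xu_zero]

theorem xu_inv' (r : ℕ) (t : F) : (X r t)⁻¹ = X r t := by rw [cF.xu_inv, CharTwo.neg_eq]

theorem neg_ne_of {g s : ℕ} (hg : g < 48) (hs : s < 48) (h : g + s ≠ 47) : s ≠ chevF4.neg g := by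
  rw [neg_ok g hg]; omega

theorem wu_terms_mem {S : List ℕ} {g s : ℕ} (hg : g < 48) (hs : s ∈ posL) (hne : s ≠ g)
    (h : ∀ t ∈ termsOf g s, t.1 ∈ S) (t v : F) : cF.wu (chevF4.commWord F g s (-t) v) ∈ W F S := by
  refine Subgroup.list_prod_mem _ fun x hx => ?_
  obtain ⟨p, hp, rfl⟩ := List.mem_map.1 hx
  obtain ⟨c, hc, rfl⟩ := List.mem_map.1 hp
  by_cases hodd : c.2.1 % 2 = 0
  · have h0 : ((c.2.1 : ℤ) : F) = 0 := (CharP.intCast_eq_zero_iff F 2 _).mpr (Int.dvd_of_emod_eq_zero hodd)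
    simp [h0, cF.xu_zero]
  · refine cF.xu_mem_span (h (c.1, c.2.2.1, c.2.2.2) ?_) _
    rw [table_ok g hg s hs hne]
    exact List.mem_map.2 ⟨c, List.mem_filter.2 ⟨hc, by simpa using hodd⟩, rfl⟩

/-- A root group normalises the span of a closed set it moves into itself. -/
theorem conj_span {S S1 : List ℕ} {g : ℕ} (hg : g < 48) (hS : ∀ s ∈ S, s ∈ posL)
    (h : ∀ s ∈ S, s ∈ S1 ∧ (s = g ∨ (g + s ≠ 47 ∧ ∀ t ∈ termsOf g s, t.1 ∈ S1)))
    (t : F) {x : GL chevF4.Idx F} (hx : x ∈ W F S) : X g t * x * (X g t)⁻¹ ∈ W F S1 := by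
  have hle : W F S ≤ (W F S1).comap (MulAut.conj (X g t)).toMonoidHom := by
    refine cF.span_le fun s hs v => ?_
    show X g t * X s v * (X g t)⁻¹ ∈ W F S1
    obtain ⟨h1, h2⟩ := h s hs
    by_cases he : s = g
    · subst he
      rw [cF.xu_inv, cF.xu_add, cF.xu_add]
      exact cF.xu_mem_span h1 _
    · obtain ⟨h47, hterms⟩ := h2.resolve_left he
      have hs48 : s < 48 := (mem_posL.1 (hS s hs)).2
      rw [cF.conj_xu (show g < chevF4.nroots from hg) (show s < chevF4.nroots from hs48) he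
        (neg_ne_of hg hs48 h47)]
      exact mul_mem (cF.xu_mem_span h1 _) (wu_terms_mem hg (hS s hs) he hterms t v)
  exact hle hx

theorem span_decomp {S : List ℕ} {b : ℕ} (hS : Cl S) (hb : b ∈ S) (h' : ∀ a ∈ S, a ≠ b →
    ∀ t ∈ termsOf b a, t.1 ≠ b) {g : GL chevF4.Idx F} (hg : g ∈ W F S) :
    ∃ t : F, ∃ k ∈ W F (S.erase b), g = k * X b t := by
  have hmem : ∀ r, r ∈ S.erase b ↔ r ≠ b ∧ r ∈ S := fun r => hS.nodup.mem_erase_iff
  have hn : chevF4.rootSubgroup F b ≤ Subgroup.normalizer (W F (S.erase b) : Set (GL chevF4.Idx F)) := by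
    intro y hy
    obtain ⟨t, rfl⟩ := cF.mem_rootSubgroup.1 hy
    have hb48 := (mem_posL.1 (hS.pos hb)).2
    have key : ∀ t : F, ∀ r, r ∈ S.erase b → ∀ v, X b t * X r v * (X b t)⁻¹ ∈ W F (S.erase b) := fun t r hr v =>
      conj_span hb48 (fun s hs => hS.pos ((hmem s).1 hs).2) (fun s hs => by
        obtain ⟨hsb, hsS⟩ := (hmem s).1 hs
        refine ⟨hs, Or.inr ⟨?_, fun u hu => (hmem _).2 ⟨h' s hsS hsb u hu, (hS.closed b hb s hsS u hu).1⟩⟩⟩
        have := mem_posL.1 (hS.pos hb)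
        have := mem_posL.1 (hS.pos hsS)
        omega) t (cF.xu_mem_span hr v)
    refine cF.mem_normalizer_span (key t) fun r hr v => ?_
    have := key t r hr v
    rw [xu_inv'] at this ⊢
    exact this
  have hg' : g ∈ W F (S.erase b) ⊔ chevF4.rootSubgroup F b := by
    refine cF.span_le (fun r hr t => ?_) hg
    by_cases he : r = b
    · subst he; exact Subgroup.mem_sup_right (cF.mem_rootSubgroup.2 ⟨t, rfl⟩)
    · exact Subgroup.mem_sup_left (cF.xu_mem_span ((hmem r).2 ⟨he, hr⟩) t)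
  obtain ⟨k, hk, y, hy, e⟩ := (Cert.mem_sup_of_normalised hn).1 hg'
  obtain ⟨t, rfl⟩ := cF.mem_rootSubgroup.1 hy
  exact ⟨t, k, hk, e.symm⟩

/-- Every element of a closed span is a product in the order of the roots. -/
theorem span_prod : ∀ {S : List ℕ}, Cl S → ∀ {g : GL chevF4.Idx F}, g ∈ W F S →
    ∃ f : ℕ → F, (∀ r, r ∉ S → f r = 0) ∧ g = cF.wu (S.map fun r => (r, f r))
  | [], _, g, hg => ⟨fun _ => 0, fun _ _ => rfl, by
      rw [W, cF.span_empty (fun r (hr : r ∈ ([] : List ℕ)) => List.not_mem_nil hr), Subgroup.mem_bot] at hg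
      simp [hg, Cert.wu]⟩
  | a :: l, h, g, hg => by
      obtain ⟨t, k, hk, e⟩ := span_decomp h List.mem_cons_self (fun x hx _ u hu => by
        have := (h.closed a List.mem_cons_self x hx u hu).2.1; omega) (inv_mem hg)
      rw [List.erase_cons_head] at hk
      obtain ⟨f, hf, ef⟩ := span_prod h.tail (inv_mem hk)
      have hnd := List.nodup_cons.1 h.nodup
      refine ⟨fun r => if r = a then t else f r, fun r hr => ?_, ?_⟩
      · simp only [List.mem_cons, not_or] at hr
        simp only [if_neg hr.1]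
        exact hf r hr.2
      · rw [List.map_cons, cF.wu_cons]
        simp only [if_true]
        rw [List.map_congr_left (g := fun r => (r, f r)) (fun r hr => by
          rw [if_neg (ne_of_mem_of_not_mem hr hnd.1)]), ← ef]
        rw [← inv_inv g, e, mul_inv_rev, xu_inv']

theorem wu_filter (f : ℕ → F) (p : ℕ → Bool) : ∀ L : List ℕ, (∀ r ∈ L, p r = false → f r = 0) →
    cF.wu (L.map fun r => (r, f r)) = cF.wu ((L.filter p).map fun r => (r, f r))
  | [], _ => rfl
  | a :: l, h => by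
      have ih := wu_filter f p l fun r hr => h r (List.mem_cons_of_mem _ hr)
      by_cases hp : p a = true
      · rw [List.filter_cons_of_pos hp, List.map_cons, List.map_cons, cF.wu_cons, cF.wu_cons, ih]
      · rw [List.filter_cons_of_neg hp, List.map_cons, cF.wu_cons,
          h a List.mem_cons_self (by simpa using hp), cF.xu_zero, one_mul, ih]

theorem span_prodU {S : List ℕ} (hS : Cl S) {g : GL chevF4.Idx F} (hg : g ∈ W F S) :
    ∃ f : ℕ → F, (∀ r, r ∉ S → f r = 0) ∧ g = cF.prodU f := by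
  obtain ⟨f, hf, e⟩ := span_prod hS hg
  refine ⟨f, hf, ?_⟩
  rw [e, Cert.prodU, posL_eq, wu_filter f (fun r => decide (r ∈ S)) posL
    (fun r _ hr => hf r (by simpa using hr)), ← hS.eq]

/-- Indecomposability as a proposition. -/
structure Ind (S : List ℕ) (b : ℕ) : Prop where
  cl : Cl S
  cl' : Cl (S.erase b)
  mem : b ∈ S

theorem ind_of_indB {S : List ℕ} {b : ℕ} (h : indB S b = true) : Ind S b := by
  simp only [indB, Bool.and_eq_true, List.contains_eq_mem, decide_eq_true_eq] at h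
  exact ⟨cl_of_clB h.1.1, cl_of_clB h.1.2, h.2⟩

theorem Ind.mem_erase {S : List ℕ} {b r : ℕ} (h : Ind S b) : r ∈ S.erase b ↔ r ≠ b ∧ r ∈ S :=
  h.cl.nodup.mem_erase_iff

/-- The coefficient of `g` at `b` is `t`. -/
def Has (S : List ℕ) (b : ℕ) (g : GL chevF4.Idx F) (t : F) : Prop :=
  ∃ k ∈ W F (S.erase b), g = k * X b t

theorem Ind.no_self {S : List ℕ} {b : ℕ} (h : Ind S b) :
    ∀ a ∈ S, a ≠ b → ∀ t ∈ termsOf b a, t.1 ≠ b := fun a ha _ t ht => by
  have := (h.cl.closed b h.mem a ha t ht).2.1; omega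

theorem has_exists {S : List ℕ} {b : ℕ} (h : Ind S b) {g : GL chevF4.Idx F} (hg : g ∈ W F S) :
    ∃ t, Has S b g t :=
  span_decomp h.cl h.mem h.no_self hg

theorem Has.mem {S : List ℕ} {b : ℕ} (h : Ind S b) {g : GL chevF4.Idx F} {t : F} (hg : Has S b g t) :
    g ∈ W F S := by
  obtain ⟨k, hk, rfl⟩ := hg
  exact mul_mem (cF.span_mono (fun r hr => (h.mem_erase.1 hr).2) hk) (cF.xu_mem_span h.mem t)

theorem Has.unique {S : List ℕ} {b : ℕ} (h : Ind S b) {g : GL chevF4.Idx F} {t t' : F}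
    (h1 : Has S b g t) (h2 : Has S b g t') : t = t' := by
  obtain ⟨k, hk, rfl⟩ := h1
  obtain ⟨k', hk', e⟩ := h2
  have hm : X b (t + t') ∈ W F (S.erase b) := by
    have : X b (t + t') = k⁻¹ * k' := by
      rw [← cF.xu_add, eq_inv_mul_iff_mul_eq, ← mul_assoc, e, mul_assoc, xu_sq, mul_one]
    rw [this]
    exact mul_mem (inv_mem hk) hk'
  obtain ⟨f, hf, ef⟩ := span_prodU h.cl' hm
  have hbp := h.cl.pos h.mem
  have e2 : X b (t + t') = cF.prodU (fun r => if r = b then t + t' else 0) := by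
    have hone : posL.filter (fun r => decide (r = b)) = [b] := by
      have key : ∀ b ∈ posL, posL.filter (fun r => decide (r = b)) = [b] := by decide
      exact key b hbp
    rw [Cert.prodU, posL_eq, wu_filter _ (fun r => decide (r = b)) posL
      (fun r _ hr => if_neg (by simpa using hr)), hone]
    simp [Cert.wu]
  have hpos : chevF4.IsPosRoot b := Cert.mem_posRoots.1 (posL_eq ▸ hbp)
  have h3 := cF.prodU_inj (e2.symm.trans ef) b hpos
  rw [if_pos rfl, hf b (fun hb => (h.mem_erase.1 hb).1 rfl)] at h3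
  exact CharTwo.add_eq_zero.1 h3

theorem has_one {S : List ℕ} {b : ℕ} : Has S b (1 : GL chevF4.Idx F) 0 :=
  ⟨1, one_mem _, by rw [cF.xu_zero, one_mul]⟩

theorem Has.mul {S : List ℕ} {b : ℕ} (h : Ind S b) {g g' : GL chevF4.Idx F} {t t' : F}
    (h1 : Has S b g t) (h2 : Has S b g' t') : Has S b (g * g') (t + t') := by
  obtain ⟨k, hk, rfl⟩ := h1
  obtain ⟨k', hk', rfl⟩ := h2
  refine ⟨k * (X b t * k' * (X b t)⁻¹), mul_mem hk ?_, ?_⟩
  · refine conj_span (mem_posL.1 (h.cl.pos h.mem)).2 (fun s hs => h.cl.pos (h.mem_erase.1 hs).2) (fun s hs => ?_) t hk'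
    obtain ⟨hsb, hsS⟩ := h.mem_erase.1 hs
    refine ⟨hs, Or.inr ⟨?_, fun u hu => h.mem_erase.2 ⟨h.no_self s hsS hsb u hu,
      (h.cl.closed b h.mem s hsS u hu).1⟩⟩⟩
    have := mem_posL.1 (h.cl.pos h.mem)
    have := mem_posL.1 (h.cl.pos hsS)
    omega
  · rw [← cF.xu_add]; group

theorem Has.inv {S : List ℕ} {b : ℕ} (h : Ind S b) {g : GL chevF4.Idx F} {t : F} (h1 : Has S b g t) :
    Has S b g⁻¹ t := by
  obtain ⟨t', h2⟩ := has_exists h (inv_mem (h1.mem h))
  have h3 := h1.mul h h2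
  rw [mul_inv_cancel] at h3
  rwa [CharTwo.add_eq_zero.1 (h3.unique h has_one)]

theorem Has.mono {S S1 : List ℕ} {b : ℕ} (h : Ind S b) (h1 : Ind S1 b) (hsub : ∀ s ∈ S, s ∈ S1)
    {g : GL chevF4.Idx F} {t : F} (hg : Has S b g t) : Has S1 b g t := by
  obtain ⟨k, hk, rfl⟩ := hg
  exact ⟨k, cF.span_mono (fun r hr => h1.mem_erase.2 ⟨(h.mem_erase.1 hr).1, hsub r (h.mem_erase.1 hr).2⟩) hk, rfl⟩

theorem has_xu {S : List ℕ} {b s : ℕ} (h : Ind S b) (hs : s ∈ S) (v : F) :
    Has S b (X s v) (if s = b then v else 0) := by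
  by_cases he : s = b
  · subst he; rw [if_pos rfl]; exact ⟨1, one_mem _, by rw [one_mul]⟩
  · rw [if_neg he]
    exact ⟨X s v, cF.xu_mem_span (h.mem_erase.2 ⟨he, hs⟩) v, by rw [cF.xu_zero, mul_one]⟩

/-- The coefficient at `b` of a word of commutator terms. -/
theorem has_word {S1 : List ℕ} {b : ℕ} (h : Ind S1 b) (t v : F) : ∀ l : List (ℕ × ℤ × ℕ × ℕ),
    (∀ c ∈ l, c.2.1 % 2 ≠ 0 → c.1 ∈ S1) →
    Has S1 b (cF.wu (l.map fun c => (c.1, (c.2.1 : F) * t ^ c.2.2.1 * v ^ c.2.2.2)))
      ((((((l.filter fun c => decide (c.2.1 % 2 ≠ 0)).map fun c => (c.1, c.2.2.1, c.2.2.2)).filter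
        fun q => q.1 == b).map Prod.snd).map fun e => t ^ e.1 * v ^ e.2).sum)
  | [], _ => by simpa [Cert.wu] using has_one
  | c :: l, hl => by
      have ih := has_word h t v l fun x hx => hl x (List.mem_cons_of_mem _ hx)
      rw [List.map_cons, cF.wu_cons]
      by_cases hodd : c.2.1 % 2 = 0
      · have h0 : ((c.2.1 : ℤ) : F) = 0 := (CharP.intCast_eq_zero_iff F 2 _).mpr (Int.dvd_of_emod_eq_zero hodd)
        simp only [h0, zero_mul, cF.xu_zero, one_mul]
        rw [List.filter_cons_of_neg (by simpa using hodd)]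
        exact ih
      · have h1 : ((c.2.1 : ℤ) : F) = 1 := by
          have := (CharP.intCast_eq_intCast F 2 (a := c.2.1) (b := 1)).2
            (show c.2.1 % ((2 : ℕ) : ℤ) = 1 % ((2 : ℕ) : ℤ) by push_cast; omega)
          simpa using this
        have hc := has_xu h (hl c List.mem_cons_self hodd) (((c.2.1 : ℤ) : F) * t ^ c.2.2.1 * v ^ c.2.2.2)
        have := hc.mul h ih
        rw [List.filter_cons_of_pos (by simpa using hodd), List.map_cons]
        by_cases he : c.1 = b
        · rw [List.filter_cons_of_pos (by simpa using he)]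
          simpa [he, h1] using this
        · rw [List.filter_cons_of_neg (by simpa using he)]
          simpa [he] using this

/-- Facts recorded by `shiftB`. -/
theorem shift_of_shiftB {S S1 : List ℕ} {g : ℕ} (h : shiftB S S1 g = true) :
    g < 48 ∧ ∀ s ∈ S, s ∈ S1 ∧ (s = g ∨ (g + s ≠ 47 ∧ ∀ t ∈ termsOf g s, t.1 ∈ S1)) := by
  simp only [shiftB, Bool.and_eq_true, List.all_eq_true, Bool.or_eq_true, Bool.not_eq_true',
    List.contains_eq_mem, decide_eq_true_eq, beq_iff_eq, beq_eq_false_iff_ne] at h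
  refine ⟨Nat.blt_eq ▸ h.1, fun s hs => ⟨(h.2 s hs).1, (h.2 s hs).2.imp id fun e => ⟨?_, e.2⟩⟩⟩
  have := e.1
  omega

theorem hit_of_hitB {S : List ℕ} {g b : ℕ} {o : Option (ℕ × ℕ × ℕ)} (h : hitB S g b o = true) :
    ∀ s ∈ S, s ≠ g → hits g s b = match (generalizing := false) o with
      | none => []
      | some (u, i, j) => if s = u then [(i, j)] else [] := by
  simp only [hitB, List.all_eq_true, Bool.or_eq_true, beq_iff_eq, decide_eq_true_eq] at h
  exact fun s hs hne => (h s hs).resolve_left hne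

/-- Core of the two shift lemmas. -/
theorem shift_core {S S1 : List ℕ} {g b : ℕ} (hS : Cl S) (hb : Ind S1 b) (hsh : shiftB S S1 g = true) (c : F)
    (φ : GL chevF4.Idx F → F → Prop) (hφ1 : φ 1 0)
    (hφm : ∀ x y, x ∈ W F S → y ∈ W F S → ∀ d, φ (x * y) d → ∃ d1 d2, φ x d1 ∧ φ y d2 ∧ d = d1 + d2)
    (hφi : ∀ x, x ∈ W F S → ∀ d, φ x⁻¹ d → φ x d)
    (hu : ∀ d, φ 1 d → d = 0)
    (hgen : ∀ s ∈ S, ∀ v : F, ∀ d, φ (X s v) d →
      Has S1 b (X g c * X s v * (X g c)⁻¹) ((if s = b then v else 0) + d)) :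
    ∀ x ∈ W F S, ∀ a d, Has S1 b x a → φ x d → Has S1 b (X g c * x * (X g c)⁻¹) (a + d) := by
  intro x hx
  have hsub : W F S ≤ W F S1 := cF.span_mono fun r hr => ((shift_of_shiftB hsh).2 r hr).1
  induction hx using Subgroup.closure_induction with
  | mem y hy =>
    obtain ⟨s, v, hs, e⟩ := hy
    obtain rfl := cF.eq_xu.1 e
    intro a d ha hd
    rw [Has.unique hb ha (has_xu hb ((shift_of_shiftB hsh).2 s hs).1 v)]
    exact hgen s hs v d hd
  | one =>
    intro a d ha hd
    rw [Has.unique hb ha has_one, hu d hd]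
    simpa using has_one
  | mul y z hy hz ihy ihz =>
    intro a d ha hd
    obtain ⟨d1, d2, hd1, hd2, rfl⟩ := hφm y z hy hz d hd
    obtain ⟨a1, ha1⟩ := has_exists hb (hsub hy)
    obtain ⟨a2, ha2⟩ := has_exists hb (hsub hz)
    rw [Has.unique hb ha (ha1.mul hb ha2)]
    have := (ihy a1 d1 ha1 hd1).mul hb (ihz a2 d2 ha2 hd2)
    rw [show a1 + a2 + (d1 + d2) = a1 + d1 + (a2 + d2) by ring,
      show X g c * (y * z) * (X g c)⁻¹ = (X g c * y * (X g c)⁻¹) * (X g c * z * (X g c)⁻¹) by group]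
    exact this
  | inv y hy ihy =>
    intro a d ha hd
    have ha' := ha.inv hb
    rw [inv_inv] at ha'
    have := (ihy a d ha' (hφi y hy d hd)).inv hb
    rwa [show (X g c * y * (X g c)⁻¹)⁻¹ = X g c * y⁻¹ * (X g c)⁻¹ by group] at this

/-- The coefficient at `b` of the conjugate of a generator. -/
theorem conj_gen {S S1 : List ℕ} {g b s : ℕ} (hS : Cl S) (hb : Ind S1 b) (hsh : shiftB S S1 g = true)
    (hs : s ∈ S) (c v : F) :
    Has S1 b (X g c * X s v * (X g c)⁻¹)
      ((if s = b then v else 0) + if s = g then 0 else ((hits g s b).map fun e => c ^ e.1 * v ^ e.2).sum) := by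
  obtain ⟨hg, hall⟩ := shift_of_shiftB hsh
  obtain ⟨hs1, h2⟩ := hall s hs
  by_cases he : s = g
  · subst he
    rw [if_pos rfl, add_zero, cF.xu_inv, cF.xu_add, cF.xu_add, show c + v + -c = v by ring]
    exact has_xu hb hs1 v
  · obtain ⟨h47, hterms⟩ := h2.resolve_left he
    have hs48 : s < 48 := (mem_posL.1 (hS.pos hs)).2
    rw [if_neg he, cF.conj_xu (show g < chevF4.nroots from hg) (show s < chevF4.nroots from hs48) he
      (neg_ne_of hg hs48 h47)]
    refine (has_xu hb hs1 v).mul hb ?_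
    have hw := has_word hb c v (chevF4.commTerms g s) fun x hx hodd =>
      hterms (x.1, x.2.2.1, x.2.2.2) (by
        rw [table_ok g hg s (hS.pos hs) he]
        exact List.mem_map.2 ⟨x, List.mem_filter.2 ⟨hx, by simpa using hodd⟩, rfl⟩)
    rw [hits, table_ok g hg s (hS.pos hs) he]
    simpa [ChevalleyDatum.commWord, neg_neg] using hw

theorem frob_zero {j : ℕ} (hj : j = 1 ∨ j = 2) : (0 : F) ^ j = 0 := zero_pow (by omega)

theorem frob_add {j : ℕ} (hj : j = 1 ∨ j = 2) (x y : F) : (x + y) ^ j = x ^ j + y ^ j := by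
  rcases hj with rfl | rfl
  · simp
  · exact CharTwo.add_sq x y

/-- A conjugation moving the coefficient at `b`. -/
theorem shift_some {S S1 : List ℕ} {g b u i j : ℕ} (hS : Cl S) (hu : Ind S u) (hb : Ind S1 b)
    (hsh : shiftB S S1 g = true) (hh : hitB S g b (some (u, i, j)) = true) (hug : u ≠ g) (hj : j = 1 ∨ j = 2)
    {x : GL chevF4.Idx F} (hx : x ∈ W F S) {a v : F} (ha : Has S1 b x a) (hv : Has S u x v) (c : F) :
    Has S1 b (X g c * x * (X g c)⁻¹) (a + c ^ i * v ^ j) := by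
  refine shift_core hS hb hsh c (fun y d => ∃ v, Has S u y v ∧ d = c ^ i * v ^ j) ?_ ?_ ?_ ?_ ?_
    x hx a _ ha ⟨v, hv, rfl⟩
  · exact ⟨0, has_one, by rw [frob_zero hj, mul_zero]⟩
  · rintro y z hy hz d ⟨w, hw, rfl⟩
    obtain ⟨w1, h1⟩ := has_exists hu hy
    obtain ⟨w2, h2⟩ := has_exists hu hz
    refine ⟨_, _, ⟨w1, h1, rfl⟩, ⟨w2, h2, rfl⟩, ?_⟩
    rw [hw.unique hu (h1.mul hu h2), frob_add hj, mul_add]
  · rintro y hy d ⟨w, hw, rfl⟩
    exact ⟨w, by simpa using hw.inv hu, rfl⟩
  · rintro d ⟨w, hw, rfl⟩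
    rw [hw.unique hu has_one, frob_zero hj, mul_zero]
  · rintro s hs v d ⟨w, hw, rfl⟩
    rw [hw.unique hu (has_xu hu hs v)]
    have h := conj_gen hS hb hsh hs c v
    by_cases he : s = g
    · rw [if_pos he] at h
      rw [if_neg (fun e : s = u => hug (e ▸ he)), frob_zero hj, mul_zero]
      exact h
    · rw [if_neg he, hit_of_hitB hh s hs he] at h
      by_cases hsu : s = u
      · simpa [hsu] using h
      · simpa [hsu, frob_zero hj] using h

/-- A conjugation fixing the coefficient at `b`. -/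
theorem shift_none {S S1 : List ℕ} {g b : ℕ} (hS : Cl S) (hb : Ind S1 b)
    (hsh : shiftB S S1 g = true) (hh : hitB S g b none = true)
    {x : GL chevF4.Idx F} (hx : x ∈ W F S) {a : F} (ha : Has S1 b x a) (c : F) :
    Has S1 b (X g c * x * (X g c)⁻¹) a := by
  have := shift_core hS hb hsh c (fun _ d => d = 0) rfl (fun y z _ _ d hd => ⟨0, 0, rfl, rfl, by simp [hd]⟩)
    (fun _ _ d hd => hd) (fun d hd => hd) (fun s hs v d hd => by
      subst hd
      have h := conj_gen hS hb hsh hs c v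
      by_cases he : s = g
      · simpa [he] using h
      · simpa [he, hit_of_hitB hh s hs he] using h) x hx a 0 ha rfl
  simpa using this

theorem aw_eq {L : List ℕ} (hL : ∀ i ∈ L, i < 4) {x : ℕ} (hx : x < 48) : aw L x = act chevF4 L x := by
  induction L with
  | nil => rfl
  | cons i L ih =>
    rw [List.forall_mem_cons] at hL
    rw [act_cons, ← ih hL.2]
    have hlt : aw L x < 48 := by rw [ih hL.2]; exact cF.{0}.act_lt hL.2 hx
    exact refl_ok i hL.1 (aw L x) hlt

/-- A representative: one of the four normal forms with nonzero coefficients. -/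
def IsNormal (h : GL chevF4.Idx F) : Prop :=
  ∃ S ∈ [[47], [44], [44, 47], [39, 45]], ∃ f : ℕ → F, (∀ r ∈ S, f r ≠ 0) ∧ h = cF.wu (S.map fun r => (r, f r))

/-- The goal at each node. -/
def Good (g : GL chevF4.Idx F) : Prop :=
  g = 1 ∨ ∃ k ∈ chevF4.group F, IsNormal (k * g * k⁻¹)

theorem Good.conj {g k : GL chevF4.Idx F} (hk : k ∈ chevF4.group F) (h : Good (k * g * k⁻¹)) : Good g := by
  rcases h with h | ⟨l, hl, h⟩
  · left
    calc g = k⁻¹ * (k * g * k⁻¹) * k := by group
      _ = 1 := by rw [h]; group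
  · exact Or.inr ⟨l * k, mul_mem hl hk, by rwa [show l * k * g * (l * k)⁻¹ = l * (k * g * k⁻¹) * l⁻¹ by group]⟩

/-- What a node claims. -/
def Claim (F : Type u) [Field F] [CharP F 2] (nd : Node) : Prop :=
  ∀ g : GL chevF4.Idx F, g ∈ W F nd.S → (∀ n ∈ nd.N, ∃ t, t ≠ 0 ∧ Has nd.S n g t) → g * g = 1 → Good g

theorem exists_pow [Finite F] {i : ℕ} (hi : i = 1 ∨ i = 2) (x : F) : ∃ c : F, c ^ i = x := by
  rcases hi with rfl | rfl
  · exact ⟨x, pow_one x⟩
  · obtain ⟨c, hc⟩ : IsSquare x :=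
      FiniteField.isSquare_of_char_two (ringChar.eq_iff.mpr inferInstance : ringChar F = 2) x
    exact ⟨c, by rw [hc, pow_two]⟩

theorem step_ok [Finite F] {prev : List Node} (hprev : ∀ p ∈ prev, Claim F p) {nd : Node}
    (h : ok prev nd = true) : Claim F nd := by
  intro g hg hN h2
  obtain ⟨S, N, rule⟩ := nd
  simp only [ok, Bool.and_eq_true] at h
  obtain ⟨⟨hcl, hNind⟩, hrule⟩ := h
  have hS := cl_of_clB hcl
  simp only [List.all_eq_true] at hNind
  cases rule with
  | one =>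
    left
    simp only [List.isEmpty_iff] at hrule
    subst hrule
    rw [W, cF.span_empty (fun r (hr : r ∈ ([] : List ℕ)) => List.not_mem_nil hr), Subgroup.mem_bot] at hg
    exact hg
  | rep =>
    right
    simp only [Bool.and_eq_true, decide_eq_true_eq] at hrule
    obtain ⟨hNS, hmem⟩ := hrule
    obtain ⟨f, -, e⟩ := span_prod hS hg
    refine ⟨1, one_mem _, S, hmem, f, fun r hr h0 => ?_, by simpa using e⟩
    obtain ⟨t, ht, hh⟩ := hN r (hNS ▸ hr)
    have hI := ind_of_indB (hNind r (hNS ▸ hr))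
    refine ht (hh.unique hI ?_)
    refine ⟨g, ?_, by rw [cF.xu_zero, mul_one]⟩
    rw [e]
    refine Subgroup.list_prod_mem _ fun x hx => ?_
    obtain ⟨p, hp, rfl⟩ := List.mem_map.1 hx
    obtain ⟨s, hs, rfl⟩ := List.mem_map.1 hp
    by_cases hsr : s = r
    · subst hsr
      simp [h0, cF.xu_zero]
    · exact cF.xu_mem_span (hI.mem_erase.2 ⟨hsr, hs⟩) _
  | weyl L c =>
    revert hrule
    cases hc : prev[c]? with
    | none => simp [hc]
    | some ch =>
      simp only [hc, Bool.and_eq_true, List.all_eq_true, List.any_eq_true, List.contains_eq_mem,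
        decide_eq_true_eq, beq_iff_eq, Bool.not_eq_true', beq_eq_false_iff_ne]
      rintro ⟨⟨⟨hL', -⟩, himg⟩, hNc⟩
      have hL : ∀ i ∈ L, i < 4 := fun i hi => Nat.blt_eq ▸ hL' i hi
      set w := cF.nWordElt F L with hw
      have hwG : w ∈ chevF4.group F := by
        refine Subgroup.list_prod_mem _ fun x hx => ?_
        obtain ⟨i, -, rfl⟩ := List.mem_map.1 hx
        rw [cF.nu_eq]
        exact mul_mem (mul_mem (cF.xu_mem_group _ _) (cF.xu_mem_group _ _)) (cF.xu_mem_group _ _)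
      have hconj : ∀ s ∈ S, ∀ v : F, w * X s v * w⁻¹ = X (aw L s) v := fun s hs v => by
        have hs48 := (mem_posL.1 (hS.pos hs)).2
        rw [hw, cF.conj_xu_two hL (show s < chevF4.nroots from hs48), aw_eq hL hs48]
      have hmap : ∀ (T T' : List ℕ), (∀ s ∈ T, s ∈ S ∧ aw L s ∈ T') → ∀ x ∈ W F T, w * x * w⁻¹ ∈ W F T' := by
        intro T T' hT x hx
        have hle : W F T ≤ (W F T').comap (MulAut.conj w).toMonoidHom := cF.span_le fun s hs v => by
          show w * X s v * w⁻¹ ∈ W F T'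
          rw [hconj s (hT s hs).1 v]
          exact cF.xu_mem_span (hT s hs).2 v
        exact hle hx
      refine Good.conj hwG (hprev ch (List.mem_of_getElem? hc) _ (hmap S ch.S (fun s hs => ⟨hs, himg s hs⟩) g hg)
        ?_ ?_)
      · intro n' hn'
        obtain ⟨hind, n, hn, hnn, hne⟩ := hNc n' hn'
        obtain ⟨t, ht, k, hk, e⟩ := hN n hn
        have hI := ind_of_indB (hNind n hn)
        have hI' := ind_of_indB hind
        refine ⟨t, ht, w * k * w⁻¹, hmap _ _ (fun s hs => ?_) k hk, ?_⟩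
        · exact ⟨(hI.mem_erase.1 hs).2, hI'.mem_erase.2 ⟨hne s hs, himg s (hI.mem_erase.1 hs).2⟩⟩
        · rw [e, ← hnn, ← hconj n hI.mem t]; group
      · calc w * g * w⁻¹ * (w * g * w⁻¹) = w * (g * g) * w⁻¹ := by group
          _ = 1 := by rw [h2]; group
  | split r a b =>
    revert hrule
    cases ha : prev[a]? with
    | none => simp [ha]
    | some ca =>
      cases hb : prev[b]? with
      | none => simp [ha, hb]
      | some cb =>
        simp only [ha, hb, Bool.and_eq_true, List.all_eq_true, List.contains_eq_mem,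
          decide_eq_true_eq, Bool.or_eq_true, beq_iff_eq]
        rintro ⟨⟨⟨⟨hr, hSa⟩, hSb⟩, hNa⟩, hNb⟩
        have hI := ind_of_indB hr
        obtain ⟨t, ht⟩ := has_exists hI hg
        by_cases h0 : t = 0
        · have hga : g ∈ W F ca.S := by
            obtain ⟨k, hk, e⟩ := ht
            rw [h0, cF.xu_zero, mul_one] at e
            rw [hSa, e]; exact hk
          refine hprev ca (List.mem_of_getElem? ha) g hga (fun n hn => ?_) h2
          obtain ⟨hnN, hnI⟩ := hNa n hn
          obtain ⟨v, hv, hh⟩ := hN n hnN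
          obtain ⟨v', hv'⟩ := has_exists (ind_of_indB hnI) hga
          have hI' := ind_of_indB (hNind n hnN)
          have := hv'.mono (ind_of_indB hnI) hI' fun s hs => by rw [hSa] at hs; exact (hI.mem_erase.1 hs).2
          exact ⟨v', by rw [this.unique hI' hh]; exact hv, hv'⟩
        · refine hprev cb (List.mem_of_getElem? hb) g (hSb ▸ hg) (fun n hn => ?_) h2
          rw [hSb]
          rcases hNb n hn with rfl | hnN
          · exact ⟨t, h0, ht⟩
          · exact hN n hnN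
  | sq r u b i j c =>
    revert hrule
    cases hc : prev[c]? with
    | none => simp [hc]
    | some ch =>
      simp only [hc, Bool.and_eq_true, List.all_eq_true, List.contains_eq_mem,
        decide_eq_true_eq, Bool.or_eq_true, beq_iff_eq, Bool.not_eq_true', beq_eq_false_iff_ne]
      rintro ⟨⟨⟨⟨⟨⟨⟨⟨⟨⟨hrN, huS⟩, hur⟩, huT⟩, hbT⟩, hsh⟩, hhit⟩, hj⟩, hi⟩, hSc⟩, hNc⟩
      have hIr := ind_of_indB (hNind r hrN)
      have hIu := ind_of_indB huS
      have hIuT := ind_of_indB huT
      have hIbT := ind_of_indB hbT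
      obtain ⟨t, ht, k, hk, e⟩ := hN r hrN
      have hconj : X r t * k * (X r t)⁻¹ = k⁻¹ := by
        rw [xu_inv']
        refine mul_left_cancel (a := k) ?_
        rw [mul_inv_cancel, ← h2, e]
        group
      obtain ⟨a, ha⟩ := has_exists hIbT hk
      obtain ⟨v, hv⟩ := has_exists hIuT hk
      have h1 := shift_some hIr.cl' hIuT hIbT hsh hhit hur hj hk ha hv t
      rw [hconj] at h1
      have h3 : t ^ i * v ^ j = 0 := by
        have := h1.unique hIbT (ha.inv hIbT)
        linear_combination this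
      have hv0 : v = 0 := by
        rcases mul_eq_zero.1 h3 with h | h
        · exact absurd (eq_zero_of_pow_eq_zero h) ht
        · exact eq_zero_of_pow_eq_zero h
      have hgc : g ∈ W F ch.S := by
        rw [hSc, e]
        refine mul_mem ?_ (cF.xu_mem_span (hIu.mem_erase.2 ⟨Ne.symm hur, hIr.mem⟩) t)
        obtain ⟨k', hk', e'⟩ := hv
        rw [e', hv0, cF.xu_zero, mul_one]
        refine cF.span_mono (fun s hs => ?_) hk'
        obtain ⟨h4, h5⟩ := hIuT.mem_erase.1 hs
        exact hIu.mem_erase.2 ⟨h4, (hIr.mem_erase.1 h5).2⟩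
      refine hprev ch (List.mem_of_getElem? hc) g hgc (fun n hn => ?_) h2
      obtain ⟨hnN, hnI⟩ := hNc n hn
      obtain ⟨w, hw, hh⟩ := hN n hnN
      obtain ⟨w', hw'⟩ := has_exists (ind_of_indB hnI) hgc
      have hI' := ind_of_indB (hNind n hnN)
      have := hw'.mono (ind_of_indB hnI) hI' fun s hs => by rw [hSc] at hs; exact (hIu.mem_erase.1 hs).2
      exact ⟨w', by rw [this.unique hI' hh]; exact hw, hw'⟩
  | kill γ r b i j S1 c =>
    revert hrule
    cases hc : prev[c]? with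
    | none => simp [hc]
    | some ch =>
      simp only [hc, Bool.and_eq_true, List.all_eq_true, List.contains_eq_mem,
        decide_eq_true_eq, Bool.or_eq_true, beq_iff_eq, Bool.not_eq_true', beq_eq_false_iff_ne]
      rintro ⟨⟨⟨⟨⟨⟨⟨⟨hrN, hrg⟩, hb⟩, hsh⟩, hhit⟩, hj⟩, hi⟩, hSc⟩, hNc⟩
      have hIr := ind_of_indB (hNind r hrN)
      have hIb := ind_of_indB hb
      obtain ⟨hγ, hall⟩ := shift_of_shiftB hsh
      have hg1 : g ∈ W F S1 := cF.span_mono (fun s hs => (hall s hs).1) hg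
      obtain ⟨a, ha⟩ := has_exists hIb hg1
      obtain ⟨t, ht, hht⟩ := hN r hrN
      obtain ⟨x, hx⟩ := exists_pow hi (a / t ^ j)
      have h1 := shift_some hS hIr hIb hsh hhit hrg hj hg ha hht x
      have hz : a + x ^ i * t ^ j = 0 := by
        rw [hx, div_mul_cancel₀ _ (pow_ne_zero _ ht), CharTwo.add_self_eq_zero]
      rw [hz] at h1
      have hgc : X γ x * g * (X γ x)⁻¹ ∈ W F ch.S := by
        obtain ⟨k, hk, e⟩ := h1
        rw [hSc, e, cF.xu_zero, mul_one]; exact hk
      refine Good.conj (cF.xu_mem_group γ x) (hprev ch (List.mem_of_getElem? hc) _ hgc (fun n hn => ?_) ?_)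
      · obtain ⟨⟨⟨hnN, hn1⟩, hnc⟩, hnh⟩ := hNc n hn
        have hI1 := ind_of_indB hn1
        have hIc := ind_of_indB hnc
        obtain ⟨w, hw, hh⟩ := hN n hnN
        have h3 := shift_none hS hI1 hsh hnh hg (hh.mono (ind_of_indB (hNind n hnN)) hI1 fun s hs => (hall s hs).1) x
        obtain ⟨w', hw'⟩ := has_exists hIc hgc
        have := hw'.mono hIc hI1 fun s hs => by rw [hSc] at hs; exact (hIb.mem_erase.1 hs).2
        exact ⟨w', by rw [this.unique hI1 h3]; exact hw, hw'⟩
      · calc X γ x * g * (X γ x)⁻¹ * (X γ x * g * (X γ x)⁻¹) = X γ x * (g * g) * (X γ x)⁻¹ := by group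
          _ = 1 := by rw [h2]; group

theorem all_ok [Finite F] : ∀ (rest prev : List Node), (∀ p ∈ prev, Claim F p) → allOkB prev rest = true →
    ∀ p ∈ rest, Claim F p
  | [], _, _, _ => fun p hp => absurd hp List.not_mem_nil
  | nd :: rest, prev, hprev, h => by
      simp only [allOkB, Bool.and_eq_true] at h
      have h1 := step_ok hprev h.1
      intro p hp
      rcases List.mem_cons.1 hp with rfl | hp
      · exact h1
      · refine all_ok rest (prev ++ [nd]) (fun q hq => ?_) h.2 p hp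
        rcases List.mem_append.1 hq with hq | hq
        · exact hprev q hq
        · rw [List.mem_singleton.1 hq]; exact h1

/-- Involutions of the maximal unipotent subgroup. -/
theorem classify [Finite F] {g : GL chevF4.Idx F} (hg : g ∈ chevF4.posUnipotent F) (h2 : g * g = 1) : Good g := by
  obtain ⟨n, hn, e⟩ := Option.map_eq_some_iff.1 cert_top
  obtain ⟨hS, hN⟩ := Prod.mk.injEq .. ▸ e
  refine all_ok cert [] (fun p hp => absurd hp List.not_mem_nil) cert_ok n (List.mem_of_getLast? hn) g ?_ ?_ h2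
  · rw [W, hS]
    rw [← Cert.span_pos] at hg
    exact cF.span_mono (fun r hr => posL_eq ▸ Cert.mem_posRoots.2 hr) hg
  · rw [hN]; exact fun n hn => absurd hn List.not_mem_nil

end Cfsg.Agent.FGS3.F4Inv
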