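import Mathlib

/-!
Counting lemmas for elements of prime order `p > 3` in finite solvable groups: fixed points in transitive
actions, orbit counts, and fixed points on symplectic modules.
-/

set_option autoImplicit false

namespace Cfsg.Agent.FGS3

open scoped commutatorElement

universe u

/-- A nontrivial automorphism of order `p` of a finite commutative group fixes at most `|M| / p` elements. -/
theorem mul_card_fixed_le {M : Type*} [CommGroup M] [Finite M] (σ : MulAut M) {p : ℕ} [Fact p.Prime]
    (hp : σ ^ p = 1) (h1 : σ ≠ 1) : p * Nat.card {m : M // σ m = m} ≤ Nat.card M := by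
  classical
  let φ : M →* M :=
    { toFun := fun m => σ m / m
      map_one' := by simp
      map_mul' := fun a b => by rw [map_mul, mul_div_mul_comm] }
  have hker : Nat.card φ.ker = Nat.card {m : M // σ m = m} := by
    refine Nat.card_congr (Equiv.subtypeEquivRight fun m => ?_)
    simp [φ, MonoidHom.mem_ker, div_eq_one]
  have hcard : Nat.card M = Nat.card φ.ker * Nat.card φ.range := by
    rw [← Subgroup.index_ker, Subgroup.card_mul_index]
  suffices h : p ≤ Nat.card φ.range by
    rw [hcard, hker, mul_comm]
    exact Nat.mul_le_mul_left _ h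
  by_contra hlt
  rw [not_le] at hlt
  obtain ⟨m, hm⟩ : ∃ m, σ m ≠ m := by
    by_contra! hc
    exact h1 (MulEquiv.ext fun m => hc m)
  set w := σ m / m with hw
  have hmem : ∀ i : ℕ, (σ ^ i) w ∈ φ.range := fun i => ⟨(σ ^ i) m, by
    show σ ((σ ^ i) m) / (σ ^ i) m = _
    rw [hw, map_div, ← MulAut.mul_apply, ← MulAut.mul_apply, ← pow_succ', pow_succ]⟩
  have hfix : σ w = w := by
    by_contra hne
    have hinj : Function.Injective fun i : Fin p => (⟨(σ ^ (i : ℕ)) w, hmem i⟩ : φ.range) := by
      have key : ∀ d : ℕ, d < p → 0 < d → (σ ^ d) w ≠ w := by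
        intro d hd h0 hdw
        have hcop : Nat.Coprime d p :=
          Nat.Coprime.symm (((Fact.out : p.Prime).coprime_iff_not_dvd).2 fun hdv => by
            have := Nat.le_of_dvd h0 hdv
            omega)
        obtain ⟨k, hk⟩ := Nat.exists_mul_mod_eq_one_of_coprime hcop (Fact.out : p.Prime).one_lt
        have hpow : σ ^ (d * k) = σ := by
          rw [← Nat.div_add_mod (d * k) p, pow_add, pow_mul, hp, one_pow, one_mul, hk.2, pow_one]
        have hiter : ∀ n : ℕ, (σ ^ (d * n)) w = w := by
          intro n
          induction n with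
          | zero => simp
          | succ n ih => rw [Nat.mul_succ, pow_add, MulAut.mul_apply, hdw, ih]
        exact hne (by simpa [hpow] using hiter k)
      intro i j hij
      simp only [Subtype.mk.injEq] at hij
      rcases lt_trichotomy (i : ℕ) j with h | h | h
      · exfalso
        refine key ((j : ℕ) - i) (by omega) (by omega) ((σ ^ (i : ℕ)).injective ?_)
        rw [← MulAut.mul_apply, ← pow_add, Nat.add_sub_cancel' h.le, hij]
      · exact Fin.ext h
      · exfalso
        refine key ((i : ℕ) - j) (by omega) (by omega) ((σ ^ (j : ℕ)).injective ?_)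
        rw [← MulAut.mul_apply, ← pow_add, Nat.add_sub_cancel' h.le, hij]
    have := Nat.card_le_card_of_injective _ hinj
    rw [Nat.card_fin] at this
    omega
  have hiter : ∀ i : ℕ, (σ ^ i) m = m * w ^ i := by
    intro i
    induction i with
    | zero => simp
    | succ i ih =>
      rw [pow_succ', MulAut.mul_apply, ih, map_mul, map_pow, hfix, pow_succ',
        show σ m = m * w by rw [hw, mul_div_cancel]]
      rw [mul_assoc]
  have hwp : w ^ p = 1 := by
    have := hiter p
    rw [hp, MulAut.one_apply] at this
    exact mul_eq_left.1 this.symm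
  have hw1 : w ≠ 1 := fun h => hm (div_eq_one.1 h)
  have hord : orderOf w = p := orderOf_eq_prime hwp hw1
  have hwr : w ∈ φ.range := by simpa using hmem 0
  have := Nat.le_of_dvd Nat.card_pos (Subgroup.orderOf_dvd_natCard φ.range hwr)
  omega

/-- Few orbit representatives for a permutation of prime order. -/
theorem exists_orbit_reps {α : Type*} [Finite α] (σ : Equiv.Perm α) {p : ℕ} [Fact p.Prime] (hp : σ ^ p = 1) :
    ∃ S : Finset α, (∀ a, ∃ s ∈ S, ∃ k : ℕ, (σ ^ k) s = a) ∧
      p * S.card + Nat.card {a : α // σ a = a} ≤ Nat.card α + p * Nat.card {a : α // σ a = a} := by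
  classical
  have := Fintype.ofFinite α
  set Q := MulAction.orbitRel.Quotient (Subgroup.zpowers σ) α
  have : Fintype Q := Fintype.ofFinite Q
  refine ⟨Finset.univ.image (fun q : Q => q.out), fun a => ?_, ?_⟩
  · refine ⟨_, Finset.mem_image_of_mem _ (Finset.mem_univ (Quotient.mk'' a : Q)), ?_⟩
    obtain ⟨⟨g, hg⟩, hga⟩ : a ∈ MulAction.orbit (Subgroup.zpowers σ) (Quotient.mk'' a : Q).out := by
      rw [← MulAction.orbitRel_apply]
      exact Quotient.exact' (Quotient.out_eq' _).symm
    obtain ⟨k, rfl⟩ : g ∈ Submonoid.powers σ := mem_powers_iff_mem_zpowers.2 hg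
    exact ⟨k, hga⟩
  have hcard : (Finset.univ.image (fun q : Q => q.out)).card = Fintype.card Q := by
    rw [Finset.card_image_of_injective _ Quotient.out_injective, Finset.card_univ]
  have hsum : ∑ q : Q, Nat.card (MulAction.orbit (Subgroup.zpowers σ) q.out) = Nat.card α := by
    rw [Nat.card_congr (MulAction.selfEquivSigmaOrbits (Subgroup.zpowers σ) α), Nat.card_sigma]
  have hle : ∀ q : Q, p ≤ Nat.card (MulAction.orbit (Subgroup.zpowers σ) q.out) +
      (p - 1) * (if σ q.out = q.out then 1 else 0) := by
    intro q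
    by_cases hf : σ q.out = q.out
    · rw [if_pos hf]
      have : 0 < Nat.card (MulAction.orbit (Subgroup.zpowers σ) q.out) :=
        Nat.card_pos_iff.2 ⟨(MulAction.nonempty_orbit _).to_subtype, inferInstance⟩
      omega
    · rw [if_neg hf, mul_zero, add_zero]
      have hdvd : Nat.card (MulAction.orbit (Subgroup.zpowers σ) q.out) ∣ p := by
        rw [Nat.card_coe_set_eq, ← MulAction.index_stabilizer]
        refine (Subgroup.index_dvd_card _).trans ?_
        rw [Nat.card_zpowers]
        exact orderOf_dvd_of_pow_eq_one hp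
      rcases (Nat.dvd_prime (Fact.out : p.Prime)).1 hdvd with h | h
      · exfalso
        refine hf ?_
        obtain ⟨hsub, -⟩ := Nat.card_eq_one_iff_unique.1 h
        exact congrArg Subtype.val (hsub.elim
          ⟨σ q.out, ⟨⟨σ, Subgroup.mem_zpowers σ⟩, rfl⟩⟩ ⟨q.out, MulAction.mem_orbit_self _⟩)
      · omega
  have hfixed : ∑ q : Q, (if σ q.out = q.out then 1 else 0) ≤ Nat.card {a : α // σ a = a} := by
    rw [← Finset.card_filter, Nat.card_eq_fintype_card, Fintype.card_subtype]
    exact Finset.card_le_card_of_injOn (fun q : Q => q.out) (fun q hq => by simpa using hq)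
      (Quotient.out_injective.injOn)
  rw [hcard]
  have h := Finset.sum_le_sum fun q (_ : q ∈ Finset.univ) => hle q
  rw [Finset.sum_const, Finset.card_univ, Finset.sum_add_distrib, hsum, ← Finset.mul_sum, smul_eq_mul] at h
  have h2 := Nat.mul_le_mul_left (p - 1) hfixed
  have hp1 := (Fact.out : p.Prime).one_le
  have h3 : (p - 1) * Nat.card {a : α // σ a = a} + Nat.card {a : α // σ a = a} =
      p * Nat.card {a : α // σ a = a} := by
    conv_rhs => rw [← Nat.sub_add_cancel hp1]
    ring
  rw [mul_comm] at h
  omega

theorem fixed_ratio_aux {p : ℕ} [Fact p.Prime] (n : ℕ) :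
    ∀ (Ω : Type u) [Finite Ω] (H : Subgroup (Equiv.Perm Ω)), Nat.card Ω = n → Group.IsSolvable H →
    (∀ a b : Ω, ∃ h ∈ H, h a = b) → ∀ x : H, x ^ p = 1 → x ≠ 1 → Subgroup.normalClosure ({x} : Set H) = ⊤ →
    p * Nat.card {a : Ω // (x : Equiv.Perm Ω) a = a} ≤ Nat.card Ω := by
  induction n using Nat.strong_induction_on with
  | _ n ih =>
    intro Ω _ H hn hsol htr x hxp hx1 hgen
    classical
    obtain ⟨j, hj⟩ := hsol.1
    have hH : Nontrivial H := ⟨⟨x, 1, hx1⟩⟩
    obtain ⟨i, hi0, hi1⟩ : ∃ i, derivedSeries H i ≠ ⊥ ∧ derivedSeries H (i + 1) = ⊥ := by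
      by_contra! hc
      have : ∀ i, derivedSeries H i ≠ ⊥ := fun i => by
        induction i with
        | zero => exact top_ne_bot
        | succ i ih => exact hc i ih
      exact this j hj
    set M := derivedSeries H i with hM
    have hMn : M.Normal := derivedSeries_normal H i
    have hMc : ∀ a ∈ M, ∀ b ∈ M, a * b = b * a := fun a ha b hb => by
      have : ⁅a, b⁆ ∈ derivedSeries H (i + 1) := Subgroup.commutator_mem_commutator ha hb
      rw [hi1, Subgroup.mem_bot] at this
      exact commutatorElement_eq_one_iff_mul_comm.1 this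
    let s : Setoid Ω :=
      { r := fun a b => ∃ m ∈ M, (m : Equiv.Perm Ω) a = b
        iseqv := ⟨fun a => ⟨1, one_mem M, rfl⟩, fun {a b} ⟨m, hm, e⟩ => ⟨m⁻¹, inv_mem hm, by
          rw [← e]; exact (m : Equiv.Perm Ω).symm_apply_apply a⟩,
          fun {a b c} ⟨m, hm, e⟩ ⟨m', hm', e'⟩ => ⟨m' * m, mul_mem hm' hm, by
            show (m' : Equiv.Perm Ω) ((m : Equiv.Perm Ω) a) = c
            rw [e, e']⟩⟩ }
    have hresp : ∀ (h : H) (a b : Ω), s a b → s ((h : Equiv.Perm Ω) a) ((h : Equiv.Perm Ω) b) := by
      rintro h a b ⟨m, hm, e⟩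
      refine ⟨h * m * h⁻¹, hMn.conj_mem m hm h, ?_⟩
      show (h : Equiv.Perm Ω) ((m : Equiv.Perm Ω) ((h : Equiv.Perm Ω)⁻¹ ((h : Equiv.Perm Ω) a))) = _
      rw [Equiv.Perm.inv_def, Equiv.symm_apply_apply, e]
    by_cases hsingle : ∀ a b : Ω, s a b
    · -- an abelian normal subgroup is transitive
      by_cases hfix : ∃ a, (x : Equiv.Perm Ω) a = a
      swap
      · have : IsEmpty {a : Ω // (x : Equiv.Perm Ω) a = a} := ⟨fun a => hfix ⟨a.1, a.2⟩⟩
        simp
      obtain ⟨a, ha⟩ := hfix
      have : IsMulCommutative M := ⟨⟨fun u v => Subtype.ext (hMc _ u.2 _ v.2)⟩⟩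
      letI : CommGroup M := { (inferInstance : Group M) with mul_comm := fun u v => mul_comm' u v }
      let σ : MulAut M := MulAut.conjNormal x
      have hσp : σ ^ p = 1 := by rw [← map_pow, hxp, map_one]
      have hinj : Function.Injective fun m : M => ((m : H) : Equiv.Perm Ω) a := by
        intro u v huv
        refine Subtype.ext (Subtype.ext (Equiv.ext fun b => ?_))
        obtain ⟨w, hw, rfl⟩ := hsingle a b
        show ((u : H) * w : H).1 a = ((v : H) * w : H).1 a
        rw [hMc _ u.2 _ hw, hMc _ v.2 _ hw]
        exact congrArg (w : Equiv.Perm Ω) huv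
      have hbij : Function.Bijective fun m : M => ((m : H) : Equiv.Perm Ω) a :=
        ⟨hinj, fun b => by obtain ⟨m, hm, e⟩ := hsingle a b; exact ⟨⟨m, hm⟩, e⟩⟩
      have hact : ∀ m : M, (x : Equiv.Perm Ω) (((m : H) : Equiv.Perm Ω) a) = ((σ m : H) : Equiv.Perm Ω) a := by
        intro m
        show _ = (x : Equiv.Perm Ω) (((m : H) : Equiv.Perm Ω) ((x : Equiv.Perm Ω)⁻¹ a))
        congr 2
        rw [Equiv.Perm.inv_def, eq_comm, Equiv.symm_apply_eq, ha]
      have hσ1 : σ ≠ 1 := fun h => hx1 (Subtype.ext (Equiv.ext fun b => by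
        obtain ⟨m, rfl⟩ := hbij.2 b
        show (x : Equiv.Perm Ω) _ = _
        rw [hact, h]
        rfl))
      have e : Nat.card {b : Ω // (x : Equiv.Perm Ω) b = b} = Nat.card {m : M // σ m = m} := by
        refine (Nat.card_congr (Equiv.subtypeEquiv (Equiv.ofBijective _ hbij) fun m => ?_)).symm
        show σ m = m ↔ (x : Equiv.Perm Ω) (((m : H) : Equiv.Perm Ω) a) = ((m : H) : Equiv.Perm Ω) a
        rw [hact]
        exact ⟨fun h => by rw [h], fun h => hinj h⟩
      rw [e, ← Nat.card_eq_of_bijective _ hbij]
      exact mul_card_fixed_le σ hσp hσ1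
    · -- blocks
      let Q := Quotient s
      let π : H →* Equiv.Perm Q := MonoidHom.toHomPerm
        { toFun := fun h => Quotient.map (fun a => (h : Equiv.Perm Ω) a) (hresp h)
          map_one' := funext fun q => Quotient.inductionOn q fun a => rfl
          map_mul' := fun h h' => funext fun q => Quotient.inductionOn q fun a => rfl }
      have hπ : ∀ h a, π h (Quotient.mk s a) = Quotient.mk s ((h : Equiv.Perm Ω) a) := fun h a => rfl
      have hsurj : Function.Surjective (Quotient.mk s) := Quotient.mk_surjective
      have hlt : Nat.card Q < n := by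
        rw [← hn]
        refine lt_of_le_of_ne (Nat.card_le_card_of_surjective _ hsurj) fun he => ?_
        have hinj := ((Nat.bijective_iff_surjective_and_card _).2 ⟨hsurj, he.symm⟩).1
        refine hi0 (eq_bot_iff.2 fun m hm => ?_)
        refine Subgroup.mem_bot.2 (Subtype.ext (Equiv.ext fun b => ?_))
        exact (hinj (Quotient.sound ⟨m, hm, rfl⟩)).symm
      have hx' : π x ≠ 1 := by
        intro h
        refine hsingle fun a b => ?_
        obtain ⟨g, hg, rfl⟩ := htr a b
        have hk : (⟨g, hg⟩ : H) ∈ π.ker :=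
          (Subgroup.normalClosure_le_normal (Set.singleton_subset_iff.2 (MonoidHom.mem_ker.2 h)))
            (hgen ▸ Subgroup.mem_top _)
        exact Quotient.exact ((congrArg (fun f : Equiv.Perm Q => f (Quotient.mk s a))
          (MonoidHom.mem_ker.1 hk)).symm.trans (hπ _ _))
      have hrec := ih _ hlt Q π.range rfl
        (Group.isSolvable_of_surjective (MonoidHom.rangeRestrict_surjective π))
        (fun q q' => by
          obtain ⟨a, rfl⟩ := hsurj q
          obtain ⟨b, rfl⟩ := hsurj q'
          obtain ⟨g, hg, rfl⟩ := htr a b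
          exact ⟨_, ⟨⟨g, hg⟩, rfl⟩, hπ _ _⟩)
        (π.rangeRestrict x) (by rw [← map_pow, hxp, map_one]) (fun h => hx' (congrArg Subtype.val h))
        (by
          have := Subgroup.map_normalClosure ({x} : Set H) π.rangeRestrict (MonoidHom.rangeRestrict_surjective π)
          rw [hgen, Set.image_singleton, ← MonoidHom.range_eq_map,
            MonoidHom.range_eq_top.2 (MonoidHom.rangeRestrict_surjective π)] at this
          exact this.symm)
      have : Fintype Ω := Fintype.ofFinite Ω
      have : Fintype Q := Fintype.ofFinite Q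
      obtain ⟨a₀, -⟩ : ∃ a : Ω, True := by
        by_contra! hc
        exact hsingle fun a => absurd trivial (by simpa using hc a)
      have hfib : ∀ q : Q, Nat.card {a : Ω // Quotient.mk s a = q} =
          Nat.card {a : Ω // Quotient.mk s a = Quotient.mk s a₀} := by
        intro q
        obtain ⟨b, rfl⟩ := hsurj q
        obtain ⟨g, hg, hgb⟩ := htr a₀ b
        refine (Nat.card_congr (Equiv.subtypeEquiv g fun a => ?_)).symm
        have e1 := hπ ⟨g, hg⟩ a
        have e2 := hπ ⟨g, hg⟩ a₀
        rw [show ((⟨g, hg⟩ : H) : Equiv.Perm Ω) a₀ = b from hgb] at e2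
        exact ⟨fun h => by rw [h] at e1; exact e1.symm.trans e2,
          fun h => (π ⟨g, hg⟩).injective (e1.trans (h.trans e2.symm))⟩
      have htot : Nat.card Ω = Nat.card Q * Nat.card {a : Ω // Quotient.mk s a = Quotient.mk s a₀} := by
        rw [Nat.card_congr (Equiv.sigmaFiberEquiv (Quotient.mk s)).symm, Nat.card_sigma,
          Finset.sum_congr rfl fun q _ => hfib q, Finset.sum_const, Finset.card_univ, smul_eq_mul]
        congr 1
        exact Fintype.card_eq_nat_card
      have hfixle : Nat.card {a : Ω // (x : Equiv.Perm Ω) a = a} ≤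
          Nat.card {q : Q // π x q = q} * Nat.card {a : Ω // Quotient.mk s a = Quotient.mk s a₀} := by
        calc Nat.card {a : Ω // (x : Equiv.Perm Ω) a = a}
            ≤ Nat.card (Σ q : {q : Q // π x q = q}, {a : Ω // Quotient.mk s a = q.1}) :=
              Nat.card_le_card_of_injective
                (fun a => ⟨⟨Quotient.mk s a.1, (hπ x a.1).trans (by rw [a.2])⟩, a.1, rfl⟩)
                (fun a b h => Subtype.ext (congrArg (fun t => t.2.1) h))
          _ = _ := by
              rw [Nat.card_sigma, Finset.sum_congr rfl fun q _ => hfib q.1, Finset.sum_const, Finset.card_univ,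
                smul_eq_mul]
              congr 1
              exact Fintype.card_eq_nat_card
      rw [htot]
      calc p * Nat.card {a : Ω // (x : Equiv.Perm Ω) a = a}
          ≤ p * (Nat.card {q : Q // π x q = q} * Nat.card {a : Ω // Quotient.mk s a = Quotient.mk s a₀}) :=
            Nat.mul_le_mul_left _ hfixle
        _ ≤ _ := by rw [← mul_assoc]; exact Nat.mul_le_mul_right _ hrec

/-- In a transitive action of a finite solvable group generated by the conjugates of an element of order
`p` acting nontrivially, that element fixes at most a `p`-th of the points. -/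
theorem fixed_ratio {G : Type*} [Group G] [Group.IsSolvable G] {Ω : Type u} [Finite Ω] {p : ℕ} [Fact p.Prime]
    (π : G →* Equiv.Perm Ω) (htr : ∀ a b : Ω, ∃ g, π g a = b) (x : G) (hxp : x ^ p = 1) (hx : π x ≠ 1)
    (hgen : Subgroup.normalClosure ({x} : Set G) = ⊤) :
    p * Nat.card {a : Ω // π x a = a} ≤ Nat.card Ω := by
  refine fixed_ratio_aux _ Ω π.range rfl (Group.isSolvable_of_surjective (MonoidHom.rangeRestrict_surjective π))
    (fun a b => by obtain ⟨g, hg⟩ := htr a b; exact ⟨_, ⟨g, rfl⟩, hg⟩) (π.rangeRestrict x)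
    (by rw [← map_pow, hxp, map_one]) (fun h => hx (congrArg Subtype.val h)) ?_
  have := Subgroup.map_normalClosure ({x} : Set G) π.rangeRestrict (MonoidHom.rangeRestrict_surjective π)
  rw [hgen, Set.image_singleton, ← MonoidHom.range_eq_map,
    MonoidHom.range_eq_top.2 (MonoidHom.rangeRestrict_surjective π)] at this
  exact this.symm

/-- A solvable subgroup of `SL(2, p)`, `p > 3`, does not contain nontrivial upper and lower transvections. -/
theorem no_solvable_transvections {p : ℕ} [Fact p.Prime] (hp : 3 < p)
    (H : Subgroup (Matrix.SpecialLinearGroup (Fin 2) (ZMod p))) [Group.IsSolvable H] (U L : H)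
    {s t : ZMod p} (hs : s ≠ 0) (ht : t ≠ 0)
    (hU : ((U : Matrix.SpecialLinearGroup (Fin 2) (ZMod p)) : Matrix (Fin 2) (Fin 2) (ZMod p)) = !![1, s; 0, 1])
    (hL : ((L : Matrix.SpecialLinearGroup (Fin 2) (ZMod p)) : Matrix (Fin 2) (Fin 2) (ZMod p)) = !![1, 0; t, 1]) :
    False := by
  let mat : H → Matrix (Fin 2) (Fin 2) (ZMod p) := fun h => ((h : Matrix.SpecialLinearGroup (Fin 2) (ZMod p)) : Matrix _ _ _)
  have hmul : ∀ a b, mat (a * b) = mat a * mat b := fun a b => rfl
  have upow : ∀ k : ℕ, mat (U ^ k) = !![1, (k : ZMod p) * s; 0, 1] := by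
    intro k
    induction k with
    | zero => simp [mat, Matrix.one_fin_two]
    | succ k ih =>
      rw [pow_succ, hmul, ih, show mat U = _ from hU, Matrix.mul_fin_two]
      push_cast
      ring_nf
  have lpow : ∀ k : ℕ, mat (L ^ k) = !![1, 0; (k : ZMod p) * t, 1] := by
    intro k
    induction k with
    | zero => simp [mat, Matrix.one_fin_two]
    | succ k ih =>
      rw [pow_succ, hmul, ih, show mat L = _ from hL, Matrix.mul_fin_two]
      push_cast
      ring_nf
  have up : ∀ v : ZMod p, ∃ h : H, mat h = !![1, v; 0, 1] := fun v => ⟨U ^ (v * s⁻¹).val, by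
    rw [upow, ZMod.natCast_zmod_val, mul_assoc, inv_mul_cancel₀ hs, mul_one]⟩
  have lo : ∀ v : ZMod p, ∃ h : H, mat h = !![1, 0; v, 1] := fun v => ⟨L ^ (v * t⁻¹).val, by
    rw [lpow, ZMod.natCast_zmod_val, mul_assoc, inv_mul_cancel₀ ht, mul_one]⟩
  have h2 : (2 : ZMod p) ≠ 0 := by
    intro h
    have h' : ((2 : ℕ) : ZMod p) = 0 := by exact_mod_cast h
    rw [ZMod.natCast_eq_zero_iff] at h'
    have := Nat.le_of_dvd (by norm_num) h'
    omega
  have h3 : (3 : ZMod p) ≠ 0 := by
    intro h
    have h' : ((3 : ℕ) : ZMod p) = 0 := by exact_mod_cast h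
    rw [ZMod.natCast_eq_zero_iff] at h'
    have := Nat.le_of_dvd (by norm_num) h'
    omega
  obtain ⟨d, hd⟩ : ∃ d : H, mat d = !![2, 0; 0, 2⁻¹] := by
    obtain ⟨a, ha⟩ := up 2
    obtain ⟨b, hb⟩ := lo (-2⁻¹)
    obtain ⟨c, hc⟩ := up (-1)
    obtain ⟨e, he⟩ := lo 1
    refine ⟨a * b * a * c * e * c, ?_⟩
    simp only [hmul, ha, hb, hc, he, Matrix.mul_fin_two]
    ext i j
    fin_cases i <;> fin_cases j <;>
      simp <;> field_simp <;> ring
  obtain ⟨d', hd'⟩ : ∃ d' : H, d' = d⁻¹ ∧ mat d' = !![2⁻¹, 0; 0, 2] := by
    refine ⟨d⁻¹, rfl, ?_⟩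
    have : mat d * !![2⁻¹, 0; 0, 2] = 1 := by
      rw [hd, Matrix.mul_fin_two, Matrix.one_fin_two]
      ext i j
      fin_cases i <;> fin_cases j <;> simp [h2]
    have hinv : mat d⁻¹ * mat d = 1 := by rw [← hmul, inv_mul_cancel]; rfl
    calc mat d⁻¹ = mat d⁻¹ * (mat d * !![2⁻¹, 0; 0, 2]) := by rw [this, mul_one]
      _ = _ := by rw [← mul_assoc, hinv, one_mul]
  have hmem : ∀ i, (∀ v : ZMod p, ∃ h ∈ derivedSeries H i, mat h = !![1, v; 0, 1]) ∧
      (∀ v : ZMod p, ∃ h ∈ derivedSeries H i, mat h = !![1, 0; v, 1]) ∧ d ∈ derivedSeries H i := by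
    intro i
    induction i with
    | zero =>
      exact ⟨fun v => let ⟨h, e⟩ := up v; ⟨h, Subgroup.mem_top _, e⟩,
        fun v => let ⟨h, e⟩ := lo v; ⟨h, Subgroup.mem_top _, e⟩, Subgroup.mem_top _⟩
    | succ i ih =>
      obtain ⟨hu, hl, hdm⟩ := ih
      have hu' : ∀ v : ZMod p, ∃ h ∈ derivedSeries H (i + 1), mat h = !![1, v; 0, 1] := by
        intro v
        obtain ⟨a, ham, ha⟩ := hu (v / 3)
        obtain ⟨b, -, hb⟩ := hu (-(v / 3))
        have hab : b = a⁻¹ := by
          refine eq_inv_of_mul_eq_one_left (Subtype.ext (Matrix.SpecialLinearGroup.ext _ _ fun r c => ?_))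
          have e : mat (b * a) = mat 1 := by
            rw [hmul, ha, hb, Matrix.mul_fin_two]
            simp [mat, Matrix.one_fin_two]
          exact congrFun (congrFun e r) c
        refine ⟨⁅d, a⁆, Subgroup.commutator_mem_commutator hdm ham, ?_⟩
        rw [commutatorElement_def, ← hab, ← hd'.1, hmul, hmul, hmul, hd, ha, hd'.2, hb]
        simp only [Matrix.mul_fin_two]
        ext r c
        fin_cases r <;> fin_cases c <;> simp <;> field_simp <;> ring
      have hl' : ∀ v : ZMod p, ∃ h ∈ derivedSeries H (i + 1), mat h = !![1, 0; v, 1] := by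
        intro v
        obtain ⟨a, ham, ha⟩ := hl (-(4 * v / 3))
        obtain ⟨b, -, hb⟩ := hl (4 * v / 3)
        have hab : b = a⁻¹ := by
          refine eq_inv_of_mul_eq_one_left (Subtype.ext (Matrix.SpecialLinearGroup.ext _ _ fun r c => ?_))
          have e : mat (b * a) = mat 1 := by
            rw [hmul, ha, hb, Matrix.mul_fin_two]
            simp [mat, Matrix.one_fin_two]
          exact congrFun (congrFun e r) c
        refine ⟨⁅d, a⁆, Subgroup.commutator_mem_commutator hdm ham, ?_⟩
        rw [commutatorElement_def, ← hab, ← hd'.1, hmul, hmul, hmul, hd, ha, hd'.2, hb]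
        simp only [Matrix.mul_fin_two]
        ext r c
        fin_cases r <;> fin_cases c <;> simp <;> field_simp <;> ring
      refine ⟨hu', hl', ?_⟩
      obtain ⟨a, ham, ha⟩ := hu' 2
      obtain ⟨b, hbm, hb⟩ := hl' (-2⁻¹)
      obtain ⟨c, hcm, hc⟩ := hu' (-1)
      obtain ⟨e, hem, he⟩ := hl' 1
      have hde : d = a * b * a * c * e * c := by
        refine Subtype.ext (Matrix.SpecialLinearGroup.ext _ _ fun r q => ?_)
        have : mat d = mat (a * b * a * c * e * c) := by
          rw [hd]
          simp only [hmul, ha, hb, hc, he, Matrix.mul_fin_two]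
          ext i j
          fin_cases i <;> fin_cases j <;>
            simp <;> field_simp <;> ring
        exact congrFun (congrFun this r) q
      rw [hde]
      exact mul_mem (mul_mem (mul_mem (mul_mem (mul_mem ham hbm) ham) hcm) hem) hcm
  obtain ⟨j, hj⟩ := (inferInstance : Group.IsSolvable H).1
  obtain ⟨h, hh, hhe⟩ := (hmem j).1 1
  rw [hj, Subgroup.mem_bot] at hh
  subst hh
  have := congrFun (congrFun hhe 0) 1
  simp [mat] at this

variable {W Z : Type*} [CommGroup W] [Finite W] [CommGroup Z] {G : Type*} [Group G]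

/-- Fixed points of an element of prime order `p > 3` on an irreducible symplectic module of a solvable group. -/
theorem symplectic_fixed_bound [Group.IsSolvable G] {p q : ℕ} [hp : Fact p.Prime] (hp3 : 3 < p) [hq : Fact q.Prime]
    (φ : G →* MulAut W) (x : G) (hxp : x ^ p = 1) (hx : φ x ≠ 1) (hexp : ∀ w : W, w ^ q = 1)
    (hirr : ∀ S : Subgroup W, (∀ g, ∀ w ∈ S, φ g w ∈ S) → S = ⊥ ∨ S = ⊤)
    (β : W → W → Z) (hmul : ∀ a b v, β (a * b) v = β a v * β b v) (hanti : ∀ a b, β b a = (β a b)⁻¹)
    (hself : ∀ a, β a a = 1) (hnd : ∀ w, (∀ v, β w v = 1) → w = 1)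
    (hinv : ∀ g a b, β (φ g a) (φ g b) = β a b) :
    4 * (Nat.card W + (p - 1) * Nat.card {w : W // φ x w = w}) ≤ p * Nat.card W := by
  classical
  have hmulr : ∀ a b c, β a (b * c) = β a b * β a c := fun a b c => by
    rw [hanti _ a, hmul, mul_inv, ← hanti, ← hanti]
  have hone : ∀ v, β 1 v = 1 := fun v => by
    have := hmul 1 1 v
    rwa [mul_one, eq_comm, mul_eq_left] at this
  have hone' : ∀ v, β v 1 = 1 := fun v => by rw [hanti, hone, inv_one]
  have hσp : (φ x) ^ p = 1 := by rw [← map_pow, hxp, map_one]
  let f : W →* W :=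
    { toFun := fun w => φ x w / w
      map_one' := by simp
      map_mul' := fun a b => by rw [map_mul, mul_div_mul_comm] }
  have hf : ∀ w, f w = φ x w / w := fun w => rfl
  have hker : Nat.card f.ker = Nat.card {w : W // φ x w = w} := by
    refine Nat.card_congr (Equiv.subtypeEquivRight fun m => ?_)
    rw [MonoidHom.mem_ker, hf, div_eq_one]
  have hcard : Nat.card W = Nat.card f.ker * Nat.card f.range := by
    rw [← Subgroup.index_ker, Subgroup.card_mul_index]
  have hperp : ∀ c ∈ f.ker, ∀ i ∈ f.range, β c i = 1 := by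
    rintro c hc _ ⟨w, rfl⟩
    rw [MonoidHom.mem_ker, hf, div_eq_one] at hc
    have h := hinv x c w
    rw [hc, show φ x w = w * f w by rw [hf, mul_div_cancel], hmulr, mul_eq_left] at h
    exact h
  have hI1 : f.range ≠ ⊥ := fun h => hx (MulEquiv.ext fun w => by
    have : f w = 1 := by
      rw [← Subgroup.mem_bot, ← h]
      exact ⟨w, rfl⟩
    rwa [hf, div_eq_one] at this)
  have hpg : IsPGroup q W := fun w => ⟨1, by rw [pow_one, hexp]⟩
  obtain ⟨j, hj⟩ := IsPGroup.iff_card.1 (hpg.to_subgroup f.range)
  have hj0 : j ≠ 0 := fun h => hI1 (Subgroup.eq_bot_of_card_eq _ (by rw [hj, h, pow_zero]))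
  have key : 4 * (q ^ j + (p - 1)) ≤ p * q ^ j := by
    have hj2 : 2 ≤ j := by
      by_contra hlt
      have hj1 : j = 1 := by omega
      rw [hj1, pow_one] at hj
      obtain ⟨a, ha, ha1⟩ : ∃ a ∈ f.range, a ≠ 1 := by
        by_contra! hc
        exact hI1 (eq_bot_iff.2 fun i hi => hc i hi)
      have hgen : ∀ i ∈ f.range, ∃ k : ℕ, a ^ k = i := by
        intro i hi
        have h1 : orderOf (⟨a, ha⟩ : f.range) = q :=
          orderOf_eq_prime (Subtype.ext (hexp a)) fun h => ha1 (congrArg Subtype.val h)
        have h2 := mem_zpowers_of_prime_card hj (g := (⟨a, ha⟩ : f.range)) (g' := ⟨i, hi⟩)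
          (fun h => ha1 (congrArg Subtype.val h))
        obtain ⟨k, hk⟩ := mem_powers_iff_mem_zpowers.2 h2
        exact ⟨k, congrArg Subtype.val hk⟩
      have hpowβ : ∀ (k : ℕ) (u v : W), β u (v ^ k) = β u v ^ k := fun k u v => by
        induction k with
        | zero => rw [pow_zero, pow_zero, hone']
        | succ k ih => rw [pow_succ, pow_succ, hmulr, ih]
      by_cases hqp : q = p
      · subst hqp
        have hperpker : ∀ w, β a w = 1 ↔ f w = 1 := by
          let Pa : Subgroup W :=
            { carrier := {w | β a w = 1}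
              one_mem' := hone' a
              mul_mem' := fun {b c} hb hc => by
                show β a (b * c) = 1
                rw [hmulr, show β a b = 1 from hb, show β a c = 1 from hc, one_mul]
              inv_mem' := fun {b} hb => by
                show β a b⁻¹ = 1
                have h := hmulr a b b⁻¹
                rwa [mul_inv_cancel, hone', show β a b = 1 from hb, one_mul, eq_comm] at h }
          have hle : f.ker ≤ Pa := fun c hc => by
            show β a c = 1
            rw [hanti, hperp c hc a ha, inv_one]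
          have htop : Pa ≠ ⊤ := fun h => ha1 (hnd a fun v => (h.symm ▸ Subgroup.mem_top v : v ∈ Pa))
          have hidx : f.ker.index = q := by rw [Subgroup.index_ker, hj]
          have heq : Pa = f.ker := by
            have hd := Subgroup.index_dvd_of_le hle
            rw [hidx] at hd
            rcases (Nat.dvd_prime hq.out).1 hd with h | h
            · exact absurd (Subgroup.index_eq_one.1 h) htop
            · refine (Subgroup.eq_of_le_of_card_ge hle ?_).symm
              have h1 := Subgroup.card_mul_index Pa
              rw [h, ← Subgroup.card_mul_index f.ker, hidx] at h1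
              exact (Nat.eq_of_mul_eq_mul_right hq.out.pos h1).le
          intro w
          exact ⟨fun h => MonoidHom.mem_ker.1 (heq ▸ (show w ∈ Pa from h)),
            fun h => show w ∈ Pa from heq ▸ MonoidHom.mem_ker.2 h⟩
        obtain ⟨g, hg⟩ : ∃ g, β a (φ g a) ≠ 1 := by
          by_contra! hc
          let S : Subgroup W := Subgroup.closure (Set.range fun g => φ g a)
          have hS : ∀ g, ∀ w ∈ S, φ g w ∈ S := by
            intro g w hw
            have := Subgroup.mem_map_of_mem (φ g).toMonoidHom hw
            rw [MonoidHom.map_closure] at this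
            refine Subgroup.closure_mono ?_ this
            rintro _ ⟨_, ⟨k, rfl⟩, rfl⟩
            exact ⟨g * k, by simp [map_mul]⟩
          rcases hirr S hS with h | h
          · refine ha1 ?_
            have : φ 1 a ∈ S := Subgroup.subset_closure ⟨1, rfl⟩
            rw [h, Subgroup.mem_bot] at this
            simpa using this
          · refine ha1 (hnd a fun v => ?_)
            have hv : v ∈ S := h ▸ Subgroup.mem_top v
            induction hv using Subgroup.closure_induction with
            | mem y hy => obtain ⟨g, rfl⟩ := hy; exact hc g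
            | one => exact hone' a
            | mul y z _ _ h1 h2 => rw [hmulr, h1, h2, one_mul]
            | inv y _ h1 =>
              have h := hmulr a y y⁻¹
              rwa [mul_inv_cancel, hone', h1, one_mul, eq_comm] at h
        set b := φ g a with hb
        have hfa : f a = 1 := (hperpker a).1 (hself a)
        obtain ⟨s, hs⟩ := hgen (f b) ⟨b, rfl⟩
        obtain ⟨t, ht⟩ := hgen (f (φ g⁻¹ a)) ⟨φ g⁻¹ a, rfl⟩
        have hgb : φ g⁻¹ b = a := by
          rw [hb, ← MulAut.mul_apply, ← map_mul, inv_mul_cancel, map_one, MulAut.one_apply]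
        let y := g * x * g⁻¹
        have hyb : φ y b = b := by
          rw [show φ y b = φ g (φ x (φ g⁻¹ b)) by simp [y, map_mul], hgb,
            show φ x a = a from div_eq_one.1 hfa]
        have hya : φ y a = a * b ^ t := by
          rw [show φ y a = φ g (φ x (φ g⁻¹ a)) by simp [y, map_mul],
            show φ x (φ g⁻¹ a) = φ g⁻¹ a * a ^ t by rw [ht, hf, mul_div_cancel], map_mul, map_pow, ← hb,
            ← MulAut.mul_apply, ← map_mul, mul_inv_cancel, map_one, MulAut.one_apply]
        let ι : (Fin 2 → ZMod q) → W := fun v => a ^ (v 0).val * b ^ (v 1).val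
        have hpw : ∀ (w : W) (k : ℕ), w ^ ((k : ZMod q).val) = w ^ k := fun w k => by
          conv_rhs => rw [← Nat.mod_add_div k q, pow_add, pow_mul, hexp, one_pow, mul_one]
          rw [ZMod.val_natCast]
        have hι : Function.Injective ι := by
          intro v w hvw
          have hord : orderOf (β a b) = q := orderOf_eq_prime (by rw [← hpowβ, hexp, hone']) hg
          have key : ∀ u : Fin 2 → ZMod q, β a (ι u) = β a b ^ (u 1).val := fun u => by
            simp only [ι]
            rw [hmulr, hpowβ, hpowβ, hself, one_pow, one_mul]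
          have h1 : (v 1).val = (w 1).val := by
            have h := congrArg (β a) hvw
            rw [key, key] at h
            exact pow_injOn_Iio_orderOf (by rw [hord]; exact ZMod.val_lt _) (by rw [hord]; exact ZMod.val_lt _) h
          have h0 : (v 0).val = (w 0).val := by
            simp only [ι, h1, mul_left_inj] at hvw
            have hoa : orderOf a = q := orderOf_eq_prime (hexp a) ha1
            exact pow_injOn_Iio_orderOf (by rw [hoa]; exact ZMod.val_lt _) (by rw [hoa]; exact ZMod.val_lt _) hvw
          funext i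
          fin_cases i
          · exact ZMod.val_injective q h0
          · exact ZMod.val_injective q h1
        let R : Subgroup (G × Matrix.SpecialLinearGroup (Fin 2) (ZMod q)) :=
          { carrier := {gm | ∀ v, φ gm.1 (ι v) = ι ((gm.2 : Matrix (Fin 2) (Fin 2) (ZMod q)).mulVec v)}
            one_mem' := fun v => by simp
            mul_mem' := fun {u v} hu hv w => by
              show φ (u.1 * v.1) (ι w) = ι (((u.2 * v.2 : Matrix.SpecialLinearGroup (Fin 2) (ZMod q)) :
                Matrix (Fin 2) (Fin 2) (ZMod q)).mulVec w)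
              rw [map_mul φ, MulAut.mul_apply, hv, hu, Matrix.SpecialLinearGroup.coe_mul, Matrix.mulVec_mulVec]
            inv_mem' := fun {u} hu v => by
              refine (φ u.1).injective ?_
              show φ u.1 (φ u.1⁻¹ (ι v)) = φ u.1 (ι _)
              rw [hu, ← MulAut.mul_apply, ← map_mul, mul_inv_cancel, map_one, MulAut.one_apply,
                Matrix.mulVec_mulVec, ← Matrix.SpecialLinearGroup.coe_mul]
              simp }
        have hR : Function.Injective ((MonoidHom.fst G _).comp R.subtype) := by
          rintro ⟨⟨g₁, M⟩, hM⟩ ⟨⟨g₂, N⟩, hN⟩ (h : g₁ = g₂)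
          subst h
          suffices M = N by subst this; rfl
          refine Matrix.SpecialLinearGroup.ext _ _ fun i k => ?_
          have := hι ((hM (Pi.single k 1)).symm.trans (hN (Pi.single k 1)))
          simpa using congrFun this i
        have : Group.IsSolvable R := Group.isSolvable_of_isSolvable_injective hR
        let S2 : Subgroup (Matrix.SpecialLinearGroup (Fin 2) (ZMod q)) :=
          ((MonoidHom.snd G _).comp R.subtype).range
        have : Group.IsSolvable S2 := Group.isSolvable_of_surjective (MonoidHom.rangeRestrict_surjective _)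
        have hU : ((x, ⟨!![1, (s : ZMod q); 0, 1], by simp [Matrix.det_fin_two]⟩) :
            G × Matrix.SpecialLinearGroup (Fin 2) (ZMod q)) ∈ R := by
          intro v
          show φ x (ι v) = _
          have : (!![1, (s : ZMod q); 0, 1]).mulVec v = ![(((v 0).val + s * (v 1).val : ℕ) : ZMod q), v 1] := by
            funext i
            fin_cases i <;> simp [Matrix.mulVec, dotProduct, Fin.sum_univ_two]
          simp only [ι, this, Matrix.cons_val_zero, Matrix.cons_val_one]
          rw [map_mul, map_pow, map_pow, show φ x a = a from div_eq_one.1 hfa,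
            show φ x b = b * a ^ s by rw [hs, hf, mul_div_cancel], hpw, pow_add, pow_mul, mul_pow]
          simp only [mul_comm, mul_left_comm, mul_assoc]
        have hL : ((y, ⟨!![1, 0; (t : ZMod q), 1], by simp [Matrix.det_fin_two]⟩) :
            G × Matrix.SpecialLinearGroup (Fin 2) (ZMod q)) ∈ R := by
          intro v
          show φ y (ι v) = _
          have : (!![1, 0; (t : ZMod q), 1]).mulVec v = ![v 0, ((t * (v 0).val + (v 1).val : ℕ) : ZMod q)] := by
            funext i
            fin_cases i <;> simp [Matrix.mulVec, dotProduct, Fin.sum_univ_two]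
          simp only [ι, this, Matrix.cons_val_zero, Matrix.cons_val_one]
          rw [map_mul, map_pow, map_pow, hya, hyb, hpw, pow_add, pow_mul, mul_pow]
          simp only [mul_comm, mul_left_comm, mul_assoc]
        have hne : ∀ (k : ℕ) (w : W), a ^ k = f w → β a w ≠ 1 → ((k : ZMod q) ≠ 0) := by
          intro k w hk hw h0
          apply hw
          rw [hperpker, ← hk, ← hpw, h0, ZMod.val_zero, pow_zero]
        have hga : β a (φ g⁻¹ a) ≠ 1 := fun h => hg (by
          have h' := hinv g a (φ g⁻¹ a)
          rw [← MulAut.mul_apply, ← map_mul, mul_inv_cancel, map_one, MulAut.one_apply, h] at h'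
          rw [← hb] at h'
          rw [hanti, h', inv_one])
        exact no_solvable_transvections hp3 S2 ⟨_, ⟨⟨_, hU⟩, rfl⟩⟩ ⟨_, ⟨⟨_, hL⟩, rfl⟩⟩
          (hne s b hs hg) (hne t _ ht hga) rfl rfl
      · -- a group of order `q` is totally isotropic
        have hdisj : Disjoint f.ker f.range := by
          rw [Subgroup.disjoint_def]
          rintro c hc ⟨w, rfl⟩
          rw [MonoidHom.mem_ker] at hc
          have hit : ∀ i : ℕ, ((φ x) ^ i) w = w * f w ^ i := by
            intro i
            induction i with
            | zero => simp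
            | succ i ih =>
              rw [pow_succ', MulAut.mul_apply, ih, map_mul, map_pow,
                show φ x (f w) = f w from div_eq_one.1 hc, show φ x w = w * f w by rw [hf, mul_div_cancel],
                mul_assoc, ← pow_succ']
          have h1 := hit p
          rw [hσp, MulAut.one_apply] at h1
          have h2 : f w ^ p = 1 := mul_eq_left.1 h1.symm
          have h3 : f w ^ Nat.gcd p q = 1 := pow_gcd_eq_one.2 ⟨h2, hexp _⟩
          rwa [(Nat.coprime_primes hp.out hq.out).2 (Ne.symm hqp), pow_one] at h3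
        have htop : f.ker ⊔ f.range = ⊤ := by
          refine Subgroup.eq_top_of_card_eq _ (le_antisymm (Subgroup.card_le_card_group _) ?_)
          rw [hcard]
          rw [← Nat.card_prod]
          exact Nat.card_le_card_of_injective
            (fun t : f.ker × f.range => (⟨(t.1 : W) * t.2, mul_mem (Subgroup.mem_sup_left t.1.2)
              (Subgroup.mem_sup_right t.2.2)⟩ : ↥(f.ker ⊔ f.range)))
            (fun u v h => Subgroup.mul_injective_of_disjoint hdisj (congrArg Subtype.val h))
        refine ha1 (hnd a fun v => ?_)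
        obtain ⟨c, hc, i, hi, rfl⟩ := Subgroup.mem_sup.1 (htop ▸ Subgroup.mem_top v : v ∈ f.ker ⊔ f.range)
        obtain ⟨k, rfl⟩ := hgen i hi
        rw [hmulr, hpowβ, hself, one_pow, mul_one, hanti, hperp c hc a ha, inv_one]
    by_cases hqp : q = p
    · subst hqp
      have h25 : q ^ 2 ≤ q ^ j := Nat.pow_le_pow_right hq.out.pos hj2
      have h5 : 5 ≤ q := Nat.Prime.five_le_of_ne_two_of_ne_three hq.out (by omega) (by omega)
      nlinarith [Nat.sub_add_cancel hq.out.one_le]
    · have hinvI : ∀ i ∈ f.range, φ x i ∈ f.range := by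
        rintro _ ⟨w, rfl⟩
        exact ⟨φ x w, by rw [hf, hf, map_div]⟩
      let π : Equiv.Perm f.range := Equiv.Perm.subtypePerm ((φ x).toEquiv : Equiv.Perm W) (fun i => ⟨fun h => by
        obtain ⟨w, hw⟩ := h
        refine ⟨(φ x).symm w, ?_⟩
        rw [hf, MulEquiv.apply_symm_apply]
        have : f w = φ x i := hw
        apply (φ x).injective
        rw [map_div, MulEquiv.apply_symm_apply, ← hf, this], hinvI i⟩)
      have hπ : ∀ k : ℕ, ∀ i : f.range, (((π ^ k) i : f.range) : W) = ((φ x) ^ k) i := by
        intro k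
        induction k with
        | zero => intro i; rfl
        | succ k ih =>
          intro i
          rw [pow_succ', pow_succ', Equiv.Perm.mul_apply, MulAut.mul_apply, ← ih]
          simp [π, Equiv.Perm.subtypePerm_apply]
      have hfix : ∀ i : f.range, π i = i → i = 1 := by
        intro i hi
        obtain ⟨w, hw⟩ := i.2
        have hwi : φ x (f w) = f w := by
          rw [hw]
          simpa [π, Equiv.Perm.subtypePerm_apply] using congrArg Subtype.val hi
        have hit : ∀ k : ℕ, ((φ x) ^ k) w = w * f w ^ k := by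
          intro k
          induction k with
          | zero => simp
          | succ k ih =>
            rw [pow_succ', MulAut.mul_apply, ih, map_mul, map_pow, hwi,
              show φ x w = w * f w by rw [hf, mul_div_cancel], mul_assoc, ← pow_succ']
        have h1 := hit p
        rw [hσp, MulAut.one_apply] at h1
        have h3 : f w ^ Nat.gcd p q = 1 := pow_gcd_eq_one.2 ⟨mul_eq_left.1 h1.symm, hexp _⟩
        rw [(Nat.coprime_primes hp.out hq.out).2 (Ne.symm hqp), pow_one, hw] at h3
        exact Subtype.ext h3
      have : Fintype f.range := Fintype.ofFinite _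
      have hmod := Equiv.Perm.card_compl_support_modEq (p := p) (n := 1) (σ := π) (by
        refine Equiv.ext fun i => Subtype.ext ?_
        rw [pow_one, hπ, hσp]; rfl)
      have hsupp : π.supportᶜ = {1} := by
        ext i
        simp only [Finset.mem_compl, Equiv.Perm.mem_support, not_not, Finset.mem_singleton]
        refine ⟨hfix i, ?_⟩
        rintro rfl
        simp [π, Equiv.Perm.subtypePerm_apply, Subtype.ext_iff]
      rw [hsupp, Finset.card_singleton, Fintype.card_eq_nat_card, hj] at hmod
      have h1q : 1 < q ^ j := Nat.one_lt_pow hj0 hq.out.one_lt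
      have hdvd : p ∣ q ^ j - 1 := (Nat.modEq_iff_dvd' h1q.le).1 hmod
      have hpB : p + 1 ≤ q ^ j := by
        have := Nat.le_of_dvd (by omega) hdvd
        omega
      by_cases h7 : 7 ≤ p
      · nlinarith [Nat.sub_add_cancel hp.out.one_le]
      · have h5 : p = 5 := by
          by_contra h5
          have hp4 : p = 4 ∨ p = 6 := by omega
          rcases hp4 with h | h <;> exact absurd (h ▸ hp.out) (by norm_num)
        subst h5
        have h16 : 16 ≤ q ^ j := by
          by_contra hlt
          have h11 : q ^ j = 6 ∨ q ^ j = 11 := by omega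
          have hnp : ¬ (q ^ j).Prime := Nat.Prime.not_prime_pow hj2
          rcases h11 with h | h
          · have hq2 : q ∣ 6 := h ▸ dvd_pow_self q hj0
            have := Nat.le_of_dvd (by norm_num) hq2
            have hq' : q = 2 ∨ q = 3 := by
              rcases (Nat.Prime.dvd_mul hq.out).1 (show q ∣ 2 * 3 from hq2) with h' | h'
              · exact Or.inl ((Nat.prime_dvd_prime_iff_eq hq.out Nat.prime_two).1 h')
              · exact Or.inr ((Nat.prime_dvd_prime_iff_eq hq.out Nat.prime_three).1 h')
            rcases (show j = 2 ∨ 3 ≤ j by omega) with rfl | hj3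
            · rcases hq' with rfl | rfl <;> norm_num at h
            · have := Nat.pow_le_pow_right hq.out.pos hj3
              rcases hq' with rfl | rfl <;> omega
          · exact hnp (h ▸ by norm_num)
        omega
  calc 4 * (Nat.card W + (p - 1) * Nat.card {w : W // φ x w = w})
      = Nat.card f.ker * (4 * (q ^ j + (p - 1))) := by rw [hcard, hj, ← hker]; ring
    _ ≤ Nat.card f.ker * (p * q ^ j) := Nat.mul_le_mul_left _ key
    _ = p * Nat.card W := by rw [hcard, hj]; ring

end Cfsg.Agent.FGS3
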