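import Mathlib
import Cfsg.Agent.Coprime.Action

/-!
Orders of fixed-point subgroups of a `p`-group acting coprimely.
-/

set_option autoImplicit false
set_option linter.unusedSectionVars false

namespace Cfsg.Agent.FGS3.FixedPointOrders

open Subgroup Finset
open scoped commutatorElement

/-- The fixed points of an automorphism. -/
def fixed {A : Type*} [CommGroup A] (σ : MulAut A) : Subgroup A :=
  MonoidHom.eqLocus σ.toMonoidHom (MonoidHom.id A)

theorem mem_fixed {A : Type*} [CommGroup A] {σ : MulAut A} {a : A} : a ∈ fixed σ ↔ σ a = a := Iff.rfl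

theorem fixed_pow {A : Type*} [CommGroup A] {σ : MulAut A} {a : A} (h : σ a = a) (k : ℕ) :
    (σ ^ k) a = a := by
  induction k with
  | zero => simp
  | succ k ih => rw [pow_succ, MulAut.mul_apply, h, ih]

/-- If `σ ^ p = 1` and `p` is prime to `|A|`, then `σ` fixes no nontrivial `σ v / v`. -/
theorem eq_one_of_fixed {A : Type*} [CommGroup A] [Finite A] {p : ℕ}
    (hA : p.Coprime (Nat.card A)) {σ : MulAut A} (hσ : σ ^ p = 1) {v : A}
    (h : σ (σ v / v) = σ v / v) : σ v / v = 1 := by
  set t := σ v / v with ht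
  have hn : ∀ n : ℕ, (σ ^ n) v = v * t ^ n := by
    intro n
    induction n with
    | zero => simp
    | succ n ih => rw [pow_succ', MulAut.mul_apply, ih, map_mul, map_pow, h, pow_succ',
        show σ v = v * t by rw [ht, mul_div_cancel], mul_assoc]
  have h1 := hn p
  rw [hσ, MulAut.one_apply, left_eq_mul] at h1
  have h2 : orderOf t ∣ p := orderOf_dvd_of_pow_eq_one h1
  exact orderOf_eq_one_iff.mp (Nat.eq_one_of_dvd_coprimes hA h2 (orderOf_dvd_natCard t))

/-- The abelian case of the fixed-point order inequality. -/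
theorem abelian_bound {A : Type*} [CommGroup A] [Finite A] {p : ℕ} (hp : p.Prime)
    (hA : p.Coprime (Nat.card A)) (σ τ : MulAut A) (hc : σ * τ = τ * σ) (hτ : τ ^ p = 1) :
    (∏ i : Fin p, Nat.card (fixed (σ * τ ^ (i : ℕ)))) * Nat.card (fixed τ) ≤
      Nat.card A * Nat.card (fixed σ ⊓ fixed τ : Subgroup A) ^ p := by
  classical
  cases nonempty_fintype A
  set y : Fin p → MulAut A := fun i => σ * τ ^ (i : ℕ) with hy
  have hcom : ∀ i, ∀ a, y i (τ a) = τ (y i a) := fun i a => by
    have h : y i * τ = τ * y i := by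
      simp only [y]; rw [mul_assoc, ← pow_succ, pow_succ', ← mul_assoc, hc, mul_assoc]
    exact DFunLike.congr_fun h a
  have hsep : ∀ i j, i ≠ j → ∀ a, y i a = a → y j a = a → τ a = a := by
    intro i j hij a hi hj
    wlog hlt : (i : ℕ) < j generalizing i j
    · exact this j i hij.symm hj hi (lt_of_le_of_ne (not_lt.mp hlt) (fun h => hij (Fin.ext h).symm))
    have h1 : y j = y i * τ ^ ((j : ℕ) - i) := by
      simp only [y]; rw [mul_assoc, ← pow_add, Nat.add_sub_cancel' hlt.le]
    rw [h1, MulAut.mul_apply] at hj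
    have h2 : (τ ^ ((j : ℕ) - i)) a = a := (y i).injective (hj.trans hi.symm)
    have hcop : ((j : ℕ) - i).Coprime p := ((hp.coprime_iff_not_dvd).mpr fun hd => by
      have := Nat.le_of_dvd (by omega) hd; omega).symm
    obtain ⟨e, he⟩ := exists_pow_eq_self_of_coprime (x := τ) (n := (j : ℕ) - i)
      (hcop.coprime_dvd_right (orderOf_dvd_of_pow_eq_one hτ))
    rw [← he]
    exact fixed_pow h2 e
  -- the relation lemma
  have key : ∀ (s : Finset (Fin p)) (u : Fin p → A), (∀ i ∈ s, y i (u i) = u i) →
      ∏ i ∈ s, τ (u i) / u i = 1 → ∀ i ∈ s, τ (u i) / u i = 1 := by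
    intro s
    induction s using Finset.induction_on with
    | empty => intro u _ _ i hi; simp at hi
    | @insert i s hi ih =>
      intro u hu hrel
      have h1 : ∀ j ∈ s, τ (u j) / u j = 1 := by
        have hrel' : ∏ j ∈ s, τ (y i (u j) / u j) / (y i (u j) / u j) = 1 := by
          rw [Finset.prod_insert hi] at hrel
          have h2 := congrArg (fun a => y i a / a) hrel
          simp only [map_one, div_one, map_mul, map_prod] at h2
          rw [map_div, hcom, hu i (mem_insert_self i s), mul_div_mul_left_eq_div,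
            ← Finset.prod_div_distrib] at h2
          rw [← h2]
          refine Finset.prod_congr rfl fun j _ => ?_
          simp only [map_div, hcom]
          exact div_div_div_comm _ _ _ _
        intro j hj
        have hij : i ≠ j := fun h => hi (h ▸ hj)
        have hfix : ∀ k ∈ s, y k (y i (u k) / u k) = y i (u k) / u k := fun k hk => by
          have hcomm : y k * y i = y i * y k := by
            have hcτ : Commute σ τ := hc
            have : Commute (σ * τ ^ (k : ℕ)) (σ * τ ^ (i : ℕ)) :=
              ((Commute.refl σ).mul_right (hcτ.pow_right _)).mul_left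
                (((hcτ.symm.pow_left _)).mul_right ((Commute.refl τ).pow_pow _ _))
            exact this
          rw [map_div, hu k (mem_insert_of_mem hk)]
          congr 1
          have h3 := DFunLike.congr_fun hcomm (u k)
          exact (h3 : y k (y i (u k)) = y i (y k (u k))).trans
            (congrArg (y i) (hu k (mem_insert_of_mem hk)))
        have h4 := ih (fun k => y i (u k) / u k) hfix hrel' j hj
        rw [map_div, div_div_div_comm, ← hcom, ← map_div, div_eq_one] at h4
        -- `τ (u j) / u j` is fixed by `y i` and `y j`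
        have h5 : y j (τ (u j) / u j) = τ (u j) / u j := by
          rw [map_div, hcom, hu j (mem_insert_of_mem hj)]
        exact eq_one_of_fixed hA hτ (hsep i j hij _ h4 h5)
      intro j hj
      rw [Finset.mem_insert] at hj
      rcases hj with rfl | hj
      · rwa [Finset.prod_insert hi, Finset.prod_eq_one h1, mul_one] at hrel
      · exact h1 j hj
  -- the summation map
  let D := (∀ i : Fin p, fixed (y i)) × fixed τ
  let Φ : D →* A := MonoidHom.mk' (fun d => (∏ i, (d.1 i : A)) * d.2) fun a b => by
    show (∏ i, ((a.1 i : A) * (b.1 i : A))) * ((a.2 : A) * b.2) = _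
    rw [Finset.prod_mul_distrib]
    exact mul_mul_mul_comm _ _ _ _
  set J : Subgroup A := fixed σ ⊓ fixed τ
  have hker : ∀ d : Φ.ker, ∀ i, ((d : D).1 i : A) ∈ J := by
    intro d i
    have h0 : (∏ i, ((d : D).1 i : A)) * (d : D).2 = 1 := d.2
    have h1 := congrArg (fun a => τ a / a) h0
    simp only [map_one, div_one, map_mul, map_prod, mem_fixed.mp (d : D).2.2] at h1
    rw [mul_div_mul_right_eq_div, ← Finset.prod_div_distrib] at h1
    have h2 := div_eq_one.mp (key univ (fun i => ((d : D).1 i : A))
      (fun i _ => mem_fixed.mp ((d : D).1 i).2) h1 i (Finset.mem_univ i))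
    refine ⟨?_, h2⟩
    have h3 : σ ((τ ^ (i : ℕ)) ((d : D).1 i : A)) = ((d : D).1 i : A) := ((d : D).1 i).2
    rw [fixed_pow h2] at h3
    exact h3
  have hinj : Function.Injective (fun d : Φ.ker => fun i => (⟨_, hker d i⟩ : J)) := by
    intro a b hab
    have h : ∀ i, ((a : D).1 i : A) = ((b : D).1 i : A) := fun i =>
      congrArg (fun f : Fin p → J => ((f i : J) : A)) hab
    refine Subtype.ext (Prod.ext (funext fun i => Subtype.ext (h i)) (Subtype.ext ?_))
    have ha : (∏ i, ((a : D).1 i : A)) * (a : D).2 = 1 := a.2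
    have hb : (∏ i, ((b : D).1 i : A)) * (b : D).2 = 1 := b.2
    rw [Finset.prod_congr rfl (fun i _ => h i)] at ha
    exact mul_left_cancel (ha.trans hb.symm)
  calc (∏ i : Fin p, Nat.card (fixed (y i))) * Nat.card (fixed τ) = Nat.card D := by
        rw [Nat.card_prod, Nat.card_pi]
    _ = Nat.card Φ.ker * Nat.card Φ.range := by
        rw [← Subgroup.index_ker, card_mul_index]
    _ ≤ Nat.card J ^ p * Nat.card A := by
        refine Nat.mul_le_mul ?_ (Subgroup.card_le_card_group _)
        refine (Nat.card_le_card_of_injective _ hinj).trans ?_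
        rw [Nat.card_fun, Nat.card_fin]
    _ = _ := mul_comm _ _

variable {G : Type*} [Group G] [Finite G] {p : ℕ} [hp : Fact p.Prime]

/-- The fixed points of `S` in `M`. -/
noncomputable def c (M : Subgroup G) (S : Set G) : ℕ := Nat.card (M ⊓ centralizer S : Subgroup G)

theorem c_pos (M : Subgroup G) (S : Set G) : 0 < c M S := Nat.card_pos

theorem c_empty (M : Subgroup G) : c M ∅ = Nat.card M := by
  rw [c, inf_eq_left.mpr fun m _ => mem_centralizer_iff.mpr fun g hg => absurd hg (Set.notMem_empty g)]

theorem isSolvable_of_pGroup {P : Subgroup G} (hP : IsPGroup p P) : Group.IsSolvable P := by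
  haveI := hP.isNilpotent; infer_instance

theorem coprime_card {P N : Subgroup G} (hP : IsPGroup p P) (hN : ¬ p ∣ Nat.card N) :
    (Nat.card P).Coprime (Nat.card N) := by
  obtain ⟨k, hk⟩ := IsPGroup.iff_card.mp hP
  rw [hk]; exact Nat.Coprime.pow_left _ (hp.out.coprime_iff_not_dvd.mpr hN)

theorem of_surj {H : Type*} [Group H] (q : Abelianization H) : ∃ m, Abelianization.of m = q :=
  QuotientGroup.mk_surjective q

/-- The action on the abelianization. -/
noncomputable def autAb (M P : Subgroup G) (hPM : P ≤ normalizer (M : Set G)) :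
    P →* MulAut (Abelianization M) :=
  MonoidHom.mk' (fun a => (M.normalizerMonoidHom (Subgroup.inclusion hPM a)).abelianizationCongr)
    fun a b => by
      refine MulEquiv.ext fun q => ?_
      obtain ⟨m, rfl⟩ := of_surj q
      rw [MulAut.mul_apply]
      simp only [abelianizationCongr_of, map_mul, MulAut.mul_apply]

theorem autAb_of (M P : Subgroup G) (hPM : P ≤ normalizer (M : Set G)) (a : P) (m : M) :
    autAb M P hPM a (Abelianization.of m) =
      Abelianization.of ⟨(a : G) * m * (a : G)⁻¹, (mem_normalizer_iff.mp (hPM a.2) m).mp m.2⟩ := by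
  show MulEquiv.abelianizationCongr _ _ = _
  rw [abelianizationCongr_of]
  rfl

/-- The fixed points on the abelianization come from fixed points of `M`. -/
theorem c_eq_mul {M P : Subgroup G} (hP : IsPGroup p P) (hPM : P ≤ normalizer (M : Set G))
    (hM : ¬ p ∣ Nat.card M) (S : Set P) :
    c M (Subtype.val '' S) = c ((commutator M).map M.subtype) (Subtype.val '' S) *
      Nat.card (⨅ s ∈ S, fixed (autAb M P hPM s) : Subgroup (Abelianization M)) := by
  set D : Subgroup M := (centralizer (Subtype.val '' S)).subgroupOf M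
  set f : M →* Abelianization M := Abelianization.of
  have hker : f.ker = commutator M := Abelianization.ker_of M
  have him : D.map f = ⨅ s ∈ S, fixed (autAb M P hPM s) := by
    refine le_antisymm ?_ ?_
    · rintro _ ⟨m, hm, rfl⟩
      simp only [mem_iInf, mem_fixed, f]
      intro s hs
      rw [autAb_of]
      congr 1
      exact Subtype.ext (mul_inv_eq_iff_eq_mul.mpr (mem_centralizer_iff.mp hm _ ⟨s, hs, rfl⟩))
    · intro q hq
      obtain ⟨m, rfl⟩ := of_surj q
      simp only [mem_iInf, mem_fixed] at hq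
      set A' := closure (Subtype.val '' S) with hA'
      have hA'P : A' ≤ P := (closure_le _).mpr (by rintro _ ⟨s, _, rfl⟩; exact s.2)
      haveI : Group.IsSolvable A' := isSolvable_of_pGroup (hP.to_le hA'P)
      set K := (commutator M).map M.subtype
      have hNM : normalizer (M : Set G) ≤ normalizer (K : Set G) := by
        rw [show K = ⁅M, M⁆ from map_subtype_commutator M]
        intro g hg
        rw [mem_normalizer_iff_map_conj_eq, map_commutator, mem_normalizer_iff_map_conj_eq.mp hg]
      have hfix : ∀ a ∈ A', ⁅(m : G), a⁆ ∈ K := by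
        intro a ha
        have h1 : autAb M P hPM ⟨a, hA'P ha⟩ (Abelianization.of m) = Abelianization.of m := by
          have h2 : (⟨a, hA'P ha⟩ : P) ∈ closure S := by
            have h3 : a ∈ (closure S).map P.subtype := by rwa [MonoidHom.map_closure]
            obtain ⟨b, hb, rfl⟩ := h3
            exact hb
          suffices closure S ≤ (MulAction.stabilizer (MulAut (Abelianization M)) (Abelianization.of m)).comap
              (autAb M P hPM) from this h2
          exact (closure_le _).mpr fun s hs => hq s hs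
        rw [autAb_of] at h1
        have h4 : ((⟨a * m * a⁻¹, (mem_normalizer_iff.mp (hPM (hA'P ha)) m).mp m.2⟩ : M) * m⁻¹) ∈ f.ker := by
          rw [MonoidHom.mem_ker, map_mul, map_inv, mul_inv_eq_one]; exact h1
        rw [hker] at h4
        have h5 := inv_mem (mem_map_of_mem M.subtype h4)
        simpa [commutatorElement_def, mul_assoc, K] using h5
      obtain ⟨k, hk, c', hc', hmc⟩ := Coprime.exists_mul_centralizer (hA'P.trans hPM)
        (coprime_card (hP.to_le hA'P) hM) (map_subtype_le _)
        (hA'P.trans (hPM.trans hNM)) m.2 hfix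
      obtain ⟨k', hk', rfl⟩ := hk
      refine ⟨⟨c', hc'.1⟩, ?_, ?_⟩
      · exact mem_subgroupOf.mpr (centralizer_le Subgroup.subset_closure hc'.2)
      · rw [show m = k' * ⟨c', hc'.1⟩ from Subtype.ext hmc, map_mul,
          MonoidHom.mem_ker.mp (hker ▸ hk' : k' ∈ f.ker), one_mul]
  have h1 : Nat.card D = Nat.card (f.ker ⊓ D : Subgroup M) * Nat.card (D.map f) := by
    rw [← relIndex_ker, ← inf_relIndex_right, ← Nat.card_congr (subgroupOfEquivOfLe (inf_le_right :
      f.ker ⊓ D ≤ D)).toEquiv]
    exact (card_mul_index _).symm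
  have h2 : c M (Subtype.val '' S) = Nat.card D := by
    rw [c, inf_comm, ← subgroupOf_map_subtype, card_map_of_injective M.subtype_injective]
  have h3 : c ((commutator M).map M.subtype) (Subtype.val '' S) = Nat.card (f.ker ⊓ D : Subgroup M) := by
    rw [c, hker, ← card_map_of_injective M.subtype_injective, map_inf _ _ _ M.subtype_injective,
      subgroupOf_map_subtype]
    congr 2
    refine le_antisymm (le_inf inf_le_left (le_inf inf_le_right (inf_le_left.trans (map_subtype_le _)))) ?_
    exact inf_le_inf_left _ inf_le_left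
  rw [h2, h3, h1, him]

/-- Wielandt's inequality for solvable groups. -/
theorem bound_solvable {P : Subgroup G} (hP : IsPGroup p P) (x z : P) (M : Subgroup G)
    [Group.IsSolvable M] (hPM : P ≤ normalizer (M : Set G)) (hM : ¬ p ∣ Nat.card M)
    (hxz : ((x * z * x⁻¹ * z⁻¹ : P) : G) ∈ centralizer (M : Set G))
    (hz : ((z ^ p : P) : G) ∈ centralizer (M : Set G)) :
    (∏ i : Fin p, c M {((x * z ^ (i : ℕ) : P) : G)}) * c M {(z : G)} ≤
      Nat.card M * c M {(x : G), (z : G)} ^ p := by
  induction hn : Nat.card M using Nat.strong_induction_on generalizing M with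
  | _ n ih =>
  subst hn
  by_cases htriv : M = ⊥
  · subst htriv
    simp [c]
  haveI : Nontrivial M := (nontrivial_iff_ne_bot _).mpr htriv
  set K : Subgroup G := (commutator M).map M.subtype
  have hKM : K ≤ M := map_subtype_le _
  have hlt : Nat.card K < Nat.card M := by
    rw [card_map_of_injective M.subtype_injective]
    refine lt_of_le_of_ne (Subgroup.card_le_card_group _) fun h => ?_
    exact (Group.IsSolvable.commutator_lt_top_of_nontrivial M).ne (eq_top_of_card_eq _ h)
  haveI : Group.IsSolvable K := solvable_of_solvable_injective (Subgroup.inclusion_injective hKM)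
  have hNM : normalizer (M : Set G) ≤ normalizer (K : Set G) := by
    rw [show K = ⁅M, M⁆ from map_subtype_commutator M]
    intro g hg
    rw [mem_normalizer_iff_map_conj_eq, map_commutator, mem_normalizer_iff_map_conj_eq.mp hg]
  have hrec := ih _ hlt K (hPM.trans hNM) (fun h => hM (h.trans (card_dvd_of_le hKM)))
    (centralizer_le hKM hxz) (centralizer_le hKM hz) rfl
  have hone : ∀ w : P, c M {(w : G)} = c K {(w : G)} * Nat.card (fixed (autAb M P hPM w)) := by
    intro w
    have := c_eq_mul hP hPM hM {w}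
    simpa using this
  have htwo : c M {(x : G), (z : G)} = c K {(x : G), (z : G)} *
      Nat.card (fixed (autAb M P hPM x) ⊓ fixed (autAb M P hPM z) : Subgroup (Abelianization M)) := by
    have := c_eq_mul hP hPM hM {x, z}
    simpa [Set.image_pair, _root_.iInf_insert, K] using this
  have htriv' : ∀ w : P, (w : G) ∈ centralizer (M : Set G) → autAb M P hPM w = 1 := fun w hw =>
    MulEquiv.ext fun q => by
      obtain ⟨m, rfl⟩ := of_surj q
      rw [autAb_of, MulAut.one_apply]
      congr 1
      exact Subtype.ext (mul_inv_eq_iff_eq_mul.mpr (mem_centralizer_iff.mp hw _ m.2).symm)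
  have hcardM : Nat.card M = Nat.card K * Nat.card (Abelianization M) := by
    rw [card_map_of_injective M.subtype_injective]
    exact (card_mul_index _).symm
  have hcopA : p.Coprime (Nat.card (Abelianization M)) :=
    hp.out.coprime_iff_not_dvd.mpr fun h => hM (h.trans (Dvd.intro_left _ hcardM.symm))
  have hab := abelian_bound hp.out hcopA (autAb M P hPM x) (autAb M P hPM z)
    (by
      have := htriv' _ hxz
      rw [map_mul, map_mul, map_mul, map_inv, map_inv, mul_inv_eq_one, mul_inv_eq_iff_eq_mul] at this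
      exact this)
    (by rw [← map_pow]; exact htriv' _ hz)
  simp only [hone, htwo, map_mul, map_pow, Finset.prod_mul_distrib, hcardM]
  calc _ = ((∏ i : Fin p, c K {((x * z ^ (i : ℕ) : P) : G)}) * c K {(z : G)}) *
        ((∏ i : Fin p, Nat.card (fixed (autAb M P hPM x * autAb M P hPM z ^ (i : ℕ)))) *
          Nat.card (fixed (autAb M P hPM z))) := by ring
    _ ≤ _ := Nat.mul_le_mul hrec hab
    _ = _ := by ring

/-- An invariant Sylow subgroup computes the `q`-part of the fixed points. -/
theorem c_sylow {P M Q : Subgroup G} (hP : IsPGroup p P) (hPM : P ≤ normalizer (M : Set G))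
    (hM : ¬ p ∣ Nat.card M) {q : ℕ} [hq : Fact q.Prime] (hQM : Q ≤ M) (hQ : IsPGroup q Q)
    (hQi : ¬ q ∣ Q.relIndex M) (hQP : P ≤ normalizer (Q : Set G)) (S : Set G) (hS : S ⊆ P) :
    c Q S = q ^ (c M S).factorization q := by
  set A' := closure S with hA'
  have hA'P : A' ≤ P := (closure_le _).mpr hS
  haveI : Group.IsSolvable A' := isSolvable_of_pGroup (hP.to_le hA'P)
  set C := M ⊓ centralizer S
  obtain ⟨R⟩ : Nonempty (Sylow q C) := inferInstance
  have hRC : (R : Subgroup C).map C.subtype ≤ C := map_subtype_le _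
  have hRA : A' ≤ normalizer (((R : Subgroup C).map C.subtype : Subgroup G) : Set G) := by
    refine le_trans ?_ centralizer_le_normalizer'
    rw [le_centralizer_iff]
    exact hRC.trans (inf_le_right.trans (centralizer_closure S).ge)
  obtain ⟨Q', hRQ', hQ'M, hQ', hQ'i, hQ'A⟩ := Coprime.exists_invariant_sylow_ge (hA'P.trans hPM)
    (coprime_card (hP.to_le hA'P) hM) (hRC.trans inf_le_left) (R.2.map _) hRA
  obtain ⟨g, hg, hgQ⟩ := Coprime.exists_conj_invariant_sylow (hA'P.trans hPM)
    (coprime_card (hP.to_le hA'P) hM) hQ'M hQM hQ' hQ hQ'i hQi hQ'A (hA'P.trans hQP)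
  rw [centralizer_closure] at hg
  have hgC : C.map (MulAut.conj g).toMonoidHom = C :=
    mem_normalizer_iff_map_conj_eq.mp (le_normalizer hg)
  have hle : ((R : Subgroup C).map C.subtype).map (MulAut.conj g).toMonoidHom ≤ Q ⊓ centralizer S :=
    le_inf (hgQ ▸ map_mono hRQ') (((map_mono hRC).trans hgC.le).trans inf_le_right)
  apply le_antisymm
  · obtain ⟨k, hk⟩ := IsPGroup.iff_card.mp (hQ.to_le (inf_le_left : Q ⊓ centralizer S ≤ Q))
    have hd : q ^ k ∣ c M S := hk ▸ card_dvd_of_le (inf_le_inf_right _ hQM)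
    rw [c, hk]
    exact Nat.pow_le_pow_right hq.out.pos
      ((hq.out.pow_dvd_iff_le_factorization (c_pos M S).ne').mp hd)
  · have := Subgroup.card_le_of_le hle
    rw [card_map_of_injective (MulAut.conj g).injective, card_map_of_injective C.subtype_injective,
      R.card_eq_multiplicity] at this
    exact this
where
  centralizer_le_normalizer' {H : Subgroup G} : centralizer (H : Set G) ≤ normalizer (H : Set G) :=
    centralizer_le_normalizer _

/-- Wielandt's inequality. -/
theorem bound {P : Subgroup G} (hP : IsPGroup p P) (x z : P) (M : Subgroup G)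
    (hPM : P ≤ normalizer (M : Set G)) (hM : ¬ p ∣ Nat.card M)
    (hxz : ((x * z * x⁻¹ * z⁻¹ : P) : G) ∈ centralizer (M : Set G))
    (hz : ((z ^ p : P) : G) ∈ centralizer (M : Set G)) :
    (∏ i : Fin p, c M {((x * z ^ (i : ℕ) : P) : G)}) * c M {(z : G)} ≤
      Nat.card M * c M {(x : G), (z : G)} ^ p := by
  classical
  haveI : Group.IsSolvable P := isSolvable_of_pGroup hP
  set T := (Nat.card M).primeFactors
  have hsyl : ∀ q : T, ∃ Q : Subgroup G, Q ≤ M ∧ IsPGroup q Q ∧ ¬ (q : ℕ) ∣ Q.relIndex M ∧
      P ≤ normalizer (Q : Set G) := fun q => by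
    haveI := Fact.mk (Nat.prime_of_mem_primeFactors q.2)
    exact Coprime.exists_invariant_sylow hPM (coprime_card hP hM) q
  choose Q hQM hQp hQi hQP using hsyl
  have hfac : ∀ S : Set G, S ⊆ P → c M S = ∏ q : T, c (Q q) S := by
    intro S hS
    rw [Finset.prod_congr rfl fun (q : T) _ => by
      haveI := Fact.mk (Nat.prime_of_mem_primeFactors q.2)
      exact c_sylow hP hPM hM (hQM q) (hQp q) (hQi q) (hQP q) S hS,
      Finset.prod_coe_sort T (fun q => q ^ (c M S).factorization q)]
    have hd : c M S ∣ Nat.card M := card_dvd_of_le inf_le_left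
    conv_lhs => rw [← Nat.prod_factorization_pow_eq_self (c_pos M S).ne']
    rw [Finsupp.prod_of_support_subset _ (s := T) (by
      rw [Nat.support_factorization]; exact Nat.primeFactors_mono hd Nat.card_pos.ne') _ (by simp)]
  have hcard : Nat.card M = ∏ q : T, Nat.card (Q q) := by
    simpa only [c_empty] using hfac ∅ (Set.empty_subset _)
  have h1 : ∀ i : Fin p, c M {((x * z ^ (i : ℕ) : P) : G)} =
      ∏ q : T, c (Q q) {((x * z ^ (i : ℕ) : P) : G)} := fun i =>
    hfac _ (Set.singleton_subset_iff.mpr (x * z ^ (i : ℕ) : P).2)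
  rw [hfac {(z : G)} (by simp), hfac {(x : G), (z : G)} (by simp [Set.insert_subset_iff]), hcard]
  simp only [h1]
  rw [Finset.prod_comm, ← Finset.prod_mul_distrib, ← Finset.prod_pow, ← Finset.prod_mul_distrib]
  refine Finset.prod_le_prod' fun q _ => ?_
  haveI := Fact.mk (Nat.prime_of_mem_primeFactors q.2)
  haveI : Group.IsSolvable (Q q) := by haveI := (hQp q).isNilpotent; infer_instance
  exact bound_solvable hP x z (Q q) (hQP q) (fun h => hM (h.trans (card_dvd_of_le (hQM q))))
    (centralizer_le (hQM q) hxz) (centralizer_le (hQM q) hz)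

/-- The average fixed-point bound. -/
theorem prod_bound {P : Subgroup G} [Fintype P] (hP : IsPGroup p P) :
    ∀ (R : Subgroup P) [R.Normal] (M : Subgroup G), P ≤ normalizer (M : Set G) → ¬ p ∣ Nat.card M →
      (∀ r ∈ R, ((r : P) : G) ∈ centralizer (M : Set G)) →
      (∏ x : P, c M {(x : G)}) ^ p ≤ Nat.card M ^ Nat.card P * c M (P : Set G) ^ ((p - 1) * Nat.card P) := by
  intro R
  induction hn : R.index using Nat.strong_induction_on generalizing R with
  | _ n ih =>
  subst hn
  intro _ M hPM hM hR
  classical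
  rcases eq_or_ne R ⊤ with rfl | hne
  · have hall : ∀ S : Set G, S ⊆ P → c M S = Nat.card M := fun S hS => by
      rw [c, inf_eq_left.mpr]
      intro m hm
      exact mem_centralizer_iff.mpr fun s hs =>
        (mem_centralizer_iff.mp (hR ⟨s, hS hs⟩ trivial) m hm).symm
    rw [hall _ subset_rfl, Finset.prod_congr rfl fun (x : P) _ => hall {(x : G)} (by simp),
      Finset.prod_const, Finset.card_univ, ← Nat.card_eq_fintype_card, ← pow_mul, ← pow_add]
    refine le_of_eq (congrArg _ ?_)
    conv_rhs => arg 1; rw [← one_mul (Nat.card P)]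
    rw [← Nat.add_mul, Nat.add_sub_cancel' hp.out.one_le, mul_comm]
  haveI : Group.IsNilpotent (P ⧸ R) := (hP.to_quotient R).isNilpotent
  haveI : Nontrivial (P ⧸ R) := QuotientGroup.nontrivial_iff.mpr hne
  haveI : Nontrivial (center (P ⧸ R)) := (hP.to_quotient R).center_nontrivial
  obtain ⟨k, hk0, hk⟩ := (IsPGroup.iff_card.mp ((hP.to_quotient R).to_subgroup (center (P ⧸ R)))).elim
    fun k hk => (⟨k, fun h0 => absurd Finite.one_lt_card (by rw [hk, h0]; simp), hk⟩ : ∃ k, k ≠ 0 ∧
      Nat.card (center (P ⧸ R)) = p ^ k)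
  obtain ⟨zb, hzb⟩ := exists_prime_orderOf_dvd_card' (G := center (P ⧸ R)) p (hk ▸ dvd_pow_self p hk0)
  obtain ⟨z, hzq⟩ := QuotientGroup.mk'_surjective R (zb : P ⧸ R)
  set R₁ : Subgroup P := (zpowers (zb : P ⧸ R)).comap (QuotientGroup.mk' R)
  haveI : R₁.Normal := by
    have : (zpowers (zb : P ⧸ R)).Normal := ⟨fun a ha b => by
      have : b * a = a * b := (mem_center_iff.mp ((zpowers_le.mpr zb.2) ha) b)
      rwa [this, mul_inv_cancel_right]⟩
    infer_instance
  have hlt : R₁.index < R.index := by
    refine index_strictAnti (lt_of_le_of_ne ?_ ?_)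
    · exact fun r hr => by
        show QuotientGroup.mk' R r ∈ zpowers (zb : P ⧸ R)
        rw [QuotientGroup.mk'_apply, (QuotientGroup.eq_one_iff r).mpr hr]; exact one_mem _
    · intro h
      have hzR : z ∈ R := h ▸ (show z ∈ R₁ by show QuotientGroup.mk' R z ∈ zpowers (zb : P ⧸ R); rw [hzq]; exact mem_zpowers _)
      have h1 : (zb : P ⧸ R) = 1 := by rw [← hzq]; exact (QuotientGroup.eq_one_iff z).mpr hzR
      rw [← Subgroup.orderOf_coe, h1, orderOf_one] at hzb
      exact hp.out.one_lt.ne hzb
  have hzp : z ^ p ∈ R := by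
    rw [← QuotientGroup.eq_one_iff, ← QuotientGroup.mk'_apply, map_pow, hzq, ← hzb,
      ← Subgroup.orderOf_coe, pow_orderOf_eq_one]
  have hcomm : ∀ x : P, x * z * x⁻¹ * z⁻¹ ∈ R := fun x => by
    rw [← QuotientGroup.eq_one_iff, ← QuotientGroup.mk'_apply, map_mul, map_mul, map_mul, map_inv,
      map_inv, hzq, mem_center_iff.mp zb.2, mul_inv_cancel_right, mul_inv_cancel]
  -- fixed points of `z`
  set C := M ⊓ centralizer {(z : G)} with hC
  have hPC : P ≤ normalizer (C : Set G) := by
    intro a ha
    refine mem_normalizer_fintype fun m hm => ?_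
    refine ⟨(mem_normalizer_iff.mp (hPM ha) m).mp hm.1, mem_centralizer_singleton_iff.mpr ?_⟩
    have h1 := mem_centralizer_singleton_iff.mp hm.2
    -- `a⁻¹ z a = r z`
    have h2 := hR _ (hcomm (⟨a, ha⟩⁻¹))
    set r : G := ((((⟨a, ha⟩ : P))⁻¹ * z * (((⟨a, ha⟩ : P))⁻¹)⁻¹ * z⁻¹ : P) : G) with hr
    have hrz : a⁻¹ * (z : G) * a = r * z := by
      rw [hr]; simp [mul_assoc]
    have h3 : m * r = r * m := mem_centralizer_iff.mp h2 m hm.1
    calc a * m * a⁻¹ * (z : G) = a * (m * (r * z)) * a⁻¹ := by rw [← hrz]; group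
      _ = a * ((r * z) * m) * a⁻¹ := by
        rw [← mul_assoc m, h3, mul_assoc r m, h1]; simp only [mul_assoc]
      _ = (z : G) * (a * m * a⁻¹) := by rw [← hrz]; group
  have hR₁C : ∀ r ∈ R₁, ((r : P) : G) ∈ centralizer (C : Set G) := by
    intro r hr
    obtain ⟨j, hj⟩ := mem_zpowers_iff.mp (show QuotientGroup.mk' R r ∈ zpowers (zb : P ⧸ R) from hr)
    rw [← hzq, ← map_zpow, QuotientGroup.mk'_apply, QuotientGroup.mk'_apply, QuotientGroup.eq] at hj
    have h1 : ((z : G) ^ j) ∈ centralizer (C : Set G) := zpow_mem (mem_centralizer_iff.mpr fun m hm =>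
      (mem_centralizer_singleton_iff.mp hm.2)) j
    have h2 := mul_mem h1 (centralizer_le (inf_le_left : C ≤ M) (hR _ hj))
    simpa using h2
  have hCP : c C (P : Set G) = c M (P : Set G) := by
    rw [c, c, hC, inf_assoc, inf_eq_right.mpr (centralizer_le (Set.singleton_subset_iff.mpr z.2))]
  have hCx : ∀ x : P, c C {(x : G)} = c M {(x : G), (z : G)} := by
    intro x
    rw [c, c, hC, inf_assoc]
    congr 3
    ext m
    simp only [Subgroup.mem_inf, mem_centralizer_iff, Set.mem_insert_iff, Set.mem_singleton_iff,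
      forall_eq_or_imp, forall_eq, and_comm]
  have hrec := ih _ hlt R₁ rfl C hPC (fun h => hM (h.trans (card_dvd_of_le inf_le_left))) hR₁C
  rw [hCP, Finset.prod_congr rfl fun x _ => hCx x] at hrec
  -- multiply the coset inequalities
  have hB : (∏ x : P, c M {(x : G)}) ^ p * c M {(z : G)} ^ Nat.card P ≤
      Nat.card M ^ Nat.card P * (∏ x : P, c M {(x : G), (z : G)}) ^ p := by
    have h1 : ∏ x : P, ((∏ i : Fin p, c M {((x * z ^ (i : ℕ) : P) : G)}) * c M {(z : G)}) ≤
        ∏ x : P, (Nat.card M * c M {(x : G), (z : G)} ^ p) :=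
      Finset.prod_le_prod' fun x _ => bound hP x z M hPM hM (hR _ (hcomm x)) (hR _ hzp)
    have h2 : ∏ x : P, ∏ i : Fin p, c M {((x * z ^ (i : ℕ) : P) : G)} = (∏ x : P, c M {(x : G)}) ^ p := by
      have h3 : ∀ i : Fin p, ∏ x : P, c M {((x * z ^ (i : ℕ) : P) : G)} = ∏ x : P, c M {(x : G)} :=
        fun i => Fintype.prod_equiv (Equiv.mulRight (z ^ (i : ℕ))) _ _ fun x => rfl
      rw [Finset.prod_comm, Finset.prod_congr rfl fun i _ => h3 i,
        Finset.prod_const, Finset.card_univ, Fintype.card_fin]
    rwa [Finset.prod_mul_distrib, Finset.prod_mul_distrib, Finset.prod_const, Finset.prod_const, h2,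
      Finset.card_univ, ← Nat.card_eq_fintype_card, Finset.prod_pow] at h1
  refine Nat.le_of_mul_le_mul_right (c := c M {(z : G)} ^ Nat.card P) ?_ (pow_pos (c_pos _ _) _)
  refine hB.trans ?_
  rw [mul_assoc, mul_comm (c M (P : Set G) ^ _)]
  exact Nat.mul_le_mul_left _ hrec

end Cfsg.Agent.FGS3.FixedPointOrders
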