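import Cfsg.Agent.FGS3.FlavellFixedSpace
import Cfsg.Agent.Core.Fitting
import Mathlib.Algebra.Module.ZMod
import Mathlib.FieldTheory.Finiteness

/-!
Flavell: if `A` is a maximal solvable subgroup generated by two conjugates (in itself) of a subgroup of prime
order `p > 3`, then `F(A) V` is nilpotent for every nilpotent subgroup `V` normalised by `A`.
-/

set_option autoImplicit false

open scoped commutatorElement

namespace Cfsg.Agent.FGS3.FlavellFit

open Cfsg Subgroup

theorem le_normalizer_of_conj {G : Type*} [Group G] {A W : Subgroup G}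
    (h : ∀ a ∈ A, ∀ w ∈ W, a * w * a⁻¹ ∈ W) : A ≤ normalizer (W : Set G) := by
  intro a ha
  rw [mem_normalizer_iff]
  intro w
  refine ⟨h a ha w, fun hw => ?_⟩
  simpa [mul_assoc] using h a⁻¹ (inv_mem ha) _ hw

theorem le_normalizer_char {G : Type*} [Group G] {A V : Subgroup G} (hAV : A ≤ normalizer (V : Set G))
    (K : Subgroup V) [K.Characteristic] : A ≤ normalizer ((K.map V.subtype : Subgroup G) : Set G) := by
  refine le_normalizer_of_conj fun a ha w hw => ?_
  obtain ⟨k, hk, rfl⟩ := hw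
  have h := Subgroup.characteristic_iff_map_eq.mp (inferInstance : K.Characteristic)
    (V.normalizerMonoidHom ⟨a, hAV ha⟩)
  exact ⟨V.normalizerMonoidHom ⟨a, hAV ha⟩ k, h.le ⟨k, hk, rfl⟩, rfl⟩

/-- Two complements of an abelian normal subgroup, one of which normalises `Q`. -/
theorem exists_translate {K : Type*} [Group K] [Finite K] {W Q B : Subgroup K} [W.Normal]
    (hW : ∀ a ∈ W, ∀ b ∈ W, a * b = b * a) (hco : (Nat.card W).Coprime (Nat.card Q))
    (hBW : B ⊓ W = ⊥) (hQ : Q ≤ B ⊔ W) (hfix : ∀ w ∈ W, (∀ q ∈ Q, q * w = w * q) → w = 1) :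
    ∃ w ∈ W, ∀ g : K, (∀ q ∈ Q, g * q * g⁻¹ ∈ Q) → ∀ v ∈ W, v * g * v⁻¹ ∈ B → Commute (w * v) g := by
  classical
  have := Fintype.ofFinite Q
  letI : CommGroup W := { (inferInstance : Group W) with mul_comm := fun a b => Subtype.ext (hW a a.2 b b.2) }
  have hex : ∀ x : Q, ∃ v : W, (x : K) * v ∈ B := fun x => by
    obtain ⟨b, hb, w, hw, hbw⟩ := Subgroup.mem_sup_of_normal_right.mp (hQ x.2)
    exact ⟨⟨w⁻¹, inv_mem hw⟩, by simp [← hbw, hb]⟩
  choose f hf using hex
  have huniq : ∀ (x : K) (v v' : W), x * v ∈ B → x * v' ∈ B → v = v' := fun x v v' h h' => by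
    have h1 : (v : K)⁻¹ * v' ∈ B ⊓ W :=
      mem_inf.mpr ⟨by simpa [mul_assoc] using mul_mem (inv_mem h) h', mul_mem (inv_mem v.2) v'.2⟩
    rw [hBW, mem_bot, inv_mul_eq_one] at h1
    exact Subtype.ext h1
  let c : K → MulAut W := fun y => MulAut.conjNormal y⁻¹
  have hc : ∀ (y : K) (v : W), (c y v : K) = y⁻¹ * v * y := fun y v => by simp [c]
  have hmul : ∀ x y : Q, f (x * y) = c y (f x) * f y := fun x y => by
    refine huniq _ _ _ (hf _) ?_
    have := mul_mem (hf x) (hf y)
    simpa [hc, mul_assoc] using this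
  obtain ⟨n, hn⟩ : ∃ n, n = Nat.card Q := ⟨_, rfl⟩
  have hpow : Function.Bijective (fun v : W => v ^ n) := (powCoprime (hn ▸ hco)).bijective
  obtain ⟨w, hw⟩ := hpow.2 (∏ x, f x)
  have hcob : ∀ y : Q, f y = w * (c y w)⁻¹ := fun y => by
    apply hpow.1
    change (f y) ^ n = (w * (c y w)⁻¹) ^ n
    have h1 : (∏ x, f x) = c y (∏ x, f x) * (f y) ^ n := by
      conv_lhs => rw [← Equiv.prod_comp (Equiv.mulRight y) f]
      simp only [Equiv.coe_mulRight, hmul]
      rw [Finset.prod_mul_distrib, map_prod, Finset.prod_const, Finset.card_univ, ← Nat.card_eq_fintype_card, hn]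
    rw [← hw] at h1
    simp only at h1
    rw [map_pow] at h1
    rw [mul_pow, inv_pow, eq_mul_inv_iff_mul_eq, mul_comm, ← h1]
  refine ⟨w, w.2, fun g hg v hv hvB => ?_⟩
  have hQB : ∀ y ∈ Q, (w : K)⁻¹ * y * w ∈ B := fun y hy => by
    have h1 := hf ⟨y, hy⟩
    rw [hcob] at h1
    simp only [coe_mul, coe_inv, hc, mul_inv_rev, inv_inv] at h1
    convert h1 using 1
    have h2 : (w : K) * (y⁻¹ * ((w : K)⁻¹ * y)) = y⁻¹ * ((w : K)⁻¹ * y) * w :=
      hW _ w.2 _ (by simpa [mul_assoc] using ‹W.Normal›.conj_mem _ (inv_mem w.2) y⁻¹)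
    rw [h2]; group
  let t : K := (w : K) * v * g * ((w : K) * v)⁻¹ * g⁻¹
  have ht : t ∈ W := by
    have h1 : g * ((w : K) * v)⁻¹ * g⁻¹ ∈ W := ‹W.Normal›.conj_mem _ (inv_mem (mul_mem w.2 hv)) g
    simpa [t, mul_assoc] using mul_mem (mul_mem w.2 hv) h1
  have hgsurj : ∀ q ∈ Q, ∃ q' ∈ Q, g * q' * g⁻¹ = q := fun q hq => by
    obtain ⟨q', hq'⟩ := (Finite.injective_iff_surjective (α := Q)
      (f := fun q' => ⟨g * q' * g⁻¹, hg _ q'.2⟩)).mp
      (fun a b h => Subtype.ext (by simpa using congrArg Subtype.val h)) ⟨q, hq⟩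
    exact ⟨q', q'.2, congrArg Subtype.val hq'⟩
  have ht1 : t = 1 := hfix t ht fun q hq => by
    obtain ⟨q', hq', rfl⟩ := hgsurj q hq
    obtain ⟨x', hx'⟩ : ∃ x', x' = g * q' * g⁻¹ := ⟨_, rfl⟩
    rw [← hx']
    -- both `x'` and `t x' t⁻¹` lie in `w B w⁻¹`
    have h1 : (w : K)⁻¹ * (t * x' * t⁻¹) * w ∈ B := by
      have := mul_mem (mul_mem hvB (hQB q' hq')) (inv_mem hvB)
      convert this using 1
      rw [hx']; simp only [t]; group
    have h2 : (w : K)⁻¹ * x' * w ∈ B := hQB x' (hx' ▸ hg q' hq')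
    have h3 : ((w : K)⁻¹ * x' * w)⁻¹ * ((w : K)⁻¹ * (t * x' * t⁻¹) * w) ∈ B ⊓ W := by
      refine mem_inf.mpr ⟨mul_mem (inv_mem h2) h1, ?_⟩
      have h4 : (w : K)⁻¹ * (x'⁻¹ * t * x') * t⁻¹ * w ∈ W :=
        mul_mem (mul_mem (mul_mem (inv_mem w.2) (by simpa using ‹W.Normal›.conj_mem _ ht x'⁻¹)) (inv_mem ht)) w.2
      convert h4 using 1; group
    rw [hBW, mem_bot, inv_mul_eq_one] at h3
    have h5 : x' = t * x' * t⁻¹ := mul_left_cancel (mul_right_cancel h3)
    rw [eq_mul_inv_iff_mul_eq] at h5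
    exact h5
  show (w : K) * v * g = g * ((w : K) * v)
  simp only [t, mul_inv_eq_one] at ht1
  exact mul_inv_eq_iff_eq_mul.mp ht1

/-- Automorphisms of an abelian group of exponent `r` as linear maps. -/
def autEnd {W : Type*} [CommGroup W] (r : ℕ) [Module (ZMod r) (Additive W)] :
    MulAut W →* Module.End (ZMod r) (Additive W) where
  toFun g :=
    { toFun := fun v => Additive.ofMul (g v.toMul)
      map_add' := fun u v => congrArg Additive.ofMul (map_mul g u.toMul v.toMul)
      map_smul' := fun c u => ZMod.map_smul (MonoidHom.toAdditive g.toMonoidHom) c u }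
  map_one' := LinearMap.ext fun _ => rfl
  map_mul' _ _ := LinearMap.ext fun _ => rfl

theorem autEnd_injective {W : Type*} [CommGroup W] (r : ℕ) [Module (ZMod r) (Additive W)] :
    Function.Injective (autEnd (W := W) r) := fun _ _ h =>
  MulEquiv.ext fun v => congrArg Additive.toMul (LinearMap.congr_fun h (Additive.ofMul v))

/-- A generating element of order `p > 3` of a solvable irreducible group of automorphisms fixes few points. -/
theorem fixed_count {W : Type*} [CommGroup W] [Finite W] [Nontrivial W] {r p : ℕ} [Fact r.Prime] [Fact p.Prime]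
    (hp : 3 < p) (hexp : ∀ w : W, w ^ r = 1) (M : Subgroup (MulAut W)) [Group.IsSolvable M]
    (hirr : ∀ S : Subgroup W, (∀ g ∈ M, ∀ v ∈ S, g v ∈ S) → S = ⊥ ∨ S = ⊤)
    (X : M) (hXp : X ^ p = 1) (hX1 : X ≠ 1) (hgen : normalClosure ({X} : Set M) = ⊤) :
    Nat.card {v : W // X.1 v = v} * Nat.card {v : W // X.1 v = v} < Nat.card W := by
  have hz : ∀ z : Additive W, r • z = 0 := fun z => by
    apply Additive.toMul.injective
    simpa using hexp z.toMul
  have : Module (ZMod r) (Additive W) := AddCommGroup.zmodModule hz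
  have : Nontrivial (Additive W) := (Additive.toMul (α := W)).nontrivial
  have : Module.Finite (ZMod r) (Additive W) := Module.Finite.of_finite
  let ρ : M →* Module.End (ZMod r) (Additive W) := (autEnd r).comp M.subtype
  have hρ : Function.Injective ρ := fun g h hgh => Subtype.ext (autEnd_injective r hgh)
  have hlt := fixed_space_lt ρ hρ (fun S hS => by
    let S' : Subgroup W :=
      { carrier := {v | Additive.ofMul v ∈ S}
        one_mem' := S.zero_mem
        mul_mem' := fun h h' => S.add_mem h h'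
        inv_mem' := fun h => S.neg_mem h }
    rcases hirr S' (fun g hg v hv => hS ⟨g, hg⟩ (Additive.ofMul v) hv) with h | h
    · left
      rw [eq_bot_iff]
      intro v hv
      have h1 : v.toMul ∈ S' := hv
      rw [h, mem_bot] at h1
      exact (Submodule.mem_bot _).mpr (Additive.toMul.injective h1)
    · right
      rw [eq_top_iff]
      intro v _
      exact h.ge (mem_top v.toMul)) hp X hXp hX1 hgen
  have hk : Nat.card {v : W // X.1 v = v} = Nat.card (LinearMap.ker (ρ X - 1)) :=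
    Nat.card_congr (Additive.ofMul.subtypeEquiv fun v => by
      simp only [LinearMap.mem_ker, LinearMap.sub_apply, Module.End.one_apply, sub_eq_zero]
      exact Additive.ofMul.injective.eq_iff.symm)
  rw [hk, Nat.card_congr (Additive.ofMul (α := W)), Module.natCard_eq_pow_finrank (K := ZMod r) (V := LinearMap.ker (ρ X - 1)),
    Module.natCard_eq_pow_finrank (K := ZMod r) (V := Additive W), Nat.card_zmod, ← pow_add]
  exact (Nat.pow_lt_pow_iff_right (Fact.out (p := r.Prime)).one_lt).mpr (by omega)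

/-- The fixed points of a generating element of order `p > 3` are few in an irreducible module. -/
theorem not_covered {K : Type*} [Group K] [Finite K] {W A : Subgroup K} [W.Normal] [Group.IsSolvable A]
    {r p : ℕ} [Fact r.Prime] [Fact p.Prime] (hp : 3 < p)
    (hW : ∀ a ∈ W, ∀ b ∈ W, a * b = b * a) (hexp : ∀ w ∈ W, w ^ r = 1)
    {x a : K} (hx : x ∈ A) (ha : a ∈ A) (hxp : x ^ p = 1) (hA : A ≤ closure {x, a * x * a⁻¹})
    (hirr : ∀ S : Subgroup K, S ≤ W → A ≤ normalizer (S : Set K) → S = ⊥ ∨ S = W)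
    (hxW : ∃ w ∈ W, x * w ≠ w * x) :
    ∃ u ∈ W, ∀ w ∈ W, Commute w x → ¬ Commute (w⁻¹ * u) (a * x * a⁻¹) := by
  classical
  letI : CommGroup W := { (inferInstance : Group W) with mul_comm := fun a b => Subtype.ext (hW a a.2 b b.2) }
  obtain ⟨w0, hw0, hw0x⟩ := hxW
  have : Nontrivial W := ⟨⟨w0, hw0⟩, 1, fun h => hw0x (by
    rw [show w0 = 1 from congrArg Subtype.val h]; simp)⟩
  let φ : A →* MulAut W := MulAut.conjNormal.comp A.subtype
  have : Group.IsSolvable φ.range := Group.isSolvable_of_surjective φ.rangeRestrict_surjective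
  let X : φ.range := φ.rangeRestrict ⟨x, hx⟩
  have hX : ∀ v : W, (X.1 v : K) = x * v * x⁻¹ := fun v => by simp [X, φ]
  have hX1 : X ≠ 1 := fun h => hw0x (by
    have := hX ⟨w0, hw0⟩
    rw [h] at this
    simp only [OneMemClass.coe_one, MulAut.one_apply] at this
    exact eq_mul_inv_iff_mul_eq.mp this |>.symm)
  have hXp : X ^ p = 1 := by
    rw [show X = φ.rangeRestrict ⟨x, hx⟩ from rfl, ← map_pow, show (⟨x, hx⟩ : A) ^ p = 1 from Subtype.ext (by simpa using hxp),
      map_one]
  have hgen : normalClosure ({X} : Set φ.range) = ⊤ := by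
    rw [eq_top_iff]
    rintro g -
    obtain ⟨b, rfl⟩ := φ.rangeRestrict_surjective g
    obtain ⟨N, hN⟩ : ∃ N, N = (normalClosure ({X} : Set φ.range)).comap φ.rangeRestrict := ⟨_, rfl⟩
    have hNn : N.Normal := hN ▸ inferInstance
    have h2 : (⟨x, hx⟩ : A) ∈ N := by
      rw [hN, mem_comap]
      exact subset_normalClosure (Set.mem_singleton X)
    have h1 : A ≤ N.map A.subtype := by
      refine hA.trans ((closure_le _).mpr ?_)
      rintro y (rfl | rfl)
      · exact mem_map_of_mem A.subtype h2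
      · exact mem_map_of_mem A.subtype (hNn.conj_mem _ h2 ⟨a, ha⟩)
    obtain ⟨b', hb', hbb⟩ := h1 b.2
    rw [show b' = b from Subtype.ext hbb, hN, SetLike.mem_coe, mem_comap] at hb'
    exact hb'
  have hlt := fixed_count hp (fun w : W => Subtype.ext (by simpa using hexp w w.2)) φ.range (fun S hS => by
    have hinv : A ≤ normalizer ((S.map W.subtype : Subgroup K) : Set K) := le_normalizer_of_conj fun b hb w hw => by
      obtain ⟨v, hv, rfl⟩ := hw
      exact ⟨φ ⟨b, hb⟩ v, hS _ ⟨⟨b, hb⟩, rfl⟩ v hv, by simp [φ]⟩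
    rcases hirr _ (map_subtype_le _) hinv with h | h
    · left
      exact (map_eq_bot_iff_of_injective S W.subtype_injective).mp h
    · right
      rwa [← (map_injective W.subtype_injective).eq_iff, ← MonoidHom.range_eq_map, range_subtype]) X hXp hX1 hgen
  have hk : Nat.card ↥(W ⊓ centralizer ({x} : Set K)) = Nat.card {v : W // X.1 v = v} := by
    refine Nat.card_congr
      { toFun := fun v => ⟨⟨v.1, v.2.1⟩, ?_⟩
        invFun := fun v => ⟨v.1.1, mem_inf.mpr ⟨v.1.2, ?_⟩⟩
        left_inv := fun v => rfl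
        right_inv := fun v => rfl }
    · apply Subtype.ext
      rw [hX]
      change x * v.1 * x⁻¹ = v.1
      rw [(mem_centralizer_singleton_iff.mp v.2.2).symm]
      group
    · rw [mem_centralizer_singleton_iff]
      have h' := congrArg Subtype.val v.2
      rw [hX] at h'
      exact (mul_inv_eq_iff_eq_mul.mp h').symm
  by_contra hno
  push Not at hno
  have hF2 : (W ⊓ centralizer ({x} : Set K)).map (MulAut.conj a).toMonoidHom = W ⊓ centralizer {a * x * a⁻¹} := by
    ext z
    simp only [mem_map, mem_inf, mem_centralizer_singleton_iff, MulEquiv.coe_toMonoidHom, MulAut.conj_apply]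
    constructor
    · rintro ⟨v, ⟨hv, hvx⟩, rfl⟩
      exact ⟨‹W.Normal›.conj_mem v hv a, by simp only [mul_assoc, inv_mul_cancel_left]; rw [← mul_assoc v, hvx, mul_assoc]⟩
    · rintro ⟨hz, hzx⟩
      refine ⟨a⁻¹ * z * a, ⟨by simpa using ‹W.Normal›.conj_mem z hz a⁻¹, ?_⟩, by group⟩
      have := congrArg (fun t => a⁻¹ * t * a) hzx
      simpa [mul_assoc] using this
  have hcard : Nat.card W ≤ Nat.card ↥(W ⊓ centralizer ({x} : Set K)) * Nat.card ↥(W ⊓ centralizer ({a * x * a⁻¹} : Set K)) := by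
    rw [← Nat.card_prod]
    refine Nat.card_le_card_of_surjective
      (fun z => (⟨z.1.1 * z.2.1, mul_mem z.1.2.1 z.2.2.1⟩ : W)) fun u => ?_
    obtain ⟨w, hw, hwx, hwu⟩ := hno u u.2
    exact ⟨(⟨w, mem_inf.mpr ⟨hw, mem_centralizer_singleton_iff.mpr hwx⟩⟩,
      ⟨w⁻¹ * u, mem_inf.mpr ⟨mul_mem (inv_mem hw) u.2, mem_centralizer_singleton_iff.mpr hwu⟩⟩),
      Subtype.ext (mul_inv_cancel_left w u)⟩
  rw [← hF2, card_map_of_injective (MulAut.conj a).injective, hk] at hcard
  exact absurd hlt hcard.not_gt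

theorem isSolvable_sup {G : Type*} [Group G] {A U : Subgroup G} (hA : Group.IsSolvable A)
    (hU : Group.IsSolvable U) (hAU : A ≤ normalizer (U : Set G)) : Group.IsSolvable ↥(A ⊔ U) := by
  have hn : (U.subgroupOf (A ⊔ U)).Normal := normal_subgroupOf_of_le_normalizer (sup_le hAU le_normalizer)
  let g : A →* ↥(A ⊔ U) ⧸ U.subgroupOf (A ⊔ U) := (QuotientGroup.mk' _).comp (inclusion le_sup_left)
  have hg : Function.Surjective g := fun z => by
    obtain ⟨⟨h, hh⟩, rfl⟩ := QuotientGroup.mk'_surjective _ z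
    have hh' := hh
    rw [← SetLike.mem_coe, coe_mul_of_left_le_normalizer_right _ _ hAU] at hh'
    obtain ⟨a, ha, u, hu, rfl⟩ := hh'
    refine ⟨⟨a, ha⟩, ?_⟩
    simp only [g, MonoidHom.coe_comp, Function.comp_apply, QuotientGroup.mk'_apply]
    rw [QuotientGroup.eq]
    simpa [mem_subgroupOf] using hu
  have := Group.isSolvable_of_surjective hg
  refine Group.isSolvable_of_ker_le_range (inclusion (le_sup_right : U ≤ A ⊔ U)) (QuotientGroup.mk' (U.subgroupOf (A ⊔ U))) ?_
  rw [QuotientGroup.ker_mk']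
  intro z hz
  exact ⟨⟨z, hz⟩, rfl⟩

variable {G : Type*} [Group G] [Finite G]

/-- The key step: a normal `q`-subgroup of `A` centralises every `r`-subgroup normalised by `A`. -/
theorem commute_of_normalized {p q r : ℕ} [Fact p.Prime] [Fact q.Prime] [Fact r.Prime] (hqr : q ≠ r)
    (hp : 3 < p) (P : Subgroup G) (hP : Nat.card P = p) (A : Subgroup G) (hAsol : Group.IsSolvable A)
    (hAgen : ∃ a ∈ A, A = P ⊔ P.map (MulAut.conj a).toMonoidHom)
    (hmax : ∀ B : Subgroup G, A ≤ B → Group.IsSolvable ↥B →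
      (∃ b ∈ B, B = P ⊔ P.map (MulAut.conj b).toMonoidHom) → B = A)
    (Q : Subgroup G) (hQA : Q ≤ A) (hAQ : A ≤ normalizer (Q : Set G)) (hQ : IsPGroup q Q) :
    ∀ U : Subgroup G, IsPGroup r U → A ≤ normalizer (U : Set G) → ∀ x ∈ Q, ∀ u ∈ U, Commute x u := by
  suffices H : ∀ (n : ℕ) (U : Subgroup G), Nat.card U = n → IsPGroup r U → A ≤ normalizer (U : Set G) →
      U ≤ centralizer (Q : Set G) from
    fun U hU hAU x hx u hu => mem_centralizer_iff.mp (H _ U rfl hU hAU hu) x hx
  intro n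
  induction n using Nat.strong_induction_on with
  | _ n ih =>
  intro U hn hU hAU
  by_contra hne
  have hAconj : ∀ b ∈ A, ∀ t ∈ Q, b * t * b⁻¹ ∈ Q := fun b hb t ht => (mem_normalizer_iff.mp (hAQ hb) t).mp ht
  have hUconj : ∀ b ∈ A, ∀ t ∈ U, b * t * b⁻¹ ∈ U := fun b hb t ht => (mem_normalizer_iff.mp (hAU hb) t).mp ht
  have hQUbot : Q ⊓ U = ⊥ := (IsPGroup.disjoint_of_ne q r hqr Q U hQ hU).eq_bot
  obtain ⟨C, hC⟩ : ∃ C, C = U ⊓ centralizer (Q : Set G) := ⟨_, rfl⟩
  have hCU : C ≤ U := hC.trans_le inf_le_left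
  have hCQ : ∀ c ∈ C, ∀ t ∈ Q, t * c = c * t := fun c hc t ht => by
    rw [hC] at hc; exact mem_centralizer_iff.mp hc.2 t ht
  have hCne : C ≠ U := fun h => hne (by rw [← h, hC]; exact inf_le_right)
  have hsmall : ∀ S ≤ U, A ≤ normalizer (S : Set G) → S ≠ U → S ≤ C := fun S hS hAS hSU => by
    rw [hC]
    refine le_inf hS (ih (Nat.card S) ?_ S rfl (hU.to_le hS) hAS)
    rw [← hn]
    exact lt_of_le_of_ne (card_le_of_le hS) fun h => hSU (eq_of_le_of_card_ge hS h.ge)
  have hAC : A ≤ normalizer (C : Set G) := le_normalizer_of_conj fun b hb c hc => by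
    rw [hC] at hc ⊢
    refine ⟨hUconj b hb c hc.1, mem_centralizer_iff.mpr fun t ht => ?_⟩
    have h1 : b⁻¹ * t * b ∈ Q := by simpa using hAconj b⁻¹ (inv_mem hb) t ht
    have h2 := congrArg (fun z => b * z * b⁻¹) (mem_centralizer_iff.mp hc.2 _ h1)
    simpa [mul_assoc] using h2
  have hUnil : Group.IsNilpotent U := hU.isNilpotent
  have hUnt : Nontrivial U := by
    rw [nontrivial_iff_ne_bot]
    rintro rfl
    exact hne bot_le
  have hder : ∀ a ∈ U, ∀ b ∈ U, ⁅a, b⁆ ∈ C := by
    have h1 : (commutator U).map U.subtype ≤ C := hsmall _ (map_subtype_le _) (le_normalizer_char hAU _) (by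
      intro h
      apply (Group.IsSolvable.commutator_lt_top_of_nontrivial U).ne
      apply map_injective U.subtype_injective
      rw [h, ← MonoidHom.range_eq_map, range_subtype])
    exact fun a ha b hb => h1 ⟨⁅⟨a, ha⟩, ⟨b, hb⟩⁆, commutator_mem_commutator (mem_top _) (mem_top _), rfl⟩
  have hUC : U ≤ normalizer (C : Set G) := le_normalizer_of_conj fun u hu c hc => by
    simpa [commutatorElement_def, mul_assoc] using mul_mem (hder u hu c (hCU hc)) hc
  have hUCconj : ∀ u ∈ U, ∀ c ∈ C, u * c * u⁻¹ ∈ C := fun u hu c hc => (mem_normalizer_iff.mp (hUC hu) c).mp hc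
  -- `U / C` has no nontrivial fixed point of `Q`
  let W0 : Subgroup G :=
    { carrier := {u | u ∈ U ∧ ∀ t ∈ Q, ⁅t, u⁆ ∈ C}
      one_mem' := ⟨one_mem _, fun t _ => by simp⟩
      mul_mem' := fun {u v} hu hv => ⟨mul_mem hu.1 hv.1, fun t ht => by
        have := mul_mem (hu.2 t ht) (hUCconj u hu.1 _ (hv.2 t ht))
        convert this using 1
        simp only [commutatorElement_def]; group⟩
      inv_mem' := fun {u} hu => ⟨inv_mem hu.1, fun t ht => by
        have := hUCconj u⁻¹ (inv_mem hu.1) _ (inv_mem (hu.2 t ht))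
        convert this using 1
        simp only [commutatorElement_def]; group⟩ }
  have hW0ne : W0 ≠ U := fun h => hne fun u hu => by
    rw [mem_centralizer_iff]
    intro t ht
    obtain ⟨hu', hu''⟩ : u ∈ W0 := h.ge hu
    obtain ⟨c, hc⟩ : ∃ c, c = ⁅t, u⁆ := ⟨_, rfl⟩
    have hcC : c ∈ C := hc ▸ hu'' t ht
    have hcomm : ∀ k : ℕ, t ^ k * u * (t ^ k)⁻¹ = c ^ k * u := by
      intro k
      induction k with
      | zero => simp
      | succ k ihk =>
        have h1 : t * c ^ k * t⁻¹ = c ^ k := by rw [hCQ _ (pow_mem hcC k) t ht]; group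
        calc t ^ (k + 1) * u * (t ^ (k + 1))⁻¹ = t * (t ^ k * u * (t ^ k)⁻¹) * t⁻¹ := by rw [pow_succ']; group
          _ = t * c ^ k * t⁻¹ * (t * u * t⁻¹) := by rw [ihk]; group
          _ = c ^ k * (c * u) := by rw [h1, hc, commutatorElement_def]; group
          _ = c ^ (k + 1) * u := by rw [pow_succ]; group
    obtain ⟨i, hi⟩ := (IsPGroup.iff_orderOf.mp hQ) ⟨t, ht⟩
    obtain ⟨j, hj⟩ := (IsPGroup.iff_orderOf.mp hU) ⟨c, hCU hcC⟩
    rw [Subgroup.orderOf_mk] at hi hj
    have h1 : c ^ orderOf t = 1 := by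
      have := hcomm (orderOf t)
      rw [pow_orderOf_eq_one] at this
      simpa using this
    have h2 : c = 1 := orderOf_eq_one_iff.mp (Nat.eq_one_of_dvd_coprimes
      ((Nat.coprime_primes (Fact.out) (Fact.out)).mpr hqr |>.pow i j) (hi ▸ orderOf_dvd_of_pow_eq_one h1) (hj ▸ dvd_rfl))
    rw [hc, commutatorElement_eq_one_iff_mul_comm] at h2
    exact h2
  have hW0C : W0 ≤ C := hsmall W0 (fun u hu => hu.1) (le_normalizer_of_conj fun b hb u hu =>
    ⟨hUconj b hb u hu.1, fun t ht => by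
      have h1 : b⁻¹ * t * b ∈ Q := by simpa using hAconj b⁻¹ (inv_mem hb) t ht
      have := (mem_normalizer_iff.mp (hAC hb) _).mp (hu.2 _ h1)
      convert this using 1
      simp only [commutatorElement_def]; group⟩) hW0ne
  -- `U` centralises `C`
  have hUcomC : ∀ u ∈ U, ∀ c ∈ C, u * c = c * u := by
    let K0 : Subgroup G := closure {z | ∃ t ∈ Q, ∃ u ∈ U, z = ⁅t, u⁆}
    have hK0U : K0 ≤ U := (closure_le _).mpr (by
      rintro z ⟨t, ht, u, hu, rfl⟩
      rw [commutatorElement_def]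
      exact mul_mem (hUconj t (hQA ht) u hu) (inv_mem hu))
    have hK0 : K0 = U := by
      by_contra h
      have h1 : K0 ≤ C := hsmall K0 hK0U (le_normalizer_of_conj fun b hb z hz => by
        have : K0.map (MulAut.conj b).toMonoidHom ≤ K0 := by
          rw [MonoidHom.map_closure]
          refine (closure_le _).mpr ?_
          rintro _ ⟨z, ⟨t, ht, u, hu, rfl⟩, rfl⟩
          exact subset_closure ⟨_, hAconj b hb t ht, _, hUconj b hb u hu, by
            simp only [MulEquiv.coe_toMonoidHom, MulAut.conj_apply, commutatorElement_def]; group⟩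
        exact this ⟨z, hz, rfl⟩) h
      refine hne ((show U ≤ W0 from fun u hu => ⟨hu, fun t ht => h1 (subset_closure ⟨t, ht, u, hu, rfl⟩)⟩).trans
        (hW0C.trans (by rw [hC]; exact inf_le_right)))
    intro u hu c hc
    have h2 : K0 ≤ centralizer (C : Set G) := (closure_le _).mpr (by
      rintro z ⟨t, ht, v, hv, rfl⟩
      rw [SetLike.mem_coe, mem_centralizer_iff]
      intro c hc
      have h3 : Commute t c := hCQ c hc t ht
      have h4 : Commute (v * t * v⁻¹) c := by
        have h5 : Commute t (v⁻¹ * c * v) := hCQ _ (by simpa using hUCconj v⁻¹ (inv_mem hv) c hc) t ht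
        have := congrArg (fun z => v * z * v⁻¹) h5.eq
        simpa [Commute, SemiconjBy, mul_assoc] using this
      have h6 : Commute ⁅t, v⁆ c := by
        have h7 : ⁅t, v⁆ = t * (v * t * v⁻¹)⁻¹ := by simp only [commutatorElement_def]; group
        rw [h7]
        exact h3.mul_left h4.inv_left
      exact h6.eq.symm)
    exact (mem_centralizer_iff.mp (h2 (hK0.ge hu)) c hc).symm
  obtain ⟨a, ha, hAeq⟩ := hAgen
  obtain ⟨⟨x0, hx0⟩, hx0gen⟩ := (isCyclic_of_prime_card hP).exists_generator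
  have hPz : P = zpowers x0 := le_antisymm (fun y hy => by
    obtain ⟨k, hk⟩ := hx0gen ⟨y, hy⟩
    exact ⟨k, congrArg Subtype.val hk⟩) (zpowers_le.mpr hx0)
  have hxA : x0 ∈ A := by rw [hAeq]; exact mem_sup_left hx0
  have hxp : x0 ^ p = 1 := by
    have := congrArg Subtype.val (pow_card_eq_one' (G := P) (x := ⟨x0, hx0⟩))
    rw [hP] at this; exact this
  have hUA : ¬ U ≤ A := fun h => hne fun u hu => by
    rw [mem_centralizer_iff]
    intro t ht
    have h1 : ⁅t, u⁆ ∈ Q ⊓ U := by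
      rw [commutatorElement_def]
      refine mem_inf.mpr ⟨?_, mul_mem (hUconj t (hQA ht) u hu) (inv_mem hu)⟩
      have := mul_mem ht (hAconj u (h hu) _ (inv_mem ht))
      simpa [mul_assoc] using this
    rw [hQUbot, mem_bot, commutatorElement_eq_one_iff_mul_comm] at h1
    exact h1
  obtain ⟨H, hH⟩ : ∃ H, H = A ⊔ U := ⟨_, rfl⟩
  have hHU : H ≤ normalizer (U : Set G) := hH.trans_le (sup_le hAU le_normalizer)
  have hHC : H ≤ normalizer (C : Set G) := hH.trans_le (sup_le hAC hUC)
  have hAH : A ≤ H := by rw [hH]; exact le_sup_left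
  have hUH : U ≤ H := by rw [hH]; exact le_sup_right
  have hcompl : ∀ u ∈ U, zpowers x0 ⊔ zpowers (u * a * x0 * (u * a)⁻¹) ≤ H ∧
      H ≤ (zpowers x0 ⊔ zpowers (u * a * x0 * (u * a)⁻¹)) ⊔ U ∧
      (zpowers x0 ⊔ zpowers (u * a * x0 * (u * a)⁻¹)) ⊓ U ≤ C := by
    intro u hu
    obtain ⟨B, hB⟩ : ∃ B, B = zpowers x0 ⊔ zpowers (u * a * x0 * (u * a)⁻¹) := ⟨_, rfl⟩
    rw [← hB]
    have huaH : u * a ∈ H := mul_mem (hUH hu) (hAH ha)
    have hBH : B ≤ H := hB.trans_le (sup_le (zpowers_le.mpr (hAH hxA))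
      (zpowers_le.mpr (mul_mem (mul_mem huaH (hAH hxA)) (inv_mem huaH))))
    have hHB : H ≤ B ⊔ U := by
      rw [hH, hAeq, hPz, MonoidHom.map_zpowers]
      refine sup_le (sup_le ?_ (zpowers_le.mpr ?_)) le_sup_right
      · exact (le_sup_left.trans hB.ge).trans le_sup_left
      · have h1 : u * a * x0 * (u * a)⁻¹ ∈ B ⊔ U :=
          mem_sup_left (hB ▸ mem_sup_right (mem_zpowers _))
        have h2 : u ∈ B ⊔ U := mem_sup_right hu
        have := mul_mem (mul_mem (inv_mem h2) h1) h2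
        simpa [mul_assoc] using this
    refine ⟨hBH, hHB, ?_⟩
    have hBC : B ≤ normalizer (C : Set G) := hBH.trans hHC
    have hBX : B ≤ normalizer ((B ⊓ U : Subgroup G) : Set G) := le_normalizer_of_conj fun b hb z hz =>
      mem_inf.mpr ⟨mul_mem (mul_mem hb hz.1) (inv_mem hb), (mem_normalizer_iff.mp (hHU (hBH hb)) z).mp hz.2⟩
    have hUY : U ≤ normalizer (((B ⊓ U) ⊔ C : Subgroup G) : Set G) := le_normalizer_of_conj fun v hv z hz => by
      have hzU : z ∈ U := sup_le inf_le_right hCU hz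
      simpa [commutatorElement_def, mul_assoc] using mul_mem (mem_sup_right (hder v hv z hzU)) hz
    have hBY : B ≤ normalizer (((B ⊓ U) ⊔ C : Subgroup G) : Set G) :=
      (le_inf hBX hBC).trans (normalizer_inf_normalizer_le_normalizer_sup _ _)
    have hY := hsmall ((B ⊓ U) ⊔ C) (sup_le inf_le_right hCU) ((hAH.trans hHB).trans (sup_le hBY hUY))
    by_cases hYU : (B ⊓ U) ⊔ C = U
    swap
    · exact le_sup_left.trans (hY hYU)
    exfalso
    have hUX : U ≤ normalizer ((B ⊓ U : Subgroup G) : Set G) := by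
      intro v hv
      rw [← hYU] at hv
      refine (sup_le le_normalizer ?_ : (B ⊓ U) ⊔ C ≤ normalizer ((B ⊓ U : Subgroup G) : Set G)) hv
      refine le_normalizer_of_conj fun c hc z hz => ?_
      rw [← hUcomC z hz.2 c hc, mul_inv_cancel_right]
      exact hz
    by_cases hXU : B ⊓ U = U
    swap
    · have h1 : B ⊓ U ≤ C := hsmall _ inf_le_right ((hAH.trans hHB).trans (sup_le hBX hUX)) hXU
      rw [sup_eq_right.mpr h1] at hYU
      exact hCne hYU
    have hBeq : B = H := le_antisymm hBH (hHB.trans (sup_le le_rfl (inf_eq_right.mp hXU)))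
    have hUsol : Group.IsSolvable U := inferInstance
    have := hmax H hAH (hH ▸ isSolvable_sup hAsol hUsol hAU)
      ⟨u * a, huaH, by rw [← hBeq, hB, hPz, MonoidHom.map_zpowers]; rfl⟩
    exact hUA (hUH.trans this.le)
  -- pass to `H / C`
  have : (C.subgroupOf H).Normal := normal_subgroupOf_of_le_normalizer hHC
  have : (U.subgroupOf H).Normal := normal_subgroupOf_of_le_normalizer hHU
  let π := QuotientGroup.mk' (C.subgroupOf H)
  have hπ : Function.Surjective π := QuotientGroup.mk'_surjective _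
  let bar : Subgroup G → Subgroup (↥H ⧸ C.subgroupOf H) := fun T => (T.subgroupOf H).map π
  have : (bar U).Normal := Normal.map inferInstance π hπ
  have hmem : ∀ {T : Subgroup G} (h : H), (h : G) ∈ T → π h ∈ bar T := fun h hT => ⟨h, hT, rfl⟩
  have hker : ∀ h : H, π h = 1 ↔ (h : G) ∈ C := fun h => by
    simp [π, QuotientGroup.eq_one_iff, mem_subgroupOf]
  have hker2 : ∀ h k : H, π h = π k ↔ ((h : G)⁻¹ * k) ∈ C := fun h k => by
    simp [π, QuotientGroup.eq, mem_subgroupOf]
  have hWab : ∀ y ∈ bar U, ∀ z ∈ bar U, y * z = z * y := by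
    rintro _ ⟨y, hy, rfl⟩ _ ⟨z, hz, rfl⟩
    rw [← commutatorElement_eq_one_iff_mul_comm, ← map_commutatorElement, hker]
    exact hder _ hy _ hz
  have hWne : bar U ≠ ⊥ := fun h => hCne (le_antisymm hCU fun u hu => by
    have := hmem ⟨u, hUH hu⟩ hu
    rw [h, mem_bot, hker] at this
    exact this)
  have hirr : ∀ S ≤ bar U, bar A ≤ normalizer (S : Set (↥H ⧸ C.subgroupOf H)) → S = ⊥ ∨ S = bar U := by
    intro S hS hAS
    let S' := (S.comap π).map H.subtype
    have hS'U : S' ≤ U := by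
      rintro _ ⟨h, hh, rfl⟩
      obtain ⟨v, hv, hvh⟩ := hS hh
      rw [hker2] at hvh
      simpa using mul_mem (mem_subgroupOf.mp hv) (hCU hvh)
    have hAS' : A ≤ normalizer (S' : Set G) := le_normalizer_of_conj fun b hb z hz => by
      obtain ⟨h, hh, rfl⟩ := hz
      refine ⟨⟨b, hAH hb⟩ * h * ⟨b, hAH hb⟩⁻¹, ?_, rfl⟩
      rw [SetLike.mem_coe, mem_comap, map_mul, map_mul, map_inv]
      exact (mem_normalizer_iff.mp (hAS (hmem ⟨b, hAH hb⟩ hb)) _).mp hh
    by_cases h : S' = U
    · right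
      refine le_antisymm hS ?_
      rintro _ ⟨v, hv, rfl⟩
      obtain ⟨h', hh', he⟩ := h.ge (mem_subgroupOf.mp hv)
      rwa [show h' = v from Subtype.ext he] at hh'
    · left
      rw [eq_bot_iff]
      intro y hy
      obtain ⟨h', rfl⟩ := hπ y
      rw [mem_bot, hker]
      exact hsmall S' hS'U hAS' h ⟨h', hy, rfl⟩
  have hWexp : ∀ w ∈ bar U, w ^ r = 1 := by
    let R : Subgroup (↥H ⧸ C.subgroupOf H) :=
      { carrier := {w | w ∈ bar U ∧ w ^ r = 1}
        one_mem' := ⟨one_mem _, one_pow _⟩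
        mul_mem' := fun {y z} hy hz => ⟨mul_mem hy.1 hz.1, by
          rw [(show Commute y z from hWab y hy.1 z hz.1).mul_pow, hy.2, hz.2, mul_one]⟩
        inv_mem' := fun {y} hy => ⟨inv_mem hy.1, by rw [inv_pow, hy.2, inv_one]⟩ }
    have hRA : bar A ≤ normalizer (R : Set (↥H ⧸ C.subgroupOf H)) := le_normalizer_of_conj fun b _ w hw =>
      ⟨(inferInstance : (bar U).Normal).conj_mem w hw.1 b, by rw [conj_pow, hw.2]; group⟩
    rcases hirr R (fun w hw => hw.1) hRA with h | h
    · exfalso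
      have : Nontrivial (bar U) := (nontrivial_iff_ne_bot _).mpr hWne
      have hWr : IsPGroup r (bar U) :=
        (hU.of_equiv (subgroupOfEquivOfLe hUH).symm).map π
      obtain ⟨w, hw⟩ := exists_prime_orderOf_dvd_card' r (G := bar U) (by
        obtain ⟨k, hk⟩ := IsPGroup.iff_card.mp hWr
        rw [hk]
        refine dvd_pow_self r fun hk0 => ?_
        rw [hk0, pow_zero] at hk
        exact hWne (eq_bot_of_card_eq _ hk))
      have hwR : (w : ↥H ⧸ C.subgroupOf H) ∈ R := ⟨w.2, by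
        rw [← SubgroupClass.coe_pow, ← hw, pow_orderOf_eq_one]; rfl⟩
      rw [h, mem_bot] at hwR
      rw [show w = 1 from Subtype.ext hwR, orderOf_one] at hw
      exact (Fact.out (p := r.Prime)).ne_one hw.symm
    · exact fun w hw => (h.ge hw).2
  obtain ⟨X, hX⟩ : ∃ X : H, X = ⟨x0, hAH hxA⟩ := ⟨_, rfl⟩
  obtain ⟨Y, hY⟩ : ∃ Y : H, Y = ⟨a, hAH ha⟩ := ⟨_, rfl⟩
  have hXv : (X : G) = x0 := by rw [hX]
  have hYv : (Y : G) = a := by rw [hY]
  have hbarA : bar A ≤ closure {π X, π Y * π X * (π Y)⁻¹} := by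
    rintro _ ⟨h, hh, rfl⟩
    have : A ≤ ((closure ({π X, π Y * π X * (π Y)⁻¹} : Set _)).comap π).map H.subtype := by
      conv_lhs => rw [hAeq, hPz, MonoidHom.map_zpowers]
      refine sup_le (zpowers_le.mpr ⟨X, subset_closure (Or.inl rfl), hXv⟩) (zpowers_le.mpr ?_)
      exact ⟨Y * X * Y⁻¹, by simp only [SetLike.mem_coe, mem_comap, map_mul, map_inv]; exact subset_closure (Or.inr rfl),
        by simp [hXv, hYv]⟩
    obtain ⟨h', hh', he⟩ := this hh
    rwa [show h' = h from Subtype.ext he] at hh'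
  have hfix : ∀ w ∈ bar U, (∀ t ∈ bar Q, t * w = w * t) → w = 1 := by
    rintro _ ⟨w, hw, rfl⟩ hcomm
    rw [hker]
    refine hW0C ⟨hw, fun t ht => ?_⟩
    have := hcomm _ (hmem ⟨t, hAH (hQA ht)⟩ ht)
    rw [← commutatorElement_eq_one_iff_mul_comm, ← map_commutatorElement, hker] at this
    exact this
  have hxW : ∃ w ∈ bar U, π X * w ≠ w * π X := by
    by_contra hno
    push Not at hno
    have hcent : bar A ≤ centralizer (bar U : Set (↥H ⧸ C.subgroupOf H)) := by
      refine hbarA.trans ((closure_le _).mpr ?_)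
      have h1 : π X ∈ centralizer (bar U : Set (↥H ⧸ C.subgroupOf H)) :=
        mem_centralizer_iff.mpr fun w hw => (hno w hw).symm
      rintro y (rfl | rfl)
      · exact h1
      · exact mem_centralizer_iff.mpr fun w hw => by
          have h2 : (π Y)⁻¹ * w * π Y ∈ bar U := by
            simpa using (inferInstance : (bar U).Normal).conj_mem w hw (π Y)⁻¹
          have := congrArg (fun z => π Y * z * (π Y)⁻¹) (mem_centralizer_iff.mp h1 _ h2)
          simpa [mul_assoc] using this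
    apply hWne
    rw [eq_bot_iff]
    intro w hw
    rw [mem_bot]
    refine hfix w hw fun t ht => ?_
    exact (mem_centralizer_iff.mp (hcent ((map_mono (fun z hz => hQA hz) : bar Q ≤ bar A) ht)) w hw).symm
  have : Group.IsSolvable (bar A) := by
    have : Group.IsSolvable (A.subgroupOf H) :=
      Group.isSolvable_of_surjective (f := (subgroupOfEquivOfLe hAH).symm.toMonoidHom) (subgroupOfEquivOfLe hAH).symm.surjective
    exact Group.isSolvable_of_surjective (MonoidHom.subgroupMap_surjective π _)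
  obtain ⟨ub, hub, hubad⟩ := not_covered (W := bar U) (A := bar A) hp hWab hWexp
    (hmem X (hXv ▸ hxA)) (hmem Y (hYv ▸ ha))
    (by rw [← map_pow, hker, SubgroupClass.coe_pow, hXv, hxp]; exact one_mem _)
    hbarA hirr hxW
  obtain ⟨v, hv, rfl⟩ := hub
  obtain ⟨hBH, hHB, hBC⟩ := hcompl (v : G) hv
  obtain ⟨B, hBdef⟩ : ∃ B, B = zpowers x0 ⊔ zpowers ((v : G) * a * x0 * ((v : G) * a)⁻¹) := ⟨_, rfl⟩
  rw [← hBdef] at hBH hHB hBC
  have hco : (Nat.card (bar U)).Coprime (Nat.card (bar Q)) :=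
    IsPGroup.coprime_card_of_ne r q hqr.symm (bar U) (bar Q) ((hU.of_equiv (subgroupOfEquivOfLe hUH).symm).map π)
      ((hQ.of_equiv (subgroupOfEquivOfLe (hQA.trans hAH)).symm).map π)
  have hbot : bar B ⊓ bar U = ⊥ := by
    rw [eq_bot_iff]
    rintro _ ⟨⟨b, hb, rfl⟩, w, hw, hwb⟩
    rw [hker2] at hwb
    have hbU : (b : G) ∈ U := by simpa using mul_mem (mem_subgroupOf.mp hw) (hCU hwb)
    rw [mem_bot, hker]
    exact hBC ⟨hb, hbU⟩
  have hQB : bar Q ≤ bar B ⊔ bar U := by
    refine le_trans ?_ (Subgroup.map_sup _ _ π).le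
    apply map_mono
    rw [← subgroupOf_sup hBH hUH]
    exact fun z hz => ((hQA.trans hAH).trans hHB) hz
  obtain ⟨w, hw, hwall⟩ := exists_translate hWab hco hbot hQB hfix
  have hnorm : ∀ h : H, (h : G) ∈ A → ∀ t ∈ bar Q, π h * t * (π h)⁻¹ ∈ bar Q := by
    rintro h hh _ ⟨t, ht, rfl⟩
    rw [← map_inv, ← map_mul, ← map_mul]
    exact hmem _ (hAconj _ hh _ ht)
  have h1 : Commute w (π X) := by
    have := hwall (π X) (hnorm X (hXv ▸ hxA)) 1 (one_mem _) (by
      simp only [one_mul, inv_one, mul_one]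
      exact hmem X (hXv ▸ hBdef ▸ mem_sup_left (mem_zpowers _)))
    simpa using this
  have h2 : Commute (w * π v) (π Y * π X * (π Y)⁻¹) := by
    have hA' : ((Y * X * Y⁻¹ : H) : G) ∈ A := by
      simpa [hXv, hYv] using mul_mem (mul_mem ha hxA) (inv_mem ha)
    have := hwall (π (Y * X * Y⁻¹)) (hnorm _ hA') (π v) (hmem v hv) (by
      rw [← map_inv, ← map_mul, ← map_mul]
      refine hmem _ ?_
      rw [hBdef]
      refine mem_sup_right ?_
      convert mem_zpowers ((v : G) * a * x0 * ((v : G) * a)⁻¹) using 1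
      simp [hXv, hYv, mul_assoc])
    simpa using this
  exact hubad w⁻¹ (inv_mem hw) h1.inv_left (by simpa using h2)

/-- Flavell: `F(A) V` is nilpotent. -/
theorem isNilpotent_fitting_sup {p : ℕ} [Fact p.Prime] (hp : 3 < p) (P : Subgroup G) (hP : Nat.card P = p)
    (A : Subgroup G) (hAsol : Group.IsSolvable A) (hAgen : ∃ a ∈ A, A = P ⊔ P.map (MulAut.conj a).toMonoidHom)
    (hmax : ∀ B : Subgroup G, A ≤ B → Group.IsSolvable ↥B →
      (∃ b ∈ B, B = P ⊔ P.map (MulAut.conj b).toMonoidHom) → B = A)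
    (V : Subgroup G) (hV : Group.IsNilpotent ↥V) (hAV : A ≤ normalizer (V : Set G)) :
    Group.IsNilpotent ↥((Cfsg.fittingSubgroup ↥A).map A.subtype ⊔ V) := by
  classical
  let F : Nat.Primes → Subgroup G := fun r => (pCore (r : ℕ) A).map A.subtype
  let W : Nat.Primes → Subgroup G := fun r => (pCore (r : ℕ) V).map V.subtype
  have hF : (Cfsg.fittingSubgroup ↥A).map A.subtype = ⨆ r, F r := by
    rw [Core.fittingSubgroup_eq_iSup, Subgroup.map_iSup]
  have hVW : V = ⨆ r, W r := by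
    have h := (Core.fittingSubgroup_eq_top_iff (G := V)).mpr hV
    rw [Core.fittingSubgroup_eq_iSup] at h
    rw [← Subgroup.map_iSup, h, ← MonoidHom.range_eq_map, range_subtype]
  have hFA : ∀ r, F r ≤ A := fun r => map_subtype_le _
  have hFp : ∀ r : Nat.Primes, IsPGroup r (F r) := fun r => by
    haveI := Fact.mk r.2
    exact (Core.isPGroup_pCore _ _).map _
  have hWp : ∀ r : Nat.Primes, IsPGroup r (W r) := fun r => by
    haveI := Fact.mk r.2
    exact (Core.isPGroup_pCore _ _).map _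
  have hAF : ∀ r, A ≤ normalizer (F r : Set G) := fun r => le_normalizer_char le_normalizer _
  have hAW : ∀ r, A ≤ normalizer (W r : Set G) := fun r => le_normalizer_char hAV _
  let R : Nat.Primes → Subgroup G := fun r => F r ⊔ W r
  have hcomm : ∀ r s, r ≠ s → R s ≤ centralizer (R r : Set G) := by
    intro r s hrs
    have : Fact (r : ℕ).Prime := ⟨r.2⟩
    have : Fact (s : ℕ).Prime := ⟨s.2⟩
    have hne : (r : ℕ) ≠ (s : ℕ) := fun h => hrs (Subtype.ext h)
    have hco1 := fun (U : Subgroup G) hU hAU => commute_of_normalized (q := r) (r := s) hne hp P hP A hAsol hAgen hmax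
      (F r) (hFA r) (hAF r) (hFp r) U hU hAU
    have hco2 := fun (U : Subgroup G) hU hAU => commute_of_normalized (q := s) (r := r) hne.symm hp P hP A hAsol hAgen hmax
      (F s) (hFA s) (hAF s) (hFp s) U hU hAU
    rw [le_centralizer_iff]
    refine sup_le ?_ ?_ <;> rw [le_centralizer_iff] <;> refine sup_le ?_ ?_
    · exact fun u hu => mem_centralizer_iff.mpr fun t ht => hco1 (F s) (hFp s) (hAF s) t ht u hu
    · exact fun u hu => mem_centralizer_iff.mpr fun t ht => hco1 (W s) (hWp s) (hAW s) t ht u hu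
    · exact fun u hu => mem_centralizer_iff.mpr fun t ht => (hco2 (W r) (hWp r) (hAW r) u hu t ht).symm
    · rintro _ ⟨u, hu, rfl⟩
      rw [mem_centralizer_iff]
      rintro _ ⟨t, ht, rfl⟩
      have := Subgroup.commute_of_normal_of_disjoint (pCore (r : ℕ) V) (pCore (s : ℕ) V) inferInstance inferInstance
        (IsPGroup.disjoint_of_ne _ _ hne _ _ (Core.isPGroup_pCore _ _) (Core.isPGroup_pCore _ _)) t u ht hu
      exact congrArg Subtype.val this.eq
  obtain ⟨H, hH⟩ : ∃ H, H = (Cfsg.fittingSubgroup ↥A).map A.subtype ⊔ V := ⟨_, rfl⟩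
  rw [← hH]
  have hHR : H = ⨆ r, R r := by rw [hH, hF, hVW, ← iSup_sup_eq]
  have hnorm : ∀ r, H ≤ normalizer (R r : Set G) := fun r => hHR.trans_le (iSup_le fun s => by
    rcases eq_or_ne r s with rfl | hne
    · exact le_normalizer
    · refine (hcomm r s hne).trans (le_normalizer_of_conj fun b hb z hz => ?_)
      rw [← mem_centralizer_iff.mp hb z hz, mul_inv_cancel_right]
      exact hz)
  rw [← Core.fittingSubgroup_eq_top_iff, ← top_le_iff, ← map_subtype_le_map_subtype, ← MonoidHom.range_eq_map,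
    range_subtype]
  conv_lhs => rw [hHR]
  refine iSup_le fun r => ?_
  have : Fact (r : ℕ).Prime := ⟨r.2⟩
  have hRH : R r ≤ H := hHR ▸ le_iSup R r
  have hRp : IsPGroup (r : ℕ) (R r) := IsPGroup.to_sup_of_normal_right' (hFp r) (hWp r) ((hFA r).trans (hAW r))
  have hle : (R r).subgroupOf H ≤ fittingSubgroup H :=
    Core.le_fittingSubgroup (normal_subgroupOf_of_le_normalizer (hnorm r))
      ((hRp.of_equiv (subgroupOfEquivOfLe hRH).symm).isNilpotent)
  intro z hz
  exact ⟨⟨z, hRH hz⟩, hle hz, rfl⟩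

end Cfsg.Agent.FGS3.FlavellFit
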