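import Cfsg.Agent.FGS3.FixedPointCounts

/-!
Flavell's bound: an element of prime order `p > 3` whose conjugates generate a solvable irreducible linear
group fixes less than half of the space.
-/

set_option autoImplicit false

open scoped commutatorElement

namespace Cfsg.Agent.FGS3

open Module

section Twisted

variable {K V W : Type*} [Field K] [AddCommGroup V] [Module K V] [FiniteDimensional K V] [Nontrivial V]
  [CommGroup W] [Finite W]

/-- The fixed space of a unit permuting a twisted group basis of the endomorphism algebra with few orbits. -/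
theorem twisted_count {p q : ℕ} [Fact p.Prime] [Fact q.Prime] (hexp : ∀ w : W, w ^ q = 1)
    (X : (End K V)ˣ) (hX1 : X ≠ 1) (e : W → (End K V)ˣ) (he1 : e 1 = 1)
    (hmul : ∀ i j, ∃ c : K, ((e i : End K V) * (e j : End K V)) = c • (e (i * j) : End K V))
    (hconj : ∀ f i, ∃ c : K, (e f : End K V) * (e i : End K V) * ↑(e f)⁻¹ = c • (e i : End K V))
    (hnd : ∀ i, i ≠ 1 → ∃ f, (e f : End K V) * (e i : End K V) * ↑(e f)⁻¹ ≠ e i)
    (σ : MulAut W) (hXe : ∀ i, ∃ c : K, (X : End K V) * (e i : End K V) * ↑X⁻¹ = c • (e (σ i) : End K V))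
    (hσp : σ ^ p = 1) (hbound : 4 * (Nat.card W + (p - 1) * Nat.card {w : W // σ w = w}) ≤ p * Nat.card W) :
    2 * finrank K (LinearMap.ker ((X : End K V) - 1)) < finrank K V := by
  classical
  have := Fintype.ofFinite W
  have ne0 : ∀ u : (End K V)ˣ, (u : End K V) ≠ 0 := fun u => u.ne_zero
  have uniq : ∀ (u : (End K V)ˣ) {c d : K}, c • (u : End K V) = d • (u : End K V) → c = d :=
    fun u c d h => smul_left_injective K (ne0 u) h
  choose χ hχ using hconj
  have hχne : ∀ f i, χ f i ≠ 0 := fun f i h => by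
    have := hχ f i
    rw [h, zero_smul] at this
    exact ne0 (e f * e i * (e f)⁻¹) (by simpa using this)
  have hχl : ∀ g f i, χ (g * f) i = χ g i * χ f i := by
    intro g f i
    obtain ⟨c, hc⟩ := hmul g f
    have h1 : (e g : End K V) * ((e f : End K V) * (e i : End K V) * ↑(e f)⁻¹) * ↑(e g)⁻¹ =
        (χ f i * χ g i) • (e i : End K V) := by
      rw [hχ f i, mul_smul_comm, smul_mul_assoc, hχ g i, smul_smul]
    have h2 : ((e g : End K V) * (e f : End K V)) * (e i : End K V) =
        (χ f i * χ g i) • ((e i : End K V) * ((e g : End K V) * (e f : End K V))) := by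
      rw [← smul_mul_assoc, ← h1]
      simp only [mul_assoc, Units.inv_mul_cancel_left, Units.inv_mul, mul_one]
    rw [hc, smul_mul_assoc, mul_smul_comm, smul_comm _ c] at h2
    have hc0 : c ≠ 0 := fun h => ne0 (e g * e f) (by simp [hc, h])
    have h3 : (e (g * f) : End K V) * (e i : End K V) =
        (χ f i * χ g i) • ((e i : End K V) * (e (g * f) : End K V)) := smul_right_injective _ hc0 h2
    have h4 := hχ (g * f) i
    rw [h3, smul_mul_assoc, Units.mul_inv_cancel_right] at h4
    rw [← uniq (e i) h4]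
    ring
  have hχ1 : ∀ i, χ 1 i = 1 := fun i => by
    have := hχl 1 1 i
    rw [mul_one] at this
    exact (mul_eq_left₀ (hχne 1 i)).1 this.symm
  have hχr : ∀ f i j, χ f (i * j) = χ f i * χ f j := by
    intro f i j
    obtain ⟨c, hc⟩ := hmul i j
    have hc0 : c ≠ 0 := fun h => ne0 (e i * e j) (by simp [hc, h])
    have h1 : (e f : End K V) * ((e i : End K V) * (e j : End K V)) * ↑(e f)⁻¹ =
        (χ f i * χ f j) • ((e i : End K V) * (e j : End K V)) := by
      calc (e f : End K V) * ((e i : End K V) * (e j : End K V)) * ↑(e f)⁻¹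
          = ((e f : End K V) * (e i : End K V) * ↑(e f)⁻¹) * ((e f : End K V) * (e j : End K V) * ↑(e f)⁻¹) := by
            simp only [mul_assoc, Units.inv_mul_cancel_left]
        _ = _ := by rw [hχ f i, hχ f j, smul_mul_assoc, mul_smul_comm, smul_smul]
    rw [hc, mul_smul_comm, smul_mul_assoc, hχ f (i * j), smul_smul, smul_smul] at h1
    have h2 := uniq _ h1
    exact mul_left_cancel₀ hc0 (by rw [h2]; ring)
  have hne1 : ∀ i, i ≠ 1 → ∃ f, χ f i ≠ 1 := fun i hi => by
    obtain ⟨f, hf⟩ := hnd i hi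
    exact ⟨f, fun h => hf (by rw [hχ, h, one_smul])⟩
  have hsum : ∀ i, i ≠ 1 → ∑ f, χ f i = 0 := by
    intro i hi
    obtain ⟨g, hg⟩ := hne1 i hi
    have h : χ g i * ∑ f, χ f i = ∑ f, χ f i := by
      rw [Finset.mul_sum]
      exact Fintype.sum_equiv (Equiv.mulLeft g) _ _ fun f => (hχl g f i).symm
    by_contra h0
    exact hg ((mul_eq_right₀ h0).1 h)
  have hn0 : ((Nat.card W : ℕ) : K) ≠ 0 := by
    intro h0
    by_cases hW : ∀ i : W, i = 1
    · have : Nat.card W = 1 := Nat.card_eq_one_iff_unique.2 ⟨⟨fun a b => (hW a).trans (hW b).symm⟩, ⟨1⟩⟩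
      rw [this, Nat.cast_one] at h0
      exact one_ne_zero h0
    push Not at hW
    obtain ⟨i, hi⟩ := hW
    obtain ⟨n, hn⟩ := IsPGroup.iff_card.1 (fun w => ⟨1, by rw [pow_one, hexp]⟩ : IsPGroup q W)
    rw [hn, Nat.cast_pow] at h0
    have hq0 : (q : K) = 0 := eq_zero_of_pow_eq_zero h0
    obtain ⟨f, hf⟩ := hne1 i hi
    have hpow : ∀ k : ℕ, χ (f ^ k) i = χ f i ^ k := fun k => by
      induction k with
      | zero => rw [pow_zero, hχ1, pow_zero]
      | succ k ih => rw [pow_succ, hχl, ih, pow_succ]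
    have h1 : χ f i ^ q = 1 := by rw [← hpow, hexp, hχ1]
    have : CharP K q := (CharP.charP_iff_prime_eq_zero Fact.out).2 hq0
    refine hf (sub_eq_zero.1 (eq_zero_of_pow_eq_zero (n := q) ?_))
    rw [sub_pow_char, one_pow, h1, sub_self]
  let cj : W → End K V →ₗ[K] End K V := fun f =>
    (LinearMap.mulLeft K (e f : End K V)).comp (LinearMap.mulRight K (↑(e f)⁻¹ : End K V))
  have hcj : ∀ f T, cj f T = (e f : End K V) * T * ↑(e f)⁻¹ := fun f T => by simp [cj, mul_assoc]
  have hcjmul : ∀ f T S, cj f (T * S) = cj f T * cj f S := fun f T S => by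
    simp only [hcj, mul_assoc, Units.inv_mul_cancel_left]
  have hcjcomp : ∀ g f T, cj g (cj f T) = cj (g * f) T := by
    intro g f T
    obtain ⟨c, hc⟩ := hmul g f
    have hc0 : c ≠ 0 := fun h => ne0 (e g * e f) (by simp [hc, h])
    have h : cj g (cj f T) * ((e g : End K V) * (e f : End K V)) = ((e g : End K V) * (e f : End K V)) * T := by
      simp only [hcj, mul_assoc, Units.inv_mul_cancel_left, Units.inv_mul, mul_one]
    rw [hc, mul_smul_comm, smul_mul_assoc] at h
    have h' := smul_right_injective _ hc0 h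
    rw [hcj (g * f), ← h', Units.mul_inv_cancel_right]
  let B : Submodule K (End K V) := ⨅ g, LinearMap.ker (cj g - LinearMap.id)
  have hB : ∀ T, T ∈ B ↔ ∀ g, cj g T = T := fun T => by
    simp [B, Submodule.mem_iInf, LinearMap.mem_ker, sub_eq_zero]
  let proj : W → End K V →ₗ[K] End K V := fun i =>
    ((Nat.card W : K)⁻¹) • ∑ f, (cj f).comp (LinearMap.mulLeft K (↑(e i)⁻¹ : End K V))
  have hproj : ∀ i T, proj i T = ((Nat.card W : K)⁻¹) • ∑ f, cj f (↑(e i)⁻¹ * T) := fun i T => by
    simp [proj, LinearMap.sum_apply]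
  have hprojB : ∀ i T, proj i T ∈ B := fun i T => (hB _).2 fun g => by
    rw [hproj, map_smul, map_sum]
    congr 1
    exact Fintype.sum_equiv (Equiv.mulLeft g) _ _ fun f => hcjcomp g f _
  have hcje : ∀ f i, cj f (e i : End K V) = χ f i • (e i : End K V) := fun f i => by rw [hcj, hχ]
  have hcjinv : ∀ f i, cj f (↑(e i)⁻¹ : End K V) = (χ f i)⁻¹ • (↑(e i)⁻¹ : End K V) := fun f i => by
    have h := hcjmul f (e i : End K V) (↑(e i)⁻¹)
    rw [Units.mul_inv, hcje, smul_mul_assoc, show cj f (1 : End K V) = 1 by rw [hcj, mul_one, Units.mul_inv]] at h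
    have h' : (e i : End K V) * cj f (↑(e i)⁻¹) = (χ f i)⁻¹ • (1 : End K V) := by
      rw [h, smul_smul, inv_mul_cancel₀ (hχne f i), one_smul]
    calc cj f (↑(e i)⁻¹ : End K V) = ↑(e i)⁻¹ * ((e i : End K V) * cj f (↑(e i)⁻¹)) := by
          rw [Units.inv_mul_cancel_left]
      _ = _ := by rw [h', mul_smul_comm, mul_one]
  have hcomplete : ∀ T, ∑ i, (e i : End K V) * proj i T = T := by
    intro T
    simp only [hproj, mul_smul_comm, Finset.mul_sum, ← Finset.smul_sum]
    rw [Finset.sum_comm]
    have hterm : ∀ f i, (e i : End K V) * cj f (↑(e i)⁻¹ * T) = (χ f i)⁻¹ • cj f T := fun f i => by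
      rw [hcjmul, hcjinv, smul_mul_assoc, mul_smul_comm, Units.mul_inv_cancel_left]
    simp only [hterm, ← Finset.sum_smul]
    rw [Finset.sum_eq_single 1]
    · rw [Finset.sum_congr rfl fun i _ => by rw [hχ1, inv_one], Finset.sum_const, Finset.card_univ, nsmul_one,
        ← Nat.card_eq_fintype_card, hcj, he1, Units.val_one, inv_one, Units.val_one, one_mul, mul_one, smul_smul,
        inv_mul_cancel₀ hn0, one_smul]
    · intro f _ hf
      have h0 : ∑ i, (χ f i)⁻¹ = 0 := by
        obtain ⟨g, hg⟩ := hne1 f hf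
        -- the character `i ↦ χ f i` is nontrivial
        obtain ⟨i₀, hi₀⟩ : ∃ i, χ f i ≠ 1 := by
          by_contra! hall
          refine hg ?_
          have hcomm : χ g f * χ f g = 1 := by
            have h1 := hχ g f
            have h2 := hχ f g
            have h3 : (e g : End K V) * (e f : End K V) = χ g f • ((e f : End K V) * (e g : End K V)) := by
              rw [← smul_mul_assoc, ← h1, Units.inv_mul_cancel_right]
            have h4 : (e f : End K V) * (e g : End K V) = χ f g • ((e g : End K V) * (e f : End K V)) := by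
              rw [← smul_mul_assoc, ← h2, Units.inv_mul_cancel_right]
            rw [h4, smul_smul] at h3
            exact (uniq (e g * e f) (c := 1) (by rw [one_smul]; simpa using h3)).symm
          rwa [hall g, mul_one] at hcomm
        have h : (χ f i₀)⁻¹ * ∑ i, (χ f i)⁻¹ = ∑ i, (χ f i)⁻¹ := by
          rw [Finset.mul_sum]
          exact Fintype.sum_equiv (Equiv.mulLeft i₀) _ _ fun i => by simp [hχr, mul_comm]
        by_contra h0
        exact hi₀ (inv_eq_one.1 ((mul_eq_right₀ h0).1 h))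
      rw [h0, zero_smul]
    · intro h; exact absurd (Finset.mem_univ _) h
  let Φ : (W → B) →ₗ[K] End K V :=
    ∑ i, (LinearMap.mulLeft K (e i : End K V)).comp (B.subtype.comp (LinearMap.proj i))
  have hΦ : ∀ b, Φ b = ∑ i, (e i : End K V) * (b i : End K V) := fun b => by simp [Φ, LinearMap.sum_apply]
  have hΦbij : Function.Bijective Φ := by
    refine ⟨fun b b' h => funext fun j => Subtype.ext ?_,
      fun T => ⟨fun i => ⟨proj i T, hprojB i T⟩, by rw [hΦ]; exact hcomplete T⟩⟩
    have key : ∀ b : W → B, proj j (Φ b) = b j := by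
      intro b
      simp only [hΦ, hproj, Finset.mul_sum, map_sum]
      rw [Finset.sum_comm]
      have hterm : ∀ i f, cj f (↑(e j)⁻¹ * ((e i : End K V) * (b i : End K V))) =
          ((χ f j)⁻¹ * χ f i) • (↑(e j)⁻¹ * ((e i : End K V) * (b i : End K V))) := fun i f => by
        rw [hcjmul, hcjmul, hcjinv, hcje, (hB _).1 (b i).2 f]
        simp only [smul_mul_assoc, mul_smul_comm, smul_smul, mul_comm]
      simp only [hterm, ← Finset.sum_smul]
      rw [Finset.sum_eq_single j]
      · rw [Finset.sum_congr rfl fun f _ => inv_mul_cancel₀ (hχne f j), Finset.sum_const, Finset.card_univ,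
          nsmul_one, ← Nat.card_eq_fintype_card, Units.inv_mul_cancel_left, smul_smul, inv_mul_cancel₀ hn0,
          one_smul]
      · intro i _ hij
        have : ∑ f, (χ f j)⁻¹ * χ f i = 0 := by
          rw [← hsum (i * j⁻¹) (fun h => hij (mul_inv_eq_one.1 h))]
          refine Finset.sum_congr rfl fun f _ => ?_
          have : χ f i = χ f (i * j⁻¹) * χ f j := by rw [← hχr, inv_mul_cancel_right]
          rw [this, mul_comm, mul_assoc, mul_inv_cancel₀ (hχne f j), mul_one]
        rw [this, zero_smul]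
      · intro h; exact absurd (Finset.mem_univ _) h
    rw [← key b, ← key b', h]
  have hdim : finrank K V * finrank K V = Nat.card W * finrank K B := by
    rw [← Module.finrank_linearMap K K V V, ← (LinearEquiv.ofBijective Φ hΦbij).finrank_eq,
      Module.finrank_pi_fintype, Finset.sum_const, Finset.card_univ, smul_eq_mul, Nat.card_eq_fintype_card]
  let Cx : Submodule K (End K V) :=
    LinearMap.ker (LinearMap.mulLeft K (X : End K V) - LinearMap.mulRight K (X : End K V))
  have hCx : ∀ T, T ∈ Cx ↔ (X : End K V) * T = T * X := fun T => by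
    simp [Cx, LinearMap.mem_ker, sub_eq_zero]
  obtain ⟨S, hS, hScard⟩ := exists_orbit_reps (MulEquiv.toEquiv σ : Equiv.Perm W) (p := p) (by
    have hpw : ∀ (n : ℕ) (w : W), ((MulEquiv.toEquiv σ : Equiv.Perm W) ^ n) w = (σ ^ n) w := by
      intro n
      induction n with
      | zero => intro w; rfl
      | succ n ih => intro w; rw [pow_succ', pow_succ', Equiv.Perm.mul_apply, MulAut.mul_apply, ih]; rfl
    refine Equiv.ext fun w => ?_
    rw [hpw, hσp]
    rfl)
  have hCdim : finrank K Cx ≤ S.card * finrank K B := by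
    let Ψ : Cx →ₗ[K] (S → B) :=
      LinearMap.pi fun s => ((proj s.1).comp Cx.subtype).codRestrict B fun T => hprojB _ _
    have hstep : ∀ T, T ∈ Cx → ∀ i, proj i T = 0 → proj (σ i) T = 0 := by
      intro T hT i hi
      obtain ⟨c, hc⟩ := hXe i
      have hXT : (X : End K V) * T * ↑X⁻¹ = T := by rw [(hCx T).1 hT, Units.mul_inv_cancel_right]
      have hXcj : ∀ f U, (X : End K V) * cj f U * ↑X⁻¹ = cj (σ f) ((X : End K V) * U * ↑X⁻¹) := by
        intro f U
        obtain ⟨d, hd⟩ := hXe f
        have hd0 : d ≠ 0 := fun h => ne0 (X * e f * X⁻¹) (by simp [hd, h])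
        have h : ((X : End K V) * cj f U * ↑X⁻¹) * ((X : End K V) * (e f : End K V) * ↑X⁻¹) =
            ((X : End K V) * (e f : End K V) * ↑X⁻¹) * ((X : End K V) * U * ↑X⁻¹) := by
          simp only [hcj, mul_assoc, Units.inv_mul_cancel_left]
        rw [hd, mul_smul_comm, smul_mul_assoc] at h
        have h' := smul_right_injective _ hd0 h
        rw [hcj (σ f), ← h', Units.mul_inv_cancel_right]
      have hc0 : c ≠ 0 := fun h => ne0 (X * e i * X⁻¹) (by simp [hc, h])
      have hXei : (X : End K V) * ↑(e i)⁻¹ * ↑X⁻¹ = c⁻¹ • (↑(e (σ i))⁻¹ : End K V) := by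
        have h1 : ((X : End K V) * (e i : End K V) * ↑X⁻¹) * ((X : End K V) * ↑(e i)⁻¹ * ↑X⁻¹) = 1 := by
          simp only [mul_assoc, Units.inv_mul_cancel_left, Units.mul_inv_cancel_left, Units.mul_inv]
        rw [hc, smul_mul_assoc] at h1
        have h2 : (e (σ i) : End K V) * ((X : End K V) * ↑(e i)⁻¹ * ↑X⁻¹) = c⁻¹ • 1 := by
          rw [← h1, smul_smul, inv_mul_cancel₀ hc0, one_smul]
        calc (X : End K V) * ↑(e i)⁻¹ * ↑X⁻¹ = ↑(e (σ i))⁻¹ * ((e (σ i) : End K V) *
              ((X : End K V) * ↑(e i)⁻¹ * ↑X⁻¹)) := by rw [Units.inv_mul_cancel_left]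
          _ = _ := by rw [h2, mul_smul_comm, mul_one]
      have hkey : (X : End K V) * proj i T * ↑X⁻¹ = c⁻¹ • proj (σ i) T := by
        simp only [hproj, mul_smul_comm, smul_mul_assoc, Finset.mul_sum, Finset.sum_mul, Finset.smul_sum,
          smul_smul]
        refine Fintype.sum_equiv (MulEquiv.toEquiv σ) _ _ fun f => ?_
        rw [hXcj, show (X : End K V) * (↑(e i)⁻¹ * T) * ↑X⁻¹ =
          ((X : End K V) * ↑(e i)⁻¹ * ↑X⁻¹) * ((X : End K V) * T * ↑X⁻¹) by
            simp only [mul_assoc, Units.inv_mul_cancel_left], hXei, hXT, smul_mul_assoc, map_smul, smul_smul,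
          mul_comm]
        rfl
      rw [hi, mul_zero, zero_mul, eq_comm, smul_eq_zero] at hkey
      exact hkey.resolve_left (inv_ne_zero hc0)
    have hΨ : Function.Injective Ψ := by
      rw [← LinearMap.ker_eq_bot, LinearMap.ker_eq_bot']
      rintro ⟨T, hT⟩ h
      have hall : ∀ i, proj i T = 0 := by
        intro i
        obtain ⟨s, hs, k, hk⟩ := hS i
        rw [← hk]
        clear hk
        induction k with
        | zero => exact congrArg Subtype.val (congrFun h ⟨s, hs⟩)
        | succ k ih =>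
          rw [pow_succ', Equiv.Perm.mul_apply]
          exact hstep T hT _ ih
      refine Subtype.ext ?_
      show T = 0
      rw [← hcomplete T]
      exact Finset.sum_eq_zero fun i _ => by rw [hall, mul_zero]
    refine (LinearMap.finrank_le_finrank_of_injective hΨ).trans_eq ?_
    rw [Module.finrank_pi_fintype, Finset.sum_const, Finset.card_univ, Fintype.card_coe, smul_eq_mul]
  set U := LinearMap.ker ((X : End K V) - 1) with hU
  set R := LinearMap.range ((X : End K V) - 1) with hR
  have hRU : finrank K (V ⧸ R) = finrank K U := by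
    have h1 := Submodule.finrank_quotient_add_finrank R
    have h2 := LinearMap.finrank_range_add_finrank_ker ((X : End K V) - 1)
    rw [← hR, ← hU] at h2
    omega
  let Γ : ((V ⧸ R) →ₗ[K] U) × K →ₗ[K] End K V :=
    LinearMap.coprod ((LinearMap.lcomp K V R.mkQ).comp (LinearMap.compRight K U.subtype))
      (LinearMap.toSpanSingleton K (End K V) 1)
  have hΓapp : ∀ (f : (V ⧸ R) →ₗ[K] U) (c : K) (v : V), Γ (f, c) v = (f (R.mkQ v) : V) + c • v := by
    intro f c v; simp [Γ]
  have hΓinj : Function.Injective Γ := by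
    rw [← LinearMap.ker_eq_bot, LinearMap.ker_eq_bot']
    rintro ⟨f, c⟩ h
    obtain ⟨v, hv⟩ : ∃ v, ((X : End K V) - 1) v ≠ 0 := by
      by_contra! hall
      exact hX1 (Units.ext (LinearMap.ext fun v => sub_eq_zero.1 (by simpa using hall v)))
    have hc : c = 0 := by
      have h0 := LinearMap.congr_fun h (((X : End K V) - 1) v)
      rw [hΓapp, show R.mkQ (((X : End K V) - 1) v) = 0 from
        (Submodule.Quotient.mk_eq_zero R).2 ⟨v, rfl⟩, map_zero] at h0
      simp only [ZeroMemClass.coe_zero, zero_add, LinearMap.zero_apply] at h0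
      exact (smul_eq_zero.1 h0).resolve_right hv
    subst hc
    refine Prod.ext (LinearMap.ext fun w => Subtype.ext ?_) rfl
    obtain ⟨v, rfl⟩ := R.mkQ_surjective w
    simpa [hΓapp] using LinearMap.congr_fun h v
  have hΓ : ∀ fc, Γ fc ∈ Cx := by
    rintro ⟨f, c⟩
    refine (hCx _).2 (LinearMap.ext fun v => ?_)
    rw [End.mul_apply, End.mul_apply, hΓapp, hΓapp, map_add, map_smul]
    have h1 : (X : End K V) (f (R.mkQ v) : V) = (f (R.mkQ v) : V) := by
      have := LinearMap.mem_ker.1 (f (R.mkQ v)).2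
      rw [LinearMap.sub_apply, sub_eq_zero] at this
      exact this
    have h2 : R.mkQ ((X : End K V) v) = R.mkQ v := by
      rw [← sub_eq_zero, ← map_sub]
      exact (Submodule.Quotient.mk_eq_zero R).2 ⟨v, by simp⟩
    rw [h1, h2]
  have hlow : finrank K U * finrank K U + 1 ≤ finrank K Cx := by
    have h := LinearMap.finrank_le_finrank_of_injective (f := Γ.codRestrict Cx hΓ)
      (fun a b h => hΓinj (congrArg Subtype.val h))
    rwa [Module.finrank_prod, Module.finrank_linearMap, hRU, Module.finrank_self] at h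
  have hSW : 4 * S.card ≤ Nat.card W := by
    have hF : Nat.card {w : W // (MulEquiv.toEquiv σ : Equiv.Perm W) w = w} = Nat.card {w : W // σ w = w} := rfl
    rw [hF] at hScard
    have hp1 := (Fact.out : p.Prime).one_le
    have hsplit : (p - 1) * Nat.card {w : W // σ w = w} + Nat.card {w : W // σ w = w} =
        p * Nat.card {w : W // σ w = w} := by
      conv_rhs => rw [← Nat.sub_add_cancel hp1]
      ring
    refine Nat.le_of_mul_le_mul_left ?_ (Fact.out : p.Prime).pos
    calc p * (4 * S.card) = 4 * (p * S.card) := by ring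
      _ ≤ 4 * (Nat.card W + (p - 1) * Nat.card {w : W // σ w = w}) := by omega
      _ ≤ _ := hbound
  by_contra hlt
  rw [not_lt] at hlt
  have h1 := Nat.mul_le_mul hlt hlt
  have h2 : 4 * (S.card * finrank K B) ≤ Nat.card W * finrank K B := by
    rw [← mul_assoc]; exact Nat.mul_le_mul_right _ hSW
  rw [← hdim] at h2
  nlinarith

end Twisted

section Rep

variable {k V G : Type*} [Field k] [AddCommGroup V] [Module k V] [FiniteDimensional k V] [Nontrivial V]
  [Group G]

theorem conj_mem_adjoin (ρ : G →* End k V) (N : Subgroup G) [N.Normal] (g : G) {a : End k V}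
    (ha : a ∈ Algebra.adjoin k (ρ '' (N : Set G))) :
    ρ g * a * ρ g⁻¹ ∈ Algebra.adjoin k (ρ '' (N : Set G)) := by
  have h1 : ρ g * ρ g⁻¹ = 1 := by rw [← map_mul, mul_inv_cancel, map_one]
  induction ha using Algebra.adjoin_induction with
  | mem x hx =>
    obtain ⟨n, hn, rfl⟩ := hx
    exact Algebra.subset_adjoin ⟨g * n * g⁻¹, Subgroup.Normal.conj_mem inferInstance n hn g, by simp [map_mul]⟩
  | algebraMap r =>
    rw [← Algebra.commutes, mul_assoc, h1, mul_one]
    exact Subalgebra.algebraMap_mem _ r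
  | add x y _ _ hx hy => rw [mul_add, add_mul]; exact add_mem hx hy
  | mul x y _ _ hx hy =>
    have := mul_mem hx hy
    rwa [show ρ g * x * ρ g⁻¹ * (ρ g * y * ρ g⁻¹) = ρ g * x * ((ρ g⁻¹ * ρ g) * y) * ρ g⁻¹ by
      simp only [mul_assoc], ← map_mul, inv_mul_cancel, map_one, one_mul, mul_assoc (ρ g) x y] at this

variable [Finite G]

/-- Clifford decomposition with respect to an abelian normal subgroup, by idempotents. -/
theorem exists_idempotents (ρ : G →* End k V)
    (hirr : ∀ S : Submodule k V, (∀ g, ∀ v ∈ S, ρ g v ∈ S) → S = ⊥ ∨ S = ⊤)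
    (N : Subgroup G) [N.Normal] (hN : ∀ a ∈ N, ∀ b ∈ N, a * b = b * a) :
    ∃ P : Finset (End k V), (∑ e ∈ P, e = 1) ∧ (∀ e ∈ P, e * e = e ∧ e ≠ 0) ∧
      (∀ e ∈ P, ∀ f ∈ P, e ≠ f → e * f = 0) ∧ (∀ g, ∀ e ∈ P, ρ g * e * ρ g⁻¹ ∈ P) ∧
      (∀ e ∈ P, ∀ f ∈ P, ∃ g, ρ g * e * ρ g⁻¹ = f) ∧
      (P.card ≤ 1 → ∀ a ∈ Algebra.adjoin k (ρ '' (N : Set G)), a ≠ 0 → IsUnit a) := by
  classical
  set A := Algebra.adjoin k (ρ '' (N : Set G)) with hA
  have : IsMulCommutative A := Algebra.isMulCommutative_adjoin k (by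
    rintro _ ⟨a, ha, rfl⟩ _ ⟨b, hb, rfl⟩
    rw [← map_mul, ← map_mul, hN a ha b hb])
  letI : CommRing A := { (inferInstance : Ring A) with mul_comm := fun u v => mul_comm' u v }
  have : IsArtinianRing A := IsArtinianRing.of_finite k A
  have hginv : ∀ g (a : End k V), ρ g * (ρ g⁻¹ * a * ρ g⁻¹⁻¹) * ρ g⁻¹ = a := fun g a => by
    rw [inv_inv, ← mul_assoc, ← mul_assoc, ← map_mul, mul_inv_cancel, map_one, one_mul, mul_assoc, ← map_mul,
      mul_inv_cancel, map_one, mul_one]
  let σ : G → A → A := fun g a => ⟨ρ g * a.1 * ρ g⁻¹, conj_mem_adjoin ρ N g a.2⟩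
  have hσmul : ∀ g a b, σ g (a * b) = σ g a * σ g b := fun g a b => Subtype.ext (by
    show ρ g * (a.1 * b.1) * ρ g⁻¹ = ρ g * a.1 * ρ g⁻¹ * (ρ g * b.1 * ρ g⁻¹)
    rw [show ρ g * a.1 * ρ g⁻¹ * (ρ g * b.1 * ρ g⁻¹) = ρ g * a.1 * ((ρ g⁻¹ * ρ g) * b.1) * ρ g⁻¹ by
      simp only [mul_assoc], ← map_mul, inv_mul_cancel, map_one, one_mul, mul_assoc (ρ g) a.1 b.1])
  have hσ0 : ∀ g, σ g 0 = 0 := fun g => Subtype.ext (by simp [σ])
  have hσσ : ∀ g a, σ g (σ g⁻¹ a) = a := fun g a => Subtype.ext (hginv g a.1)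
  have hσpow : ∀ g a (n : ℕ), n ≠ 0 → σ g (a ^ n) = σ g a ^ n := by
    intro g a n hn
    induction n with
    | zero => exact absurd rfl hn
    | succ n ih =>
      rcases Nat.eq_zero_or_pos n with rfl | hpos
      · simp
      · rw [pow_succ, hσmul, ih hpos.ne', pow_succ]
  have hred : IsReduced A := by
    obtain ⟨m, hm⟩ := IsArtinianRing.isNilpotent_nilradical (R := A)
    let S : Submodule k V :=
      { carrier := {v | ∀ a : A, IsNilpotent a → a.1 v = 0}
        add_mem' := fun {u v} hu hv a ha => by rw [map_add, hu a ha, hv a ha, add_zero]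
        zero_mem' := fun a _ => map_zero _
        smul_mem' := fun c v hv a ha => by rw [map_smul, hv a ha, smul_zero] }
    have hSinv : ∀ g, ∀ v ∈ S, ρ g v ∈ S := by
      intro g v hv a ha
      obtain ⟨n, hn⟩ := ha
      have hb : IsNilpotent (σ g⁻¹ a) := ⟨n + 1, by
        rw [← hσpow _ _ _ (Nat.succ_ne_zero n), pow_succ, hn, zero_mul, hσ0]⟩
      have := congrArg (ρ g) (hv _ hb)
      simp only [σ, inv_inv, End.mul_apply, map_zero] at this
      rwa [← End.mul_apply (ρ g) (ρ g⁻¹), ← map_mul, mul_inv_cancel, map_one, End.one_apply] at this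
    have hS : S ≠ ⊥ := by
      intro hbot
      have hzero : ∀ i, ∀ v, (∀ a ∈ nilradical A ^ i, (a : A).1 v = 0) → v = 0 := by
        intro i
        induction i with
        | zero =>
          intro v hv
          have := hv 1 (by rw [pow_zero, Ideal.one_eq_top]; trivial)
          simpa using this
        | succ i ih =>
          intro v hv
          refine ih v fun b hb => ?_
          have hmem : b.1 v ∈ S := fun a ha => by
            have := hv (a * b) (by rw [pow_succ']; exact Ideal.mul_mem_mul (mem_nilradical.2 ha) hb)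
            simpa using this
          rwa [hbot, Submodule.mem_bot] at hmem
      obtain ⟨v, hv⟩ := exists_ne (0 : V)
      exact hv (hzero m v fun a ha => by
        rw [hm] at ha
        rw [(Submodule.mem_bot A).1 ha]
        rfl)
    have htop := (hirr S hSinv).resolve_left hS
    refine ⟨fun a ha => Subtype.ext (LinearMap.ext fun v => ?_)⟩
    exact (htop.symm ▸ Submodule.mem_top : v ∈ S) a ha
  have := Fintype.ofFinite (MaximalSpectrum A)
  let E := IsArtinianRing.equivPi A
  let pr : MaximalSpectrum A → A := fun m => E.symm (Pi.single m 1)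
  have hpr0 : ∀ m, pr m ≠ 0 := fun m h => by
    have h1 : Pi.single m 1 = (0 : ∀ I : MaximalSpectrum A, A ⧸ I.asIdeal) := by
      rw [← E.apply_symm_apply (Pi.single m 1)]
      show E (pr m) = 0
      rw [h, map_zero]
    have h2 := congrFun h1 m
    rw [Pi.single_eq_same, Pi.zero_apply] at h2
    have := m.isMaximal
    exact one_ne_zero h2
  have hprmul : ∀ m m', pr m * pr m' = if m = m' then pr m else 0 := fun m m' => by
    simp only [pr, ← map_mul]
    split_ifs with h
    · subst h
      congr 1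
      rw [← Pi.single_mul, one_mul]
    · rw [← map_zero E.symm]
      congr 1
      funext I
      by_cases hI : I = m
      · subst hI; simp [h]
      · simp [hI]
  have hprsum : ∑ m, pr m = 1 := by
    simp only [pr, ← map_sum]
    have h1 : (∑ m : MaximalSpectrum A, Pi.single m (1 : A ⧸ m.asIdeal)) = (1 : ∀ I : MaximalSpectrum A, A ⧸ I.asIdeal) :=
      Finset.univ_sum_single (fun I : MaximalSpectrum A => (1 : A ⧸ I.asIdeal))
    refine (congrArg E.symm ?_).trans (map_one E.symm)
    exact h1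
  have hchar : ∀ e : A, e ≠ 0 → e * e = e → (∀ f : A, f * f = f → e * f = 0 ∨ e * f = e) → ∃ m, pr m = e := by
    intro e he0 hee hmin
    obtain ⟨m, hm⟩ : ∃ m, e * pr m ≠ 0 := by
      by_contra! h
      exact he0 (by rw [← mul_one e, ← hprsum, Finset.mul_sum, Finset.sum_eq_zero fun m _ => h m])
    refine ⟨m, ?_⟩
    have h1 : e * pr m = e := (hmin _ (by rw [hprmul, if_pos rfl])).resolve_left hm
    have : pr m * e = pr m := by
      have hidem : E (pr m * e) = Pi.single m (E e m) := by
        rw [map_mul, E.apply_symm_apply]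
        funext I
        by_cases hI : I = m
        · subst hI; simp
        · simp [hI]
      have hunit : E e m = 1 := by
        have hm' : IsField (A ⧸ m.asIdeal) := (Ideal.Quotient.maximal_ideal_iff_isField_quotient _).1 m.isMaximal
        letI := hm'.toField
        have h2 : E e m * E e m = E e m := by rw [← Pi.mul_apply, ← map_mul, hee]
        rcases eq_or_ne (E e m) 0 with h0 | h0
        · exfalso
          refine hm (E.injective ?_)
          rw [mul_comm, hidem, h0, Pi.single_zero, map_zero]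
        · exact (mul_eq_left₀ h0).1 h2
      apply E.injective
      rw [hidem, hunit, E.apply_symm_apply]
    rw [← this, mul_comm, h1]
  have hprim : ∀ m (f : A), f * f = f → pr m * f = 0 ∨ pr m * f = pr m := by
    intro m f hf
    have hm' : IsField (A ⧸ m.asIdeal) := (Ideal.Quotient.maximal_ideal_iff_isField_quotient _).1 m.isMaximal
    letI := hm'.toField
    have hE : E (pr m * f) = Pi.single m (E f m) := by
      rw [map_mul, E.apply_symm_apply]
      funext I
      by_cases hI : I = m
      · subst hI; simp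
      · simp [hI]
    have h2 : E f m * E f m = E f m := by rw [← Pi.mul_apply, ← map_mul, hf]
    rcases eq_or_ne (E f m) 0 with h0 | h0
    · left
      refine E.injective ?_
      rw [hE, h0, Pi.single_zero, map_zero]
    · right
      refine E.injective ?_
      rw [hE, (mul_eq_left₀ h0).1 h2, E.apply_symm_apply]
  have hperm : ∀ g m, ∃ m', σ g (pr m) = pr m' := by
    intro g m
    obtain ⟨m', hm'⟩ := hchar (σ g (pr m))
      (fun h => hpr0 m (by rw [← hσσ g⁻¹ (pr m), inv_inv, h, hσ0]))
      (by rw [← hσmul, hprmul, if_pos rfl]) (fun f hf => by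
        have hf' : σ g⁻¹ f * σ g⁻¹ f = σ g⁻¹ f := by rw [← hσmul, hf]
        rw [← hσσ g f, ← hσmul]
        rcases hprim m _ hf' with h | h
        · left; rw [h, hσ0]
        · right; rw [h])
    exact ⟨m', hm'.symm⟩
  refine ⟨Finset.univ.image fun m => (pr m).1, ?_, ?_, ?_, ?_, ?_, ?_⟩
  · rw [Finset.sum_image]
    · have := congrArg A.val hprsum
      simpa only [map_sum, map_one, Subalgebra.coe_val] using this
    · intro m _ m' _ h
      by_contra hne
      have h1 := hprmul m m'
      rw [show pr m' = pr m from Subtype.ext h.symm, hprmul, if_pos rfl, if_neg hne] at h1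
      exact hpr0 m h1
  · simp only [Finset.mem_image, Finset.mem_univ, true_and, forall_exists_index, forall_apply_eq_imp_iff]
    exact fun m => ⟨congrArg Subtype.val ((hprmul m m).trans (if_pos rfl)), fun h => hpr0 m (Subtype.ext h)⟩
  · simp only [Finset.mem_image, Finset.mem_univ, true_and, forall_exists_index, forall_apply_eq_imp_iff]
    exact fun m m' hne => congrArg Subtype.val ((hprmul m m').trans (if_neg fun h => hne (by rw [h])))
  · simp only [Finset.mem_image, Finset.mem_univ, true_and, forall_exists_index, forall_apply_eq_imp_iff]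
    intro g m
    obtain ⟨m', hm'⟩ := hperm g m
    exact ⟨m', (congrArg Subtype.val hm').symm⟩
  · simp only [Finset.mem_image, Finset.mem_univ, true_and, forall_exists_index, forall_apply_eq_imp_iff]
    intro m m'
    by_contra hno
    push Not at hno
    let S : Submodule k V := ⨆ g : G, LinearMap.range (ρ g * (pr m).1 * ρ g⁻¹)
    have hSinv : ∀ h, ∀ v ∈ S, ρ h v ∈ S := by
      intro h v hv
      have : S ≤ S.comap (ρ h) := iSup_le fun g => by
        rintro _ ⟨w, rfl⟩
        refine Submodule.mem_iSup_of_mem (h * g) ⟨ρ h w, ?_⟩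
        simp only [← End.mul_apply]
        congr 1
        simp only [map_mul, mul_inv_rev, mul_assoc]
        rw [← map_mul ρ h⁻¹ h, inv_mul_cancel, map_one, mul_one]
      exact this hv
    have htop : S = ⊤ := (hirr S hSinv).resolve_left fun hbot => hpr0 m (Subtype.ext (LinearMap.ext fun v => by
      have : (ρ 1 * (pr m).1 * ρ 1⁻¹) v ∈ S := Submodule.mem_iSup_of_mem 1 ⟨v, rfl⟩
      rw [hbot, Submodule.mem_bot] at this
      simpa using this))
    refine hpr0 m' (Subtype.ext (LinearMap.ext fun v => ?_))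
    have hle : S ≤ LinearMap.ker (pr m').1 := iSup_le fun g => by
      rintro _ ⟨w, rfl⟩
      obtain ⟨m'', hm''⟩ := hperm g m
      have he : ρ g * (pr m).1 * ρ g⁻¹ = (pr m'').1 := congrArg Subtype.val hm''
      have hz : (pr m').1 * (pr m'').1 = 0 :=
        congrArg Subtype.val ((hprmul m' m'').trans (if_neg fun h => hno g (by rw [he, h])))
      rw [LinearMap.mem_ker, he, ← End.mul_apply, hz]
      rfl
    exact hle (htop ▸ Submodule.mem_top)
  · intro hcard a ha ha0
    have hsub : ∀ m m' : MaximalSpectrum A, m = m' := by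
      intro m m'
      by_contra hne
      refine absurd hcard (not_le.2 (Finset.one_lt_card.2 ⟨_, Finset.mem_image_of_mem _ (Finset.mem_univ m), _,
        Finset.mem_image_of_mem _ (Finset.mem_univ m'), fun h => ?_⟩))
      have h1 := hprmul m m'
      rw [show pr m' = pr m from Subtype.ext h.symm, hprmul, if_pos rfl, if_neg hne] at h1
      exact hpr0 m h1
    obtain ⟨m, hm⟩ : ∃ m, E ⟨a, ha⟩ m ≠ 0 := by
      by_contra! h
      exact ha0 (congrArg Subtype.val (E.injective (show E ⟨a, ha⟩ = E 0 by rw [map_zero]; exact funext h)))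
    have hm' : IsField (A ⧸ m.asIdeal) := (Ideal.Quotient.maximal_ideal_iff_isField_quotient _).1 m.isMaximal
    obtain ⟨y, hy⟩ := hm'.mul_inv_cancel hm
    have h1 : (⟨a, ha⟩ : A) * E.symm (Pi.single m y) = 1 := E.injective (by
      rw [map_mul, E.apply_symm_apply, map_one]
      funext I
      obtain rfl := hsub I m
      simpa using hy)
    exact (IsUnit.of_mul_eq_one _ h1).map A.val

/-- The fixed space when an abelian normal subgroup is not centralised. -/
theorem fixed_lt_of_moved [Group.IsSolvable G] (ρ : G →* End k V) (hρ : Function.Injective ρ)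
    (hirr : ∀ S : Submodule k V, (∀ g, ∀ v ∈ S, ρ g v ∈ S) → S = ⊥ ∨ S = ⊤)
    {p : ℕ} [hp : Fact p.Prime] (hp3 : 3 < p) (x : G) (hxp : x ^ p = 1)
    (hgen : Subgroup.normalClosure ({x} : Set G) = ⊤)
    (N : Subgroup G) [N.Normal] (hN : ∀ a ∈ N, ∀ b ∈ N, a * b = b * a) (n : G) (hn : n ∈ N)
    (hxn : x * n * x⁻¹ ≠ n) : 2 * finrank k (LinearMap.ker (ρ x - 1)) < finrank k V := by
  classical
  obtain ⟨P, hsum, hidem, horth, hstab, htr, hunit⟩ := exists_idempotents ρ hirr N hN
  have hcancel : ∀ g, ρ g⁻¹ * ρ g = 1 := fun g => by rw [← map_mul, inv_mul_cancel, map_one]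
  set U := LinearMap.ker (ρ x - 1) with hU
  have hUfix : ∀ v ∈ U, ρ x v = v := fun v hv => by simpa [U, sub_eq_zero] using hv
  by_cases hP : P.card ≤ 1
  · -- three independent copies of the fixed space
    have hinvfix : ∀ v ∈ U, ρ x⁻¹ v = v := fun v hv => by
      conv_lhs => rw [← hUfix v hv, ← End.mul_apply, hcancel]
      rfl
    set lam := ρ n with hlam
    set lam1 := ρ (x * n * x⁻¹) with hlam1
    set lam2 := ρ (x * (x * n * x⁻¹) * x⁻¹) with hlam2
    have hmem : ∀ j ∈ N, ρ j ∈ Algebra.adjoin k (ρ '' (N : Set G)) :=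
      fun j hj => Algebra.subset_adjoin ⟨j, hj, rfl⟩
    have hn1 : x * n * x⁻¹ ∈ N := Subgroup.Normal.conj_mem inferInstance n hn x
    have hn2 : x * (x * n * x⁻¹) * x⁻¹ ∈ N := Subgroup.Normal.conj_mem inferInstance _ hn1 x
    have hne2 : x * (x * n * x⁻¹) * x⁻¹ ≠ n := by
      intro h2
      refine hxn ?_
      have hc2 : Commute (x ^ 2) n := by
        show x ^ 2 * n = n * x ^ 2
        calc x ^ 2 * n = x * (x * n * x⁻¹) * x⁻¹ * x ^ 2 := by rw [sq]; group
          _ = n * x ^ 2 := by rw [h2]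
      have hx : x = (x ^ 2) ^ ((p + 1) / 2) := by
        rw [← pow_mul, show 2 * ((p + 1) / 2) = p + 1 by
          rcases hp.out.eq_two_or_odd' with h | h
          · omega
          · obtain ⟨r, rfl⟩ := h; omega, pow_succ, hxp, one_mul]
      have hc : Commute x n := by rw [hx]; exact hc2.pow_left _
      rw [show x * n = n * x from hc, mul_inv_cancel_right]
    have hi1 : Function.Injective (lam1 - lam : End k V) :=
      ((End.isUnit_iff _).1 (hunit hP _ (sub_mem (hmem _ hn1) (hmem _ hn))
        (sub_ne_zero.2 fun h => hxn (hρ h)))).1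
    have hi2 : Function.Injective (lam2 - lam : End k V) :=
      ((End.isUnit_iff _).1 (hunit hP _ (sub_mem (hmem _ hn2) (hmem _ hn))
        (sub_ne_zero.2 fun h => hne2 (hρ h)))).1
    have hconjv : ∀ (j : G), ∀ v ∈ U, ρ x (ρ j v) = ρ (x * j * x⁻¹) v := fun j v hv => by
      rw [map_mul, map_mul, End.mul_apply, End.mul_apply, hinvfix v hv]
    let Θ : (U × U) × U →ₗ[k] V :=
      ((U.subtype.coprod (lam.comp U.subtype)).coprod ((lam * lam).comp U.subtype))
    have hΘ : Function.Injective Θ := by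
      rw [← LinearMap.ker_eq_bot, LinearMap.ker_eq_bot']
      rintro ⟨⟨w0, w1⟩, w2⟩ h
      have h0 : (w0 : V) + lam (w1 : V) + lam (lam (w2 : V)) = 0 := by simpa [Θ] using h
      have hlam1v : ∀ v ∈ U, ρ x (lam v) = lam1 v := fun v hv => hconjv n v hv
      have hcomm : ∀ v : V, lam1 (lam v) = lam (lam1 v) := fun v => by
        rw [← End.mul_apply, ← End.mul_apply, hlam, hlam1, ← map_mul, ← map_mul, hN _ hn1 _ hn]
      have hsq : ∀ v ∈ U, ρ x (lam (lam v)) = lam1 (lam1 v) := fun v hv => by
        rw [hlam, ← End.mul_apply (ρ n) (ρ n), ← map_mul, hconjv _ v hv, hlam1, ← End.mul_apply, ← map_mul]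
        congr 2
        group
      have hx1 := congrArg (ρ x) h0
      simp only [map_add, map_zero, hUfix _ w0.2, hlam1v _ w1.2, hsq _ w2.2] at hx1
      have e1 : (lam1 - lam) ((w1 : V) + lam1 (w2 : V) + lam (w2 : V)) = 0 := by
        calc (lam1 - lam) ((w1 : V) + lam1 (w2 : V) + lam (w2 : V))
            = ((w0 : V) + lam1 (w1 : V) + lam1 (lam1 (w2 : V))) - ((w0 : V) + lam (w1 : V) + lam (lam (w2 : V))) := by
              simp only [map_add, LinearMap.sub_apply, hcomm]
              abel
          _ = 0 := by rw [hx1, h0, sub_zero]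
      have e2 : (w1 : V) + lam1 (w2 : V) + lam (w2 : V) = 0 := hi1 (by rw [e1, map_zero])
      have hx2 := congrArg (ρ x) e2
      have hlam2v : ρ x (lam1 (w2 : V)) = lam2 (w2 : V) := hconjv _ _ w2.2
      simp only [map_add, map_zero, hUfix _ w1.2, hlam1v _ w2.2, hlam2v] at hx2
      have e3 : (lam2 - lam) (w2 : V) = 0 := by
        rw [LinearMap.sub_apply]
        rw [← e2] at hx2
        rw [sub_eq_zero]
        have h5 : lam2 (w2 : V) + ((w1 : V) + lam1 (w2 : V)) = lam (w2 : V) + ((w1 : V) + lam1 (w2 : V)) := by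
          calc lam2 (w2 : V) + ((w1 : V) + lam1 (w2 : V)) = (w1 : V) + lam2 (w2 : V) + lam1 (w2 : V) := by abel
            _ = (w1 : V) + lam1 (w2 : V) + lam (w2 : V) := hx2
            _ = _ := by abel
        exact add_right_cancel h5
      have hw2 : (w2 : V) = 0 := hi2 (by rw [e3, map_zero])
      rw [hw2, map_zero, map_zero, add_zero, add_zero] at e2
      rw [hw2, e2, map_zero, map_zero, add_zero, add_zero] at h0
      exact Prod.ext (Prod.ext (Subtype.ext h0) (Subtype.ext e2)) (Subtype.ext hw2)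
    have h3 := LinearMap.finrank_le_finrank_of_injective hΘ
    rw [Module.finrank_prod, Module.finrank_prod] at h3
    have := Module.finrank_pos (R := k) (M := V)
    omega
  · -- blocks permuted
    rw [not_le] at hP
    let π : G →* Equiv.Perm {e // e ∈ P} := MonoidHom.toHomPerm
      { toFun := fun g e => ⟨ρ g * e.1 * ρ g⁻¹, hstab g e.1 e.2⟩
        map_one' := funext fun e => by
          refine Subtype.ext ?_
          show ρ 1 * e.1 * ρ 1⁻¹ = e.1
          simp
        map_mul' := fun g h => funext fun e => Subtype.ext (by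
          show ρ (g * h) * e.1 * ρ (g * h)⁻¹ = ρ g * (ρ h * e.1 * ρ h⁻¹) * ρ g⁻¹
          simp only [map_mul, mul_inv_rev, mul_assoc]) }
    have hπ : ∀ g e, (π g e).1 = ρ g * e.1 * ρ g⁻¹ := fun g e => rfl
    have htr' : ∀ a b, ∃ g, π g a = b := fun a b => by
      obtain ⟨g, hg⟩ := htr a.1 a.2 b.1 b.2
      exact ⟨g, Subtype.ext hg⟩
    have hπx : π x ≠ 1 := by
      intro h
      have hker : π.ker = ⊤ := top_le_iff.1 (hgen ▸ Subgroup.normalClosure_le_normal
        (Set.singleton_subset_iff.2 (MonoidHom.mem_ker.2 h)))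
      obtain ⟨a, ha, b, hb, hab⟩ := Finset.one_lt_card.1 hP
      obtain ⟨g, hg⟩ := htr' ⟨a, ha⟩ ⟨b, hb⟩
      have hg1 : π g = 1 := MonoidHom.mem_ker.1 (hker ▸ Subgroup.mem_top g)
      rw [hg1] at hg
      exact hab (congrArg Subtype.val hg)
    have hfix := fixed_ratio π htr' x hxp hπx hgen
    have hπp : (π x) ^ p = 1 := by rw [← map_pow, hxp, map_one]
    obtain ⟨S, hS, hScard⟩ := exists_orbit_reps (π x) hπp
    rw [Nat.card_eq_fintype_card (α := {e // e ∈ P}), Fintype.card_coe] at hScard hfix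
    obtain ⟨e₀, he₀⟩ : P.Nonempty := Finset.card_pos.1 (by omega)
    set d := finrank k (LinearMap.range e₀) with hd
    have hdim : ∀ e ∈ P, finrank k (LinearMap.range e) = d := by
      intro e he
      obtain ⟨g, hg⟩ := htr e₀ he₀ e he
      have hu : IsUnit (ρ g) := (Group.isUnit g).map ρ
      have hu' : IsUnit (ρ g⁻¹) := (Group.isUnit g⁻¹).map ρ
      rw [← hg, End.mul_eq_comp, LinearMap.range_comp_of_range_eq_top _
        (LinearMap.range_eq_top.2 ((End.isUnit_iff _).1 hu').2), End.mul_eq_comp, LinearMap.range_comp]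
      exact (Submodule.equivMapOfInjective _ ((End.isUnit_iff _).1 hu).1 _).finrank_eq.symm
    let Θ : V →ₗ[k] ((e : {e // e ∈ P}) → LinearMap.range e.1) :=
      LinearMap.pi fun e => LinearMap.rangeRestrict e.1
    have hbij : Function.Bijective Θ := by
      constructor
      · intro u v h
        have h' : ∀ e ∈ P, e u = e v := fun e he => congrArg Subtype.val (congrFun h ⟨e, he⟩)
        calc u = (∑ e ∈ P, e) u := by rw [hsum]; rfl
          _ = (∑ e ∈ P, e) v := by simp only [LinearMap.sum_apply]; exact Finset.sum_congr rfl h'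
          _ = v := by rw [hsum]; rfl
      · intro w
        refine ⟨∑ e : {e // e ∈ P}, (w e : V), funext fun f => Subtype.ext ?_⟩
        show f.1 (∑ e : {e // e ∈ P}, (w e : V)) = _
        rw [map_sum, Finset.sum_eq_single f]
        · obtain ⟨y, hy⟩ := (w f).2
          rw [← hy, ← End.mul_apply, (hidem f.1 f.2).1]
        · intro e _ hne
          obtain ⟨y, hy⟩ := (w e).2
          rw [← hy, ← End.mul_apply, horth f.1 f.2 e.1 e.2 (fun h => hne (Subtype.ext h.symm))]
          rfl
        · intro h; exact absurd (Finset.mem_univ _) h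
    have hn : finrank k V = P.card * d := by
      rw [(LinearEquiv.ofBijective Θ hbij).finrank_eq, Module.finrank_pi_fintype,
        Finset.sum_congr rfl fun e _ => hdim e.1 e.2, Finset.sum_const, Finset.card_univ, Fintype.card_coe,
        smul_eq_mul]
    let Θ' : U →ₗ[k] ((s : S) → LinearMap.range s.1.1) :=
      LinearMap.pi fun s => (LinearMap.rangeRestrict s.1.1).comp U.subtype
    have hinj : Function.Injective Θ' := by
      rw [← LinearMap.ker_eq_bot, LinearMap.ker_eq_bot']
      rintro ⟨v, hv⟩ h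
      have hall : ∀ e : {e // e ∈ P}, e.1 v = 0 := by
        intro e
        obtain ⟨s, hs, j, hj⟩ := hS e
        rw [← hj]
        clear hj
        induction j with
        | zero => exact congrArg Subtype.val (congrFun h ⟨s, hs⟩)
        | succ j ih =>
          rw [pow_succ', Equiv.Perm.mul_apply, hπ, End.mul_apply, End.mul_apply]
          conv_lhs => rw [← hUfix v hv, ← End.mul_apply (ρ x⁻¹), hcancel, End.one_apply, ih, map_zero]
      refine Subtype.ext ?_
      show v = 0
      calc v = (∑ e ∈ P, e) v := by rw [hsum]; rfl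
        _ = 0 := by simp only [LinearMap.sum_apply]; exact Finset.sum_eq_zero fun e he => hall ⟨e, he⟩
    have hu : finrank k U ≤ S.card * d := by
      refine (LinearMap.finrank_le_finrank_of_injective hinj).trans_eq ?_
      rw [Module.finrank_pi_fintype, Finset.sum_congr rfl fun s _ => hdim s.1.1 s.1.2, Finset.sum_const,
        Finset.card_univ, Fintype.card_coe, smul_eq_mul]
    have hdpos : 0 < d := by
      by_contra h0
      have := Submodule.finrank_eq_zero.1 (Nat.eq_zero_of_not_pos h0)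
      exact (hidem e₀ he₀).2 (LinearMap.range_eq_bot.1 this)
    generalize Nat.card {e : {e // e ∈ P} // π x e = e} = F at hfix hScard
    have h5 : 5 ≤ p := by
      have := hp.out
      by_contra h
      have h4 : p = 4 := by omega
      exact absurd (h4 ▸ this) (by norm_num)
    have h2S : 2 * S.card < P.card := by nlinarith
    calc 2 * finrank k U ≤ 2 * (S.card * d) := by omega
      _ = 2 * S.card * d := by ring
      _ < P.card * d := Nat.mul_lt_mul_of_pos_right h2S hdpos
      _ = _ := hn.symm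

/-- The bound when a group of class two modulo the scalars gives a twisted group basis. -/
theorem central_scalar_bound {K W : Type*} [Field K] [Algebra k K] [Module K V] [IsScalarTower k K V]
    [CommGroup W] [Finite W] {p q : ℕ} [Fact p.Prime] [Fact q.Prime]
    (ρ : G →* End k V) (hρ : Function.Injective ρ) (x : G) (hx1 : x ≠ 1)
    (hlin : ∀ (c : K) (g : G) (v : V), ρ g (c • v) = c • ρ g v)
    (Zc : Subgroup G) (hscal : ∀ z ∈ Zc, ∃ c : K, ∀ v, ρ z v = c • v)
    (hexp : ∀ w : W, w ^ q = 1) (rep : W → G) (hrep1 : rep 1 = 1)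
    (hrmul : ∀ i j, rep i * rep j * (rep (i * j))⁻¹ ∈ Zc)
    (hrconj : ∀ f i, rep f * rep i * (rep f)⁻¹ * (rep i)⁻¹ ∈ Zc)
    (hrnd : ∀ i, i ≠ 1 → ∃ f, rep f * rep i * (rep f)⁻¹ ≠ rep i)
    (σ : MulAut W) (hrx : ∀ i, x * rep i * x⁻¹ * (rep (σ i))⁻¹ ∈ Zc) (hσp : σ ^ p = 1)
    (hbound : 4 * (Nat.card W + (p - 1) * Nat.card {w : W // σ w = w}) ≤ p * Nat.card W) :
    2 * finrank k (LinearMap.ker (ρ x - 1)) < finrank k V := by
  have : FiniteDimensional K V := Module.Finite.of_restrictScalars_finite k K V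
  let lin : G →* End K V :=
    { toFun := fun g =>
        { toFun := fun v => ρ g v
          map_add' := fun u v => map_add _ u v
          map_smul' := fun c v => hlin c g v }
      map_one' := LinearMap.ext fun v => by show ρ 1 v = v; rw [map_one]; rfl
      map_mul' := fun g h => LinearMap.ext fun v => by show ρ (g * h) v = _; rw [map_mul]; rfl }
  let U : G →* (End K V)ˣ := lin.toHomUnits
  have hU : ∀ g, ((U g : (End K V)ˣ) : End K V) = lin g := fun g => rfl
  have hmk3 : ∀ {a b : G}, a * b⁻¹ ∈ Zc → ∃ c : K, lin a = c • lin b := by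
    intro a b h
    obtain ⟨c, hc⟩ := hscal _ h
    refine ⟨c, LinearMap.ext fun v => ?_⟩
    show ρ a v = c • ρ b v
    rw [← hc, ← End.mul_apply, ← map_mul, inv_mul_cancel_right]
  have hX1 : U x ≠ 1 := fun h => hx1 (hρ (by
    rw [map_one]
    refine LinearMap.ext fun v => ?_
    exact LinearMap.congr_fun (congrArg Units.val h) v))
  have key := twisted_count (p := p) hexp (U x) hX1 (fun w => U (rep w))
    (by rw [hrep1, map_one])
    (fun i j => by
      obtain ⟨c, hc⟩ := hmk3 (hrmul i j)
      exact ⟨c, by rw [hU, hU, hU, ← map_mul, hc]⟩)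
    (fun f i => by
      obtain ⟨c, hc⟩ := hmk3 (hrconj f i)
      exact ⟨c, by rw [← map_inv, hU, hU, hU, ← map_mul, ← map_mul, hc]⟩)
    (fun i hi => by
      obtain ⟨f, hf⟩ := hrnd i hi
      refine ⟨f, fun h => hf (hρ ?_)⟩
      rw [← map_inv, hU, hU, hU, ← map_mul, ← map_mul] at h
      exact LinearMap.ext fun u => LinearMap.congr_fun h u)
    σ
    (fun i => by
      obtain ⟨c, hc⟩ := hmk3 (hrx i)
      exact ⟨c, by rw [← map_inv, hU, hU, hU, hU, ← map_mul, ← map_mul, hc]⟩)
    hσp hbound
  have hk : (LinearMap.ker (((U x : (End K V)ˣ) : End K V) - 1)).restrictScalars k = LinearMap.ker (ρ x - 1) := rfl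
  have h1 : finrank k K * finrank K (LinearMap.ker (((U x : (End K V)ˣ) : End K V) - 1)) =
      finrank k (LinearMap.ker (ρ x - 1)) := by
    rw [Module.finrank_mul_finrank, ← hk]
    rfl
  have h2 : finrank k K * finrank K V = finrank k V := Module.finrank_mul_finrank k K V
  have hpos : 0 < finrank k K := by
    rcases Nat.eq_zero_or_pos (finrank k K) with h | h
    · have := Module.finrank_pos (R := k) (M := V)
      rw [← h2, h, zero_mul] at this
      omega
    · exact h
  rw [← h1, ← h2, mul_left_comm]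
  exact Nat.mul_lt_mul_of_pos_left key hpos

/-- Flavell's bound on the fixed space. -/
theorem fixed_space_lt [Group.IsSolvable G] (ρ : G →* End k V) (hρ : Function.Injective ρ)
    (hirr : ∀ S : Submodule k V, (∀ g, ∀ v ∈ S, ρ g v ∈ S) → S = ⊥ ∨ S = ⊤)
    {p : ℕ} [hp : Fact p.Prime] (hp3 : 3 < p) (x : G) (hxp : x ^ p = 1) (hx1 : x ≠ 1)
    (hgen : Subgroup.normalClosure ({x} : Set G) = ⊤) :
    2 * finrank k (LinearMap.ker (ρ x - 1)) < finrank k V := by
  classical
  by_cases hmoved : ∃ N : Subgroup G, N.Normal ∧ (∀ a ∈ N, ∀ b ∈ N, a * b = b * a) ∧ ∃ n ∈ N, x * n * x⁻¹ ≠ n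
  · obtain ⟨N, hNn, hN, n, hn, hxn⟩ := hmoved
    exact fixed_lt_of_moved ρ hρ hirr hp3 x hxp hgen N hN n hn hxn
  push Not at hmoved
  have hnpos := Module.finrank_pos (R := k) (M := V)
  have hcentral : ∀ N : Subgroup G, N.Normal → (∀ a ∈ N, ∀ b ∈ N, a * b = b * a) → N ≤ Subgroup.center G := by
    intro N hNn hN n hn
    have : Subgroup.normalClosure ({x} : Set G) ≤ Subgroup.centralizer (N : Set G) :=
      Subgroup.normalClosure_le_normal (Set.singleton_subset_iff.2 fun m hm =>
        (mul_inv_eq_iff_eq_mul.1 (hmoved N hNn hN m hm)).symm)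
    rw [hgen] at this
    exact Subgroup.mem_center_iff.2 fun g => ((this (Subgroup.mem_top g)) n hn).symm
  set Zc := Subgroup.center G with hZc
  by_cases hxZ : x ∈ Zc
  · have hinv : ∀ g, ∀ v ∈ LinearMap.ker (ρ x - 1), ρ g v ∈ LinearMap.ker (ρ x - 1) := by
      intro g v hv
      have hv' : ρ x v = v := by simpa [sub_eq_zero] using hv
      simp [sub_eq_zero, ← End.mul_apply, ← map_mul, ← Subgroup.mem_center_iff.1 hxZ g]
      simp [map_mul, hv']
    rcases hirr _ hinv with h | h
    · rw [h, finrank_bot]; omega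
    · exact absurd (hρ ((sub_eq_zero.1 (LinearMap.ker_eq_top.1 h)).trans (map_one ρ).symm)) hx1
  -- a minimal normal subgroup above the centre
  obtain ⟨E, hEmem, hEmin⟩ := Finset.exists_minimal
    (s := (@Finset.univ {N : Subgroup G // N.Normal ∧ Zc < N} (Fintype.ofFinite _)))
    ⟨⟨⊤, inferInstance, lt_top_iff_ne_top.2 fun h => hxZ (h ▸ Subgroup.mem_top x)⟩,
      @Finset.mem_univ _ (Fintype.ofFinite _) _⟩
  obtain ⟨E, hEn, hZE⟩ := E
  have hmin : ∀ N : Subgroup G, N.Normal → Zc < N → N ≤ E → N = E := fun N hN hZN hNE =>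
    le_antisymm hNE (hEmin (y := ⟨N, hN, hZN⟩) (@Finset.mem_univ _ (Fintype.ofFinite _) _) hNE)
  set Eb : Subgroup (G ⧸ Zc) := E.map (QuotientGroup.mk' Zc) with hEb
  have hEbn : Eb.Normal := hEn.map _ (QuotientGroup.mk'_surjective _)
  have hkerle : ∀ S : Subgroup (G ⧸ Zc), Zc ≤ S.comap (QuotientGroup.mk' Zc) := fun S z hz => by
    rw [Subgroup.mem_comap, QuotientGroup.mk'_apply, (QuotientGroup.eq_one_iff z).2 hz]
    exact one_mem _
  have hEbot : Eb ≠ ⊥ := fun h => hZE.ne' (le_antisymm (fun e he => by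
    have : QuotientGroup.mk' Zc e ∈ Eb := Subgroup.mem_map_of_mem _ he
    rw [h, Subgroup.mem_bot, QuotientGroup.mk'_apply, QuotientGroup.eq_one_iff] at this
    exact this) hZE.le)
  have hsub : ∀ S : Subgroup (G ⧸ Zc), S.Normal → S ≤ Eb → S = ⊥ ∨ S = Eb := by
    intro S hS hSE
    rcases (hkerle S).eq_or_lt with h | h
    · left
      rw [← Subgroup.map_comap_eq_self_of_surjective (QuotientGroup.mk'_surjective Zc) S, ← h]
      exact (QuotientGroup.map_mk'_self Zc)
    · right
      have hle : S.comap (QuotientGroup.mk' Zc) ≤ E := fun e he => by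
        obtain ⟨e', he', hee⟩ := hSE he
        simp only [QuotientGroup.mk'_apply] at hee
        rw [QuotientGroup.eq] at hee
        have := mul_mem he' (hZE.le hee)
        rwa [mul_inv_cancel_left] at this
      rw [← Subgroup.map_comap_eq_self_of_surjective (QuotientGroup.mk'_surjective Zc) S,
        hmin _ (hS.comap _) h hle]
  have hcomm : ∀ a ∈ Eb, ∀ b ∈ Eb, a * b = b * a := by
    have hne : ⁅Eb, Eb⁆ ≠ Eb := (Group.IsSolvable.commutator_lt_of_ne_bot hEbot).ne
    rcases hsub ⁅Eb, Eb⁆ inferInstance (Subgroup.commutator_le_self _) with h | h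
    · intro a ha b hb
      exact commutatorElement_eq_one_iff_mul_comm.1 (Subgroup.mem_bot.1 (h ▸ Subgroup.commutator_mem_commutator ha hb))
    · exact absurd h hne
  have : IsMulCommutative Eb := ⟨⟨fun a b => Subtype.ext (hcomm _ a.2 _ b.2)⟩⟩
  letI : CommGroup Eb := { (inferInstance : Group Eb) with mul_comm := fun a b => mul_comm' a b }
  obtain ⟨q, hq, hqd⟩ := Nat.exists_prime_and_dvd (n := Nat.card Eb) fun h =>
    hEbot (Subgroup.eq_bot_of_card_eq _ h)
  have := Fact.mk hq
  have hexp : ∀ w : Eb, w ^ q = 1 := by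
    let T : Subgroup (G ⧸ Zc) :=
      { carrier := {w | w ∈ Eb ∧ w ^ q = 1}
        one_mem' := ⟨one_mem _, one_pow _⟩
        mul_mem' := fun {a b} ha hb => ⟨mul_mem ha.1 hb.1, by
          rw [Commute.mul_pow (hcomm a ha.1 b hb.1), ha.2, hb.2, one_mul]⟩
        inv_mem' := fun {a} ha => ⟨inv_mem ha.1, by rw [inv_pow, ha.2, inv_one]⟩ }
    have hTn : T.Normal := ⟨fun w hw g => ⟨hEbn.conj_mem w hw.1 g, by
      rw [← MulAut.conj_apply, ← map_pow, hw.2, map_one]⟩⟩
    rcases hsub T hTn (fun w hw => hw.1) with h | h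
    · obtain ⟨w, hw⟩ := exists_prime_orderOf_dvd_card' q hqd
      have hmem : (w : G ⧸ Zc) ∈ T :=
        ⟨w.2, by rw [← SubmonoidClass.coe_pow, ← hw, pow_orderOf_eq_one]; rfl⟩
      rw [h, Subgroup.mem_bot, OneMemClass.coe_eq_one] at hmem
      rw [hmem, orderOf_one] at hw
      exact absurd hw.symm hq.ne_one
    · intro w
      have : (w : G ⧸ Zc) ∈ T := by rw [h]; exact w.2
      exact Subtype.ext this.2
  let φ : G →* MulAut Eb := MulAut.conjNormal.comp (QuotientGroup.mk' Zc)
  have hφ : ∀ g w, ((φ g w : Eb) : G ⧸ Zc) = QuotientGroup.mk' Zc g * w * (QuotientGroup.mk' Zc g)⁻¹ :=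
    fun g w => rfl
  have hirrW : ∀ S : Subgroup Eb, (∀ g, ∀ w ∈ S, φ g w ∈ S) → S = ⊥ ∨ S = ⊤ := by
    intro S hS
    have hn : (S.map Eb.subtype).Normal := ⟨fun w hw g => by
      obtain ⟨w, hwS, rfl⟩ := hw
      obtain ⟨g, rfl⟩ := QuotientGroup.mk'_surjective Zc g
      exact ⟨φ g w, hS g w hwS, hφ g w⟩⟩
    rcases hsub _ hn (Subgroup.map_subtype_le S) with h | h
    · exact Or.inl ((Subgroup.map_eq_bot_iff_of_injective _ Eb.subtype_injective).1 h)
    · right
      refine eq_top_iff.2 fun w _ => ?_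
      have hw : (w : G ⧸ Zc) ∈ S.map Eb.subtype := h.symm ▸ w.2
      obtain ⟨w', hw', he⟩ := hw
      rwa [← Subtype.ext he]
  have hrep : ∀ w : Eb, ∃ r, r ∈ E ∧ QuotientGroup.mk' Zc r = (w : G ⧸ Zc) ∧ (w = 1 → r = 1) := by
    intro w
    by_cases hw : w = 1
    · exact ⟨1, one_mem _, by simp [hw], fun _ => rfl⟩
    · obtain ⟨r, hr, hrw⟩ := w.2
      exact ⟨r, hr, hrw, fun h => absurd h hw⟩
  choose rep hrepE hrepmk hrep1 using hrep
  have hz : ∀ {a b : G}, QuotientGroup.mk' Zc a = QuotientGroup.mk' Zc b → ∃ z ∈ Zc, a = z * b := by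
    intro a b h
    refine ⟨a * b⁻¹, ?_, by group⟩
    rw [← QuotientGroup.eq_one_iff]
    show QuotientGroup.mk' Zc (a * b⁻¹) = 1
    rw [map_mul, map_inv, h, mul_inv_cancel]
  have hcE : ∀ a ∈ E, ∀ b ∈ E, ⁅a, b⁆ ∈ Zc := fun a ha b hb => by
    rw [← QuotientGroup.eq_one_iff]
    show QuotientGroup.mk' Zc ⁅a, b⁆ = 1
    rw [map_commutatorElement]
    exact commutatorElement_eq_one_iff_mul_comm.2
      (hcomm _ (Subgroup.mem_map_of_mem _ ha) _ (Subgroup.mem_map_of_mem _ hb))
  letI : CommGroup Zc := { (inferInstance : Group Zc) with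
    mul_comm := fun a b => Subtype.ext (Subgroup.mem_center_iff.1 b.2 a.1) }
  let β : Eb → Eb → Zc := fun a b => ⟨⁅rep a, rep b⁆, hcE _ (hrepE a) _ (hrepE b)⟩
  have hcc : ∀ z ∈ Zc, ∀ g : G, g * z = z * g := fun z hz g => Subgroup.mem_center_iff.1 hz g
  have hwell : ∀ (a b : Eb) (r s : G), QuotientGroup.mk' Zc r = a → QuotientGroup.mk' Zc s = b →
      ⁅r, s⁆ = ((β a b : Zc) : G) := by
    intro a b r s hr hs
    obtain ⟨z, hzm, rfl⟩ := hz (hr.trans (hrepmk a).symm)
    obtain ⟨z', hzm', rfl⟩ := hz (hs.trans (hrepmk b).symm)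
    show ⁅z * rep a, z' * rep b⁆ = ⁅rep a, rep b⁆
    simp only [commutatorElement_def, mul_inv_rev]
    calc z * rep a * (z' * rep b) * ((rep a)⁻¹ * z⁻¹) * ((rep b)⁻¹ * z'⁻¹)
        = z * (rep a * z') * rep b * (rep a)⁻¹ * (z⁻¹ * (rep b)⁻¹) * z'⁻¹ := by group
      _ = z * (z' * rep a) * rep b * (rep a)⁻¹ * ((rep b)⁻¹ * z⁻¹) * z'⁻¹ := by
          rw [hcc z' hzm' (rep a), ← hcc z⁻¹ (inv_mem hzm) (rep b)⁻¹]
      _ = (z * z') * (rep a * rep b * (rep a)⁻¹ * (rep b)⁻¹) * (z⁻¹ * z'⁻¹) := by group
      _ = _ := by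
          rw [← hcc (z * z') (mul_mem hzm hzm'), mul_assoc, hcc z' hzm' z]
          group
  have hβmul : ∀ a b v, β (a * b) v = β a v * β b v := by
    intro a b v
    refine Subtype.ext ?_
    rw [← hwell (a * b) v (rep a * rep b) (rep v) (by rw [map_mul, hrepmk, hrepmk]; rfl) (hrepmk v)]
    show ⁅rep a * rep b, rep v⁆ = ⁅rep a, rep v⁆ * ⁅rep b, rep v⁆
    have hc := hcE _ (hrepE b) _ (hrepE v)
    calc ⁅rep a * rep b, rep v⁆ = rep a * ⁅rep b, rep v⁆ * (rep v * (rep a)⁻¹ * (rep v)⁻¹) := by
          simp only [commutatorElement_def]; group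
      _ = ⁅rep b, rep v⁆ * (rep a * (rep v * (rep a)⁻¹ * (rep v)⁻¹)) := by
          rw [hcc _ hc (rep a)]; group
      _ = ⁅rep b, rep v⁆ * ⁅rep a, rep v⁆ := by simp only [commutatorElement_def]; group
      _ = _ := (hcc _ hc _).symm
  have hβanti : ∀ a b, β b a = (β a b)⁻¹ := fun a b => Subtype.ext (commutatorElement_inv _ _).symm
  have hβself : ∀ a, β a a = 1 := fun a => Subtype.ext (commutatorElement_self _)
  have hβnd : ∀ w, (∀ v, β w v = 1) → w = 1 := by
    intro w hw
    have hN : (E ⊓ Subgroup.centralizer (E : Set G)).Normal := by infer_instance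
    have hle := hcentral _ hN (fun a ha b hb => (ha.2 b hb.1).symm)
    have hmem : rep w ∈ E ⊓ Subgroup.centralizer (E : Set G) := ⟨hrepE w, fun e he => by
      have h := hwell w ⟨_, Subgroup.mem_map_of_mem _ he⟩ (rep w) e (hrepmk w) rfl
      rw [hw, OneMemClass.coe_one] at h
      exact (commutatorElement_eq_one_iff_mul_comm.1 h).symm⟩
    refine Subtype.ext ?_
    rw [← hrepmk, OneMemClass.coe_one, QuotientGroup.mk'_apply, QuotientGroup.eq_one_iff]
    exact hle hmem
  have hβinv : ∀ g a b, β (φ g a) (φ g b) = β a b := by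
    intro g a b
    refine Subtype.ext ?_
    rw [← hwell (φ g a) (φ g b) (g * rep a * g⁻¹) (g * rep b * g⁻¹)
      (by rw [hφ, map_mul, map_mul, map_inv, hrepmk]) (by rw [hφ, map_mul, map_mul, map_inv, hrepmk])]
    show ⁅g * rep a * g⁻¹, g * rep b * g⁻¹⁆ = ⁅rep a, rep b⁆
    calc ⁅g * rep a * g⁻¹, g * rep b * g⁻¹⁆ = g * ⁅rep a, rep b⁆ * g⁻¹ := by
          simp only [commutatorElement_def]; group
      _ = _ := by rw [hcc _ (hcE _ (hrepE a) _ (hrepE b)) g, mul_inv_cancel_right]
  have hφx : φ x ≠ 1 := by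
    intro h
    have hker : φ.ker = ⊤ := top_le_iff.1 (hgen ▸ Subgroup.normalClosure_le_normal
      (Set.singleton_subset_iff.2 (MonoidHom.mem_ker.2 h)))
    obtain ⟨w, hw⟩ : ∃ w : Eb, w ≠ 1 := by
      by_contra! hc
      exact hEbot (eq_bot_iff.2 fun v hv => congrArg Subtype.val (hc ⟨v, hv⟩))
    rcases hirrW (Subgroup.zpowers w) (fun g u hu => by
      rw [MonoidHom.mem_ker.1 (hker ▸ Subgroup.mem_top g)]; exact hu) with h' | h'
    · exact hw (Subgroup.zpowers_eq_bot.1 h')
    · refine hw (hβnd w fun v => ?_)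
      obtain ⟨i, hi⟩ := Subgroup.mem_zpowers_iff.1 (h' ▸ Subgroup.mem_top v : v ∈ Subgroup.zpowers w)
      refine Subtype.ext ?_
      rw [← hwell w v (rep w) (rep w ^ i) (hrepmk w) (by rw [map_zpow, hrepmk, ← hi]; rfl)]
      exact commutatorElement_eq_one_iff_mul_comm.2 (Commute.zpow_right (Commute.refl _) i)
  have hbound := symplectic_fixed_bound hp3 φ x hxp hφx hexp hirrW β hβmul hβanti hβself hβnd hβinv
  -- the field of scalars
  set A := Algebra.adjoin k (ρ '' (Zc : Set G)) with hA
  have hAcomm : ∀ a ∈ A, ∀ g, a * ρ g = ρ g * a := by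
    intro a ha g
    induction ha using Algebra.adjoin_induction with
    | mem y hy =>
      obtain ⟨z, hzm, rfl⟩ := hy
      rw [← map_mul, ← map_mul, hcc z hzm g]
    | algebraMap r => exact Algebra.commutes r _
    | add u v _ _ hu hv => rw [add_mul, mul_add, hu, hv]
    | mul u v _ _ hu hv => rw [mul_assoc, hv, ← mul_assoc, hu, mul_assoc]
  have hAinj : ∀ a ∈ A, a ≠ 0 → Function.Injective a := by
    intro a ha ha0
    rcases hirr (LinearMap.ker a) (fun g v hv => by
      rw [LinearMap.mem_ker] at hv ⊢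
      rw [← End.mul_apply, hAcomm a ha g, End.mul_apply, hv, map_zero]) with h | h
    · exact LinearMap.ker_eq_bot.1 h
    · exact absurd (LinearMap.ker_eq_top.1 h) ha0
  have : IsMulCommutative A := Algebra.isMulCommutative_adjoin k (by
    rintro _ ⟨a, ha, rfl⟩ _ ⟨b, hb, rfl⟩
    rw [← map_mul, ← map_mul, hcc b hb a])
  letI : CommRing A := { (inferInstance : Ring A) with mul_comm := fun u v => mul_comm' u v }
  have : IsDomain A := by
    have : NoZeroDivisors A := ⟨fun {a b} hab => by
      by_cases ha : a = 0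
      · exact Or.inl ha
      · refine Or.inr (Subtype.ext (LinearMap.ext fun v => ?_))
        refine hAinj a.1 a.2 (fun h => ha (Subtype.ext h)) ?_
        have := LinearMap.congr_fun (congrArg Subtype.val hab) v
        simpa using this⟩
    exact NoZeroDivisors.to_isDomain A
  letI : Field A := fieldOfFiniteDimensional k A
  have : IsScalarTower k A V := ⟨fun c a v => rfl⟩
  refine central_scalar_bound (p := p) (K := A) ρ hρ x hx1
    (fun c g v => by
      show ρ g (c.1 v) = c.1 (ρ g v)
      rw [← End.mul_apply, ← hAcomm c.1 c.2 g, End.mul_apply]) Zc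
    (fun z hzm => ⟨⟨ρ z, Algebra.subset_adjoin ⟨z, hzm, rfl⟩⟩, fun v => rfl⟩)
    hexp rep (hrep1 1 rfl)
    (fun i j => ?_) (fun f i => ?_) (fun i hi => ?_) (φ x) (fun i => ?_)
    (by rw [← map_pow, hxp, map_one]) hbound
  · rw [← QuotientGroup.eq_one_iff]
    show QuotientGroup.mk' Zc _ = 1
    rw [map_mul, map_mul, map_inv, hrepmk, hrepmk, hrepmk]
    exact mul_inv_cancel _
  · rw [← QuotientGroup.eq_one_iff]
    show QuotientGroup.mk' Zc _ = 1
    rw [map_mul, map_mul, map_mul, map_inv, map_inv, hrepmk, hrepmk, hcomm _ f.2 _ i.2, mul_inv_cancel_right,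
      mul_inv_cancel]
  · by_contra! hall
    refine hi (hβnd i fun v => ?_)
    rw [hβanti v i, inv_eq_one]
    exact Subtype.ext (commutatorElement_eq_one_iff_mul_comm.2 (mul_inv_eq_iff_eq_mul.1 (hall v)))
  · rw [← QuotientGroup.eq_one_iff]
    show QuotientGroup.mk' Zc _ = 1
    rw [map_mul, map_mul, map_mul, map_inv, map_inv, hrepmk, hrepmk, ← hφ, mul_inv_cancel]

end Rep

end Cfsg.Agent.FGS3
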