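/-
Kernel-checked certificates for the involution centraliser of the McLaughlin group.
-/
import Cfsg.Agent.FGS3.McLOutCheck
import Cfsg.Agent.FGS3.McLInvData

set_option autoImplicit false
set_option maxRecDepth 100000

namespace Cfsg.Agent.FGS3.McLInv

open Cfsg.Agent.FGS3.McLOut

/-- The generators: six elements of the centraliser and two others. -/
def gpk (k : ℕ) : ℕ := if k < 6 then sixP.getD k 0 else if k = 6 then pp 4 else pp 0

/-- Evaluation of a word. -/
def evI (w : List ℕ) (i : ℕ) : ℕ := w.foldr (fun k x => app (gpk k) x) i

/-- A mask of the program. -/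
def cMask (k : ℕ) : List ℕ := (cProg.getD k ((0, 0, 0, 0), 0, [])).2.2

/-- The level of a mask. -/
def cLevel (k : ℕ) : ℕ := (cProg.getD k ((0, 0, 0, 0), 0, [])).2.1

/-- A step of the refinement program. -/
def cStep (masks : List (List ℕ)) (op : ℕ × ℕ × ℕ × ℕ) : List ℕ :=
  match op.1 with
  | 0 => List.range 275
  | 1 => [cBase.getD op.2.1 0]
  | 2 => (masks.getD op.2.1 []).filter fun x => !((masks.getD op.2.2.1 []).contains x)
  | 3 => (masks.getD op.2.2.1 []).filter fun x => cnt (masks.getD op.2.1 []) x == op.2.2.2
  | 4 => (List.range 275).filter fun x => app tP x == x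
  | 5 => (List.range 275).filter fun x => (masks.getD op.2.1 []).contains (app tP x)
  | _ => (masks.getD op.2.1 []).filter fun x => (masks.getD op.2.2.1 []).contains x

/-- The program is consistent. -/
def cProgChk : Bool :=
  (List.range cProg.length).all fun k =>
    let p := cProg.getD k ((0, 0, 0, 0), 0, [])
    (cStep ((cProg.take k).map fun q => q.2.2) p.1 == p.2.2) && decide (p.2.2.Nodup) &&
      p.2.2.all (fun x => decide (x < 275)) &&
      match p.1.1 with
      | 0 => true
      | 1 => decide (p.1.2.1 < p.2.1) && decide (p.1.2.1 < 7)
      | 4 => true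
      | 5 => decide (p.1.2.1 < k) && decide (cLevel p.1.2.1 ≤ p.2.1)
      | _ => decide (p.1.2.1 < k) && decide (p.1.2.2.1 < k) && decide (cLevel p.1.2.1 ≤ p.2.1) &&
          decide (cLevel p.1.2.2.1 ≤ p.2.1)

/-- The signature of a vertex. -/
def cSig (x : ℕ) : ℕ :=
  cSep.foldr (fun q r => 4 * r + (bif x == q.1 then 2 else 0) + (bif (row q.1).testBit x then 1 else 0)) 0

/-- The cells of the base. -/
def cCellChk : Bool :=
  ((List.range 7).all fun i => (cMask (cCells.getD i 0)).contains (cBase.getD i 0) &&
    decide (cLevel (cCells.getD i 0) ≤ i) && decide (cCells.getD i 0 < cProg.length)) &&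
    ((cCells.map fun k => (cMask k).length).prod == 80640) && (cCells.length == 7) &&
    ((cCells.drop 6).map fun k => (cMask k).length).prod == 2 &&
    (List.range 6).all (fun i => fixL.contains (cBase.getD i 0)) &&
    cSep.all (fun q => (cMask q.2 == [q.1]) && decide (cLevel q.2 ≤ 7) && decide (q.2 < cProg.length)) &&
    (((List.range 275).map cSig).dedup.length == 275)

/-- The involution and its two further facts. -/
def invChk : Bool :=
  (List.range 275).all fun x =>
    (evI (qW ++ qW) x == app tP x) && (evI (qW ++ qW ++ qW ++ qW) x == x) &&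
      (app outerP (evI ogW (app tP x)) == app tP (app outerP (evI ogW x))) &&
      (List.range 6).all (fun k => app (gpk k) (app tP x) == app tP (app (gpk k) x)) &&
      (fixL.contains x == (app tP x == x))

/-- The pair set. -/
def pset (i j : ℕ) : List ℕ := pairL.getD (8 * i + j) []

/-- The image of a generator. -/
def img (k : ℕ) : List ℕ := imgL.getD k []

/-- The generators permute the pair sets as claimed. -/
def homChk : Bool :=
  ((List.range 6).all fun k => (List.range 8).all fun i => (List.range 8).all fun j =>
    (pset i j).all fun x => (pset ((img k).getD i 0) ((img k).getD j 0)).contains (app (gpk k) x)) &&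
  ((List.range 8).all fun i => (List.range 8).all fun j =>
    ((i == j) || ((pset i j).length == 15 && pset i j == pset j i)) &&
      (pset i j).all (fun x => fixL.contains x) && decide (pset i j).Nodup &&
      (List.range 8).all fun a => (List.range 8).all fun b =>
        (i == j) || (a == b) || (a == i && b == j) || (a == j && b == i) || !(pset i j == pset a b)) &&
  (List.range 8).all (fun i => (pset i i).length == 0) &&
  (fixL.all fun x => fixL.all fun y => (x == y) ||
    ((List.range 8).any fun i => (List.range 8).any fun j => (pset i j).contains x != (pset i j).contains y))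

/-- Composite of images along a word. -/
def imgW (w : List ℕ) (i : ℕ) : ℕ := w.foldr (fun k x => (img k).getD x 0) i

/-- Cycles and representatives as words. -/
def altChk : Bool :=
  (cycW.all fun q => q.2.2.2.all (fun k => decide (k < 6)) && (List.range 8).all fun i =>
    imgW q.2.2.2 i == (bif i == q.1 then q.2.1 else bif i == q.2.1 then q.2.2.1 else bif i == q.2.2.1 then q.1 else i)) &&
  ((List.range 8).all fun a => (List.range 8).all fun b => (List.range 8).all fun c =>
    (a == b) || (b == c) || (a == c) || cycW.any fun q => (q.1 == a) && (q.2.1 == b) && (q.2.2.1 == c)) &&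
  (fourW.all fun k => decide (k < 6)) && (eightW.all fun k => decide (k < 6)) && (qW.all fun k => decide (k < 6)) &&
  ((List.range 8).all fun i => (imgW fourW i == fourP.getD i 8) && (imgW eightW i == eightP.getD i 8))

/-- The lifts of the two classes of involutions. -/
def liftChk : Bool :=
  (List.range 275).all (fun x =>
    (evI (eightConj ++ qW ++ qW) x == evI (eightW ++ eightConj) x) &&
      (evI (eightConjT ++ qW ++ qW) x == evI (eightW ++ qW ++ qW ++ eightConjT) x)) &&
  (List.range 275).any (fun x => evI (fourW ++ fourW) x != x) &&
  (List.range 275).any (fun x => evI (fourW ++ qW ++ qW ++ fourW ++ qW ++ qW) x != x) &&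
  (eightConj ++ eightConjT ++ ogW).all fun k => decide (k < 8)

end Cfsg.Agent.FGS3.McLInv
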