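/-
The certificates for the involution centraliser hold.
-/
import Cfsg.Agent.FGS3.McLInvCheck

set_option autoImplicit false
set_option maxRecDepth 100000

namespace Cfsg.Agent.FGS3.McLInv

open Cfsg.Agent.FGS3.McLOut

theorem inv_ok : invChk = true := by decide +kernel

theorem hom_ok : homChk = true := by decide +kernel

theorem alt_ok : altChk = true := by decide +kernel

theorem lift_ok : liftChk = true := by decide +kernel

theorem cCell_ok : cCellChk = true := by decide +kernel

theorem cProg_ok : cProgChk = true := by decide +kernel

end Cfsg.Agent.FGS3.McLInv
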