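/-
The six generators of the involution centraliser are automorphisms of the graph.
-/
import Cfsg.Agent.FGS3.McLInvCheck

set_option autoImplicit false
set_option maxRecDepth 100000

namespace Cfsg.Agent.FGS3.McLInv

open Cfsg.Agent.FGS3.McLOut

theorem six_ok0 : autOK (sixP.getD 0 0) = true := by decide +kernel

theorem six_ok1 : autOK (sixP.getD 1 0) = true := by decide +kernel

theorem six_ok2 : autOK (sixP.getD 2 0) = true := by decide +kernel

theorem six_ok3 : autOK (sixP.getD 3 0) = true := by decide +kernel

theorem six_ok4 : autOK (sixP.getD 4 0) = true := by decide +kernel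

theorem six_ok5 : autOK (sixP.getD 5 0) = true := by decide +kernel

end Cfsg.Agent.FGS3.McLInv
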