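/-
The centraliser of an involution of McL has order at most 40320.
-/
import Cfsg.Agent.FGS3.McLOutIndex
import Cfsg.Agent.FGS3.McLInvOk
import Cfsg.Agent.FGS3.McLInvOkP

set_option autoImplicit false
set_option maxRecDepth 20000

namespace Cfsg.Agent.FGS3.McLInv

open Cfsg Cfsg.Agent.FGS3.McLOut

theorem six_ok : ∀ k, k < 6 → autOK (sixP.getD k 0) = true := by
  intro k hk
  rcases (show k = 0 ∨ k = 1 ∨ k = 2 ∨ k = 3 ∨ k = 4 ∨ k = 5 by omega) with e | e | e | e | e | e <;> rw [e]
  exacts [six_ok0, six_ok1, six_ok2, six_ok3, six_ok4, six_ok5]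

/-- A generator as a permutation. -/
def gI (k : ℕ) : Equiv.Perm Pt :=
  if h : k < 6 then
    { toFun := pt' (sixP.getD k 0)
      invFun := fun i => pt' (sixP.getD k 0) (pt' (sixP.getD k 0) i)
      left_inv := fun i => (autOK_spec (six_ok k h)).2.1 i
      right_inv := fun i => (autOK_spec (six_ok k h)).2.1 i }
  else if k = 6 then gp 4 else gp 0

theorem gI_val (k : ℕ) (i : Pt) : (gI k i : ℕ) = app (gpk k) i := by
  unfold gI gpk
  by_cases h : k < 6
  · rw [dif_pos h, if_pos h]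
    exact (autOK_spec (six_ok k h)).1 i
  · rw [dif_neg h, if_neg h]
    split <;> exact gp_val (by norm_num) i

theorem gI_GG (k : ℕ) : gI k ∈ GG := by
  unfold gI
  split
  · rename_i h
    refine mem_GG_of_cube (adj_preserved fun i j e => (autOK_spec (six_ok k h)).2.2 i j e) (Equiv.ext fun i => ?_)
    exact (autOK_spec (six_ok k h)).2.1 i
  · split <;> exact gp_GG _

/-- A word as a permutation. -/
def wI (w : List ℕ) : Equiv.Perm Pt := (w.map gI).prod

theorem wI_cons (k : ℕ) (w : List ℕ) : wI (k :: w) = gI k * wI w := by simp [wI]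

theorem wI_append (v w : List ℕ) : wI (v ++ w) = wI v * wI w := by simp [wI]

theorem wI_val : ∀ (w : List ℕ) (i : Pt), (wI w i : ℕ) = evI w i := by
  intro w
  induction w with
  | nil => intro i; rfl
  | cons k w ih =>
    intro i
    rw [wI_cons, Equiv.Perm.mul_apply, gI_val, ih]
    rfl

theorem wI_GG (w : List ℕ) : wI w ∈ GG :=
  list_prod_mem fun x hx => by
    obtain ⟨k, -, rfl⟩ := List.mem_map.1 hx
    exact gI_GG k

/-- An element of order four in the centraliser. -/
def qq : Equiv.Perm Pt := wI qW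

/-- The involution. -/
def tt : Equiv.Perm Pt := qq * qq

theorem inv_facts : ∀ x < 275, evI (qW ++ qW) x = app tP x ∧ evI (qW ++ qW ++ qW ++ qW) x = x ∧
    app outerP (evI ogW (app tP x)) = app tP (app outerP (evI ogW x)) ∧
    (∀ k < 6, app (gpk k) (app tP x) = app tP (app (gpk k) x)) ∧ (x ∈ fixL ↔ app tP x = x) := by
  have h := inv_ok
  simp only [invChk, List.all_eq_true, List.mem_range, Bool.and_eq_true, beq_iff_eq, List.contains_eq_mem] at h
  refine fun x hx => ⟨(h x hx).1.1.1.1, (h x hx).1.1.1.2, (h x hx).1.1.2, (h x hx).1.2, ?_⟩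
  rw [← decide_eq_true_iff (p := x ∈ fixL), (h x hx).2, beq_iff_eq]

theorem tt_val (i : Pt) : (tt i : ℕ) = app tP i := by
  rw [tt, qq, ← wI_append, wI_val]
  exact (inv_facts i i.2).1

theorem tt_sq : tt * tt = 1 := by
  refine Equiv.ext fun i => Fin.ext ?_
  rw [tt, qq, ← wI_append, ← wI_append, ← List.append_assoc, wI_val]
  exact (inv_facts i i.2).2.1

theorem tt_ne : tt ≠ 1 := by
  intro h
  have h2 : ∀ i : Pt, app tP i = (i : ℕ) := fun i => by rw [← tt_val, h]; rfl
  exact absurd h2 (by decide +kernel)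

theorem tt_GG : tt ∈ GG := mul_mem (wI_GG qW) (wI_GG qW)

theorem tt_comm_six {k : ℕ} (hk : k < 6) : gI k * tt = tt * gI k := by
  refine Equiv.ext fun i => Fin.ext ?_
  rw [Equiv.Perm.mul_apply, Equiv.Perm.mul_apply, gI_val, tt_val, tt_val, gI_val]
  exact (inv_facts i i.2).2.2.2.1 k hk

/-- The centraliser inside the automorphism group. -/
noncomputable def CA : Subgroup (Equiv.Perm Pt) := AutG ⊓ Subgroup.centralizer {tt}

/-- The centraliser inside McL. -/
noncomputable def CC : Subgroup (Equiv.Perm Pt) := GG ⊓ Subgroup.centralizer {tt}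

theorem mem_CC {g : Equiv.Perm Pt} : g ∈ CC ↔ g ∈ GG ∧ g * tt = tt * g := by
  rw [CC, Subgroup.mem_inf, Subgroup.mem_centralizer_singleton_iff]

/-- The base vertex of a level. -/
def bI (i : ℕ) : Pt := Fin.ofNat 275 (cBase.getD i 0)

theorem bI_val : ∀ i < 7, (bI i : ℕ) = cBase.getD i 0 := by decide +kernel

/-- Elements fixing the first base points. -/
noncomputable def FI : ℕ → Subgroup (Equiv.Perm Pt)
  | 0 => CA
  | n + 1 => FI n ⊓ MulAction.stabilizer (Equiv.Perm Pt) (bI n)

theorem FI_le : ∀ n, FI n ≤ CA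
  | 0 => le_rfl
  | n + 1 => inf_le_left.trans (FI_le n)

theorem FI_mono {m n : ℕ} (h : m ≤ n) : FI n ≤ FI m := by
  induction n, h using Nat.le_induction with
  | base => exact le_rfl
  | succ n _ ih => exact inf_le_left.trans ih

theorem mem_FI : ∀ {n : ℕ} {g : Equiv.Perm Pt}, g ∈ FI n ↔ g ∈ CA ∧ ∀ l < n, g (bI l) = bI l
  | 0, g => ⟨fun h => ⟨h, fun l hl => absurd hl (Nat.not_lt_zero l)⟩, And.left⟩
  | n + 1, g => by
    rw [FI, Subgroup.mem_inf, mem_FI, MulAction.mem_stabilizer_iff]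
    constructor
    · rintro ⟨⟨h1, h2⟩, h3⟩
      exact ⟨h1, fun l hl => (Nat.lt_succ_iff_lt_or_eq.1 hl).elim (h2 l) fun e => e ▸ h3⟩
    · rintro ⟨h1, h2⟩
      exact ⟨⟨h1, fun l hl => h2 l (Nat.lt_succ_of_lt hl)⟩, h2 n (Nat.lt_succ_self n)⟩

theorem cProg_facts {k : ℕ} (hk : k < cProg.length) :
    cStep ((cProg.take k).map fun q => q.2.2) (cProg.getD k ((0, 0, 0, 0), 0, [])).1 = cMask k ∧
      (cMask k).Nodup ∧ (∀ x ∈ cMask k, x < 275) ∧
      (match (cProg.getD k ((0, 0, 0, 0), 0, [])).1.1 with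
        | 0 => true
        | 1 => decide ((cProg.getD k ((0, 0, 0, 0), 0, [])).1.2.1 < cLevel k) &&
            decide ((cProg.getD k ((0, 0, 0, 0), 0, [])).1.2.1 < 7)
        | 4 => true
        | 5 => decide ((cProg.getD k ((0, 0, 0, 0), 0, [])).1.2.1 < k) &&
            decide (cLevel (cProg.getD k ((0, 0, 0, 0), 0, [])).1.2.1 ≤ cLevel k)
        | _ => decide ((cProg.getD k ((0, 0, 0, 0), 0, [])).1.2.1 < k) &&
            decide ((cProg.getD k ((0, 0, 0, 0), 0, [])).1.2.2.1 < k) &&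
            decide (cLevel (cProg.getD k ((0, 0, 0, 0), 0, [])).1.2.1 ≤ cLevel k) &&
            decide (cLevel (cProg.getD k ((0, 0, 0, 0), 0, [])).1.2.2.1 ≤ cLevel k)) = true := by
  have h := List.all_eq_true.1 cProg_ok k (List.mem_range.2 hk)
  simp only [Bool.and_eq_true, beq_iff_eq, List.all_eq_true, decide_eq_true_eq] at h
  exact ⟨h.1.1.1, h.1.1.2, h.1.2, h.2⟩

theorem cTake {k j : ℕ} (hj : j < k) : ((cProg.take k).map fun q => q.2.2).getD j [] = cMask j := by
  rw [cMask, List.getD_eq_getElem?_getD, List.getElem?_map, List.getElem?_take_of_lt hj,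
    List.getD_eq_getElem?_getD]
  cases cProg[j]? <;> rfl

theorem CA_comm {σ : Equiv.Perm Pt} (hσ : σ ∈ CA) (x : Pt) : σ (tt x) = tt (σ x) :=
  DFunLike.congr_fun (Subgroup.mem_centralizer_singleton_iff.1 (Subgroup.mem_inf.1 hσ).2) x

theorem cMask_inv : ∀ k < cProg.length, ∀ σ ∈ FI (cLevel k), ∀ x : Pt,
    ((σ x : ℕ) ∈ cMask k ↔ (x : ℕ) ∈ cMask k) := by
  intro k
  induction k using Nat.strong_induction_on with
  | _ k ih =>
    intro hk σ hσ x
    have hC : σ ∈ CA := FI_le _ hσ
    obtain ⟨h1, -, -, h4⟩ := cProg_facts hk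
    generalize (cProg.getD k ((0, 0, 0, 0), 0, [])).1 = op at h1 h4
    obtain ⟨t, p, q, c⟩ := op
    match t with
    | 0 =>
      simp only [cStep] at h1
      rw [← h1, List.mem_range, List.mem_range]
      exact iff_of_true (σ x).2 x.2
    | 1 =>
      simp only [Bool.and_eq_true, decide_eq_true_eq] at h4
      simp only [cStep] at h1
      rw [← h1, List.mem_singleton, List.mem_singleton, ← bI_val p h4.2, ← Fin.ext_iff, ← Fin.ext_iff]
      conv_lhs => rw [← (mem_FI.1 hσ).2 p h4.1, σ.injective.eq_iff]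
    | 2 =>
      simp only [Bool.and_eq_true, decide_eq_true_eq] at h4
      obtain ⟨⟨⟨hp, hq⟩, lp⟩, lq⟩ := h4
      simp only [cStep, cTake hp, cTake hq] at h1
      rw [← h1]
      simp only [List.mem_filter, Bool.not_eq_true', List.contains_eq_mem, decide_eq_false_iff_not,
        ih p hp (hp.trans hk) σ (FI_mono lp hσ) x, ih q hq (hq.trans hk) σ (FI_mono lq hσ) x]
    | 3 =>
      simp only [Bool.and_eq_true, decide_eq_true_eq] at h4
      obtain ⟨⟨⟨hp, hq⟩, lp⟩, lq⟩ := h4
      simp only [cStep, cTake hp, cTake hq] at h1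
      rw [← h1]
      simp only [List.mem_filter, ih q hq (hq.trans hk) σ (FI_mono lq hσ) x,
        cnt_apply (Subgroup.mem_inf.1 hC).1 (cProg_facts (hp.trans hk)).2.1 (cProg_facts (hp.trans hk)).2.2.1
          (fun y => ih p hp (hp.trans hk) σ (FI_mono lp hσ) y) x]
    | 4 =>
      simp only [cStep] at h1
      rw [← h1]
      simp only [List.mem_filter, List.mem_range, beq_iff_eq, ← tt_val, ← CA_comm hC, ← Fin.ext_iff,
        σ.injective.eq_iff]
      exact and_congr_left fun _ => iff_of_true (σ x).2 x.2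
    | 5 =>
      simp only [Bool.and_eq_true, decide_eq_true_eq] at h4
      obtain ⟨hp, lp⟩ := h4
      simp only [cStep, cTake hp] at h1
      rw [← h1]
      simp only [List.mem_filter, List.mem_range, List.contains_eq_mem, decide_eq_true_eq, ← tt_val, ← CA_comm hC,
        ih p hp (hp.trans hk) σ (FI_mono lp hσ) (tt x)]
      exact and_congr_left fun _ => iff_of_true (σ x).2 x.2
    | t + 6 =>
      simp only [Bool.and_eq_true, decide_eq_true_eq] at h4
      obtain ⟨⟨⟨hp, hq⟩, lp⟩, lq⟩ := h4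
      simp only [cStep, cTake hp, cTake hq] at h1
      rw [← h1]
      simp only [List.mem_filter, List.contains_eq_mem, decide_eq_true_eq,
        ih p hp (hp.trans hk) σ (FI_mono lp hσ) x, ih q hq (hq.trans hk) σ (FI_mono lq hσ) x]

theorem cCell_facts : (∀ i < 7, cBase.getD i 0 ∈ cMask (cCells.getD i 0) ∧ cLevel (cCells.getD i 0) ≤ i ∧
      cCells.getD i 0 < cProg.length) ∧
    (cCells.map fun k => (cMask k).length).prod = 80640 ∧ cCells.length = 7 ∧
    ((cCells.drop 6).map fun k => (cMask k).length).prod = 2 ∧ (∀ i < 6, cBase.getD i 0 ∈ fixL) ∧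
    (∀ q ∈ cSep, cMask q.2 = [q.1] ∧ cLevel q.2 ≤ 7 ∧ q.2 < cProg.length) ∧
    ((List.range 275).map cSig).dedup.length = 275 := by
  have h := cCell_ok
  simp only [cCellChk, Bool.and_eq_true, beq_iff_eq, List.all_eq_true, List.mem_range, decide_eq_true_eq,
    List.contains_eq_mem] at h
  obtain ⟨⟨⟨⟨⟨⟨h1, h2⟩, h3⟩, h4⟩, h5⟩, h6⟩, h7⟩ := h
  exact ⟨fun i hi => ⟨(h1 i hi).1.1, (h1 i hi).1.2, (h1 i hi).2⟩, h2, h3, h4, h5,
    fun q hq => ⟨(h6 q hq).1.1, (h6 q hq).1.2, (h6 q hq).2⟩, h7⟩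

theorem FI_step (i : ℕ) (hi : i < 7) :
    Nat.card (FI i) ≤ (cMask (cCells.getD i 0)).length * Nat.card (FI (i + 1)) := by
  classical
  obtain ⟨hb, hl, hk⟩ := cCell_facts.1 i hi
  obtain ⟨-, hnd, -, -⟩ := cProg_facts hk
  have h1 : Nat.card (MulAction.orbit (FI i) (bI i)) * Nat.card (MulAction.stabilizer (FI i) (bI i)) =
      Nat.card (FI i) := by
    rw [Nat.card_congr (MulAction.orbitEquivQuotientStabilizer _ _), ← Subgroup.index,
      Subgroup.index_mul_card]
  have h2 : Nat.card (MulAction.orbit (FI i) (bI i)) ≤ (cMask (cCells.getD i 0)).length := by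
    rw [Nat.card_coe_set_eq, ← List.toFinset_card_of_nodup hnd, ← Set.ncard_image_of_injective _ Fin.val_injective,
      ← Set.ncard_coe_finset]
    refine Set.ncard_le_ncard ?_ (Finset.finite_toSet _)
    rintro _ ⟨_, ⟨σ, rfl⟩, rfl⟩
    rw [Finset.mem_coe, List.mem_toFinset]
    refine (cMask_inv _ hk σ.1 (FI_mono hl σ.2) (bI i)).2 ?_
    rw [bI_val i hi]
    exact hb
  have h3 : Nat.card (MulAction.stabilizer (FI i) (bI i)) ≤ Nat.card (FI (i + 1)) :=
    Nat.card_le_card_of_injective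
      (fun s => (⟨s.1.1, Subgroup.mem_inf.2 ⟨s.1.2, MulAction.mem_stabilizer_iff.2
        (MulAction.mem_stabilizer_iff.1 s.2)⟩⟩ : FI (i + 1)))
      fun a b e => Subtype.ext (Subtype.ext (congrArg (fun z : FI (i + 1) => z.1) e))
  rw [← h1]
  exact Nat.mul_le_mul h2 h3

theorem FI_seven : Nat.card (FI 7) = 1 := by
  suffices h : FI 7 = ⊥ by rw [h, Subgroup.card_bot]
  rw [Subgroup.eq_bot_iff_forall]
  intro σ hσ
  obtain ⟨-, -, -, -, -, hs, hd⟩ := cCell_facts
  have hfix : ∀ q ∈ cSep, ∀ x : Pt, ((σ x : ℕ) = q.1 ↔ (x : ℕ) = q.1) := by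
    intro q hq x
    obtain ⟨e, hl, hk⟩ := hs q hq
    have := cMask_inv q.2 hk σ (FI_mono hl hσ) x
    rwa [e, List.mem_singleton, List.mem_singleton] at this
  have hlt : ∀ q ∈ cSep, q.1 < 275 := fun q hq =>
    (cProg_facts (hs q hq).2.2).2.2.1 q.1 (by rw [(hs q hq).1]; exact List.mem_singleton_self _)
  refine Equiv.ext fun x => ?_
  have e : cSig (σ x : ℕ) = cSig (x : ℕ) := by
    unfold cSig
    apply List.foldr_ext
    intro q hq r
    have e1 : ((σ x : ℕ) == q.1) = ((x : ℕ) == q.1) := by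
      rw [Bool.eq_iff_iff, beq_iff_eq, beq_iff_eq]
      exact hfix q hq x
    have hq' : σ ⟨q.1, hlt q hq⟩ = ⟨q.1, hlt q hq⟩ := Fin.ext ((hfix q hq ⟨q.1, hlt q hq⟩).2 rfl)
    have e2 : adjB ⟨q.1, hlt q hq⟩ (σ x) = adjB ⟨q.1, hlt q hq⟩ x := by
      conv_lhs => rw [← hq']
      exact mem_AutG.1 (Subgroup.mem_inf.1 (FI_le _ hσ)).1 _ _
    unfold adjB at e2
    rw [e1, e2]
  have hnd : ((List.range 275).map cSig).Nodup := by
    rw [← List.dedup_eq_self]
    exact (List.dedup_sublist _).eq_of_length (by rw [hd, List.length_map, List.length_range])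
  exact Fin.ext (List.inj_on_of_nodup_map hnd (List.mem_range.2 (σ x).2) (List.mem_range.2 x.2) e)

theorem FI_six_le : Nat.card (FI 6) ≤ 2 := by
  have h := FI_step 6 (by norm_num)
  rw [FI_seven, Nat.mul_one] at h
  refine h.trans ?_
  obtain ⟨-, -, hl, h2, -⟩ := cCell_facts
  have e : cCells.drop 6 = [cCells.getD 6 0] := by decide +kernel
  rw [e] at h2
  simp only [List.map_cons, List.map_nil, List.prod_cons, List.prod_nil, Nat.mul_one] at h2
  omega

theorem CA_le : Nat.card CA ≤ 80640 := by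
  obtain ⟨-, hp, -⟩ := cCell_facts
  rw [← hp, show cCells = (List.range 7).map fun i => cCells.getD i 0 by decide +kernel, List.map_map]
  have : ∀ n ≤ 7, Nat.card CA ≤
      ((List.range n).map ((fun k => (cMask k).length) ∘ fun i => cCells.getD i 0)).prod * Nat.card (FI n) := by
    intro n hn
    induction n with
    | zero => rw [List.range_zero, List.map_nil, List.prod_nil, Nat.one_mul]; exact le_rfl
    | succ n ih =>
      rw [List.range_succ, List.map_append, List.prod_append]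
      simp only [List.map_cons, List.map_nil, List.prod_cons, List.prod_nil, Nat.mul_one, Function.comp_apply]
      rw [Nat.mul_assoc]
      exact (ih (by omega)).trans (Nat.mul_le_mul_left _ (FI_step n (by omega)))
  have := this 7 le_rfl
  rwa [FI_seven, Nat.mul_one] at this

theorem CC_le : Nat.card CC ≤ 40320 := by
  obtain ⟨σ, hσ, hv⟩ := outer_spec
  have hle : CC ≤ CA := inf_le_inf_right _ GG_le
  have hog : σ * wI ogW ∈ CA := by
    refine Subgroup.mem_inf.2 ⟨mul_mem hσ (GG_le (wI_GG _)), Subgroup.mem_centralizer_singleton_iff.2 ?_⟩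
    refine Equiv.ext fun i => Fin.ext ?_
    simp only [Equiv.Perm.mul_apply, hv, wI_val, tt_val]
    exact (inv_facts i i.2).2.2.1
  have hne : CC.relIndex CA ≠ 1 := by
    intro h
    have h1 := (Subgroup.mem_inf.1 (Subgroup.relIndex_eq_one.1 h hog)).1
    exact outer_not_mem hv ((GG.mul_mem_cancel_right (wI_GG _)).1 h1)
  have h1 : Nat.card CC * CC.relIndex CA = Nat.card CA := by
    rw [Subgroup.relIndex, ← Nat.card_congr (Subgroup.subgroupOfEquivOfLe hle).toEquiv]
    exact Subgroup.card_mul_index _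
  have h2 : 2 ≤ CC.relIndex CA := by
    have h0 : CC.relIndex CA ≠ 0 := Subgroup.index_ne_zero_of_finite
    omega
  have h3 := CA_le
  have h4 := Nat.mul_le_mul_left (Nat.card CC) h2
  omega

end Cfsg.Agent.FGS3.McLInv
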