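/-
The centraliser of an involution of McL acts on eight points as the alternating group.
-/
import Cfsg.Agent.FGS3.McLInvBound
import Mathlib.GroupTheory.SpecificGroups.Alternating

set_option autoImplicit false
set_option maxRecDepth 20000

namespace Cfsg.Agent.FGS3.McLInv

open Cfsg Cfsg.Agent.FGS3.McLOut

/-- Membership in the set of a pair of the eight objects. -/
def InP (i j : Fin 8) (x : Pt) : Prop := (x : ℕ) ∈ pset (i : ℕ) (j : ℕ)

/-- A graph automorphism induces a permutation of the eight objects. -/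
def Induces (σ : Equiv.Perm Pt) (p : Equiv.Perm (Fin 8)) : Prop :=
  ∀ (i j : Fin 8) (x : Pt), InP (p i) (p j) (σ x) ↔ InP i j x

theorem induces_one : Induces 1 1 := fun _ _ _ => Iff.rfl

theorem induces_mul {σ τ : Equiv.Perm Pt} {p q : Equiv.Perm (Fin 8)} (h₁ : Induces σ p) (h₂ : Induces τ q) :
    Induces (σ * τ) (p * q) := fun i j x => (h₁ (q i) (q j) (τ x)).trans (h₂ i j x)

theorem induces_inv {σ : Equiv.Perm Pt} {p : Equiv.Perm (Fin 8)} (h : Induces σ p) : Induces σ⁻¹ p⁻¹ := by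
  intro i j x
  have := h (p⁻¹ i) (p⁻¹ j) (σ⁻¹ x)
  simp only [Equiv.Perm.coe_inv, Equiv.apply_symm_apply] at this ⊢
  exact this.symm

theorem pair_facts : ∀ (i j : Fin 8), (i ≠ j → (pset (i : ℕ) j).length = 15) ∧ (pset (i : ℕ) j).Nodup ∧
    (∀ x ∈ pset (i : ℕ) j, x ∈ fixL) ∧
    ∀ a b : Fin 8, i ≠ j → a ≠ b → pset (i : ℕ) j = pset (a : ℕ) b → (a = i ∧ b = j) ∨ (a = j ∧ b = i) := by
  have h := hom_ok
  simp only [homChk, Bool.and_eq_true, List.all_eq_true, List.mem_range, Bool.or_eq_true, beq_iff_eq,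
    decide_eq_true_eq, List.contains_eq_mem, bne_iff_ne, Bool.not_eq_true', beq_eq_false_iff_ne] at h
  obtain ⟨⟨⟨-, h2⟩, -⟩, -⟩ := h
  intro i j
  obtain ⟨⟨⟨ha, hb⟩, hc⟩, hd⟩ := h2 i i.2 j j.2
  refine ⟨fun hij => (ha.resolve_left fun e => hij (Fin.ext e)).1, hc, hb, fun a b hij hab he => ?_⟩
  rcases hd a a.2 b b.2 with (((e | e) | ⟨e1, e2⟩) | ⟨e1, e2⟩) | e
  exacts [absurd (Fin.ext e) hij, absurd (Fin.ext e) hab, Or.inl ⟨Fin.ext e1, Fin.ext e2⟩,
    Or.inr ⟨Fin.ext e1, Fin.ext e2⟩, absurd he e]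

theorem pset_self (i : Fin 8) : pset (i : ℕ) i = [] := by
  have h := hom_ok
  simp only [homChk, Bool.and_eq_true, List.all_eq_true, List.mem_range, beq_iff_eq] at h
  exact List.length_eq_zero_iff.1 (h.1.2 i i.2)

theorem fix_sep (x y : Pt) (hx : (x : ℕ) ∈ fixL) (hy : (y : ℕ) ∈ fixL) (h : ∀ i j, InP i j x ↔ InP i j y) :
    x = y := by
  have hh := hom_ok
  simp only [homChk, Bool.and_eq_true, List.all_eq_true, Bool.or_eq_true, beq_iff_eq, List.any_eq_true,
    List.mem_range, bne_iff_ne, List.contains_eq_mem, ne_eq, decide_eq_decide] at hh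
  rcases hh.2 _ hx _ hy with e | ⟨i, hi, j, hj, e⟩
  · exact Fin.ext e
  · exact absurd (h ⟨i, hi⟩ ⟨j, hj⟩) e

theorem induces_unique {σ : Equiv.Perm Pt} {p q : Equiv.Perm (Fin 8)} (h₁ : Induces σ p) (h₂ : Induces σ q) :
    p = q := by
  classical
  have key : ∀ i j, i ≠ j → (p i = q i ∧ p j = q j) ∨ (p i = q j ∧ p j = q i) := by
    intro i j hij
    have hs : (pset (p i : ℕ) (p j : ℕ)).toFinset = (pset (q i : ℕ) (q j : ℕ)).toFinset := by
      ext v
      rw [List.mem_toFinset, List.mem_toFinset]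
      by_cases hv : v < 275
      · obtain ⟨x, hx⟩ := σ.surjective ⟨v, hv⟩
        have e1 := h₁ i j x
        have e2 := h₂ i j x
        rw [hx] at e1 e2
        exact e1.trans e2.symm
      · constructor <;> intro h <;> exfalso
        · exact hv ((by decide +kernel : ∀ v ∈ fixL, v < 275) v ((pair_facts _ _).2.2.1 v h))
        · exact hv ((by decide +kernel : ∀ v ∈ fixL, v < 275) v ((pair_facts _ _).2.2.1 v h))
    have hp : p i ≠ p j := p.injective.ne hij
    have hq : q i ≠ q j := q.injective.ne hij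
    have hsort : ∀ a b : Fin 8, List.Pairwise (· < ·) (pset (a : ℕ) b) := by decide +kernel
    have hl : pset (p i : ℕ) (p j : ℕ) = pset (q i : ℕ) (q j : ℕ) :=
      List.Perm.eq_of_pairwise (fun a b _ _ h1 h2 => absurd h2 (lt_asymm h1)) (hsort _ _) (hsort _ _)
        ((List.perm_ext_iff_of_nodup (pair_facts _ _).2.1 (pair_facts _ _).2.1).2 fun v => by
          rw [← List.mem_toFinset, hs, List.mem_toFinset])
    rcases (pair_facts (p i) (p j)).2.2.2 (q i) (q j) hp hq hl with ⟨e1, e2⟩ | ⟨e1, e2⟩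
    · exact Or.inl ⟨e1.symm, e2.symm⟩
    · exact Or.inr ⟨e2.symm, e1.symm⟩
  refine Equiv.ext fun i => ?_
  obtain ⟨j, k, hij, hik, hjk⟩ : ∃ j k : Fin 8, i ≠ j ∧ i ≠ k ∧ j ≠ k := by
    revert i
    decide
  rcases key i j hij with ⟨e, -⟩ | ⟨e1, -⟩
  · exact e
  rcases key i k hik with ⟨e, -⟩ | ⟨e2, -⟩
  · exact e
  exact absurd (q.injective (e1.symm.trans e2)) hjk

/-- The image of a generator as a function. -/
def imgF (k : ℕ) (i : Fin 8) : Fin 8 := Fin.ofNat 8 ((img k).getD i 0)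

theorem imgF_facts : ∀ k < 6, ∀ i : Fin 8, imgF k (imgF k (imgF k i)) = i ∧ (imgF k i : ℕ) = (img k).getD i 0 := by
  decide +kernel

/-- The image of a generator. -/
def imgPerm (k : ℕ) : Equiv.Perm (Fin 8) :=
  if h : k < 6 then
    { toFun := imgF k
      invFun := fun i => imgF k (imgF k i)
      left_inv := fun i => (imgF_facts k h i).1
      right_inv := fun i => (imgF_facts k h i).1 }
  else 1

theorem imgPerm_apply {k : ℕ} (hk : k < 6) (i : Fin 8) : (imgPerm k i : ℕ) = (img k).getD i 0 := by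
  rw [imgPerm, dif_pos hk]
  exact (imgF_facts k hk i).2

theorem imgPerm_even : ∀ k < 6, Equiv.Perm.sign (imgPerm k) = 1 := by
  intro k hk
  have h3 : imgPerm k ^ 3 = 1 := Equiv.ext fun i => by
    rw [pow_three, imgPerm, dif_pos hk]
    exact (imgF_facts k hk i).1
  have e := congrArg Equiv.Perm.sign h3
  rw [map_pow, map_one] at e
  rcases Int.units_eq_one_or (Equiv.Perm.sign (imgPerm k)) with h | h
  · exact h
  · rw [h] at e
    exact absurd e (by decide)

theorem gen_induces {k : ℕ} (hk : k < 6) : Induces (gI k) (imgPerm k) := by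
  have key : ∀ i j : Fin 8, ∀ x : Pt, InP i j x → InP (imgPerm k i) (imgPerm k j) (gI k x) := by
    intro i j x hx
    have h := hom_ok
    simp only [homChk, Bool.and_eq_true, List.all_eq_true, List.mem_range, List.contains_eq_mem,
      decide_eq_true_eq] at h
    unfold InP
    rw [imgPerm_apply hk, imgPerm_apply hk, gI_val]
    exact h.1.1.1 k hk i i.2 j j.2 x hx
  have hc : ∀ x, gI k (gI k (gI k x)) = x := fun x => by
    rw [gI, dif_pos hk]
    exact (autOK_spec (six_ok k hk)).2.1 x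
  intro i j x
  refine ⟨fun h => ?_, key i j x⟩
  have := key _ _ _ (key _ _ _ h)
  rw [hc] at this
  rwa [imgPerm, dif_pos hk, Equiv.coe_fn_mk, (imgF_facts k hk i).1, (imgF_facts k hk j).1] at this

/-- A word in the eight objects. -/
def wP (w : List ℕ) : Equiv.Perm (Fin 8) := (w.map imgPerm).prod

theorem wP_apply : ∀ (w : List ℕ), (∀ k ∈ w, k < 6) → ∀ i : Fin 8, (wP w i : ℕ) = imgW w i := by
  intro w
  induction w with
  | nil => intro _ i; rfl
  | cons k w ih =>
    intro hw i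
    rw [show wP (k :: w) = imgPerm k * wP w by simp [wP], Equiv.Perm.mul_apply,
      imgPerm_apply (hw k List.mem_cons_self), ih fun l hl => hw l (List.mem_cons_of_mem _ hl)]
    rfl

/-- The group generated by the six elements. -/
noncomputable def DD : Subgroup (Equiv.Perm Pt) := Subgroup.closure (gI '' {k | k < 6})

theorem wI_DD {w : List ℕ} (hw : ∀ k ∈ w, k < 6) : wI w ∈ DD :=
  list_prod_mem fun x hx => by
    obtain ⟨k, hk, rfl⟩ := List.mem_map.1 hx
    exact Subgroup.subset_closure ⟨k, hw k hk, rfl⟩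

theorem wI_induces : ∀ (w : List ℕ), (∀ k ∈ w, k < 6) → Induces (wI w) (wP w) := by
  intro w
  induction w with
  | nil => intro _; exact induces_one
  | cons k w ih =>
    intro hw
    rw [show wP (k :: w) = imgPerm k * wP w by simp [wP], wI_cons]
    exact induces_mul (gen_induces (hw k List.mem_cons_self)) (ih fun l hl => hw l (List.mem_cons_of_mem _ hl))

theorem DD_le : DD ≤ CC := by
  rw [DD, Subgroup.closure_le]
  rintro _ ⟨k, hk, rfl⟩
  exact mem_CC.2 ⟨gI_GG k, tt_comm_six hk⟩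

theorem DD_induces {σ : Equiv.Perm Pt} (hσ : σ ∈ DD) : ∃ p, Induces σ p ∧ Equiv.Perm.sign p = 1 := by
  induction hσ using Subgroup.closure_induction with
  | mem x hx =>
    obtain ⟨k, hk, rfl⟩ := hx
    exact ⟨_, gen_induces hk, imgPerm_even k hk⟩
  | one => exact ⟨1, induces_one, map_one _⟩
  | mul x y _ _ h1 h2 =>
    obtain ⟨p, hp, sp⟩ := h1
    obtain ⟨q, hq, sq⟩ := h2
    exact ⟨p * q, induces_mul hp hq, by rw [map_mul, sp, sq, one_mul]⟩
  | inv x _ h1 =>
    obtain ⟨p, hp, sp⟩ := h1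
    exact ⟨p⁻¹, induces_inv hp, by rw [map_inv, sp, inv_one]⟩

/-- The action on the eight objects. -/
noncomputable def piD : DD →* alternatingGroup (Fin 8) where
  toFun σ := ⟨(DD_induces σ.2).choose, Equiv.Perm.mem_alternatingGroup.2 (DD_induces σ.2).choose_spec.2⟩
  map_one' := Subtype.ext (induces_unique (DD_induces (1 : DD).2).choose_spec.1 induces_one)
  map_mul' a b := Subtype.ext (induces_unique (DD_induces (a * b).2).choose_spec.1
    (induces_mul (DD_induces a.2).choose_spec.1 (DD_induces b.2).choose_spec.1))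

theorem piD_spec (σ : DD) : Induces σ.1 (piD σ).1 := (DD_induces σ.2).choose_spec.1

theorem alt_facts : (∀ q ∈ cycW, (∀ k ∈ q.2.2.2, k < 6) ∧ ∀ i < 8,
      imgW q.2.2.2 i = if i = q.1 then q.2.1 else if i = q.2.1 then q.2.2.1 else if i = q.2.2.1 then q.1 else i) ∧
    (∀ a < 8, ∀ b < 8, ∀ c < 8, a ≠ b → b ≠ c → a ≠ c → ∃ q ∈ cycW, q.1 = a ∧ q.2.1 = b ∧ q.2.2.1 = c) ∧
    (∀ k ∈ fourW, k < 6) ∧ (∀ k ∈ eightW, k < 6) ∧ (∀ k ∈ qW, k < 6) ∧
    ∀ i < 8, imgW fourW i = fourP.getD i 8 ∧ imgW eightW i = eightP.getD i 8 := by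
  have h := alt_ok
  simp only [altChk, Bool.and_eq_true, List.all_eq_true, List.mem_range, beq_iff_eq, decide_eq_true_eq,
    Bool.or_eq_true, List.any_eq_true, cond_eq_ite] at h
  obtain ⟨⟨⟨⟨⟨h1, h2⟩, h3⟩, h4⟩, h5⟩, h6⟩ := h
  refine ⟨fun q hq => ⟨(h1 q hq).1, (h1 q hq).2⟩, fun a ha b hb c hc ab bc ac => ?_, h3, h4, h5, h6⟩
  rcases h2 a ha b hb c hc with ((e | e) | e) | ⟨q, hq, ⟨e1, e2⟩, e3⟩
  exacts [absurd e ab, absurd e bc, absurd e ac, ⟨q, hq, e1, e2, e3⟩]

theorem piD_surjective : Function.Surjective piD := by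
  rw [← MonoidHom.range_eq_top]
  have h : ∀ σ : Equiv.Perm (Fin 8), σ ∈ alternatingGroup (Fin 8) → ∃ d : DD, (piD d).1 = σ := by
    intro σ hσ
    rw [← Equiv.Perm.closure_three_cycles_eq_alternating] at hσ
    induction hσ using Subgroup.closure_induction with
    | mem x hx =>
      obtain ⟨a, ha⟩ : ∃ a, a ∈ x.support := Finset.card_pos.1 (by
        rw [Equiv.Perm.IsThreeCycle.card_support hx]; norm_num)
      have e := (Equiv.Perm.IsThreeCycle.eq_swap_mul_swap_iff_mem_support hx).2 ha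
      have hnd := (Equiv.Perm.IsThreeCycle.nodup_iff_mem_support hx).2 ha
      simp only [List.nodup_cons, List.mem_cons, List.not_mem_nil, or_false, not_or] at hnd
      obtain ⟨⟨hab, hac⟩, hbc, -⟩ := hnd
      obtain ⟨q, hq, q1, q2, q3⟩ := alt_facts.2.1 a a.2 (x a) (x a).2 (x (x a)) (x (x a)).2
        (fun h => hab (Fin.ext h)) (fun h => hbc (Fin.ext h)) (fun h => hac (Fin.ext h))
      obtain ⟨hlt, himg⟩ := alt_facts.1 q hq
      refine ⟨⟨wI q.2.2.2, wI_DD hlt⟩, ?_⟩
      rw [induces_unique (piD_spec _) (wI_induces _ hlt)]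
      refine Equiv.ext fun i => Fin.ext ?_
      rw [wP_apply _ hlt, himg i i.2, q1, q2, q3]
      simp only [← Fin.ext_iff, ← apply_ite Fin.val]
      congr 1
      split_ifs with h1 h2 h3
      · rw [h1]
      · rw [h2]
      · rw [h3]
        have := pow_orderOf_eq_one x
        rw [hx.orderOf, pow_three] at this
        exact (congrArg (fun f : Equiv.Perm (Fin 8) => f a) this).symm
      · rw [congrArg (fun f : Equiv.Perm (Fin 8) => f i) e, Equiv.Perm.mul_apply,
          Equiv.swap_apply_of_ne_of_ne h2 h3, Equiv.swap_apply_of_ne_of_ne h1 h2]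
    | one => exact ⟨1, by rw [map_one]; rfl⟩
    | mul x y _ _ h1 h2 =>
      obtain ⟨a, rfl⟩ := h1
      obtain ⟨b, rfl⟩ := h2
      exact ⟨a * b, by rw [map_mul]; rfl⟩
    | inv x _ h1 =>
      obtain ⟨a, rfl⟩ := h1
      exact ⟨a⁻¹, by rw [map_inv]; rfl⟩
  rw [eq_top_iff]
  rintro ⟨σ, hσ⟩ -
  obtain ⟨d, hd⟩ := h σ hσ
  exact ⟨d, Subtype.ext hd⟩

theorem fixL_iff (x : Pt) : (x : ℕ) ∈ fixL ↔ tt x = x := by
  rw [(inv_facts x x.2).2.2.2.2, ← tt_val, Fin.ext_iff]

theorem qW_lt : ∀ k ∈ qW, k < 6 := alt_facts.2.2.2.2.1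

theorem tt_DD : tt ∈ DD := mul_mem (wI_DD qW_lt) (wI_DD qW_lt)

theorem tt_induces : Induces tt 1 := by
  intro i j x
  simp only [Equiv.Perm.one_apply]
  have key : ∀ y, InP i j y → tt y = y := fun y hy => (fixL_iff y).1 ((pair_facts i j).2.2.1 _ hy)
  refine ⟨fun h => ?_, fun h => by rw [key x h]; exact h⟩
  rw [tt.injective (key _ h)] at h
  exact h

theorem piD_tt : piD ⟨tt, tt_DD⟩ = 1 := Subtype.ext (induces_unique (piD_spec _) tt_induces)

theorem ker_six {d : DD} (hd : piD d = 1) : d.1 ∈ FI 6 := by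
  have hC : d.1 ∈ CA := inf_le_inf_right _ GG_le (DD_le d.2)
  refine mem_FI.2 ⟨hC, fun l hl => ?_⟩
  have hb : ((bI l : Pt) : ℕ) ∈ fixL := bI_val l (by omega) ▸ cCell_facts.2.2.2.2.1 l hl
  have hb' : ((d.1 (bI l) : Pt) : ℕ) ∈ fixL := by
    rw [fixL_iff] at hb ⊢
    rw [← CA_comm hC, hb]
  refine fix_sep _ _ hb' hb fun i j => ?_
  have := piD_spec d i j (bI l)
  rwa [hd, OneMemClass.coe_one, Equiv.Perm.one_apply, Equiv.Perm.one_apply] at this

theorem ker_card : Nat.card piD.ker = 2 := by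
  have h1 : Nat.card piD.ker ≤ 2 := le_trans (Nat.card_le_card_of_injective
    (fun d : piD.ker => (⟨d.1.1, ker_six (MonoidHom.mem_ker.1 d.2)⟩ : FI 6))
    (fun a b e => Subtype.ext (Subtype.ext (congrArg (fun z : FI 6 => z.1) e)))) FI_six_le
  have h2 : 2 ≤ Nat.card piD.ker := by
    haveI : Nontrivial piD.ker :=
      ⟨⟨1, ⟨⟨tt, tt_DD⟩, MonoidHom.mem_ker.2 piD_tt⟩, fun h => tt_ne
        (congrArg (fun z : piD.ker => z.1.1) h).symm⟩⟩
    exact Finite.one_lt_card
  omega

theorem DD_eq : DD = CC := by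
  refine Subgroup.eq_of_le_of_card_ge DD_le (CC_le.trans (le_of_eq ?_))
  rw [← piD.ker.card_mul_index, ker_card, Subgroup.index_ker, MonoidHom.range_eq_top.2 piD_surjective,
    Subgroup.card_top, nat_card_alternatingGroup]
  simp only [Nat.card_fin]
  decide

theorem DD_card : Nat.card DD = 40320 := by
  rw [← piD.ker.card_mul_index, ker_card, Subgroup.index_ker, MonoidHom.range_eq_top.2 piD_surjective,
    Subgroup.card_top, nat_card_alternatingGroup]
  simp only [Nat.card_fin]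
  decide

end Cfsg.Agent.FGS3.McLInv
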