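/-
McL has one class of involutions, with centraliser a non-split double cover of the alternating group of degree 8.
-/
import Cfsg.Agent.FGS3.McLInvHom
import Cfsg.Prelude.Def_SporadicB
import Cfsg.Prelude.Def_Spor_Conway

set_option autoImplicit false
set_option maxRecDepth 20000

namespace Cfsg.Agent.FGS3.McLInv

open Cfsg Cfsg.Agent.FGS3.McLOut

theorem lift_facts : (∀ x < 275, evI (eightConj ++ qW ++ qW) x = evI (eightW ++ eightConj) x ∧
      evI (eightConjT ++ qW ++ qW) x = evI (eightW ++ qW ++ qW ++ eightConjT) x) ∧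
    (∃ x < 275, evI (fourW ++ fourW) x ≠ x) ∧
    ∃ x < 275, evI (fourW ++ qW ++ qW ++ fourW ++ qW ++ qW) x ≠ x := by
  have h := lift_ok
  simp only [liftChk, Bool.and_eq_true, List.all_eq_true, List.any_eq_true, List.mem_range, beq_iff_eq,
    bne_iff_ne] at h
  exact ⟨h.1.1.1, h.1.1.2, h.1.2⟩

theorem fixed_eq {w : List ℕ} (h : ∃ x < 275, evI w x ≠ x) : wI w ≠ 1 := by
  obtain ⟨x, hx, hne⟩ := h
  intro e
  apply hne
  have := wI_val w ⟨x, hx⟩
  rw [e] at this
  exact this.symm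

theorem invol_shape {y : Equiv.Perm (Fin 8)} (hy : y * y = 1) (hne : y ≠ 1) (hs : Equiv.Perm.sign y = 1) :
    ∃ m : ℕ, (m = 2 ∨ m = 4) ∧ y.cycleType = Multiset.replicate m 2 ∧ y.support.card = 2 * m := by
  have ho : orderOf y = 2 := orderOf_eq_prime (by rw [pow_two]; exact hy) hne
  obtain ⟨m, hm⟩ := Equiv.Perm.cycleType_prime_order (σ := y) (by rw [ho]; norm_num)
  rw [ho] at hm
  have hsum : y.support.card = 2 * (m + 1) := by
    rw [← Equiv.Perm.sum_cycleType, hm, Multiset.sum_replicate, smul_eq_mul, mul_comm]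
  have hle : 2 * (m + 1) ≤ 8 := hsum ▸ (Finset.card_le_univ _).trans_eq (Fintype.card_fin 8)
  rw [Equiv.Perm.sign_of_cycleType, hm, Multiset.sum_replicate, Multiset.card_replicate, smul_eq_mul] at hs
  refine ⟨m + 1, ?_, hm, hsum⟩
  rcases (show m = 0 ∨ m = 1 ∨ m = 2 ∨ m = 3 by omega) with rfl | rfl | rfl | rfl
  · exact absurd hs (by decide)
  · exact Or.inl rfl
  · exact absurd hs (by decide)
  · exact Or.inr rfl

theorem conj_in_alt {x y : alternatingGroup (Fin 8)} (h : x.1.cycleType = y.1.cycleType) {a b : Fin 8}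
    (hab : a ≠ b) (hc : Equiv.swap a b * x.1 = x.1 * Equiv.swap a b) :
    ∃ g : alternatingGroup (Fin 8), g * x * g⁻¹ = y := by
  obtain ⟨c, hcxy⟩ := isConj_iff.1 (Equiv.Perm.isConj_iff_cycleType_eq.2 h)
  rcases Int.units_eq_one_or (Equiv.Perm.sign c) with hs | hs
  · exact ⟨⟨c, Equiv.Perm.mem_alternatingGroup.2 hs⟩, Subtype.ext hcxy⟩
  · refine ⟨⟨c * Equiv.swap a b, Equiv.Perm.mem_alternatingGroup.2 ?_⟩, Subtype.ext ?_⟩
    · rw [map_mul, hs, Equiv.Perm.sign_swap hab]
      decide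
    · show c * Equiv.swap a b * x.1 * (c * Equiv.swap a b)⁻¹ = y.1
      rw [mul_assoc c, hc, ← hcxy]
      group

theorem conj_tt_of_DD {x : Equiv.Perm Pt} (hx : x ∈ DD) (h2 : x * x = 1) (h1 : x ≠ 1) :
    ∃ g ∈ GG, g * tt * g⁻¹ = x := by
  classical
  let d : DD := ⟨x, hx⟩
  by_cases hp : piD d = 1
  · have hset : ∀ z : piD.ker, z = 1 ∨ z = ⟨⟨tt, tt_DD⟩, MonoidHom.mem_ker.2 piD_tt⟩ := by
      intro z
      by_contra hz
      push Not at hz
      have h3 : 3 ≤ Nat.card piD.ker := by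
        haveI := Fintype.ofFinite piD.ker
        rw [Nat.card_eq_fintype_card]
        have hne : (1 : piD.ker) ≠ ⟨⟨tt, tt_DD⟩, MonoidHom.mem_ker.2 piD_tt⟩ := fun h =>
          tt_ne (congrArg (fun z : piD.ker => z.1.1) h).symm
        refine le_trans (le_of_eq ?_) (Finset.card_le_univ ({z, 1, ⟨⟨tt, tt_DD⟩, MonoidHom.mem_ker.2 piD_tt⟩} : Finset piD.ker))
        rw [Finset.card_insert_of_notMem (by simp [hz.1, hz.2]), Finset.card_pair hne]
      rw [ker_card] at h3
      omega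
    rcases hset ⟨d, MonoidHom.mem_ker.2 hp⟩ with e | e
    · exact absurd (congrArg (fun z : piD.ker => z.1.1) e) h1
    · refine ⟨1, one_mem _, ?_⟩
      rw [one_mul, inv_one, mul_one]
      exact (congrArg (fun z : piD.ker => z.1.1) e).symm
  obtain ⟨-, -, h4, h8, -, hW⟩ := alt_facts
  have hyy : (piD d).1 * (piD d).1 = 1 := by
    rw [← Subgroup.coe_mul, ← map_mul, show d * d = 1 from Subtype.ext h2, map_one]
    rfl
  obtain ⟨m, hm, hct, -⟩ := invol_shape hyy (fun h => hp (Subtype.ext h))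
    (Equiv.Perm.mem_alternatingGroup.1 (piD d).2)
  have rep : ∀ (w : List ℕ) (hw : ∀ k ∈ w, k < 6) (p : List ℕ), (∀ i < 8, imgW w i = p.getD i 8) →
      ∀ k : ℕ, (∀ i : Fin 8, p.getD (p.getD (i : ℕ) 8) 8 = i) →
      ((Finset.univ.filter fun i : Fin 8 => p.getD (i : ℕ) 8 ≠ i).card = 2 * k) → k ≠ 0 →
      ∀ a b : Fin 8, a ≠ b → p.getD (a : ℕ) 8 = b → p.getD (b : ℕ) 8 = a → m = k →
      ∃ g : DD, piD (g * ⟨wI w, wI_DD hw⟩ * g⁻¹) = piD d := by
    intro w hw p hp' k hpp hcard hk a b hab hpa hpb hmk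
    have e : (piD ⟨wI w, wI_DD hw⟩).1 = wP w := induces_unique (piD_spec _) (wI_induces w hw)
    have hv : ∀ i : Fin 8, ((wP w) i : ℕ) = p.getD (i : ℕ) 8 := fun i => by rw [wP_apply w hw, hp' i i.2]
    have hsq : wP w * wP w = 1 := Equiv.ext fun i => Fin.ext (by
      rw [Equiv.Perm.mul_apply, hv, hv, hpp]
      rfl)
    have hsupp : (wP w).support.card = 2 * k := by
      rw [← hcard]
      congr 1
      ext i
      rw [Equiv.Perm.mem_support, Finset.mem_filter, ne_eq, Fin.ext_iff, hv]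
      simp
    obtain ⟨m', -, hct', hcard'⟩ := invol_shape hsq (fun h => by
      rw [h, Equiv.Perm.support_one, Finset.card_empty] at hsupp
      omega) (e ▸ Equiv.Perm.mem_alternatingGroup.1 (piD ⟨wI w, wI_DD hw⟩).2)
    have hmm : m' = m := by omega
    obtain ⟨γ, hγ⟩ := conj_in_alt (x := piD ⟨wI w, wI_DD hw⟩) (y := piD d) (by rw [e, hct', hct, hmm]) hab (by
      rw [e]
      have ha' : wP w a = b := Fin.ext ((hv a).trans hpa)
      have hb' : wP w b = a := Fin.ext ((hv b).trans hpb)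
      rw [Equiv.mul_swap_eq_swap_mul, ha', hb', Equiv.swap_comm b a])
    obtain ⟨g, rfl⟩ := piD_surjective γ
    exact ⟨g, by rw [map_mul, map_mul, map_inv, hγ]⟩
  obtain ⟨hconj, hf1, hf2⟩ := lift_facts
  have lift : ∀ (g : DD) (u : DD), piD (g * u * g⁻¹) = piD d →
      x = g.1 * u.1 * g.1⁻¹ ∨ x = g.1 * (u.1 * tt) * g.1⁻¹ := by
    intro g u he
    have hk : (g⁻¹ * d * g)⁻¹ * u ∈ piD.ker := by
      rw [MonoidHom.mem_ker, map_mul, map_inv, map_mul, map_mul, ← he, map_mul, map_mul, map_inv]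
      group
    have hset : ∀ z ∈ piD.ker, z = 1 ∨ z.1 = tt := by
      intro z hz
      by_contra hzz
      push Not at hzz
      have h3 : 3 ≤ Nat.card piD.ker := by
        haveI := Fintype.ofFinite piD.ker
        rw [Nat.card_eq_fintype_card]
        have hne : (1 : piD.ker) ≠ ⟨⟨tt, tt_DD⟩, MonoidHom.mem_ker.2 piD_tt⟩ := fun h =>
          tt_ne (congrArg (fun z : piD.ker => z.1.1) h).symm
        refine le_trans (le_of_eq ?_) (Finset.card_le_univ
          ({⟨z, hz⟩, 1, ⟨⟨tt, tt_DD⟩, MonoidHom.mem_ker.2 piD_tt⟩} : Finset piD.ker))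
        rw [Finset.card_insert_of_notMem (by
          simp only [Finset.mem_insert, Finset.mem_singleton, not_or]
          exact ⟨fun h => hzz.1 (congrArg Subtype.val h), fun h => hzz.2 (congrArg (fun z : piD.ker => z.1.1) h)⟩),
          Finset.card_pair hne]
      rw [ker_card] at h3
      omega
    rcases hset _ hk with e | e
    · left
      rw [inv_mul_eq_one] at e
      rw [← e]
      simp only [Subgroup.coe_mul, Subgroup.coe_inv]
      group
      rfl
    · right
      have htt : tt⁻¹ = tt := inv_eq_of_mul_eq_one_right tt_sq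
      simp only [Subgroup.coe_mul, Subgroup.coe_inv] at e
      have e' : u.1 = g.1⁻¹ * x * g.1 * tt := by
        rw [← e]
        show u.1 = g.1⁻¹ * x * g.1 * ((g.1⁻¹ * x * g.1)⁻¹ * u.1)
        group
      rw [e', mul_assoc _ tt tt, tt_sq, mul_one]
      group
  have fin : ∀ (g : DD) (c : List ℕ) (u : Equiv.Perm Pt), x = g.1 * u * g.1⁻¹ → wI c * tt = u * wI c →
      ∃ h ∈ GG, h * tt * h⁻¹ = x := by
    intro g c u hxu hcu
    refine ⟨g.1 * wI c, mul_mem (mem_CC.1 (DD_le g.2)).1 (wI_GG c), ?_⟩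
    rw [mul_assoc g.1, hcu, hxu]
    group
  have wv : ∀ v w : List ℕ, (∀ x < 275, evI v x = evI w x) → wI v = wI w := fun v w h =>
    Equiv.ext fun i => Fin.ext (by rw [wI_val, wI_val]; exact h i i.2)
  rcases hm with rfl | rfl
  · exfalso
    obtain ⟨g, hg⟩ := rep fourW h4 fourP (fun i hi => (hW i hi).1) 2 (by decide +kernel) (by decide +kernel)
      (by norm_num) 0 3 (by decide) (by decide +kernel) (by decide +kernel) rfl
    rcases lift g ⟨wI fourW, wI_DD h4⟩ hg with e | e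
    · apply fixed_eq hf1
      rw [wI_append]
      rw [e] at h2
      have : g.1 * (wI fourW * wI fourW) * g.1⁻¹ = 1 := by rw [← h2]; group
      rwa [mul_inv_eq_one, mul_eq_left] at this
    · apply fixed_eq hf2
      simp only [wI_append]
      rw [e, tt, qq] at h2
      have : g.1 * ((wI fourW * (wI qW * wI qW)) * (wI fourW * (wI qW * wI qW))) * g.1⁻¹ = 1 := by
        rw [← h2]; group
      rw [mul_inv_eq_one, mul_eq_left] at this
      rw [← this]
      group
  · obtain ⟨g, hg⟩ := rep eightW h8 eightP (fun i hi => (hW i hi).2) 4 (by decide +kernel) (by decide +kernel)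
      (by norm_num) 0 7 (by decide) (by decide +kernel) (by decide +kernel) rfl
    rcases lift g ⟨wI eightW, wI_DD h8⟩ hg with e | e
    · refine fin g eightConj _ e ?_
      rw [tt, qq, ← mul_assoc, ← wI_append, ← wI_append, ← wI_append]
      exact wv _ _ fun v hv => (hconj v hv).1
    · refine fin g eightConjT _ e ?_
      rw [tt, qq, ← mul_assoc, ← mul_assoc, ← wI_append, ← wI_append, ← wI_append, ← wI_append, ← wI_append]
      exact wv _ _ fun v hv => (hconj v hv).2

theorem sylow_two {G : Type*} [Group G] [Finite G] {m : ℕ} (hG : Nat.card G = 128 * m) (hm : ¬ 2 ∣ m)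
    {H : Subgroup G} (hH : 128 ∣ Nat.card H) {x : G} (hx : x * x = 1) : ∃ g : G, g⁻¹ * x * g ∈ H := by
  haveI : Fact (Nat.Prime 2) := ⟨by norm_num⟩
  obtain ⟨Q, hQ⟩ := Sylow.exists_subgroup_card_pow_prime (G := H) 2 (n := 7) (by norm_num; exact hH)
  have hx2 : IsPGroup 2 (Subgroup.zpowers x) := by
    rintro ⟨_, n, rfl⟩
    refine ⟨1, Subtype.ext ?_⟩
    show (x ^ n) ^ (2 ^ 1) = 1
    rw [pow_one, ← zpow_natCast, ← zpow_mul, mul_comm, zpow_mul, zpow_natCast, pow_two, hx, one_zpow]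
  obtain ⟨T, hT⟩ := hx2.exists_le_sylow
  have hS : IsPGroup 2 (Q.map H.subtype) := IsPGroup.of_card (n := 7) (by
    rw [Subgroup.card_map_of_injective H.subtype_injective, hQ])
  obtain ⟨S, hSle⟩ := hS.exists_le_sylow
  have hcardS : Nat.card (S : Subgroup G) = 128 := by
    obtain ⟨k, hk⟩ := IsPGroup.iff_card.1 S.isPGroup'
    have h1 := (S : Subgroup G).card_mul_index
    rw [hG] at h1
    refine Nat.dvd_antisymm ?_ ?_
    · refine Nat.Coprime.dvd_of_dvd_mul_right (n := m) ?_ (h1 ▸ dvd_mul_right _ _)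
      rw [hk]
      exact Nat.Coprime.pow_left _ ((Nat.Prime.coprime_iff_not_dvd (by norm_num)).2 hm)
    · refine Nat.Coprime.dvd_of_dvd_mul_right (n := (S : Subgroup G).index) ?_ (h1 ▸ dvd_mul_right _ _)
      rw [show (128 : ℕ) = 2 ^ 7 by norm_num]
      exact Nat.Coprime.pow_left _ ((Nat.Prime.coprime_iff_not_dvd (by norm_num)).2 S.not_dvd_index)
  have heq : Q.map H.subtype = (S : Subgroup G) := Subgroup.eq_of_le_of_card_ge hSle (by
    rw [hcardS, Subgroup.card_map_of_injective H.subtype_injective, hQ]; norm_num)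
  obtain ⟨g, hg⟩ := MulAction.exists_smul_eq G S T
  refine ⟨g, ?_⟩
  have hxT : x ∈ (T : Subgroup G) := hT (Subgroup.mem_zpowers x)
  rw [← hg, Sylow.coe_subgroup_smul, Subgroup.mem_pointwise_smul_iff_inv_smul_mem, ← heq] at hxT
  obtain ⟨y, -, hy⟩ := hxT
  have e : g⁻¹ * x * g = ((MulAut.conj g)⁻¹ • x) := by simp [MulAut.smul_def, MulAut.conj_inv_apply]
  rw [e, ← hy]
  exact y.2

theorem involutions_conj {x : Equiv.Perm Pt} (hx : x ∈ GG) (h2 : x * x = 1) (h1 : x ≠ 1) :
    ∃ g ∈ GG, g * tt * g⁻¹ = x := by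
  obtain ⟨g, hg⟩ := sylow_two (G := GG) (m := 7016625) (by rw [GG_card]) (by norm_num) (H := DD.subgroupOf GG)
    (by
      rw [Nat.card_congr (Subgroup.subgroupOfEquivOfLe (DD_le.trans inf_le_left)).toEquiv, DD_card]
      norm_num)
    (x := ⟨x, hx⟩) (Subtype.ext h2)
  have hg' : g.1⁻¹ * x * g.1 ∈ DD := Subgroup.mem_subgroupOf.1 hg
  obtain ⟨k, hk, e⟩ := conj_tt_of_DD hg' (by
    calc g.1⁻¹ * x * g.1 * (g.1⁻¹ * x * g.1) = g.1⁻¹ * (x * x) * g.1 := by group
      _ = 1 := by rw [h2]; group) (fun h => h1 (by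
    calc x = g.1 * (g.1⁻¹ * x * g.1) * g.1⁻¹ := by group
      _ = 1 := by rw [h]; group))
  refine ⟨g.1 * k, mul_mem g.2 hk, ?_⟩
  calc g.1 * k * tt * (g.1 * k)⁻¹ = g.1 * (k * tt * k⁻¹) * g.1⁻¹ := by group
    _ = x := by rw [e]; group

theorem center_ker : Subgroup.center DD = piD.ker := by
  ext z
  constructor
  · intro hz
    have h : piD z ∈ Subgroup.center (alternatingGroup (Fin 8)) := by
      rw [Subgroup.mem_center_iff] at hz ⊢
      intro y
      obtain ⟨d, rfl⟩ := piD_surjective y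
      rw [← map_mul, ← map_mul, hz d]
    rw [alternatingGroup.center_eq_bot (by simp), Subgroup.mem_bot] at h
    exact MonoidHom.mem_ker.2 h
  · intro hz
    rw [Subgroup.mem_center_iff]
    intro y
    have h : y * z * y⁻¹ = z := by
      have hc : Nat.card piD.ker = 2 := ker_card
      obtain ⟨a, b, hab, huniv⟩ := Nat.card_eq_two_iff.1 hc
      have h1 : y * z * y⁻¹ ∈ piD.ker := (MonoidHom.normal_ker piD).conj_mem z hz y
      by_cases hz1 : z = 1
      · rw [hz1]; simp
      have key : ∀ u : piD.ker, u = 1 ∨ u = ⟨z, hz⟩ := by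
        intro u
        have hu : u ∈ ({a, b} : Set piD.ker) := huniv ▸ Set.mem_univ u
        have h0 : (1 : piD.ker) ∈ ({a, b} : Set piD.ker) := huniv ▸ Set.mem_univ _
        have hz' : (⟨z, hz⟩ : piD.ker) ∈ ({a, b} : Set piD.ker) := huniv ▸ Set.mem_univ _
        have hne : (1 : piD.ker) ≠ ⟨z, hz⟩ := fun e => hz1 (congrArg Subtype.val e).symm
        simp only [Set.mem_insert_iff, Set.mem_singleton_iff] at hu h0 hz'
        grind
      rcases key ⟨_, h1⟩ with e | e
      · have e' : y * z * y⁻¹ = 1 := congrArg Subtype.val e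
        rw [conj_eq_one_iff] at e'
        exact absurd e' hz1
      · exact congrArg Subtype.val e
    exact mul_inv_eq_iff_eq_mul.1 h

theorem nonsplit_DD : IsNonsplitDoubleCover DD (alternatingGroup (Fin 8)) := by
  refine ⟨by rw [center_ker, ker_card],
    ⟨(QuotientGroup.quotientMulEquivOfEq center_ker).trans
      (QuotientGroup.quotientKerEquivOfSurjective piD piD_surjective)⟩, fun L hL => ?_⟩
  let q : DD := ⟨qq, wI_DD qW_lt⟩
  have hqq : q * q = ⟨tt, tt_DD⟩ := rfl
  obtain ⟨⟨⟨z, hz⟩, ⟨l, hl⟩⟩, hzl⟩ := hL.2 q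
  have hzl' : z * l = q := hzl
  have hz2 : z * z = 1 := by
    have h : (⟨z, center_ker ▸ hz⟩ : piD.ker) ^ 2 = 1 := by rw [← ker_card, pow_card_eq_one']
    rw [pow_two] at h
    exact congrArg Subtype.val h
  have hc : l * z = z * l := Subgroup.mem_center_iff.1 hz l
  have htL : (⟨tt, tt_DD⟩ : DD) ∈ L := by
    rw [← hqq, ← hzl']
    have : z * l * (z * l) = l * l := by
      calc z * l * (z * l) = z * (l * z) * l := by group
        _ = z * z * (l * l) := by rw [hc]; group
        _ = l * l := by rw [hz2, one_mul]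
    rw [this]
    exact mul_mem hl hl
  have htZ : (⟨tt, tt_DD⟩ : DD) ∈ Subgroup.center DD := center_ker ▸ MonoidHom.mem_ker.2 piD_tt
  have := hL.disjoint.le_bot ⟨htZ, htL⟩
  rw [Subgroup.mem_bot] at this
  exact tt_ne (congrArg Subtype.val this)

theorem transfer {H H' K : Type*} [Group H] [Group H'] [Group K] (e : H ≃* H') (h : IsNonsplitDoubleCover H K) :
    IsNonsplitDoubleCover H' K := by
  obtain ⟨h1, ⟨f⟩, h3⟩ := h
  have hmap : (Subgroup.center H).map e.toMonoidHom = Subgroup.center H' := by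
    ext x
    rw [Subgroup.mem_map]
    constructor
    · rintro ⟨z, hz, rfl⟩
      rw [Subgroup.mem_center_iff] at hz ⊢
      intro y
      obtain ⟨w, rfl⟩ := e.surjective y
      exact (map_mul e w z).symm.trans ((congrArg e (hz w)).trans (map_mul e z w))
    · intro hx
      refine ⟨e.symm x, ?_, e.apply_symm_apply x⟩
      rw [Subgroup.mem_center_iff] at hx ⊢
      intro y
      apply e.injective
      rw [map_mul, map_mul, e.apply_symm_apply]
      exact hx (e y)
  refine ⟨?_, ⟨(QuotientGroup.congr _ _ e hmap).symm.trans f⟩, fun L hL => ?_⟩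
  · rw [← hmap, Subgroup.card_map_of_injective (f := e.toMonoidHom) e.injective, h1]
  · refine h3 (L.comap e.toMonoidHom) ⟨fun a b hab => ?_, fun x => ?_⟩
    · have := hL.1 (a₁ := (⟨e a.1.1, hmap ▸ ⟨_, a.1.2, rfl⟩⟩, ⟨e a.2.1, a.2.2⟩))
        (a₂ := (⟨e b.1.1, hmap ▸ ⟨_, b.1.2, rfl⟩⟩, ⟨e b.2.1, b.2.2⟩))
        (by show e a.1.1 * e a.2.1 = e b.1.1 * e b.2.1; rw [← map_mul, ← map_mul]; exact congrArg e hab)
      exact Prod.ext (Subtype.ext (e.injective (congrArg (fun p => (p.1 : H')) this)))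
        (Subtype.ext (e.injective (congrArg (fun p => (p.2 : H')) this)))
    · obtain ⟨⟨⟨z, hz⟩, ⟨l, hl⟩⟩, hzl⟩ := hL.2 (e x)
      obtain ⟨z', hz', rfl⟩ := hmap ▸ hz
      refine ⟨(⟨z', hz'⟩, ⟨e.symm l, show e (e.symm l) ∈ L by rw [e.apply_symm_apply]; exact hl⟩), e.injective ?_⟩
      show e (z' * e.symm l) = e x
      rw [map_mul, e.apply_symm_apply]
      exact hzl

theorem mcl_involutions :
    (∀ x y : ↥Spor.McL, orderOf x = 2 → orderOf y = 2 → IsConj x y) ∧
    ∃ t : ↥Spor.McL, orderOf t = 2 ∧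
      IsNonsplitDoubleCover ↥(Subgroup.centralizer ({t} : Set ↥Spor.McL)) ↥(alternatingGroup (Fin 8)) := by
  let u : ↥Spor.McL ≃* GG := mpEquiv.symm.trans (MonoidHom.ofInjective rho_injective)
  have key : ∀ x : ↥Spor.McL, orderOf x = 2 → IsConj (u.symm ⟨tt, tt_GG⟩) x := by
    intro x hx
    have hu : orderOf (u x) = 2 := by rw [MulEquiv.orderOf_eq, hx]
    obtain ⟨g, hg, e⟩ := involutions_conj (u x).2 (by
      have := pow_orderOf_eq_one (u x)
      rw [hu, pow_two] at this
      exact congrArg Subtype.val this) (fun h => by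
      have : u x = 1 := Subtype.ext h
      rw [this, orderOf_one] at hu
      norm_num at hu)
    rw [isConj_iff]
    refine ⟨u.symm ⟨g, hg⟩, u.injective (Subtype.ext ?_)⟩
    simp only [map_mul, map_inv, MulEquiv.apply_symm_apply, Subgroup.coe_mul, Subgroup.coe_inv]
    exact e
  refine ⟨fun x y hx hy => (key x hx).symm.trans (key y hy), u.symm ⟨tt, tt_GG⟩, ?_, ?_⟩
  · rw [MulEquiv.orderOf_eq]
    exact orderOf_eq_prime (by rw [pow_two]; exact Subtype.ext tt_sq) fun h => tt_ne (congrArg Subtype.val h)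
  · refine transfer (H := DD) ?_ nonsplit_DD
    exact
      { toFun := fun d => ⟨u.symm ⟨d.1, (mem_CC.1 (DD_le d.2)).1⟩, Subgroup.mem_centralizer_singleton_iff.2 (by
          rw [← map_mul, ← map_mul]
          exact congrArg u.symm (Subtype.ext (mem_CC.1 (DD_le d.2)).2))⟩
        invFun := fun c => ⟨(u c.1).1, DD_eq ▸ mem_CC.2 ⟨(u c.1).2, by
          have h := congrArg u (Subgroup.mem_centralizer_singleton_iff.1 c.2)
          rw [map_mul, map_mul, MulEquiv.apply_symm_apply] at h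
          exact congrArg Subtype.val h⟩⟩
        left_inv := fun d => Subtype.ext (by simp)
        right_inv := fun c => Subtype.ext (by simp)
        map_mul' := fun a b => Subtype.ext (by
          show u.symm _ = u.symm _ * u.symm _
          rw [← map_mul]
          rfl) }

end Cfsg.Agent.FGS3.McLInv
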