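import Cfsg.Agent.Linear.PSL2MaxApps

/-! In `PSL(2,13)`, `SL(2,13)` and their coprime abelian extensions the normalizer of a non-normal
subgroup is maximal. -/

set_option autoImplicit false
set_option linter.unusedSectionVars false
set_option linter.style.haveILetI false

namespace Cfsg.Agent.FGS3.PSL13

open Matrix Cfsg.Agent.Linear Cfsg.Agent.Linear.PSL2Max Cfsg.Agent.Linear.PSL2Dickson
open Cfsg.Agent.Linear.PSL2Borel Cfsg.Agent.Dickson Cfsg.Agent.KnownA.GL2

local instance fact13 : Fact (Nat.Prime 13) := ⟨by norm_num⟩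

local notation "P13" => Matrix.ProjectiveSpecialLinearGroup (Fin 2) (ZMod 13)
local notation "S13" => Matrix.SpecialLinearGroup (Fin 2) (ZMod 13)

theorem card_q : Fintype.card (ZMod 13) = 13 := ZMod.card 13

theorem np_nm : np (ZMod 13) = 7 ∧ nm (ZMod 13) = 6 := by
  constructor
  · rw [np, card_q]; norm_num
  · rw [nm, card_q]; norm_num

theorem card_coatom {M : Subgroup P13} (hM : IsCoatom M) :
    Nat.card M = 12 ∨ Nat.card M = 14 ∨ Nat.card M = 78 := by
  rcases maximal_cases 13 (by rw [card_q]; norm_num) hM with ⟨k, hk, hc, -⟩ | hi | hexc | ⟨P, L, r, hr, hLr, -⟩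
  · obtain ⟨h7, h6⟩ := np_nm
    rcases hk with rfl | rfl <;> omega
  · have h := card_mul_of_index hi
    rw [card_q] at h
    norm_num at h
    omega
  · rcases hexc with ⟨-, -, -, -, ⟨f⟩⟩ | ⟨-, -, h8, -⟩ | ⟨h10, -⟩
    · left; rw [Nat.card_congr f.toEquiv, card_four_five.1]
    · omega
    · rw [card_q] at h10; omega
  · rw [card_q] at hLr
    have := (Nat.Prime.pow_eq_iff (show Nat.Prime 13 by norm_num)).1 hLr
    exact absurd this.2 hr.ne_one

theorem exists_coatom_ge {V : Subgroup P13} (h1 : V ≠ ⊥) (h2 : V ≠ ⊤) :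
    ∃ M, IsCoatom M ∧ Subgroup.normalizer (V : Set P13) ≤ M :=
  (eq_top_or_exists_le_coatom _).resolve_left (normalizer_ne_top (by rw [card_q]; norm_num) h1 h2)

theorem no_thirteen {V : Subgroup P13} (h1 : V ≠ ⊥) (hc : Nat.card V < 13) :
    ¬ 13 ∣ Nat.card (Subgroup.normalizer (V : Set P13)) := by
  intro h
  obtain ⟨⟨y, hy⟩, hyo⟩ := exists_prime_orderOf_dvd_card' 13 h
  rw [Subgroup.orderOf_mk] at hyo
  apply h1
  rw [Subgroup.eq_bot_iff_forall]
  intro v hv
  have hcomm : Commute y v := by
    by_contra hne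
    let f : Fin 13 → V := fun i => ⟨y ^ (i : ℕ) * v * (y ^ (i : ℕ))⁻¹,
      (Subgroup.mem_normalizer_iff.1 (pow_mem hy _) v).1 hv⟩
    have hinj : Function.Injective f := by
      intro i j hij
      by_contra hij'
      have e : y ^ (i : ℕ) * v * (y ^ (i : ℕ))⁻¹ = y ^ (j : ℕ) * v * (y ^ (j : ℕ))⁻¹ := congrArg Subtype.val hij
      have key : ∀ a b : ℕ, a < b → b < 13 →
          y ^ a * v * (y ^ a)⁻¹ = y ^ b * v * (y ^ b)⁻¹ → Commute y v := by
        intro a b hab hb e
        have hd : Commute (y ^ (b - a)) v := by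
          rw [show b = a + (b - a) by omega, pow_add, _root_.mul_inv_rev] at e
          have e' : y ^ a * v * (y ^ a)⁻¹ = y ^ a * (y ^ (b - a) * v * (y ^ (b - a))⁻¹) * (y ^ a)⁻¹ := by
            rw [e]; simp only [mul_assoc]
          have := mul_left_cancel (mul_right_cancel e')
          show y ^ (b - a) * v = v * y ^ (b - a)
          conv_rhs => rw [this, inv_mul_cancel_right]
        have hcop : (orderOf y).Coprime (b - a) := by
          rw [hyo]
          exact (Nat.Prime.coprime_iff_not_dvd (by norm_num)).2 fun hdv => by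
            have := Nat.le_of_dvd (by omega) hdv; omega
        obtain ⟨m, hm⟩ := exists_pow_eq_self_of_coprime (x := y) hcop.symm
        rw [← hm]
        exact hd.pow_left m
      rcases Nat.lt_or_ge (i : ℕ) (j : ℕ) with hlt | hge
      · exact hne (key _ _ hlt j.2 e)
      · exact hne (key _ _ (lt_of_le_of_ne hge fun h => hij' (Fin.ext h.symm)) i.2 e.symm)
    have := Nat.card_le_card_of_injective f hinj
    rw [Nat.card_eq_fintype_card, Fintype.card_fin] at this
    omega
  have hv13 := pow_p_of_commute 13 (by norm_num) hyo hcomm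
  rcases (Nat.dvd_prime (show Nat.Prime 13 by norm_num)).1 (orderOf_dvd_of_pow_eq_one hv13) with e | e
  · exact orderOf_eq_one_iff.1 e
  · have h2 := Nat.le_of_dvd Nat.card_pos (orderOf_dvd_natCard (⟨v, hv⟩ : V))
    rw [Subgroup.orderOf_mk, e] at h2
    omega

/-- A large normalizer of a small subgroup is maximal. -/
theorem coatom_of_ge {V : Subgroup P13} (h1 : V ≠ ⊥) (h2 : V ≠ ⊤) (hc : Nat.card V < 13)
    (h12 : 12 ≤ Nat.card (Subgroup.normalizer (V : Set P13))) :
    IsCoatom (Subgroup.normalizer (V : Set P13)) ∧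
      (Nat.card (Subgroup.normalizer (V : Set P13)) = 12 ∨
        Nat.card (Subgroup.normalizer (V : Set P13)) = 14) := by
  obtain ⟨M, hM, hle⟩ := exists_coatom_ge h1 h2
  have h13 := no_thirteen h1 hc
  have hdvd := Subgroup.card_dvd_of_le hle
  have hn : ∀ n, n ∣ Nat.card M → n = Nat.card (Subgroup.normalizer (V : Set P13)) →
      n = Nat.card M ∧ (n = 12 ∨ n = 14) := by
    intro n hn e
    subst e
    have hle' := Nat.le_of_dvd Nat.card_pos hn
    rcases card_coatom hM with e | e | e <;> rw [e] at hn hle' ⊢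
    · omega
    · refine ⟨?_, Or.inr ?_⟩ <;> (obtain ⟨c, hc⟩ := hn; rcases c with _ | _ | c <;> first | omega | nlinarith)
    · exfalso
      generalize Nat.card (Subgroup.normalizer (V : Set P13)) = n at hn h13 h12 hle'
      interval_cases n <;> revert hn h13 <;> decide
  obtain ⟨heq, hval⟩ := hn _ hdvd rfl
  have := Subgroup.eq_of_le_of_card_ge hle heq.ge
  exact ⟨this ▸ hM, hval⟩

theorem coatom_zpowers {x : P13} (hx : x ≠ 1) (hk : orderOf x < 13) :
    IsCoatom (Subgroup.normalizer (Subgroup.zpowers x : Set P13)) ∧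
      (Nat.card (Subgroup.normalizer (Subgroup.zpowers x : Set P13)) = 12 ∨
        Nat.card (Subgroup.normalizer (Subgroup.zpowers x : Set P13)) = 14) := by
  refine coatom_of_ge (by rwa [Ne, Subgroup.zpowers_eq_bot]) (zpowers_ne_top (by rw [card_q]; norm_num) x)
    (by rw [Nat.card_zpowers]; exact hk) ?_
  have h := normalizer_lower 13 hx (fun hd => by
    have := Nat.le_of_dvd (orderOf_pos x) hd; omega)
  rw [np_nm.2] at h
  exact h

theorem normalizer_coatom {H : Subgroup P13} (h1 : H ≠ ⊥) (h2 : H ≠ ⊤) :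
    IsCoatom (Subgroup.normalizer (H : Set P13)) := by
  obtain ⟨M, hM, hNM⟩ := exists_coatom_ge h1 h2
  have hHM : H ≤ M := Subgroup.le_normalizer.trans hNM
  by_cases hp : 13 ∣ Nat.card H
  · -- `H` contains the normal subgroup of order 13 of `M`
    have hcM : Nat.card M ≤ 78 := by rcases card_coatom hM with h | h | h <;> omega
    obtain ⟨⟨x, hx⟩, hxo⟩ := exists_prime_orderOf_dvd_card' 13 hp
    rw [Subgroup.orderOf_mk] at hxo
    have huniq : ∀ c ∈ M, c ^ 13 = 1 → c ∈ Subgroup.zpowers x := by
      intro c hc hc13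
      by_contra hn
      have hco : orderOf c = 13 := by
        refine ((Nat.dvd_prime (show Nat.Prime 13 by norm_num)).1 (orderOf_dvd_of_pow_eq_one hc13)).resolve_left ?_
        intro h
        exact hn (orderOf_eq_one_iff.1 h ▸ one_mem _)
      let f : Subgroup.zpowers x × Subgroup.zpowers c → M := fun ab =>
        ⟨ab.1.1 * ab.2.1, M.mul_mem (Subgroup.zpowers_le.2 (hHM hx) ab.1.2) (Subgroup.zpowers_le.2 hc ab.2.2)⟩
      have hinj : Function.Injective f := by
        rintro ⟨a, b⟩ ⟨a', b'⟩ e
        have e' : (a : P13) * b = a' * b' := congrArg Subtype.val e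
        have hd : ((b : P13) * (b' : P13)⁻¹) ∈ Subgroup.zpowers x ⊓ Subgroup.zpowers c := by
          refine ⟨?_, Subgroup.mul_mem _ b.2 (Subgroup.inv_mem _ b'.2)⟩
          rw [show (b : P13) * (b' : P13)⁻¹ = (a : P13)⁻¹ * a' by
            rw [eq_inv_mul_iff_mul_eq, ← mul_assoc, e', mul_inv_cancel_right]]
          exact Subgroup.mul_mem _ (Subgroup.inv_mem _ a.2) a'.2
        have hb : (b : P13) = b' := by
          by_contra hne
          refine hn ?_
          set d := (b : P13) * (b' : P13)⁻¹
          have hd1 : d ≠ 1 := fun h => hne (mul_inv_eq_one.1 h)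
          have hcd : Subgroup.zpowers d = Subgroup.zpowers c := by
            refine Subgroup.eq_of_le_of_card_ge (Subgroup.zpowers_le.2 hd.2) ?_
            rw [Nat.card_zpowers, Nat.card_zpowers, hco]
            have h13 : orderOf d ∣ 13 := (orderOf_dvd_of_mem_zpowers hd.2).trans hco.dvd
            rcases (Nat.dvd_prime (show Nat.Prime 13 by norm_num)).1 h13 with h | h
            · exact absurd (orderOf_eq_one_iff.1 h) hd1
            · omega
          exact Subgroup.zpowers_le.2 hd.1 (hcd.ge (Subgroup.mem_zpowers c))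
        rw [hb] at e'
        exact Prod.ext (Subtype.ext (mul_right_cancel e')) (Subtype.ext hb)
      have := Nat.card_le_card_of_injective f hinj
      rw [Nat.card_prod, Nat.card_zpowers, Nat.card_zpowers, hxo, hco] at this
      omega
    have hconj : ∀ a ∈ M, ∃ i : ℤ, a * x * a⁻¹ = x ^ i := by
      intro a ha
      obtain ⟨i, hi⟩ := Subgroup.mem_zpowers_iff.1 (huniq _ (M.mul_mem (M.mul_mem ha (hHM hx)) (M.inv_mem ha))
        (by rw [conj_pow, orderOf_dvd_iff_pow_eq_one.1 hxo.dvd, mul_one, mul_inv_cancel]))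
      exact ⟨i, hi.symm⟩
    have hle : M ≤ Subgroup.normalizer (H : Set P13) := by
      intro a ha
      refine Subgroup.mem_normalizer_fintype fun h hh => ?_
      obtain ⟨i, hi⟩ := hconj a ha
      obtain ⟨j, hj⟩ := hconj h (hHM hh)
      have hab : (a * h) * x * (a * h)⁻¹ = (h * a) * x * (h * a)⁻¹ := by
        calc (a * h) * x * (a * h)⁻¹ = a * (h * x * h⁻¹) * a⁻¹ := by group
          _ = (a * x * a⁻¹) ^ j := by rw [hj, conj_zpow]
          _ = x ^ (j * i) := by rw [hi, ← _root_.zpow_mul, mul_comm]
          _ = (h * x * h⁻¹) ^ i := by rw [hj, ← _root_.zpow_mul]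
          _ = h * (a * x * a⁻¹) * h⁻¹ := by rw [hi, conj_zpow]
          _ = _ := by group
      have hc : Commute x ((h * a)⁻¹ * (a * h)) := by
        show x * ((h * a)⁻¹ * (a * h)) = (h * a)⁻¹ * (a * h) * x
        calc x * ((h * a)⁻¹ * (a * h)) = (h * a)⁻¹ * ((h * a) * x * (h * a)⁻¹) * (a * h) := by group
          _ = (h * a)⁻¹ * ((a * h) * x * (a * h)⁻¹) * (a * h) := by rw [hab]
          _ = _ := by group
      have hmem := huniq _ (M.mul_mem (M.inv_mem (M.mul_mem (hHM hh) ha)) (M.mul_mem ha (hHM hh)))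
        (pow_p_of_commute 13 (by norm_num) hxo hc)
      obtain ⟨k, hk⟩ := Subgroup.mem_zpowers_iff.1 hmem
      obtain ⟨i', hi'⟩ := hconj a ha
      show a * h * a⁻¹ ∈ H
      rw [show a * h * a⁻¹ = h * (a * ((h * a)⁻¹ * (a * h)) * a⁻¹) by group, ← hk, ← conj_zpow, hi']
      exact H.mul_mem hh (H.zpow_mem (H.zpow_mem hx _) _)
    exact (le_antisymm hNM hle) ▸ hM
  · rcases PSL2PrimeTo.classification 13 H hp with ⟨k, hk, hc⟩ | h | h | h
    · have hk' : k ∣ 7 ∨ k ∣ 6 := by
        rw [card_q] at hk
        norm_num at hk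
        exact hk
      have hk7 : k ≤ 7 := by
        rcases hk' with h | h
        · exact Nat.le_of_dvd (by norm_num) h
        · exact (Nat.le_of_dvd (by norm_num) h).trans (by norm_num)
      rcases hc with ⟨hcy, hcard⟩ | ⟨hk2, hcard, ⟨e⟩⟩
      · obtain ⟨x, rfl⟩ := (Subgroup.isCyclic_iff_exists_zpowers_eq_top H).1 hcy
        rw [Nat.card_zpowers] at hcard
        exact (coatom_zpowers (by rwa [Ne, ← Subgroup.zpowers_eq_bot]) (by omega)).1
      · rcases Nat.eq_or_lt_of_le hk2 with hk2 | hk3
        · subst hk2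
          have hV : IsKleinFour H := ⟨by rw [hcard], by
            rw [Monoid.exponent_eq_of_mulEquiv e, DihedralGroup.exponent]; rfl⟩
          exact (coatom_of_ge h1 h2 (by omega)
            (klein_normalizer (by decide) hV)).1
        set x : P13 := ((e.symm (DihedralGroup.r 1) : H) : P13) with hxdef
        have hxo : orderOf x = k := by
          rw [hxdef, Subgroup.orderOf_coe, e.symm.orderOf_eq, DihedralGroup.orderOf_r_one]
        have hrot : ∀ z ∈ H, orderOf z = k → z ∈ Subgroup.zpowers x := by
          intro z hz hzo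
          rcases hcase : e ⟨z, hz⟩ with j | j
          · refine Subgroup.mem_zpowers_iff.2 ⟨(j.val : ℤ), ?_⟩
            haveI : NeZero k := ⟨by omega⟩
            have h : ((e.symm (DihedralGroup.r 1 ^ j.val) : H) : P13) = z := by
              rw [DihedralGroup.r_one_pow, ZMod.natCast_val, ZMod.cast_id, ← hcase, MulEquiv.symm_apply_apply]
            rw [_root_.zpow_natCast, hxdef, ← SubmonoidClass.coe_pow, ← map_pow]
            exact h
          · exfalso
            have h : orderOf (e ⟨z, hz⟩) = k := by rw [e.orderOf_eq, Subgroup.orderOf_mk, hzo]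
            rw [hcase, DihedralGroup.orderOf_sr] at h
            omega
        obtain ⟨hM0, hcard0⟩ := coatom_zpowers (x := x) (fun h => by rw [h, orderOf_one] at hxo; omega) (by omega)
        set M0 := Subgroup.normalizer (Subgroup.zpowers x : Set P13)
        have hNle : Subgroup.normalizer (H : Set P13) ≤ M0 := by
          intro n hn
          refine Subgroup.mem_normalizer_fintype ?_
          rintro _ ⟨i, rfl⟩
          show n * x ^ i * n⁻¹ ∈ _
          rw [← conj_zpow]
          refine Subgroup.zpow_mem _ (hrot _ ((Subgroup.mem_normalizer_iff.1 hn x).1 (SetLike.coe_mem _)) ?_) i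
          rw [← hxo]
          exact (orderOf_injective (MulAut.conj n).toMonoidHom (MulAut.conj n).injective x)
        have hH0 : H ≤ M0 := Subgroup.le_normalizer.trans hNle
        have hle : M0 ≤ Subgroup.normalizer (H : Set P13) := by
          have hd := Subgroup.card_dvd_of_le hH0
          rw [hcard] at hd
          have hk' : k = 3 ∨ k = 6 ∨ k = 7 := by
            rcases hk' with h | h
            · exact Or.inr (Or.inr (((Nat.dvd_prime (by norm_num)).1 h).resolve_left (by omega)))
            · rcases (show k = 3 ∨ k = 4 ∨ k = 5 ∨ k = 6 by have := Nat.le_of_dvd (by norm_num) h; omega)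
                with e | e | e | e
              · exact Or.inl e
              · rw [e] at h; norm_num at h
              · rw [e] at h; norm_num at h
              · exact Or.inr (Or.inl e)
          have hindex : (H.subgroupOf M0).index ≤ 2 := by
            have hi := (H.subgroupOf M0).card_mul_index
            rw [Nat.card_congr (Subgroup.subgroupOfEquivOfLe hH0).toEquiv, hcard] at hi
            rcases hk' with rfl | rfl | rfl <;> rcases hcard0 with e0 | e0 <;> rw [e0] at hd hi <;> omega
          haveI : (H.subgroupOf M0).Normal := by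
            have h0 : (H.subgroupOf M0).index ≠ 0 := Subgroup.index_ne_zero_of_finite
            rcases (show (H.subgroupOf M0).index = 1 ∨ (H.subgroupOf M0).index = 2 by omega) with h | h
            · rw [Subgroup.index_eq_one.1 h]; infer_instance
            · exact Subgroup.normal_of_index_eq_two h
          exact Subgroup.le_normalizer_of_normal_subgroupOf hH0
        exact (le_antisymm hNle hle) ▸ hM0
    · obtain ⟨e⟩ := h
      have hc : Nat.card H = 12 := (Nat.card_congr e.toEquiv).trans card_four_five.1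
      refine (coatom_of_ge h1 h2 (by omega) ?_).1
      rw [← hc]
      exact Subgroup.card_le_of_le Subgroup.le_normalizer
    · obtain ⟨e⟩ := h
      exfalso
      have hc : Nat.card H = 24 := (Nat.card_congr e.toEquiv).trans card_four_five.2.1
      have := Subgroup.card_dvd_of_le hHM
      rw [hc] at this
      rcases card_coatom hM with h | h | h <;> rw [h] at this <;> norm_num at this
    · obtain ⟨e⟩ := h
      exfalso
      have hc : Nat.card H = 60 := (Nat.card_congr e.toEquiv).trans card_four_five.2.2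
      have := Subgroup.card_dvd_of_le hHM
      rw [hc] at this
      rcases card_coatom hM with h | h | h <;> rw [h] at this <;> norm_num at this

/-- Every non-normal subgroup has a maximal normalizer. -/
def Good (G : Type*) [Group G] : Prop :=
  ∀ H : Subgroup G, ¬ H.Normal → IsCoatom (Subgroup.normalizer (H : Set G))

theorem good_psl : Good P13 := fun _ hH =>
  normalizer_coatom (fun h => hH (h ▸ inferInstance)) (fun h => hH (h ▸ inferInstance))

theorem good_of_surjective {K P : Type*} [Group K] [Group P] (f : K →* P) (hf : Function.Surjective f)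
    (hP : Good P) (hN : ∀ H : Subgroup K,
      Subgroup.normalizer ((H ⊔ f.ker : Subgroup K) : Set K) ≤ Subgroup.normalizer (H : Set K)) :
    Good K := by
  intro H hH
  have hcm : H ⊔ f.ker = (H.map f).comap f := (Subgroup.comap_map_eq f H).symm
  have hnn : ¬ (H.map f).Normal := fun h => hH <| by
    rw [← Subgroup.normalizer_eq_top_iff, eq_top_iff]
    refine le_trans ?_ (hN H)
    rw [hcm, Subgroup.normalizer_eq_top_iff.2 (h.comap f)]
  have hc := Subgroup.isCoatom_comap_of_surjective hf (hP _ hnn)
  have hle : (Subgroup.normalizer (H.map f : Set P)).comap f ≤ Subgroup.normalizer (H : Set K) := by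
    intro k hk
    refine hN H ?_
    rw [hcm]
    refine Subgroup.mem_normalizer_iff.2 fun a => ?_
    have := Subgroup.mem_normalizer_iff.1 hk (f a)
    simpa [Subgroup.mem_comap] using this
  rcases hle.lt_or_eq with hlt | e
  · exact absurd (Subgroup.normalizer_eq_top_iff.1 (hc.2 _ hlt)) hH
  · exact e ▸ hc

theorem good_of_equiv {K P : Type*} [Group K] [Group P] (e : K ≃* P) (hP : Good P) : Good K :=
  good_of_surjective e.toMonoidHom e.surjective hP fun H => le_of_eq (by
    rw [(MonoidHom.ker_eq_bot_iff e.toMonoidHom).2 e.injective, sup_bot_eq])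

theorem good_sl : Good S13 := by
  have h2 : (2 : ZMod 13) ≠ 0 := by decide
  refine good_of_surjective (toPSL (F := ZMod 13)) toPSL_surjective good_psl fun H => ?_
  by_cases hz : (toPSL (F := ZMod 13)).ker ≤ H
  · rw [sup_of_le_left hz]
  have hz' : (-1 : S13) ∉ H := fun h => hz fun g hg => by
    rcases toPSL_eq_one_iff.1 (MonoidHom.mem_ker.1 hg) with rfl | rfl
    · exact one_mem _
    · exact h
  have hodd : Odd (Nat.card H) := by
    rw [← Nat.not_even_iff_odd, even_iff_two_dvd]
    intro hd
    haveI : Fact (Nat.Prime 2) := ⟨Nat.prime_two⟩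
    obtain ⟨⟨t, ht⟩, hto⟩ := exists_prime_orderOf_dvd_card' 2 hd
    rw [Subgroup.orderOf_mk] at hto
    have htt : t * t = 1 := by rw [← pow_two, orderOf_dvd_iff_pow_eq_one.1 hto.dvd]
    rcases PSL2Classes.sq_eq_one h2 htt with rfl | rfl
    · rw [orderOf_one] at hto; norm_num at hto
    · exact hz' ht
  intro n hn
  refine Subgroup.mem_normalizer_fintype fun h hh => ?_
  have hmem := (Subgroup.mem_normalizer_iff.1 hn h).1 (Subgroup.mem_sup_left hh)
  have hpow : ∀ y ∈ H, y ^ Nat.card H = 1 := fun y hy =>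
    congrArg Subtype.val (pow_card_eq_one' (x := (⟨y, hy⟩ : H)))
  rw [← Subgroup.comap_map_eq] at hmem
  obtain ⟨h', hh', e⟩ := Subgroup.mem_comap.1 hmem
  rcases toPSL_eq_iff.1 e with e | e
  · exact e ▸ hh'
  · exfalso
    have h3 : (n * h * n⁻¹) ^ Nat.card H = 1 := by rw [conj_pow, hpow h hh, mul_one, mul_inv_cancel]
    have h4 := hpow h' hh'
    rw [e, neg_pow, hodd.neg_one_pow, h3, mul_one] at h4
    exact Cfsg.Agent.Linear.one_ne_neg_one_SL h2 h4.symm

/-- Coprime direct products with an abelian group. -/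
theorem good_prod {K S : Type*} [Group K] [CommGroup S] [Finite K] [Finite S] (hK : Good K)
    (hKS : (Nat.card K).Coprime (Nat.card S)) : Good (K × S) := by
  intro H hH
  have hsplit : ∀ a : K, ∀ b : S, (a, b) ∈ H → (a, (1 : S)) ∈ H := by
    intro a b hab
    obtain ⟨m, hm⟩ := exists_pow_eq_self_of_coprime (x := a) (n := Nat.card S)
      (Nat.Coprime.coprime_dvd_right (orderOf_dvd_natCard a) hKS.symm)
    have h1 := H.pow_mem (H.pow_mem hab (Nat.card S)) m
    rw [Prod.pow_mk, Prod.pow_mk, pow_card_eq_one', one_pow, hm] at h1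
    exact h1
  set H1 := H.map (MonoidHom.fst K S)
  have h1mem : ∀ a : K, a ∈ H1 ↔ (a, (1 : S)) ∈ H := fun a =>
    ⟨fun ⟨⟨a', b⟩, hab, e⟩ => e ▸ hsplit a' b hab, fun h => ⟨(a, 1), h, rfl⟩⟩
  have hmem : ∀ a : K, ∀ b : S, (a, b) ∈ H ↔ a ∈ H1 ∧ ((1 : K), b) ∈ H := fun a b => by
    constructor
    · intro h
      refine ⟨(h1mem a).2 (hsplit a b h), ?_⟩
      simpa using H.mul_mem (H.inv_mem (hsplit a b h)) h
    · rintro ⟨ha, hb⟩
      simpa using H.mul_mem ((h1mem a).1 ha) hb
  have hN : Subgroup.normalizer (H : Set (K × S)) =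
      (Subgroup.normalizer (H1 : Set K)).comap (MonoidHom.fst K S) := by
    ext ⟨k, s⟩
    simp only [Subgroup.mem_comap, MonoidHom.coe_fst, Subgroup.mem_normalizer_iff]
    constructor
    · intro h a
      rw [h1mem, h1mem, h (a, 1)]
      simp
    · rintro h ⟨a, b⟩
      have e : ((k, s) : K × S) * (a, b) * (k, s)⁻¹ = (k * a * k⁻¹, b) :=
        Prod.ext rfl (mul_inv_cancel_comm s b)
      rw [e, hmem a b, hmem (k * a * k⁻¹) b, h a]
  have hn1 : ¬ H1.Normal := fun h => hH <| by
    rw [← Subgroup.normalizer_eq_top_iff, hN, Subgroup.normalizer_eq_top_iff.2 h, Subgroup.comap_top]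
  rw [hN]
  exact Subgroup.isCoatom_comap_of_surjective (fun a => ⟨(a, 1), rfl⟩) (hK H1 hn1)

end Cfsg.Agent.FGS3.PSL13
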