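import Mathlib

/-! Classes of π-elements in cosets of a normal subgroup. -/

set_option autoImplicit false

namespace Cfsg.Agent.FGS3.PiCount

variable {G : Type*} [Group G]

/-- every prime dividing the order of `g` satisfies `π` -/
def PiEl (π : Set ℕ) (g : G) : Prop := ∀ q : ℕ, q.Prime → q ∣ orderOf g → q ∈ π

theorem PiEl.of_dvd {H : Type*} [Group H] {π : Set ℕ} {g : G} {h : H} (hg : PiEl π g)
    (hd : orderOf h ∣ orderOf g) : PiEl π h := fun q hq hq' => hg q hq (hq'.trans hd)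

theorem eq_one_of_piEl {π : Set ℕ} {g : G} (h : PiEl π g) (h' : PiEl πᶜ g) : g = 1 := by
  rw [← orderOf_eq_one_iff]
  by_contra hne
  obtain ⟨q, hq, hd⟩ := Nat.exists_prime_and_dvd hne
  exact h' q hq hd (h q hq hd)

theorem piEl_conj {π : Set ℕ} {g : G} (h : PiEl π g) (c : G) : PiEl π (c * g * c⁻¹) :=
  h.of_dvd (by rw [show c * g * c⁻¹ = MulAut.conj c g from rfl, MulEquiv.orderOf_eq])

theorem exists_decomp [Finite G] (π : Set ℕ) (g : G) :
    ∃ u v : G, u * v = g ∧ Commute u v ∧ PiEl π u ∧ PiEl πᶜ v ∧ (∃ i : ℤ, u = g ^ i) ∧ ∃ j : ℤ, v = g ^ j := by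
  classical
  set n := orderOf g with hn
  have hn0 : n ≠ 0 := (orderOf_pos g).ne'
  set a := ∏ q ∈ n.primeFactors.filter (fun q => q ∈ π), q ^ n.factorization q with ha
  set b := ∏ q ∈ n.primeFactors.filter (fun q => ¬ q ∈ π), q ^ n.factorization q with hb
  have hab : a * b = n := by
    rw [ha, hb, Finset.prod_filter_mul_prod_filter_not]
    exact Nat.prod_factorization_pow_eq_self hn0
  have key : ∀ (P : ℕ → Prop) [DecidablePred P] (q : ℕ), q.Prime →
      q ∣ ∏ r ∈ n.primeFactors.filter P, r ^ n.factorization r → P q := by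
    intro P _ q hq hd
    obtain ⟨r, hr, hqr⟩ := (Prime.dvd_finset_prod_iff (Nat.prime_iff.1 hq) _).1 hd
    rw [Finset.mem_filter] at hr
    have := (Nat.prime_dvd_prime_iff_eq hq (Nat.prime_of_mem_primeFactors hr.1)).1 (hq.dvd_of_dvd_pow hqr)
    rw [this]; exact hr.2
  have hcop : a.Coprime b := Nat.coprime_of_dvd' fun q hq h1 h2 =>
    absurd (key (fun q => q ∈ π) q hq h1) (key (fun q => ¬ q ∈ π) q hq h2)
  obtain ⟨s, t, hst⟩ := Nat.isCoprime_iff_coprime.2 hcop
  have hord : ∀ (c : ℕ) (i : ℤ), (n : ℤ) ∣ i * c → orderOf (g ^ i) ∣ c := by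
    intro c i h
    rw [orderOf_dvd_iff_pow_eq_one, ← zpow_natCast, ← zpow_mul]
    exact orderOf_dvd_iff_zpow_eq_one.1 h
  refine ⟨g ^ (t * b), g ^ (s * a), ?_, (Commute.refl g).zpow_zpow _ _,
    fun q hq hd => key (fun q => q ∈ π) q hq (hd.trans (hord a _ ⟨t, by rw [← hab]; push_cast; ring⟩)),
    fun q hq hd => key (fun q => ¬ q ∈ π) q hq (hd.trans (hord b _ ⟨s, by rw [← hab]; push_cast; ring⟩)),
    ⟨_, rfl⟩, ⟨_, rfl⟩⟩
  rw [← zpow_add, add_comm, hst, zpow_one]

/-- the π-part -/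
noncomputable def part [Finite G] (π : Set ℕ) (g : G) : G := (exists_decomp π g).choose

/-- the π'-part -/
noncomputable def part' [Finite G] (π : Set ℕ) (g : G) : G := (exists_decomp π g).choose_spec.choose

theorem part_spec [Finite G] (π : Set ℕ) (g : G) :
    part π g * part' π g = g ∧ Commute (part π g) (part' π g) ∧ PiEl π (part π g) ∧
      PiEl πᶜ (part' π g) ∧ (∃ i : ℤ, part π g = g ^ i) ∧ ∃ j : ℤ, part' π g = g ^ j :=
  (exists_decomp π g).choose_spec.choose_spec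

theorem piEl_mul {π : Set ℕ} {u v : G} (hc : Commute u v) (hu : PiEl π u) (hv : PiEl π v) :
    PiEl π (u * v) := fun q hq hd => by
  rcases hq.dvd_mul.1 (hd.trans hc.orderOf_mul_dvd_mul_orderOf) with h | h
  exacts [hu q hq h, hv q hq h]

theorem part_unique [Finite G] {π : Set ℕ} {u v : G} (hc : Commute u v) (hu : PiEl π u)
    (hv : PiEl πᶜ v) : part π (u * v) = u ∧ part' π (u * v) = v := by
  obtain ⟨e, he, hp, hp', ⟨i, hi⟩, j, hj⟩ := part_spec π (u * v)
  set p := part π (u * v)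
  set p' := part' π (u * v)
  have cu : Commute p u := by
    rw [hi]; exact (((Commute.refl u).mul_right hc).symm).zpow_left i
  have cv : Commute p' v := by
    rw [hj]; exact ((hc.symm.mul_right (Commute.refl v)).symm).zpow_left j
  have h1 : u⁻¹ * p = v * p'⁻¹ := by
    rw [eq_mul_inv_iff_mul_eq, mul_assoc, e, inv_mul_cancel_left]
  have h2 : u⁻¹ * p = 1 := by
    refine eq_one_of_piEl (piEl_mul cu.symm.inv_left ?_ hp) ?_
    · exact hu.of_dvd (by rw [orderOf_inv])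
    · rw [h1]
      exact piEl_mul cv.symm.inv_right hv (hp'.of_dvd (by rw [orderOf_inv]))
  refine ⟨(inv_mul_eq_one.1 h2).symm, ?_⟩
  rw [h2] at h1
  exact (mul_inv_eq_one.1 h1.symm).symm

variable [Finite G] (N : Subgroup G) [N.Normal] (π : Set ℕ)

/-- commuting pairs over the coset of `g` -/
def pairs (g : G) : Type _ := {p : G × G // p.1 ∈ N ∧ g⁻¹ * p.2 ∈ N ∧ PiEl π p.2 ∧ Commute p.1 p.2}

/-- the other commuting pairs -/
def pairs' (g : G) : Type _ := {p : G × G // p.1 ∈ N ∧ g⁻¹ * p.2 ∈ N ∧ PiEl π p.1 ∧ Commute p.1 p.2}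

theorem part'_mem {g z : G} (hg : PiEl π (g : G ⧸ N)) (hz : g⁻¹ * z ∈ N) : part' π z ∈ N := by
  rw [← QuotientGroup.eq_one_iff]
  obtain ⟨-, -, -, h', -, j, hj⟩ := part_spec π z
  refine eq_one_of_piEl ?_ (h'.of_dvd (orderOf_map_dvd (QuotientGroup.mk' N) _))
  refine hg.of_dvd ?_
  rw [hj, QuotientGroup.mk_zpow, ← QuotientGroup.eq.2 hz]
  exact orderOf_dvd_of_mem_zpowers (Subgroup.zpow_mem_zpowers _ j)

/-- the two sorts of pairs correspond -/
noncomputable def pairsEquiv {g : G} (hg : PiEl π (g : G ⧸ N)) : pairs N π g ≃ pairs' N π g where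
  toFun p := ⟨(part π p.1.1, p.1.2 * part' π p.1.1), by
    obtain ⟨⟨n, x⟩, hn, hx, hpx, hc⟩ := p
    obtain ⟨-, hcp, hp, hp', ⟨i, hi⟩, j, hj⟩ := part_spec π n
    refine ⟨by show part π n ∈ N; rw [hi]; exact zpow_mem hn i, ?_, hp, ?_⟩
    · show g⁻¹ * (x * part' π n) ∈ N
      rw [← mul_assoc, hj]; exact mul_mem hx (zpow_mem hn j)
    · refine Commute.mul_right ?_ hcp
      show Commute (part π n) x
      rw [hi]; exact hc.zpow_left i⟩
  invFun p := ⟨(p.1.1 * part' π p.1.2, part π p.1.2), by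
    obtain ⟨⟨y, z⟩, hy, hz, hpy, hc⟩ := p
    obtain ⟨he, hcp, hp, hp', ⟨i, hi⟩, j, hj⟩ := part_spec π z
    refine ⟨mul_mem hy (part'_mem N π hg hz), ?_, hp, ?_⟩
    · show g⁻¹ * part π z ∈ N
      rw [show g⁻¹ * part π z = (g⁻¹ * z) * (part' π z)⁻¹ by
        rw [eq_mul_inv_iff_mul_eq, mul_assoc, he]]
      exact mul_mem hz (inv_mem (part'_mem N π hg hz))
    · refine Commute.mul_left ?_ hcp.symm
      show Commute y (part π z)
      rw [hi]; exact hc.zpow_right i⟩
  left_inv := by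
    rintro ⟨⟨n, x⟩, hn, hx, hpx, hc⟩
    obtain ⟨he, hcp, hp, hp', ⟨i, hi⟩, j, hj⟩ := part_spec π n
    have hxc : Commute x (part' π n) := by rw [hj]; exact hc.symm.zpow_right j
    obtain ⟨h1, h2⟩ := part_unique hxc hpx hp'
    refine Subtype.ext (Prod.ext ?_ h1)
    show part π n * part' π (x * part' π n) = n
    rw [h2, he]
  right_inv := by
    rintro ⟨⟨y, z⟩, hy, hz, hpy, hc⟩
    obtain ⟨he, hcp, hp, hp', ⟨i, hi⟩, j, hj⟩ := part_spec π z
    have hyc : Commute y (part' π z) := by rw [hj]; exact hc.zpow_right j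
    obtain ⟨h1, h2⟩ := part_unique hyc hpy hp'
    refine Subtype.ext (Prod.ext h1 ?_)
    show part π z * part' π (y * part' π z) = z
    rw [h2, he]

theorem card_pairs_le {g : G} (hg : PiEl π (g : G ⧸ N)) :
    Nat.card (pairs N π g) ≤ Nat.card (pairs N π 1) := by
  have h1 : PiEl π ((1 : G) : G ⧸ N) := fun q hq hd => by
    rw [QuotientGroup.mk_one, orderOf_one] at hd
    exact absurd hd hq.not_dvd_one
  rw [Nat.card_congr (pairsEquiv N π hg), Nat.card_congr (pairsEquiv N π h1)]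
  classical
  -- translate inside each centralizer
  let f : pairs' N π g → pairs' N π 1 := fun p =>
    let h : ∃ z, g⁻¹ * z ∈ N ∧ Commute p.1.1 z := ⟨p.1.2, p.2.2.1, p.2.2.2.2⟩
    ⟨(p.1.1, h.choose⁻¹ * p.1.2), p.2.1, by
      have := mul_mem (inv_mem h.choose_spec.1) p.2.2.1
      simpa [mul_assoc] using this, p.2.2.2.1, h.choose_spec.2.inv_right.mul_right p.2.2.2.2⟩
  haveI : Finite (pairs' N π 1) := Subtype.finite
  refine Nat.card_le_card_of_injective f fun p q e => ?_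
  obtain ⟨⟨y, z⟩, hp⟩ := p
  obtain ⟨⟨y', z'⟩, hq⟩ := q
  have e' := congrArg Subtype.val e
  simp only [f, Prod.mk.injEq] at e'
  obtain ⟨rfl, e2⟩ := e'
  exact Subtype.ext (Prod.ext rfl (mul_left_cancel e2))

/-- the π-elements of the coset of `g`, under conjugation by `N` -/
def cosetPi (g : G) : SubMulAction ↥(N.map (ConjAct.toConjAct (G := G)).toMonoidHom) G where
  carrier := {x | g⁻¹ * x ∈ N ∧ PiEl π x}
  smul_mem' := by
    rintro ⟨_, n, hn, rfl⟩ x ⟨hx, hp⟩
    show g⁻¹ * (n * x * n⁻¹) ∈ N ∧ PiEl π (n * x * n⁻¹)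
    refine ⟨?_, piEl_conj hp n⟩
    rw [show g⁻¹ * (n * x * n⁻¹) = (g⁻¹ * n * g) * (g⁻¹ * x) * n⁻¹ by group]
    refine mul_mem (mul_mem ?_ hx) (inv_mem hn)
    simpa using Subgroup.Normal.conj_mem inferInstance n hn g⁻¹

theorem orbits_mul_card (g : G) :
    Nat.card (MulAction.orbitRel.Quotient ↥(N.map (ConjAct.toConjAct (G := G)).toMonoidHom) (cosetPi N π g)) *
      Nat.card N = Nat.card (pairs N π g) := by
  classical
  haveI : Finite (ConjAct G) := Finite.of_equiv G ConjAct.toConjAct.toEquiv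
  set M := N.map (ConjAct.toConjAct (G := G)).toMonoidHom
  haveI : Finite (cosetPi N π g) := Subtype.finite
  haveI := Fintype.ofFinite M
  haveI : ∀ m : M, Fintype (MulAction.fixedBy (cosetPi N π g) m) := fun m => Fintype.ofFinite _
  haveI := Fintype.ofFinite (MulAction.orbitRel.Quotient M (cosetPi N π g))
  have h := MulAction.sum_card_fixedBy_eq_card_orbits_mul_card_group M (cosetPi N π g)
  have hM : Nat.card M = Nat.card N :=
    Nat.card_congr (N.equivMapOfInjective _ (ConjAct.toConjAct (G := G)).injective).toEquiv.symm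
  rw [← hM, Nat.card_eq_fintype_card, Nat.card_eq_fintype_card, ← h]
  simp only [← Nat.card_eq_fintype_card]
  rw [← Nat.card_sigma]
  refine Nat.card_congr
    { toFun := fun p => ⟨(ConjAct.ofConjAct (p.1 : ConjAct G), (p.2.1 : G)), ?_, p.2.1.2.1, p.2.1.2.2, ?_⟩
      invFun := fun p => ⟨⟨ConjAct.toConjAct p.1.1, p.1.1, p.2.1, rfl⟩, ⟨⟨p.1.2, p.2.2.1, p.2.2.2.1⟩, ?_⟩⟩
      left_inv := fun p => rfl
      right_inv := fun p => rfl }
  · obtain ⟨n, hn, e⟩ := p.1.2
    rw [← e]; exact hn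
  · have h2 : ConjAct.ofConjAct (p.1 : ConjAct G) * (p.2.1 : G) * (ConjAct.ofConjAct (p.1 : ConjAct G))⁻¹ = p.2.1 :=
      congrArg Subtype.val p.2.2
    exact mul_inv_eq_iff_eq_mul.1 h2
  · refine Subtype.ext ?_
    show p.1.1 * p.1.2 * p.1.1⁻¹ = p.1.2
    rw [p.2.2.2.2.eq, mul_inv_cancel_right]

theorem orbits_le {g : G} (hg : PiEl π (g : G ⧸ N)) :
    Nat.card (MulAction.orbitRel.Quotient ↥(N.map (ConjAct.toConjAct (G := G)).toMonoidHom) (cosetPi N π g)) ≤
      Nat.card (MulAction.orbitRel.Quotient ↥(N.map (ConjAct.toConjAct (G := G)).toMonoidHom) (cosetPi N π 1)) := by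
  refine Nat.le_of_mul_le_mul_right (c := Nat.card N) ?_ Nat.card_pos
  rw [orbits_mul_card, orbits_mul_card]
  exact card_pairs_le N π hg

theorem piEl_of_class {C : ConjClasses G}
    (h : ∀ q : ℕ, q.Prime → (∃ g : G, ConjClasses.mk g = C ∧ q ∣ orderOf g) → q ∈ π) {g : G}
    (hg : ConjClasses.mk g = C) : PiEl π g := fun q hq hd => h q hq ⟨g, hg, hd⟩

theorem classPi_of_piEl {g : G} (h : PiEl π g) :
    ∀ q : ℕ, q.Prime → (∃ x : G, ConjClasses.mk x = ConjClasses.mk g ∧ q ∣ orderOf x) → q ∈ π := by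
  rintro q hq ⟨x, hx, hd⟩
  obtain ⟨c, hc⟩ := isConj_iff.1 (ConjClasses.mk_eq_mk_iff_isConj.1 hx.symm)
  refine piEl_conj h c q hq ?_
  rwa [hc]

theorem count_le :
    Nat.card {C : ConjClasses G // ∀ q : ℕ, q.Prime → (∃ g : G, ConjClasses.mk g = C ∧ q ∣ orderOf g) → q ∈ π} ≤
      Nat.card {C : ConjClasses N // ∀ q : ℕ, q.Prime → (∃ g : N, ConjClasses.mk g = C ∧ q ∣ orderOf g) → q ∈ π} *
      Nat.card {C : ConjClasses (G ⧸ N) //
        ∀ q : ℕ, q.Prime → (∃ g : (G ⧸ N), ConjClasses.mk g = C ∧ q ∣ orderOf g) → q ∈ π} := by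
  classical
  set M := N.map (ConjAct.toConjAct (G := G)).toMonoidHom
  let KQ := {C : ConjClasses (G ⧸ N) //
    ∀ q : ℕ, q.Prime → (∃ g : (G ⧸ N), ConjClasses.mk g = C ∧ q ∣ orderOf g) → q ∈ π}
  haveI : Fintype KQ := Fintype.ofFinite _
  let rep : KQ → G := fun D => ((ConjClasses.exists_rep D.1).choose).out
  have hrep : ∀ D : KQ, ConjClasses.mk ((rep D : G) : G ⧸ N) = D.1 := fun D => by
    show ConjClasses.mk ((((ConjClasses.exists_rep D.1).choose).out : G) : G ⧸ N) = D.1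
    rw [QuotientGroup.out_eq']
    exact (ConjClasses.exists_rep D.1).choose_spec
  let T := Σ D : KQ, MulAction.orbitRel.Quotient M (cosetPi N π (rep D))
  haveI : ∀ D : KQ, Finite (MulAction.orbitRel.Quotient M (cosetPi N π (rep D))) := fun D =>
    haveI : Finite (cosetPi N π (rep D)) := Subtype.finite
    Quotient.finite _
  let f : T → {C : ConjClasses G // ∀ q : ℕ, q.Prime → (∃ g : G, ConjClasses.mk g = C ∧ q ∣ orderOf g) → q ∈ π} :=
    fun t => Quotient.liftOn' t.2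
      (fun x => ⟨ConjClasses.mk (x : G), classPi_of_piEl π x.2.2⟩) fun x y hxy => by
        obtain ⟨⟨_, n, hn, rfl⟩, hm⟩ := hxy
        have h : n * (y : G) * n⁻¹ = x := congrArg Subtype.val hm
        exact Subtype.ext (ConjClasses.mk_eq_mk_iff_isConj.2 (isConj_iff.2 ⟨n, h⟩).symm)
  have hf : Function.Surjective f := by
    rintro ⟨C, hC⟩
    obtain ⟨x, rfl⟩ := ConjClasses.exists_rep C
    have hx : PiEl π x := piEl_of_class π hC rfl
    let D : KQ := ⟨ConjClasses.mk (x : G ⧸ N),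
      classPi_of_piEl π (hx.of_dvd (orderOf_map_dvd (QuotientGroup.mk' N) x))⟩
    obtain ⟨c, hc⟩ := isConj_iff.1 (ConjClasses.mk_eq_mk_iff_isConj.1 (hrep D).symm)
    obtain ⟨c, rfl⟩ := QuotientGroup.mk_surjective c
    refine ⟨⟨D, Quotient.mk'' ⟨c * x * c⁻¹, ?_, piEl_conj hx c⟩⟩, Subtype.ext ?_⟩
    · rw [← QuotientGroup.eq, QuotientGroup.mk_mul, QuotientGroup.mk_mul, QuotientGroup.mk_inv, hc]
    · exact ConjClasses.mk_eq_mk_iff_isConj.2 (isConj_iff.2 ⟨c, rfl⟩).symm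
  haveI : Finite T := inferInstance
  refine (Nat.card_le_card_of_surjective f hf).trans ?_
  rw [Nat.card_sigma]
  refine (Finset.sum_le_sum fun D _ => orbits_le N π (g := rep D) ?_).trans ?_
  · exact piEl_of_class π D.2 (hrep D)
  rw [Finset.sum_const, smul_eq_mul, Finset.card_univ, ← Nat.card_eq_fintype_card, mul_comm]
  refine Nat.mul_le_mul_right _ ?_
  haveI : Finite (cosetPi N π 1) := Subtype.finite
  let h : MulAction.orbitRel.Quotient M (cosetPi N π 1) →
      {C : ConjClasses N // ∀ q : ℕ, q.Prime → (∃ g : N, ConjClasses.mk g = C ∧ q ∣ orderOf g) → q ∈ π} :=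
    fun t => Quotient.liftOn' t
      (fun x => ⟨ConjClasses.mk (⟨x, by simpa using x.2.1⟩ : N),
        classPi_of_piEl π (x.2.2.of_dvd (by rw [Subgroup.orderOf_mk]))⟩) fun x y hxy => by
        obtain ⟨⟨_, n, hn, rfl⟩, hm⟩ := hxy
        have h : n * (y : G) * n⁻¹ = x := congrArg Subtype.val hm
        exact Subtype.ext (ConjClasses.mk_eq_mk_iff_isConj.2 (isConj_iff.2 ⟨⟨n, hn⟩, Subtype.ext h⟩).symm)
  refine Nat.card_le_card_of_injective h fun a b e => ?_
  induction a using Quotient.inductionOn' with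
  | h x =>
    induction b using Quotient.inductionOn' with
    | h y =>
      obtain ⟨c, hc⟩ := isConj_iff.1 (ConjClasses.mk_eq_mk_iff_isConj.1 (congrArg Subtype.val e).symm)
      exact Quotient.sound' ⟨⟨ConjAct.toConjAct (c : G), c, c.2, rfl⟩,
        Subtype.ext (show (c : G) * (y : G) * (c : G)⁻¹ = x from congrArg Subtype.val hc)⟩

end Cfsg.Agent.FGS3.PiCount
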