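import Mathlib

/-!
Power graphs: an element whose order is not a prime power and which generates a maximal
cyclic subgroup has its order determined by the power graph.
-/

namespace Cfsg.Agent.FGS3.PowerGraph

open Subgroup

variable {G : Type*} [Group G]

/-- Closed neighbourhood in the power graph. -/
def nb (x : G) : Set G := {y | y ∈ zpowers x ∨ x ∈ zpowers y}

lemma mem_nb {x y : G} : y ∈ nb x ↔ y ∈ zpowers x ∨ x ∈ zpowers y := Iff.rfl

lemma mem_nb_comm {x y : G} : y ∈ nb x ↔ x ∈ nb y := or_comm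

lemma self_mem_nb (x : G) : x ∈ nb x := Or.inl (mem_zpowers x)

lemma one_mem_nb (x : G) : (1 : G) ∈ nb x := Or.inl (one_mem _)

lemma nb_one : nb (1 : G) = Set.univ :=
  Set.eq_univ_of_forall fun y => Or.inr (one_mem _)

lemma nb_congr {x y : G} (h : zpowers x = zpowers y) : nb x = nb y := by
  ext z
  simp only [mem_nb]
  rw [← zpowers_le (g := x), h, zpowers_le]

lemma exists_separating_divisor {n a b : ℕ} (hn : ¬ IsPrimePow n) (hn1 : n ≠ 1)
    (hn0 : n ≠ 0) (hb : b ∣ n) (ha1 : 1 < a) (hab : a ∣ b) (hne : a ≠ b) :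
    ∃ w, w ∣ n ∧ ¬ ((w ∣ a ∨ a ∣ w) ↔ (w ∣ b ∨ b ∣ w)) := by
  have hb0 : b ≠ 0 := ne_zero_of_dvd_ne_zero hn0 hb
  by_cases hbpp : IsPrimePow b
  · obtain ⟨s, j, hs, _, rfl⟩ := (isPrimePow_nat_iff b).mp hbpp
    obtain ⟨i, -, rfl⟩ := (Nat.dvd_prime_pow hs).mp hab
    obtain ⟨t, ht, htn, hts⟩ : ∃ t, t.Prime ∧ t ∣ n ∧ t ≠ s := by
      by_contra! hall
      refine hn (isPrimePow_iff_unique_prime_dvd.mpr ⟨s, ⟨hs, ?_⟩, fun t ht => hall t ht.1 ht.2⟩)
      obtain ⟨t, ht, htn⟩ := Nat.exists_prime_and_dvd hn1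
      rw [← hall t ht htn]
      exact htn
    have hcop : ∀ k, Nat.Coprime (s ^ k) t := fun k =>
      ((Nat.coprime_primes hs ht).mpr (Ne.symm hts)).pow_left k
    refine ⟨s ^ i * t, (hcop i).mul_dvd_of_dvd_of_dvd (hab.trans hb) htn, fun h => ?_⟩
    rcases h.mp (Or.inr (dvd_mul_right _ _)) with h1 | h1
    · exact hts ((Nat.prime_dvd_prime_iff_eq ht hs).mp
        (ht.dvd_of_dvd_pow ((dvd_mul_left _ _).trans h1)))
    · exact hne (Nat.dvd_antisymm hab ((hcop j).dvd_of_dvd_mul_right h1))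
  · have hb1 : b ≠ 1 := by
      rintro rfl
      have := Nat.le_of_dvd one_pos hab
      omega
    by_cases happ : IsPrimePow a
    · obtain ⟨s, i, hs, hi, rfl⟩ := (isPrimePow_nat_iff a).mp happ
      obtain ⟨t, ht, htb, hts⟩ : ∃ t, t.Prime ∧ t ∣ b ∧ t ≠ s := by
        by_contra! hall
        refine hbpp (isPrimePow_iff_unique_prime_dvd.mpr
          ⟨s, ⟨hs, ?_⟩, fun t ht => hall t ht.1 ht.2⟩)
        exact (dvd_pow_self s hi.ne').trans hab
      refine ⟨t, htb.trans hb, fun h => ?_⟩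
      have hta : ¬ t ∣ s ^ i := fun h' =>
        hts ((Nat.prime_dvd_prime_iff_eq ht hs).mp (ht.dvd_of_dvd_pow h'))
      rcases h.mpr (Or.inl htb) with h1 | h1
      · exact hta h1
      · rcases (Nat.dvd_prime ht).mp h1 with h2 | h2
        · omega
        · exact hta (h2 ▸ dvd_rfl)
    · obtain ⟨s, e, hs, hsb, hsa⟩ : ∃ s e, s.Prime ∧ s ^ e ∣ b ∧ ¬ s ^ e ∣ a := by
        by_contra! hall
        exact hne (Nat.dvd_antisymm hab
          ((Nat.dvd_iff_prime_pow_dvd_dvd a b).mpr fun s e hs h => hall s e hs h))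
      refine ⟨s ^ e, hsb.trans hb, fun h => ?_⟩
      rcases h.mpr (Or.inl hsb) with h1 | h1
      · exact hsa h1
      · obtain ⟨i, -, rfl⟩ := (Nat.dvd_prime_pow hs).mp h1
        rcases Nat.eq_zero_or_pos i with rfl | hi
        · simp at ha1
        · exact happ (hs.isPrimePow.pow hi.ne')

variable [Finite G]

lemma mem_zpowers_iff_orderOf_dvd {c x y : G} (hx : x ∈ zpowers c) (hy : y ∈ zpowers c) :
    x ∈ zpowers y ↔ orderOf x ∣ orderOf y := by
  constructor
  · exact orderOf_dvd_of_mem_zpowers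
  · intro hdvd
    let K := zpowers c
    let x' : K := ⟨x, hx⟩
    let y' : K := ⟨y, hy⟩
    have hox : orderOf x' = orderOf x := Subgroup.orderOf_mk x hx
    have hoy : orderOf y' = orderOf y := Subgroup.orderOf_mk y hy
    have hk : orderOf y' ∣ Nat.card K := orderOf_dvd_natCard y'
    letI : CommGroup K := IsCyclic.commGroup
    have hle : zpowers y' ≤ (powMonoidHom (orderOf y') : K →* K).ker := by
      rw [zpowers_le, MonoidHom.mem_ker, powMonoidHom_apply]
      exact pow_orderOf_eq_one y'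
    have heq : zpowers y' = (powMonoidHom (orderOf y') : K →* K).ker := by
      refine Subgroup.eq_of_le_of_card_ge hle ?_
      rw [IsCyclic.card_powMonoidHom_ker, Nat.gcd_eq_right hk, Nat.card_zpowers]
    have hx' : x' ∈ zpowers y' := by
      rw [heq, MonoidHom.mem_ker, powMonoidHom_apply, ← orderOf_dvd_iff_pow_eq_one, hox, hoy]
      exact hdvd
    obtain ⟨k, hk'⟩ := mem_zpowers_iff.mp hx'
    exact mem_zpowers_iff.mpr ⟨k, congrArg Subtype.val hk'⟩

lemma zpowers_eq_of_orderOf_eq {c x y : G} (hx : x ∈ zpowers c) (hy : y ∈ zpowers c)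
    (h : orderOf x = orderOf y) : zpowers x = zpowers y :=
  le_antisymm (zpowers_le.mpr ((mem_zpowers_iff_orderOf_dvd hx hy).mpr h.dvd))
    (zpowers_le.mpr ((mem_zpowers_iff_orderOf_dvd hy hx).mpr h.symm.dvd))

lemma exists_mem_zpowers_orderOf_eq (c : G) {w : ℕ} (hw : w ∣ orderOf c) :
    ∃ z ∈ zpowers c, orderOf z = w :=
  ⟨c ^ (orderOf c / w), pow_mem (mem_zpowers c) _,
    orderOf_pow_orderOf_div (orderOf_pos c).ne' hw⟩

/-- Two elements of different orders of a cyclic group of non-prime-power order are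
separated by their neighbourhoods. -/
lemma separates {c a b : G} (hn : ¬ IsPrimePow (orderOf c)) (ha : a ∈ zpowers c)
    (hb : b ∈ zpowers c) (ha1 : a ≠ 1) (hb1 : b ≠ 1) (hne : orderOf a ≠ orderOf b) :
    ∃ z ∈ zpowers c, ¬ (z ∈ nb a ↔ z ∈ nb b) := by
  by_contra! hall
  have hoa : 1 < orderOf a := by
    have := orderOf_pos a
    have h1 : orderOf a ≠ 1 := fun h => ha1 (orderOf_eq_one_iff.mp h)
    omega
  have hob : 1 < orderOf b := by
    have := orderOf_pos b
    have h1 : orderOf b ≠ 1 := fun h => hb1 (orderOf_eq_one_iff.mp h)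
    omega
  have hda := orderOf_dvd_of_mem_zpowers ha
  have hdb := orderOf_dvd_of_mem_zpowers hb
  have hc1 : orderOf c ≠ 1 := fun h => by
    rw [h, Nat.dvd_one] at hda
    omega
  have hrel : ∀ {u : G}, u ∈ zpowers c → ∀ {z : G}, z ∈ zpowers c →
      (z ∈ nb u ↔ orderOf z ∣ orderOf u ∨ orderOf u ∣ orderOf z) := by
    intro u hu z hz
    rw [mem_nb, mem_zpowers_iff_orderOf_dvd hz hu, mem_zpowers_iff_orderOf_dvd hu hz]
  have hcomp := (hrel hb ha).mp ((hall a ha).mp (self_mem_nb a))
  rcases hcomp with hd | hd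
  · obtain ⟨w, hw, hsep⟩ :=
      exists_separating_divisor hn hc1 (orderOf_pos c).ne' hdb hoa hd hne
    obtain ⟨z, hz, rfl⟩ := exists_mem_zpowers_orderOf_eq c hw
    exact hsep ((hrel ha hz).symm.trans ((hall z hz).trans (hrel hb hz)))
  · obtain ⟨w, hw, hsep⟩ :=
      exists_separating_divisor hn hc1 (orderOf_pos c).ne' hda hob hd hne.symm
    obtain ⟨z, hz, rfl⟩ := exists_mem_zpowers_orderOf_eq c hw
    exact hsep ((hrel hb hz).symm.trans ((hall z hz).symm.trans (hrel ha hz)))

lemma ncard_generators (x : G) :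
    {z : G | zpowers z = zpowers x}.ncard = Nat.totient (orderOf x) := by
  classical
  haveI := Fintype.ofFinite G
  have hset : {z : G | zpowers z = zpowers x} =
      Subtype.val '' {z : zpowers x | orderOf z = orderOf x} := by
    ext z
    constructor
    · intro hz
      have hz' : zpowers z = zpowers x := hz
      refine ⟨⟨z, hz' ▸ mem_zpowers z⟩, ?_, rfl⟩
      show orderOf (⟨z, _⟩ : zpowers x) = orderOf x
      rw [Subgroup.orderOf_mk, ← Nat.card_zpowers, hz', Nat.card_zpowers]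
    · rintro ⟨⟨z, hz⟩, ho, rfl⟩
      refine zpowers_eq_of_orderOf_eq hz (mem_zpowers x) ?_
      simpa [Subgroup.orderOf_mk] using ho
  rw [hset, Set.ncard_image_of_injective _ Subtype.val_injective, Set.ncard_eq_toFinset_card',
    Set.toFinset_ofPred]
  exact IsCyclic.card_orderOf_eq_totient (α := zpowers x) (by rw [Fintype.card_zpowers])

variable {H : Type*} [Group H] [Finite H]

theorem exists_orderOf_eq (e : G ≃ H)
    (he : ∀ x y : G, (x ∈ zpowers y ∨ y ∈ zpowers x) ↔
      (e x ∈ zpowers (e y) ∨ e y ∈ zpowers (e x)))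
    {c : G} (hn : ¬ IsPrimePow (orderOf c)) (hc1 : c ≠ 1)
    (hmax : nb c = (zpowers c : Set G)) : ∃ d : H, orderOf d = orderOf c := by
  classical
  have heN : ∀ x y : G, e y ∈ nb (e x) ↔ y ∈ nb x := fun x y => (he y x).symm
  set n := orderOf c with hndef
  let M : Set G := (zpowers c : Set G)
  let S : Set H := e '' M
  let UG : Set G := {v | v ∈ M ∧ M ⊆ nb v}
  let UH : Set H := {u | u ∈ S ∧ S ⊆ nb u}
  have hnb_gen : ∀ v : G, zpowers v = zpowers c → nb v = M := fun v hv =>
    (nb_congr hv).trans hmax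
  have hUG : UG = insert 1 {v | zpowers v = zpowers c} := by
    ext v
    constructor
    · rintro ⟨hv, hsub⟩
      by_cases hv1 : v = 1
      · exact Or.inl hv1
      refine Or.inr (zpowers_eq_of_orderOf_eq hv (mem_zpowers c) ?_)
      by_contra hne
      obtain ⟨z, hz, hsep⟩ := separates hn hv (mem_zpowers c) hv1 hc1 hne
      exact hsep ⟨fun _ => hmax.symm ▸ hz, fun _ => hsub hz⟩
    · rintro (rfl | hv)
      · exact ⟨one_mem _, by rw [nb_one]; exact Set.subset_univ _⟩
      · refine ⟨?_, by rw [hnb_gen v hv]⟩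
        show v ∈ zpowers c
        rw [← (hv : zpowers v = zpowers c)]
        exact mem_zpowers v
  -- the twin class of a point of `M` outside `UG`
  have hclass : ∀ v ∈ M, v ∉ UG → ∀ y, nb y = nb v → zpowers y = zpowers v := by
    intro v hv hvU y hy
    have hv1 : v ≠ 1 := by
      rintro rfl
      exact hvU (hUG ▸ Or.inl rfl)
    have hnuniv : nb v ≠ Set.univ := fun h => hvU ⟨hv, h ▸ Set.subset_univ _⟩
    have hy1 : y ≠ 1 := by
      rintro rfl
      exact hnuniv (hy ▸ nb_one)
    have hcy : c ∈ nb y := hy ▸ Or.inr hv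
    have hyM : y ∈ M := by
      show y ∈ (zpowers c : Set G)
      rw [← hmax]
      exact mem_nb_comm.mp hcy
    refine zpowers_eq_of_orderOf_eq hyM hv ?_
    by_contra hne
    obtain ⟨z, _, hsep⟩ := separates hn hyM hv hy1 hv1 hne
    exact hsep (by rw [hy])
  have hUH : UH = e '' UG := by
    ext u
    constructor
    · rintro ⟨⟨v, hv, rfl⟩, hsub⟩
      exact ⟨v, ⟨hv, fun w hw => (heN v w).mp (hsub ⟨w, hw, rfl⟩)⟩, rfl⟩
    · rintro ⟨v, ⟨hv, hsub⟩, rfl⟩
      refine ⟨⟨v, hv, rfl⟩, ?_⟩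
      rintro _ ⟨w, hw, rfl⟩
      exact (heN v w).mpr (hsub hw)
  have h1UH : (1 : H) ∈ UH := by
    refine ⟨?_, by rw [nb_one]; exact Set.subset_univ _⟩
    refine ⟨e.symm 1, ?_, e.apply_symm_apply 1⟩
    show e.symm 1 ∈ (zpowers c : Set G)
    rw [← hmax, ← heN, e.apply_symm_apply]
    exact one_mem_nb _
  have h1gen : (1 : G) ∉ {v : G | zpowers v = zpowers c} := fun h => hc1 (zpowers_eq_bot.mp
    ((show zpowers (1 : G) = zpowers c from h).symm.trans zpowers_one_eq_bot))
  have hcardU : (UH \ {1}).ncard = Nat.totient n := by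
    rw [Set.ncard_sdiff_singleton_of_mem h1UH, hUH,
      Set.ncard_image_of_injective _ e.injective, hUG,
      Set.ncard_insert_of_notMem h1gen,
      ncard_generators]
    rfl
  -- all non-identity members of `UH` have neighbourhood `S`
  have hUnb : ∀ u ∈ UH, u ≠ 1 → nb u = S := by
    intro u hu hu1
    have hu' : u ∈ e '' insert 1 {v | zpowers v = zpowers c} := by
      rw [← hUG, ← hUH]; exact hu
    obtain ⟨v, hv, rfl⟩ := hu'
    have himg : ∀ v : G, nb (e v) = e '' nb v := fun v => by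
      ext z
      obtain ⟨w, rfl⟩ := e.surjective z
      rw [e.injective.mem_set_image]
      exact heN v w
    rcases hv with rfl | hv
    · -- then `G` is generated by `c`
      have hMuniv : M = Set.univ := by
        have hw : e.symm 1 ∈ insert (1 : G) {v | zpowers v = zpowers c} := by
          rw [← hUG]
          have := h1UH
          rw [hUH] at this
          obtain ⟨w, hw, hwe⟩ := this
          rw [← hwe, e.symm_apply_apply]; exact hw
        rcases hw with hw | hw
        · exact absurd (by rw [← hw, e.apply_symm_apply]) hu1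
        · rw [← hnb_gen _ hw]
          refine Set.eq_univ_of_forall fun z => (heN _ z).mp ?_
          rw [e.apply_symm_apply, nb_one]; exact Set.mem_univ _
      show nb (e 1) = e '' M
      rw [himg, nb_one, hMuniv]
    · rw [himg, hnb_gen v hv]
  have hne : (UH \ {1}).Nonempty :=
    Set.nonempty_of_ncard_ne_zero (by rw [hcardU]; exact (Nat.totient_pos.mpr (orderOf_pos c)).ne')
  obtain ⟨d, ⟨hdU, hd1⟩, hdmax⟩ :=
    Set.exists_max_image (UH \ {1}) orderOf (Set.toFinite _) hne
  rw [Set.mem_singleton_iff] at hd1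
  have hdS : nb d = S := hUnb d hdU hd1
  have hupd : ∀ x ∈ S, x ∉ zpowers d → d ∈ zpowers x ∧ orderOf d < orderOf x := by
    intro x hx hxd
    have hx' : x ∈ nb d := hdS ▸ hx
    have hdx : d ∈ zpowers x := hx'.resolve_left hxd
    refine ⟨hdx, ?_⟩
    rcases (Nat.le_of_dvd (orderOf_pos x) (orderOf_dvd_of_mem_zpowers hdx)).lt_or_eq with h | h
    · exact h
    · exact absurd (zpowers_eq_of_orderOf_eq (mem_zpowers x) hdx h.symm ▸ mem_zpowers x) hxd
  have hUd : ∀ u ∈ UH, u ≠ 1 → u ∈ zpowers d := by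
    intro u hu hu1
    by_contra hud
    have := (hupd u hu.1 hud).2
    have := hdmax u ⟨hu, hu1⟩
    omega
  have hbig : Nat.totient n < 2 * Nat.totient (orderOf d) := by
    rw [← hcardU]
    have hpos := Nat.totient_pos.mpr (orderOf_pos d)
    by_cases hpp : IsPrimePow (orderOf d)
    · obtain ⟨r, b, hr, hb, hrb⟩ := (isPrimePow_nat_iff _).mp hpp
      have hsub : UH \ {1} ⊆ (zpowers d : Set H) \ {1} := fun u hu =>
        ⟨hUd u hu.1 hu.2, hu.2⟩
      refine lt_of_le_of_lt (Set.ncard_le_ncard hsub (Set.toFinite _)) ?_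
      rw [Set.ncard_sdiff_singleton_of_mem (one_mem _), ← Nat.card_coe_set_eq]
      change Nat.card (zpowers d) - 1 < _
      rw [Nat.card_zpowers, ← hrb, Nat.totient_prime_pow hr hb]
      obtain ⟨b, rfl⟩ := Nat.exists_eq_succ_of_ne_zero hb.ne'
      have h2 := hr.two_le
      have hpow : 0 < r ^ b := Nat.pow_pos hr.pos
      rw [pow_succ, Nat.succ_sub_one]
      have : r ^ b * r ≤ 2 * (r ^ b * (r - 1)) := by
        rw [mul_left_comm]
        exact Nat.mul_le_mul_left _ (by omega)
      have : 0 < r ^ b * r := Nat.mul_pos hpow hr.pos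
      omega
    · have hsub : UH \ {1} ⊆ {u | zpowers u = zpowers d} := by
        rintro u ⟨hu, hu1⟩
        refine zpowers_eq_of_orderOf_eq (hUd u hu hu1) (mem_zpowers d) ?_
        by_contra hne
        obtain ⟨z, _, hsep⟩ := separates hpp (hUd u hu hu1) (mem_zpowers d) hu1 hd1 hne
        exact hsep (by rw [hUnb u hu hu1, hdS])
      refine lt_of_le_of_lt (Set.ncard_le_ncard hsub (Set.toFinite _)) ?_
      rw [ncard_generators]
      omega
  -- every element of `S` above `d` corresponds to an element of order `n / 2`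
  have hhalf : ∀ x ∈ S, x ∉ zpowers d → x ∉ UH ∧ 2 * orderOf (e.symm x) = n := by
    intro x hx hxd
    obtain ⟨hdx, hlt⟩ := hupd x hx hxd
    have hxU : x ∉ UH := by
      intro h
      have hx1 : x ≠ 1 := fun h1 => hxd (h1 ▸ one_mem _)
      have := hdmax x ⟨h, hx1⟩
      omega
    refine ⟨hxU, ?_⟩
    obtain ⟨v, hv, rfl⟩ := hx
    rw [e.symm_apply_apply]
    have hvU : v ∉ UG := fun h => hxU (hUH ▸ ⟨v, h, rfl⟩)
    have hsub : {y : H | zpowers y = zpowers (e v)} ⊆ e '' {y | zpowers y = zpowers v} := by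
      intro y hy
      obtain ⟨w, rfl⟩ := e.surjective y
      refine ⟨w, hclass v hv hvU w ?_, rfl⟩
      ext z
      rw [← heN, ← heN, nb_congr hy]
    have hle := Set.ncard_le_ncard hsub (Set.toFinite _)
    rw [Set.ncard_image_of_injective _ e.injective, ncard_generators, ncard_generators] at hle
    have hle' : Nat.totient (orderOf d) ≤ Nat.totient (orderOf (e v)) :=
      Nat.le_of_dvd (Nat.totient_pos.mpr (orderOf_pos _))
        (Nat.totient_dvd_of_dvd (orderOf_dvd_of_mem_zpowers hdx))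
    obtain ⟨k, hk⟩ := Nat.totient_dvd_of_dvd (orderOf_dvd_of_mem_zpowers
      (show v ∈ zpowers c from hv))
    have hk1 : k = 1 := by
      have hnpos := Nat.totient_pos.mpr (orderOf_pos c)
      have hvpos := Nat.totient_pos.mpr (orderOf_pos v)
      rw [← hndef] at hk
      rcases k with _ | _ | k
      · rw [hndef] at hk; simp only [mul_zero] at hk; omega
      · rfl
      · have : Nat.totient (orderOf v) * 2 ≤ Nat.totient (orderOf v) * (k + 1 + 1) :=
          Nat.mul_le_mul_left _ (by omega)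
        omega
    rw [hk1, mul_one] at hk
    rcases Nat.eq_or_eq_of_totient_eq_totient
        (orderOf_dvd_of_mem_zpowers (show v ∈ zpowers c from hv)) hk.symm with h | h
    · refine absurd ?_ hvU
      rw [hUG]
      exact Or.inr (zpowers_eq_of_orderOf_eq hv (mem_zpowers c) h)
    · exact h
  have hSd : S ⊆ (zpowers d : Set H) := by
    intro x hx
    by_contra hxd
    obtain ⟨hxU, hxn⟩ := hhalf x hx hxd
    refine hxU ⟨hx, fun z hz => ?_⟩
    by_cases hzd : z ∈ zpowers d
    · exact Or.inl (zpowers_le.mpr (hupd x hx hxd).1 hzd)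
    · obtain ⟨hzU, hzn⟩ := hhalf z hz hzd
      have hmem : ∀ y ∈ S, e.symm y ∈ zpowers c := by
        rintro _ ⟨w, hw, rfl⟩
        rw [e.symm_apply_apply]; exact hw
      have hz' : zpowers (e.symm z) = zpowers (e.symm x) :=
        zpowers_eq_of_orderOf_eq (hmem z hz) (hmem x hx) (by omega)
      rw [← e.apply_symm_apply x, ← e.apply_symm_apply z, heN, ← nb_congr hz']
      exact self_mem_nb _
  refine ⟨d, ?_⟩
  have hdS' : (zpowers d : Set H) ⊆ S := fun z hz => hdS ▸ Or.inl hz
  have hcard : Nat.card (zpowers d) = Nat.card (zpowers c) := by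
    show Nat.card ((zpowers d : Set H)) = Nat.card ((zpowers c : Set G))
    rw [Nat.card_coe_set_eq, Nat.card_coe_set_eq, Set.Subset.antisymm hdS' hSd]
    exact Set.ncard_image_of_injective _ e.injective
  rwa [Nat.card_zpowers, Nat.card_zpowers] at hcard

theorem exists_orderOf_eq_mul (e : G ≃ H)
    (he : ∀ x y : G, (x ∈ zpowers y ∨ y ∈ zpowers x) ↔
      (e x ∈ zpowers (e y) ∨ e y ∈ zpowers (e x)))
    {p q : ℕ} (hp : p.Prime) (hq : q.Prime) (hpq : p ≠ q)
    (h : ∃ g : G, orderOf g = p * q) : ∃ g : H, orderOf g = p * q := by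
  obtain ⟨g, hg⟩ := h
  obtain ⟨c, hgc, hcmax⟩ := Set.exists_max_image {c : G | g ∈ zpowers c} orderOf
    (Set.toFinite _) ⟨g, mem_zpowers g⟩
  have hdvd : p * q ∣ orderOf c := hg ▸ orderOf_dvd_of_mem_zpowers hgc
  have hn : ¬ IsPrimePow (orderOf c) := fun h => by
    obtain ⟨r, _, huniq⟩ := isPrimePow_iff_unique_prime_dvd.mp h
    exact hpq ((huniq p ⟨hp, (dvd_mul_right _ _).trans hdvd⟩).trans
      (huniq q ⟨hq, (dvd_mul_left _ _).trans hdvd⟩).symm)
  have hc1 : c ≠ 1 := by
    rintro rfl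
    rw [orderOf_one, Nat.dvd_one, mul_eq_one] at hdvd
    exact hp.one_lt.ne' hdvd.1
  have hmax : nb c = (zpowers c : Set G) := by
    refine Set.Subset.antisymm ?_ fun y hy => Or.inl hy
    rintro y (hy | hy)
    · exact hy
    · have hle := hcmax y (zpowers_le.mpr hy hgc)
      have heq : zpowers c = zpowers y := Subgroup.eq_of_le_of_card_ge (zpowers_le.mpr hy)
        (by rwa [Nat.card_zpowers, Nat.card_zpowers])
      rw [SetLike.mem_coe, heq]
      exact mem_zpowers y
  obtain ⟨d, hd⟩ := exists_orderOf_eq e he hn hc1 hmax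
  obtain ⟨z, _, hz⟩ := exists_mem_zpowers_orderOf_eq d (hd ▸ hdvd)
  exact ⟨z, hz⟩

end Cfsg.Agent.FGS3.PowerGraph
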