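import Mathlib
import Cfsg.Agent.TwoGroups.ExtSub

/-!
Groups all of whose `p`-by-cyclic subgroups are cyclic or dihedral.
-/

set_option autoImplicit false
set_option linter.unusedSectionVars false

namespace Cfsg.Agent.FGS3.RestrictedPCyclic

open Subgroup

variable {G : Type*} [Group G] [Finite G] {p : ℕ} [Fact p.Prime]

/-- A normal `p`-subgroup with cyclic quotient makes every Sylow `p`-subgroup normal with cyclic
quotient. -/
theorem sylow_normal_of_cyclic_quotient (R : Subgroup G) [R.Normal] (hR : IsPGroup p R)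
    (hc : IsCyclic (G ⧸ R)) (S : Sylow p G) :
    ∃ _ : (S : Subgroup G).Normal, IsCyclic (G ⧸ (S : Subgroup G)) := by
  have hRS : R ≤ (S : Subgroup G) := by
    rw [← S.3 (hR.to_sup_of_normal_left S.2) le_sup_right]; exact le_sup_left
  letI : CommGroup (G ⧸ R) := IsCyclic.commGroup
  have hn : (S : Subgroup G).Normal := ⟨fun s hs g => by
    have h1 : g * s * g⁻¹ * s⁻¹ ∈ R := by
      rw [← QuotientGroup.eq_one_iff]
      simp [mul_comm]
    simpa using mul_mem (hRS h1) hs⟩
  refine ⟨hn, ?_⟩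
  haveI := hn
  exact isCyclic_of_surjective (QuotientGroup.map R (S : Subgroup G) (MonoidHom.id G) hRS)
    (fun q => QuotientGroup.induction_on q fun g => ⟨QuotientGroup.mk g, rfl⟩)

/-- In a finite cyclic group there is one subgroup of each prime order. -/
theorem mem_zpowers_of_orderOf_prime {K : Type*} [Group K] [Finite K] [IsCyclic K] {a b : K}
    {r : ℕ} (hr : r.Prime) (ha : orderOf a = r) (hb : b ^ r = 1) : b ∈ zpowers a := by
  classical
  cases nonempty_fintype K
  have hsub : Finset.univ.filter (· ∈ zpowers a) ⊆ Finset.univ.filter (fun x : K => x ^ r = 1) := by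
    intro x hx
    obtain ⟨i, rfl⟩ := mem_zpowers_iff.1 (Finset.mem_filter.1 hx).2
    rw [Finset.mem_filter, ← ha, ← zpow_natCast, ← zpow_mul, mul_comm, zpow_mul, zpow_natCast,
      pow_orderOf_eq_one, one_zpow]
    exact ⟨Finset.mem_univ _, rfl⟩
  have hcard : (Finset.univ.filter (· ∈ zpowers a)).card = r := by
    rw [← Fintype.card_subtype, ← Nat.card_eq_fintype_card, Nat.card_zpowers, ha]
  have heq := Finset.eq_of_subset_of_card_le hsub
    (hcard.symm ▸ IsCyclic.card_pow_eq_one_le hr.pos)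
  have := heq.symm ▸ Finset.mem_filter.2 ⟨Finset.mem_univ b, hb⟩
  exact (Finset.mem_filter.1 this).2

/-- A central cyclic Sylow subgroup with cyclic quotient gives a cyclic group. -/
theorem isCyclic_of_central (S : Sylow p G) [(S : Subgroup G).Normal] [IsCyclic (S : Subgroup G)]
    [IsCyclic (G ⧸ (S : Subgroup G))] (hc : ∀ h : G, ∀ s ∈ (S : Subgroup G), Commute h s) :
    IsCyclic G := by
  obtain ⟨s, hs⟩ := IsCyclic.exists_generator (α := (S : Subgroup G))
  obtain ⟨q, hq⟩ := IsCyclic.exists_generator (α := G ⧸ (S : Subgroup G))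
  obtain ⟨h, rfl⟩ := QuotientGroup.mk'_surjective (S : Subgroup G) q
  set m := (S : Subgroup G).index with hm
  have hdvd : m ∣ orderOf h := by
    have := orderOf_map_dvd (QuotientGroup.mk' (S : Subgroup G)) h
    rwa [orderOf_eq_card_of_forall_mem_zpowers hq] at this
  have h1 : orderOf (h ^ (orderOf h / m)) = m := orderOf_pow_orderOf_div (orderOf_pos h).ne' hdvd
  have hso : orderOf (s : G) = Nat.card (S : Subgroup G) := by
    rw [Subgroup.orderOf_coe, orderOf_eq_card_of_forall_mem_zpowers hs]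
  apply isCyclic_of_orderOf_eq_card ((s : G) * h ^ (orderOf h / m))
  rw [((hc _ s s.2).symm).orderOf_mul_eq_mul_orderOf_of_coprime (by
    rw [h1, hso, hm]; exact S.card_coprime_index), h1, hso, hm, card_mul_index]

/-- The hypothesis of the restricted-subgroup condition. -/
def Restricted (p : ℕ) (G : Type*) [Group G] : Prop :=
  ∀ H : Subgroup G, (∀ S : Sylow p ↥H, (S : Subgroup ↥H).Normal) →
    (∀ (S : Sylow p ↥H) [(S : Subgroup ↥H).Normal], IsCyclic (↥H ⧸ (S : Subgroup ↥H))) →
    IsCyclic H ∨ (∃ n : ℕ, Nonempty (H ≃* DihedralGroup (p ^ n)))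

theorem isCyclic_sylow (hp : p ≠ 2) (hG : Restricted p G) (P : Sylow p G) :
    IsCyclic (P : Subgroup G) := by
  haveI : Subsingleton ((P : Subgroup G) ⧸ (⊤ : Subgroup (P : Subgroup G))) :=
    QuotientGroup.subsingleton_quotient_top
  have hall := fun S => sylow_normal_of_cyclic_quotient (⊤ : Subgroup (P : Subgroup G))
    (P.2.to_subgroup _) isCyclic_of_subsingleton (p := p) S
  rcases hG (P : Subgroup G) (fun S => (hall S).1) (fun S _ => (hall S).2) with h | ⟨n, ⟨e⟩⟩
  · exact h
  · exfalso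
    obtain ⟨m, hm⟩ := IsPGroup.iff_card.mp P.2
    have h2 : 2 ∣ p ^ m := ⟨p ^ n, by rw [← hm, Nat.card_congr e.toEquiv, DihedralGroup.nat_card]⟩
    exact hp ((Nat.prime_dvd_prime_iff_eq Nat.prime_two Fact.out).mp (Nat.prime_two.dvd_of_dvd_pow h2)).symm

/-- An element normalizing but not centralizing a `p`-subgroup is an involution. -/
theorem orderOf_eq_two_of_normalizes (hp : p ≠ 2) (hG : Restricted p G) {R : Subgroup G}
    (hR : IsPGroup p R) {y : G} (hy : y ∈ normalizer (R : Set G))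
    (hyc : y ∉ centralizer (R : Set G)) : orderOf y = 2 := by
  set H : Subgroup G := R ⊔ zpowers y
  have hHn : H ≤ normalizer (R : Set G) := sup_le le_normalizer (zpowers_le.mpr hy)
  haveI : (R.subgroupOf H).Normal := normal_subgroupOf_of_le_normalizer hHn
  have hyH : y ∈ H := mem_sup_right (mem_zpowers y)
  have hcyc : IsCyclic (H ⧸ R.subgroupOf H) := by
    refine ⟨⟨QuotientGroup.mk' _ ⟨y, hyH⟩, fun q => ?_⟩⟩
    have htop : R.subgroupOf H ⊔ zpowers (⟨y, hyH⟩ : H) = ⊤ := by
      have hz : zpowers (⟨y, hyH⟩ : H) = (zpowers y).subgroupOf H := by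
        apply Subgroup.map_injective H.subtype_injective
        rw [MonoidHom.map_zpowers, subgroupOf_map_subtype, inf_of_le_left le_sup_right]; rfl
      rw [hz, ← subgroupOf_sup le_sup_left le_sup_right, subgroupOf_self]
    have := congrArg (Subgroup.map (QuotientGroup.mk' (R.subgroupOf H))) htop
    rw [Subgroup.map_sup, QuotientGroup.map_mk'_self, bot_sup_eq, MonoidHom.map_zpowers,
      map_top_of_surjective _ (QuotientGroup.mk'_surjective _)] at this
    show q ∈ zpowers _
    rw [this]; exact mem_top q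
  have hall := fun S => sylow_normal_of_cyclic_quotient (R.subgroupOf H)
    ((hR.of_equiv (subgroupOfEquivOfLe (le_sup_left : R ≤ H)).symm)) hcyc (p := p) S
  rcases hG H (fun S => (hall S).1) (fun S _ => (hall S).2) with h | ⟨n, ⟨e⟩⟩
  · refine absurd (mem_centralizer_iff.mpr fun c hc => ?_) hyc
    obtain ⟨g, hg⟩ := IsCyclic.exists_generator (α := H)
    obtain ⟨i, hi⟩ := mem_zpowers_iff.1 (hg ⟨c, mem_sup_left hc⟩)
    obtain ⟨j, hj⟩ := mem_zpowers_iff.1 (hg ⟨y, hyH⟩)
    have := congrArg Subtype.val ((Commute.refl g).zpow_zpow i j).eq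
    rw [hi, hj] at this
    exact this
  · have key : ∀ z : H, orderOf z ≠ 2 → ∃ i, e z = DihedralGroup.r i := by
      intro z hz
      cases hz' : e z with
      | r i => exact ⟨i, rfl⟩
      | sr i => exact absurd (by rw [← e.orderOf_eq, hz', DihedralGroup.orderOf_sr]) hz
    by_contra h2
    obtain ⟨i, hi⟩ := key ⟨y, hyH⟩ (by rwa [Subgroup.orderOf_mk])
    refine hyc (mem_centralizer_iff.mpr fun c hc => ?_)
    obtain ⟨j, hj⟩ := key ⟨c, mem_sup_left hc⟩ (by
      rw [Subgroup.orderOf_mk]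
      obtain ⟨k, hk⟩ := IsPGroup.iff_orderOf.mp hR ⟨c, hc⟩
      rw [Subgroup.orderOf_mk] at hk
      rw [hk]; intro hh
      exact hp ((Nat.prime_dvd_prime_iff_eq Nat.prime_two Fact.out).mp
        (Nat.prime_two.dvd_of_dvd_pow (dvd_of_eq hh.symm))).symm)
    have hcom : (⟨c, mem_sup_left hc⟩ : H) * ⟨y, hyH⟩ = ⟨y, hyH⟩ * ⟨c, mem_sup_left hc⟩ := by
      apply e.injective
      rw [map_mul, map_mul, hi, hj, DihedralGroup.r_mul_r, DihedralGroup.r_mul_r, add_comm]
    exact congrArg Subtype.val hcom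

/-- An element normalizing but not centralizing `R` inverts the centralizer of `R`. -/
theorem conj_eq_inv (hp : p ≠ 2) (hG : Restricted p G) {R : Subgroup G}
    (hR : IsPGroup p R) {x : G} (hx : x ∈ normalizer (R : Set G))
    (hxc : x ∉ centralizer (R : Set G)) {c : G} (hc : c ∈ centralizer (R : Set G)) :
    x * c * x⁻¹ = c⁻¹ := by
  have h1 : orderOf (x * c) = 2 := orderOf_eq_two_of_normalizes hp hG hR
    (mul_mem hx (centralizer_le_normalizer _ hc)) (fun h => hxc ((mul_mem_cancel_right hc).mp h))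
  have h2 : orderOf x = 2 := orderOf_eq_two_of_normalizes hp hG hR hx hxc
  have h3 : x * c * (x * c) = 1 := by
    rw [← sq, ← h1, pow_orderOf_eq_one]
  have hxi : x⁻¹ = x := inv_eq_of_mul_eq_one_left (by rw [← sq, ← h2, pow_orderOf_eq_one])
  rw [hxi]
  exact eq_inv_of_mul_eq_one_left (by rw [← h3]; group)

theorem forward (hp : p ≠ 2) (hG : Restricted p G) (P : Sylow p G) :
    IsCyclic (P : Subgroup G) ∧
      (normalizer ((P : Subgroup G) : Set G) = centralizer ((P : Subgroup G) : Set G) ∨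
       ((centralizer ((P : Subgroup G) : Set G)).relIndex (normalizer ((P : Subgroup G) : Set G)) = 2 ∧
        ∀ Q : Subgroup G, Q ≤ P → Nat.card Q = p →
          IsMulCommutative ↥(centralizer (Q : Set G)) ∧
          ∀ x : G, x ∈ normalizer (Q : Set G) → x ∉ centralizer (Q : Set G) →
            orderOf x = 2 ∧ ∀ c : G, c ∈ centralizer (Q : Set G) → x * c * x⁻¹ = c⁻¹)) := by
  refine ⟨isCyclic_sylow hp hG P, ?_⟩
  by_cases hNC : normalizer ((P : Subgroup G) : Set G) ≤ centralizer ((P : Subgroup G) : Set G)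
  · exact Or.inl (le_antisymm hNC (centralizer_le_normalizer _))
  obtain ⟨x, hx, hxc⟩ := SetLike.not_le_iff_exists.mp hNC
  have hPc : (P : Subgroup G) ≤ centralizer ((P : Subgroup G) : Set G) := fun a ha =>
    mem_centralizer_iff.mpr fun b hb => by
      haveI := isCyclic_sylow hp hG P
      letI : CommGroup (P : Subgroup G) := IsCyclic.commGroup
      exact congrArg Subtype.val (mul_comm (⟨b, hb⟩ : (P : Subgroup G)) ⟨a, ha⟩)
  right
  constructor
  · rw [relIndex, index_eq_two_iff]
    refine ⟨⟨x, hx⟩, fun b => ?_⟩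
    simp only [mem_subgroupOf, coe_mul]
    by_cases hb : (b : G) ∈ centralizer ((P : Subgroup G) : Set G)
    · exact Or.inr ⟨hb, fun h => hxc ((mul_mem_cancel_left hb).mp h)⟩
    · refine Or.inl ⟨mem_centralizer_iff.mpr fun c hc => ?_, hb⟩
      have h1 := conj_eq_inv hp hG P.2 hx hxc (hPc hc)
      have h2 := conj_eq_inv hp hG P.2 b.2 hb (inv_mem (hPc hc))
      have : (b : G) * x * c * ((b : G) * x)⁻¹ = c := by
        rw [mul_inv_rev, show (b : G) * x * c * (x⁻¹ * (b : G)⁻¹) = b * (x * c * x⁻¹) * (b : G)⁻¹ by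
          group, h1, h2, inv_inv]
      exact (mul_inv_eq_iff_eq_mul.mp this).symm
  · intro Q hQP hQ
    have hQp : IsPGroup p Q := IsPGroup.of_card (n := 1) (by rw [hQ, pow_one])
    refine ⟨?_, fun y hy hyc => ⟨orderOf_eq_two_of_normalizes hp hG hQp hy hyc,
      fun c hc => conj_eq_inv hp hG hQp hy hyc hc⟩⟩
    haveI := Fact.mk ((Fact.out : p.Prime))
    obtain ⟨q, hq⟩ := exists_prime_orderOf_dvd_card' (G := Q) p (dvd_of_eq hQ.symm)
    have hxN : x ∈ normalizer (Q : Set G) := by
      refine mem_normalizer_fintype fun n hn => ?_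
      rw [conj_eq_inv hp hG P.2 hx hxc (hPc (hQP hn))]
      exact inv_mem hn
    have hxQ : x ∉ centralizer (Q : Set G) := by
      intro h
      have h1 := conj_eq_inv hp hG P.2 hx hxc (hPc (hQP q.2))
      rw [← mem_centralizer_iff.mp h _ q.2, mul_inv_cancel_right] at h1
      have h3 : orderOf (q : G) ∣ 2 := orderOf_dvd_of_pow_eq_one (by
        rw [sq]; nth_rw 2 [h1]; exact mul_inv_cancel _)
      rw [Subgroup.orderOf_coe, hq] at h3
      exact hp ((Nat.prime_dvd_prime_iff_eq Fact.out Nat.prime_two).mp h3)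
    refine ⟨⟨fun a b => Subtype.ext ?_⟩⟩
    have e1 := conj_eq_inv hp hG hQp hxN hxQ (mul_mem a.2 b.2)
    have e2 := conj_eq_inv hp hG hQp hxN hxQ a.2
    have e3 := conj_eq_inv hp hG hQp hxN hxQ b.2
    have e4 : x * ((a : G) * b) * x⁻¹ = (x * a * x⁻¹) * (x * b * x⁻¹) := by group
    rw [e1, e2, e3, ← mul_inv_rev, inv_inj] at e4
    exact e4

theorem backward (hp : p ≠ 2) (P : Sylow p G) (hP : IsCyclic (P : Subgroup G))
    (hcase : normalizer ((P : Subgroup G) : Set G) = centralizer ((P : Subgroup G) : Set G) ∨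
        ∀ Q : Subgroup G, Q ≤ P → Nat.card Q = p →
          IsMulCommutative ↥(centralizer (Q : Set G)) ∧
          ∀ x : G, x ∈ normalizer (Q : Set G) → x ∉ centralizer (Q : Set G) →
            orderOf x = 2 ∧ ∀ c : G, c ∈ centralizer (Q : Set G) → x * c * x⁻¹ = c⁻¹) :
    Restricted p G := by
  intro H hn hc
  obtain ⟨S⟩ : Nonempty (Sylow p H) := inferInstance
  haveI := hn S
  haveI := hc S
  obtain ⟨P₁, hP₁⟩ := (S.2.map H.subtype).exists_le_sylow
  obtain ⟨g, hg⟩ := MulAction.exists_smul_eq G P₁ P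
  let f : H →* G := (MulAut.conj g).toMonoidHom.comp H.subtype
  have hf : Function.Injective f := (MulAut.conj g).injective.comp H.subtype_injective
  have hfS : (S : Subgroup H).map f ≤ (P : Subgroup G) := by
    rw [← map_map, ← hg, Sylow.coe_subgroup_smul]
    exact map_mono hP₁
  haveI : IsCyclic ((S : Subgroup H).map f) := isCyclic_of_le hfS
  haveI : IsCyclic (S : Subgroup H) :=
    (equivMapOfInjective (S : Subgroup H) f hf).isCyclic.mpr inferInstance
  letI : CommGroup (S : Subgroup H) := IsCyclic.commGroup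
  rcases hcase with hNC | hQ
  · left
    refine isCyclic_of_central S fun h s hs => ?_
    have hcomm : f (h * s * h⁻¹ * s⁻¹) ∈ (MonoidHom.transferSylow P hNC.le).ker := by
      letI : CommGroup (P : Subgroup G) := IsCyclic.commGroup
      simp only [MonoidHom.mem_ker, map_mul, map_inv]
      simp [mul_comm]
    have hmem : f (h * s * h⁻¹ * s⁻¹) ∈ (S : Subgroup H).map f :=
      mem_map_of_mem _ (mul_mem ((hn S).conj_mem s hs h) (inv_mem hs))
    have h1 := disjoint_def.mp (MonoidHom.ker_transferSylow_disjoint P hNC.le _ (S.2.map f)) hcomm hmem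
    rw [← map_one f] at h1
    have h2 := hf h1
    exact mul_inv_eq_iff_eq_mul.mp (eq_of_mul_inv_eq_one h2)
  by_cases hS : (S : Subgroup H) = ⊥
  · left
    exact isCyclic_of_central S fun h s hs => by
      rw [hS, mem_bot] at hs; subst hs; exact Commute.one_right h
  obtain ⟨k, hk⟩ := IsPGroup.iff_card.mp S.2
  have hk0 : k ≠ 0 := fun h => hS (by rw [← card_eq_one, hk, h, pow_zero])
  obtain ⟨z, hz⟩ := exists_prime_orderOf_dvd_card' (G := (S : Subgroup H)) p (hk ▸ dvd_pow_self p hk0)
  have hzf : orderOf (f z) = p := by rw [orderOf_injective f hf, Subgroup.orderOf_coe, hz]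
  set Q := zpowers (f (z : H)) with hQdef
  obtain ⟨hA, hB⟩ := hQ Q ((zpowers_le.mpr (hfS (mem_map_of_mem f z.2))))
    (by rw [hQdef, Nat.card_zpowers, hzf])
  have hN : ∀ h : H, f h ∈ normalizer (Q : Set G) := fun h => by
    refine mem_normalizer_fintype fun n hn' => ?_
    obtain ⟨i, rfl⟩ := mem_zpowers_iff.1 hn'
    rw [← map_zpow, ← map_inv, ← map_mul, ← map_mul, ← conj_zpow]
    have h1 : h * z * h⁻¹ ∈ (S : Subgroup H) := (hn S).conj_mem _ z.2 h
    obtain ⟨j, hj⟩ := mem_zpowers_iff.1 (mem_zpowers_of_orderOf_prime (a := z)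
      (b := (⟨_, h1⟩ : (S : Subgroup H))) (Fact.out : p.Prime) hz (Subtype.ext (by
        have hzp : (z : H) ^ p = 1 := by
          have hzo := pow_orderOf_eq_one z
          rw [hz] at hzo
          exact congrArg Subtype.val hzo
        rw [coe_pow, conj_pow, hzp]; simp)))
    rw [show h * z * h⁻¹ = (z : H) ^ j by simpa using (congrArg Subtype.val hj).symm, map_zpow,
      map_zpow, ← zpow_mul]
    exact zpow_mem (mem_zpowers _) _
  by_cases hall : ∀ h : H, f h ∈ centralizer (Q : Set G)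
  · left
    exact isCyclic_of_central S fun h s _ => hf (by
      rw [map_mul, map_mul]
      exact congrArg Subtype.val (hA.is_comm.comm (⟨_, hall h⟩ : centralizer (Q : Set G)) ⟨_, hall s⟩))
  push Not at hall
  obtain ⟨h₀, hh₀⟩ := hall
  obtain ⟨ho, hinv⟩ := hB _ (hN h₀) hh₀
  rw [orderOf_injective f hf] at ho
  have hSC : ∀ s ∈ (S : Subgroup H), f s ∈ centralizer (Q : Set G) := fun s hs =>
    mem_centralizer_iff.mpr fun n hn' => by
      obtain ⟨i, rfl⟩ := mem_zpowers_iff.1 hn'
      rw [← map_zpow, ← map_mul, ← map_mul]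
      exact congrArg f (congrArg Subtype.val (mul_comm (z ^ i) ⟨s, hs⟩))
  have hCS : ∀ h : H, f h ∈ centralizer (Q : Set G) → h ∈ (S : Subgroup H) := by
    intro h hh
    letI : CommGroup (H ⧸ (S : Subgroup H)) := IsCyclic.commGroup
    have h1 : h₀ * h * h₀⁻¹ = h⁻¹ := hf (by simpa using hinv _ hh)
    have h2 := congrArg (QuotientGroup.mk' (S : Subgroup H)) h1
    rw [map_mul, map_mul, map_inv, map_inv, mul_inv_cancel_comm] at h2
    have h0 : orderOf (QuotientGroup.mk' (S : Subgroup H) h₀) = 2 := by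
      rcases (Nat.dvd_prime Nat.prime_two).mp (ho ▸ orderOf_map_dvd (QuotientGroup.mk' (S : Subgroup H)) h₀) with h3 | h3
      · exact absurd (hSC _ ((QuotientGroup.eq_one_iff h₀).mp (orderOf_eq_one_iff.mp h3))) hh₀
      · exact h3
    have h4 := mem_zpowers_of_orderOf_prime Nat.prime_two h0
      (b := QuotientGroup.mk' (S : Subgroup H) h) (by rw [sq]; nth_rw 2 [h2]; exact mul_inv_cancel _)
    obtain ⟨i, hi⟩ := mem_zpowers_iff.1 h4
    rcases Int.even_or_odd i with hev | hod
    · obtain ⟨j, rfl⟩ := hev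
      rw [← two_mul, zpow_mul, zpow_ofNat, ← h0, pow_orderOf_eq_one, one_zpow] at hi
      exact (QuotientGroup.eq_one_iff h).mp hi.symm
    · obtain ⟨j, rfl⟩ := hod
      rw [zpow_add, zpow_mul, zpow_ofNat, ← h0, pow_orderOf_eq_one, one_zpow, one_mul, zpow_one] at hi
      have h5 : h₀⁻¹ * h ∈ (S : Subgroup H) := (QuotientGroup.eq (s := (S : Subgroup H))).mp hi
      refine absurd ?_ hh₀
      have h6 := hSC _ h5
      rw [map_mul, map_inv, mul_mem_cancel_right hh, inv_mem_iff] at h6
      exact h6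
  have hidx : (S : Subgroup H).index = 2 := by
    rw [index_eq_two_iff]
    refine ⟨h₀, fun b => ?_⟩
    by_cases hb : b ∈ (S : Subgroup H)
    · exact Or.inr ⟨hb, fun h => hh₀ (hSC _ ((mul_mem_cancel_left hb).mp h))⟩
    · refine Or.inl ⟨hCS _ (mem_centralizer_iff.mpr fun n hn' => ?_), hb⟩
      have hnC : n ∈ centralizer (Q : Set G) := by
        obtain ⟨i, rfl⟩ := mem_zpowers_iff.1 hn'
        rw [← map_zpow]; exact hSC _ (zpow_mem z.2 i)
      have e1 := hinv n hnC
      have e2 := (hB _ (hN b) (fun h => hb (hCS _ h))).2 _ (inv_mem hnC)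
      have : f (b * h₀) * n * (f (b * h₀))⁻¹ = n := by
        rw [map_mul, mul_inv_rev, show f b * f h₀ * n * ((f h₀)⁻¹ * (f b)⁻¹) =
          f b * (f h₀ * n * (f h₀)⁻¹) * (f b)⁻¹ by group, e1, e2, inv_inv]
      exact (mul_inv_eq_iff_eq_mul.mp this).symm
  right
  refine ⟨k, ?_⟩
  obtain ⟨c, hcgen⟩ := IsCyclic.exists_generator (α := (S : Subgroup H))
  refine TwoGroups.IsTwoExt.dihedral (x := (c : H)) (y := h₀)
    ⟨?_, ?_, pow_pos (Fact.out : p.Prime).pos _, ?_, ?_, ?_⟩
  · rw [Subgroup.orderOf_coe, orderOf_eq_card_of_forall_mem_zpowers hcgen, hk]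
  · rw [← card_mul_index (S : Subgroup H), hidx, hk, mul_comm]
  · intro h
    exact hh₀ (hSC _ ((zpowers_le.mpr c.2) h))
  · rw [← sq, ← ho, pow_orderOf_eq_one]
  · rw [_root_.zpow_neg_one]
    exact hf (by simpa using hinv _ (hSC _ c.2))

end Cfsg.Agent.FGS3.RestrictedPCyclic
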