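import Cfsg.Agent.FGS3.RestrictedPCyclic

/-!
Groups all of whose `2`-by-cyclic subgroups are cyclic, dihedral `2`-groups, or `A₄`.
-/

set_option autoImplicit false
set_option linter.unusedSectionVars false

namespace Cfsg.Agent.FGS3.RestrictedTwoCyclic

open Subgroup DihedralGroup

/-- A subgroup of a dihedral group is cyclic or dihedral. -/
theorem subgroup_dihedral {N : ℕ} [NeZero N] (U : Subgroup (DihedralGroup N)) :
    IsCyclic U ∨ ∃ m, m ∣ N ∧ Nonempty (U ≃* DihedralGroup m) := by
  set C : Subgroup (DihedralGroup N) := zpowers (r 1) with hC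
  have hrC : ∀ i, r i ∈ C := fun i => mem_zpowers_iff.mpr ⟨(i.cast : ℤ), by simp⟩
  by_cases hU : U ≤ C
  · exact Or.inl (isCyclic_of_le hU)
  obtain ⟨u, hu, huC⟩ := SetLike.not_le_iff_exists.mp hU
  cases u with
  | r i => exact absurd (hrC i) huC
  | sr i =>
    right
    set C' : Subgroup U := C.subgroupOf U with hC'
    haveI : IsCyclic C' :=
      isCyclic_of_injective ((U.subtype.comp C'.subtype).codRestrict C (fun c => c.2))
        (fun a b h => Subtype.ext (Subtype.ext (congrArg (fun x : C => (x : DihedralGroup N)) h)))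
    obtain ⟨c, hc⟩ := IsCyclic.exists_generator (α := C')
    have hidx : C'.index = 2 := by
      rw [index_eq_two_iff]
      refine ⟨⟨sr i, hu⟩, fun b => ?_⟩
      simp only [hC', mem_subgroupOf, coe_mul]
      rcases hb : (b : DihedralGroup N) with j | j
      · exact Or.inr ⟨hrC j, fun h => huC ((mul_mem_cancel_left (hrC j)).mp h)⟩
      · refine Or.inl ⟨by rw [sr_mul_sr]; exact hrC _, fun h => huC ?_⟩
        have h1 := C.mul_mem h (hrC (i - j))
        rwa [sr_mul_r, add_sub_cancel] at h1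
    refine ⟨Nat.card C', ?_, TwoGroups.IsTwoExt.dihedral (x := (c : U)) (y := ⟨sr i, hu⟩)
      ⟨?_, ?_, Nat.card_pos, ?_, ?_, ?_⟩⟩
    · have h1 := card_dvd_of_injective ((U.subtype.comp C'.subtype).codRestrict C (fun c => c.2))
        (fun a b h => Subtype.ext (Subtype.ext (congrArg (fun x : C => (x : DihedralGroup N)) h)))
      rwa [hC, Nat.card_zpowers, orderOf_r_one] at h1
    · rw [Subgroup.orderOf_coe, orderOf_eq_card_of_forall_mem_zpowers hc]
    · rw [← card_mul_index C', hidx, mul_comm]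
    · intro h
      exact huC (mem_subgroupOf.mp ((zpowers_le.mpr c.2) h))
    · exact Subtype.ext (by rw [coe_mul, sr_mul_sr, sub_self, ← one_def]; rfl)
    · apply Subtype.ext
      obtain ⟨j, hj⟩ : ∃ j, ((c : U) : DihedralGroup N) = r j := by
        have h2 : ((c : U) : DihedralGroup N) ∈ C := c.2
        obtain ⟨k, hk⟩ := mem_zpowers_iff.1 h2
        exact ⟨k, by rw [← hk, r_one_zpow]⟩
      rw [_root_.zpow_neg_one]
      simp only [coe_mul, coe_inv, hj, inv_sr, inv_r, sr_mul_r, sr_mul_sr]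
      congr 1; abel

/-- An automorphism of odd order of a dihedral `2`-group of order at least `8` is trivial. -/
theorem mulAut_eq_one {j : ℕ} (hj : 2 ≤ j) (α : MulAut (DihedralGroup (2 ^ j))) (k : ℕ) (hk : Odd k)
    (hα : α ^ k = 1) : α = 1 := by
  haveI : NeZero (2 ^ j) := ⟨(pow_pos two_pos j).ne'⟩
  have h4 : 4 ≤ 2 ^ j := by calc 4 = 2 ^ 2 := rfl
    _ ≤ 2 ^ j := Nat.pow_le_pow_right two_pos hj
  obtain ⟨a, ha⟩ : ∃ a, α (r 1) = r a := by
    cases h : α (r 1) with
    | r a => exact ⟨a, rfl⟩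
    | sr a =>
      exfalso
      have h1 : orderOf (α (r 1)) = 2 := by rw [h, orderOf_sr]
      rw [α.orderOf_eq, orderOf_r_one] at h1
      omega
  have hr : ∀ i : ZMod (2 ^ j), α (r i) = r (a * i) := by
    intro i
    conv_lhs => rw [show r i = r (1 : ZMod (2 ^ j)) ^ (i.val) by rw [r_one_pow, ZMod.natCast_zmod_val]]
    rw [map_pow, ha, r_pow, ZMod.natCast_zmod_val]
  have hrt : ∀ (t : ℕ) (i : ZMod (2 ^ j)), (α ^ t) (r i) = r (a ^ t * i) := by
    intro t
    induction t with
    | zero => intro i; simp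
    | succ t ih => intro i; rw [pow_succ, MulAut.mul_apply, hr, ih, pow_succ, mul_assoc]
  have hak : a ^ k = 1 := by
    have := hrt k 1
    rw [hα, MulAut.one_apply, mul_one] at this
    exact (r.inj this).symm
  have ha1 : a = 1 := by
    set u : (ZMod (2 ^ j))ˣ := Units.ofPowEqOne a k hak hk.pos.ne'
    have h1 : orderOf u ∣ k := orderOf_dvd_of_pow_eq_one (Units.pow_ofPowEqOne _ _)
    have h2 : orderOf u ∣ 2 ^ (j - 1) := by
      have h3 : Fintype.card (ZMod (2 ^ j))ˣ = 2 ^ (j - 1) := by
        rw [ZMod.card_units_eq_totient, Nat.totient_prime_pow Nat.prime_two (by omega)]; simp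
      exact h3 ▸ orderOf_dvd_card
    have h4 : orderOf u = 1 := Nat.eq_one_of_dvd_coprimes
      (Nat.Coprime.pow_right _ hk.coprime_two_right) h1 h2
    have := congrArg Units.val (orderOf_eq_one_iff.mp h4)
    simpa [u] using this
  subst ha1
  obtain ⟨b, hb⟩ : ∃ b, α (sr 0) = sr b := by
    cases h : α (sr 0) with
    | sr b => exact ⟨b, rfl⟩
    | r b => rw [← one_mul b, ← hr b] at h; exact absurd (α.injective h) (by simp)
  have hst : ∀ t : ℕ, (α ^ t) (sr 0) = sr ((t : ZMod (2 ^ j)) * b) := by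
    intro t
    induction t with
    | zero => simp
    | succ t ih =>
      rw [pow_succ', MulAut.mul_apply, ih,
        show sr ((t : ZMod (2 ^ j)) * b) = sr 0 * r ((t : ZMod (2 ^ j)) * b) by simp, map_mul, hb, hr]
      simp [add_mul, add_comm]
  have hkb : (k : ZMod (2 ^ j)) * b = 0 := by
    have := hst k
    rw [hα, MulAut.one_apply] at this
    exact (sr.inj this).symm
  have hb0 : b = 0 :=
    ((ZMod.isUnit_iff_coprime k (2 ^ j)).mpr
      (Nat.Coprime.pow_right _ hk.coprime_two_right)).mul_right_eq_zero.mp hkb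
  ext x
  rcases x with i | i
  · rw [MulAut.one_apply, hr, one_mul]
  · rw [MulAut.one_apply, show sr i = sr 0 * r i by simp, map_mul, hb, hr, hb0, one_mul]

/-- Every dihedral `2`-group of order at least `4` has a four subgroup. -/
theorem exists_four {j : ℕ} (hj : 1 ≤ j) :
    ∃ V : Subgroup (DihedralGroup (2 ^ j)), Nat.card V = 4 ∧ ∀ v ∈ V, v ^ 2 = 1 := by
  haveI : NeZero (2 ^ j) := ⟨(pow_pos two_pos j).ne'⟩
  set h : ZMod (2 ^ j) := ((2 ^ (j - 1) : ℕ) : ZMod (2 ^ j)) with hdef
  have hh : h + h = 0 := by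
    rw [hdef, ← Nat.cast_add, show 2 ^ (j - 1) + 2 ^ (j - 1) = 2 ^ j by
      rw [← two_mul, ← pow_succ', Nat.sub_add_cancel hj], ZMod.natCast_self]
  have hn : -h = h := neg_eq_of_add_eq_zero_right hh
  have h0 : h ≠ 0 := by
    rw [hdef, Ne, ZMod.natCast_eq_zero_iff]
    intro hd
    have := Nat.le_of_dvd (pow_pos two_pos _) hd
    have := Nat.pow_lt_pow_right (a := 2) one_lt_two (show j - 1 < j by omega)
    omega
  let V : Subgroup (DihedralGroup (2 ^ j)) :=
    { carrier := {r 0, r h, sr 0, sr h}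
      one_mem' := Or.inl one_def
      mul_mem' := by
        intro a b ha hb
        simp only [Set.mem_insert_iff, Set.mem_singleton_iff] at ha hb ⊢
        rcases ha with rfl | rfl | rfl | rfl <;> rcases hb with rfl | rfl | rfl | rfl <;>
          simp [hh, hn]
      inv_mem' := by
        intro a ha
        simp only [Set.mem_insert_iff, Set.mem_singleton_iff] at ha ⊢
        rcases ha with rfl | rfl | rfl | rfl <;> simp [hn] }
  refine ⟨V, ?_, ?_⟩
  · rw [← SetLike.coe_sort_coe, show (V : Set (DihedralGroup (2 ^ j))) = {r 0, r h, sr 0, sr h} from rfl,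
      Nat.card_coe_set_eq, Set.ncard_insert_of_notMem (by simp [h0.symm, -r_zero]),
      Set.ncard_insert_of_notMem (by simp [-r_zero]), Set.ncard_pair (by simp [h0.symm])]
  · rintro v (rfl | rfl | rfl | rfl) <;> simp [sq, hh, one_def, -r_zero]

/-- The hypothesis of the restricted-subgroup condition. -/
def Restricted (G : Type*) [Group G] : Prop :=
  ∀ H : Subgroup G, (∀ S : Sylow 2 ↥H, (S : Subgroup ↥H).Normal) →
    (∀ (S : Sylow 2 ↥H) [(S : Subgroup ↥H).Normal], IsCyclic (↥H ⧸ (S : Subgroup ↥H))) →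
    IsCyclic H ∨ (∃ n : ℕ, Nonempty (H ≃* DihedralGroup (2 ^ n))) ∨
      Nonempty (H ≃* alternatingGroup (Fin 4))

variable {G : Type*} [Group G] [Finite G]

theorem forward (hG : Restricted G) (P : Sylow 2 G) :
    IsCyclic P ∨ ((∃ n : ℕ, 1 ≤ n ∧ Nonempty ((P : Subgroup G) ≃* DihedralGroup (2 ^ n))) ∧
        ∀ K : Subgroup G, K ≤ P → Nat.card K = 4 → (∀ k ∈ K, k ^ 2 = 1) →
          centralizer (K : Set G) = K) := by
  haveI : Subsingleton ((P : Subgroup G) ⧸ (⊤ : Subgroup (P : Subgroup G))) :=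
    QuotientGroup.subsingleton_quotient_top
  have hall := fun S => RestrictedPCyclic.sylow_normal_of_cyclic_quotient
    (⊤ : Subgroup (P : Subgroup G)) (P.2.to_subgroup _) isCyclic_of_subsingleton (p := 2) S
  rcases hG (P : Subgroup G) (fun S => (hall S).1) (fun S _ => (hall S).2) with h | ⟨n, ⟨e⟩⟩ | ⟨⟨e⟩⟩
  · exact Or.inl h
  · rcases n with _ | n
    · left
      apply isCyclic_of_prime_card (p := 2)
      rw [Nat.card_congr e.toEquiv, DihedralGroup.nat_card]
      norm_num
    refine Or.inr ⟨⟨n + 1, by omega, ⟨e⟩⟩, fun K _ hK hexp => ?_⟩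
    have hKc : ∀ a ∈ K, ∀ b ∈ K, a * b = b * a := fun a ha b hb => by
      have h1 := hexp _ (mul_mem ha hb)
      have h2 := hexp a ha
      have h3 := hexp b hb
      rw [sq] at h1 h2 h3
      rw [eq_inv_of_mul_eq_one_left h1, mul_inv_rev, ← eq_inv_of_mul_eq_one_left h2,
        ← eq_inv_of_mul_eq_one_left h3]
    refine le_antisymm (fun c hc => ?_) (fun a ha => mem_centralizer_iff.mpr fun b hb => hKc b hb a ha)
    set H : Subgroup G := K ⊔ zpowers c
    have hcH : c ∈ H := mem_sup_right (mem_zpowers c)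
    have hHc : ∀ a b : H, a * b = b * a := by
      have h1 : K ⊔ zpowers c ≤ centralizer ((K ⊔ zpowers c : Subgroup G) : Set G) := by
        rw [sup_eq_closure, centralizer_closure, closure_le]
        rintro a (ha | ha) <;> refine mem_centralizer_iff.mpr ?_ <;> rintro b (hb | hb)
        · exact hKc b hb a ha
        · obtain ⟨i, rfl⟩ := mem_zpowers_iff.1 hb
          exact ((Commute.zpow_left (mem_centralizer_iff.mp hc a ha).symm i)).eq
        · obtain ⟨i, rfl⟩ := mem_zpowers_iff.1 ha
          exact ((Commute.zpow_right (mem_centralizer_iff.mp hc b hb) i)).eq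
        · obtain ⟨i, rfl⟩ := mem_zpowers_iff.1 ha
          obtain ⟨i', rfl⟩ := mem_zpowers_iff.1 hb
          exact ((Commute.refl c).zpow_zpow i' i).eq
      exact fun a b => Subtype.ext (mem_centralizer_iff.mp (h1 b.2) a a.2)
    haveI : (K.subgroupOf H).Normal := ⟨fun a ha b => by rwa [hHc b a, mul_inv_cancel_right]⟩
    have hcyc : IsCyclic (H ⧸ K.subgroupOf H) := by
      refine ⟨⟨QuotientGroup.mk' _ ⟨c, hcH⟩, fun q => ?_⟩⟩
      have htop : K.subgroupOf H ⊔ zpowers (⟨c, hcH⟩ : H) = ⊤ := by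
        have hz : zpowers (⟨c, hcH⟩ : H) = (zpowers c).subgroupOf H := by
          apply Subgroup.map_injective H.subtype_injective
          rw [MonoidHom.map_zpowers, subgroupOf_map_subtype, inf_of_le_left le_sup_right]; rfl
        rw [hz, ← subgroupOf_sup le_sup_left le_sup_right, subgroupOf_self]
      have := congrArg (Subgroup.map (QuotientGroup.mk' (K.subgroupOf H))) htop
      rw [Subgroup.map_sup, QuotientGroup.map_mk'_self, bot_sup_eq, MonoidHom.map_zpowers,
        map_top_of_surjective _ (QuotientGroup.mk'_surjective _)] at this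
      show q ∈ zpowers _
      rw [this]; exact mem_top q
    have hall := fun S => RestrictedPCyclic.sylow_normal_of_cyclic_quotient (K.subgroupOf H)
      ((IsPGroup.of_card (n := 2) (by rw [hK]; norm_num)).of_equiv
        (subgroupOfEquivOfLe (le_sup_left : K ≤ H)).symm) hcyc (p := 2) S
    rcases hG H (fun S => (hall S).1) (fun S _ => (hall S).2) with h | ⟨m, ⟨e'⟩⟩ | ⟨⟨e'⟩⟩
    · exfalso
      haveI : IsCyclic K := isCyclic_of_le (le_sup_left : K ≤ H)
      obtain ⟨g, hg⟩ := IsCyclic.exists_generator (α := K)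
      have h1 : orderOf g ∣ 2 := orderOf_dvd_of_pow_eq_one (Subtype.ext (hexp _ g.2))
      rw [orderOf_eq_card_of_forall_mem_zpowers hg, hK] at h1
      exact absurd (Nat.le_of_dvd two_pos h1) (by norm_num)
    · have h1 := e'.symm.injective
      have h2 : (r 1 : DihedralGroup (2 ^ m)) * sr 0 = sr 0 * r 1 :=
        e'.symm.injective (by rw [map_mul, map_mul, hHc])
      rw [r_mul_sr, sr_mul_r, sr.injEq, zero_sub, zero_add, neg_eq_iff_add_eq_zero] at h2
      have h3 : 2 ^ m ∣ 2 := by
        rw [← ZMod.natCast_eq_zero_iff, Nat.cast_ofNat]; exact one_add_one_eq_two.symm.trans h2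
      have h4 : Nat.card H ≤ 4 := by
        rw [Nat.card_congr e'.toEquiv, DihedralGroup.nat_card]
        have := Nat.le_of_dvd two_pos h3
        omega
      have h5 : K = H := eq_of_le_of_card_ge le_sup_left (by rw [hK]; exact h4)
      rw [h5]; exact hcH
    · exfalso
      obtain ⟨a, b, hab⟩ : ∃ a b : alternatingGroup (Fin 4), a * b ≠ b * a :=
        ⟨⟨Equiv.swap 0 1 * Equiv.swap 2 3, Equiv.Perm.mem_alternatingGroup.mpr (by decide)⟩,
          ⟨Equiv.swap 0 1 * Equiv.swap 1 2, Equiv.Perm.mem_alternatingGroup.mpr (by decide)⟩, by decide⟩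
      exact hab (e'.symm.injective (by rw [map_mul, map_mul, hHc]))
  · exfalso
    obtain ⟨k, hk⟩ := IsPGroup.iff_card.mp P.2
    have h3 : Nat.card (alternatingGroup (Fin 4)) = 12 := by
      rw [nat_card_alternatingGroup, Nat.card_fin]; rfl
    have h4 : 3 ∣ 2 ^ k := ⟨4, by rw [← hk, Nat.card_congr e.toEquiv, h3]⟩
    exact absurd ((Nat.prime_dvd_prime_iff_eq Nat.prime_three Nat.prime_two).mp
      (Nat.prime_three.dvd_of_dvd_pow h4)) (by norm_num)

theorem backward (P : Sylow 2 G)
    (hP : IsCyclic P ∨ ((∃ n : ℕ, 1 ≤ n ∧ Nonempty ((P : Subgroup G) ≃* DihedralGroup (2 ^ n))) ∧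
        ∀ K : Subgroup G, K ≤ P → Nat.card K = 4 → (∀ k ∈ K, k ^ 2 = 1) →
          centralizer (K : Set G) = K)) : Restricted G := by
  intro H hn hc
  obtain ⟨S⟩ : Nonempty (Sylow 2 H) := inferInstance
  haveI := hn S
  haveI := hc S
  obtain ⟨P₁, hP₁⟩ := (S.2.map H.subtype).exists_le_sylow
  obtain ⟨g, hg⟩ := MulAction.exists_smul_eq G P₁ P
  let f : H →* G := (MulAut.conj g).toMonoidHom.comp H.subtype
  have hf : Function.Injective f := (MulAut.conj g).injective.comp H.subtype_injective
  have hfS : (S : Subgroup H).map f ≤ (P : Subgroup G) := by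
    rw [← map_map, ← hg, Sylow.coe_subgroup_smul]
    exact map_mono hP₁
  have hodd : Odd (S : Subgroup H).index :=
    Nat.not_even_iff_odd.mp fun h => S.not_dvd_index (even_iff_two_dvd.mp h)
  set φ : H →* MulAut (S : Subgroup H) := MulAut.conjNormal
  have hφ : ∀ h : H, φ h = 1 → ∀ s ∈ (S : Subgroup H), Commute h s := fun h hh s hs => by
    have h1 := congrArg Subtype.val (DFunLike.congr_fun hh ⟨s, hs⟩)
    rw [MulAut.conjNormal_apply] at h1
    exact mul_inv_eq_iff_eq_mul.mp h1
  by_cases hS : IsCyclic (S : Subgroup H)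
  · left
    letI : CommGroup (S : Subgroup H) := IsCyclic.commGroup
    have hker : ∀ s ∈ (S : Subgroup H), φ s = 1 := fun s hs => by
      refine MulEquiv.ext fun x => Subtype.ext ?_
      rw [MulAut.conjNormal_apply, MulAut.one_apply]
      exact mul_inv_eq_iff_eq_mul.mpr (congrArg Subtype.val (mul_comm (⟨s, hs⟩ : (S : Subgroup H)) x))
    obtain ⟨k, hk⟩ := IsPGroup.iff_card.mp S.2
    refine RestrictedPCyclic.isCyclic_of_central S fun h s hs => hφ h ?_ s hs
    have h1 : orderOf (φ h) ∣ (S : Subgroup H).index := orderOf_dvd_of_pow_eq_one (by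
      rw [← map_pow]; exact hker _ (pow_index_mem _ h))
    have h2 : orderOf (φ h) ∣ Nat.totient (2 ^ k) := by
      rw [← hk, ← IsCyclic.card_mulAut]; exact orderOf_dvd_natCard _
    rcases k with _ | k
    · rw [pow_zero, Nat.totient_one] at h2; exact orderOf_eq_one_iff.mp (Nat.dvd_one.mp h2)
    rw [Nat.totient_prime_pow_succ Nat.prime_two, Nat.add_one_sub_one, mul_one] at h2
    exact orderOf_eq_one_iff.mp (Nat.eq_one_of_dvd_coprimes
      (Nat.Coprime.pow_right _ hodd.coprime_two_right) h1 h2)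
  rcases hP with hP | ⟨⟨n, hn1, ⟨eP⟩⟩, hK⟩
  · exfalso
    haveI : IsCyclic ((S : Subgroup H).map f) := isCyclic_of_le hfS
    exact hS ((equivMapOfInjective (S : Subgroup H) f hf).isCyclic.mpr inferInstance)
  -- `S` is dihedral
  haveI : NeZero (2 ^ n) := ⟨(pow_pos two_pos n).ne'⟩
  let ι : (S : Subgroup H) →* DihedralGroup (2 ^ n) :=
    eP.toMonoidHom.comp ((f.comp (S : Subgroup H).subtype).codRestrict (P : Subgroup G)
      fun s => hfS (mem_map_of_mem f s.2))
  have hι : Function.Injective ι := eP.injective.comp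
    (MonoidHom.injective_codRestrict _ _ _ |>.mpr (hf.comp Subtype.val_injective))
  obtain ⟨j, hj, eS⟩ : ∃ j, 1 ≤ j ∧ Nonempty ((S : Subgroup H) ≃* DihedralGroup (2 ^ j)) := by
    rcases subgroup_dihedral ι.range with h | ⟨m, hm, ⟨e⟩⟩
    · exact absurd ((MonoidHom.ofInjective hι).isCyclic.mpr h) hS
    obtain ⟨j, _, rfl⟩ := (Nat.dvd_prime_pow Nat.prime_two).mp hm
    refine ⟨j, ?_, ⟨(MonoidHom.ofInjective hι).trans e⟩⟩
    by_contra h0
    refine hS (isCyclic_of_prime_card (p := 2) ?_)
    rw [Nat.card_congr ((MonoidHom.ofInjective hι).trans e).toEquiv, DihedralGroup.nat_card,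
      show j = 0 by omega, pow_zero, mul_one]
  obtain ⟨eS⟩ := eS
  obtain ⟨V, hV4, hVexp⟩ := exists_four hj
  set j₀ : DihedralGroup (2 ^ j) →* G := f.comp ((S : Subgroup H).subtype.comp eS.symm.toMonoidHom)
  have hj₀ : Function.Injective j₀ := hf.comp (Subtype.val_injective.comp eS.symm.injective)
  have hcS : ∀ h : H, φ h = 1 → h ∈ (S : Subgroup H) := by
    intro h hh
    have h1 : f h ∈ centralizer ((V.map j₀ : Subgroup G) : Set G) :=
      mem_centralizer_iff.mpr fun b hb => by
        obtain ⟨v, -, rfl⟩ := hb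
        show f _ * f h = f h * f _
        rw [← map_mul, ← map_mul]
        exact congrArg f (hφ h hh _ (eS.symm v).2).eq.symm
    rw [hK (V.map j₀) (fun b hb => by
        obtain ⟨v, -, rfl⟩ := hb; exact hfS (mem_map_of_mem f (eS.symm v).2))
      (by rw [card_map_of_injective hj₀, hV4])
      (by rintro _ ⟨v, hv, rfl⟩; rw [← map_pow, hVexp v hv, map_one])] at h1
    obtain ⟨v, -, hv⟩ := h1
    rw [← hf hv]
    exact (eS.symm v).2
  have hcardS : Nat.card (S : Subgroup H) = 2 * 2 ^ j := by
    rw [Nat.card_congr eS.toEquiv, DihedralGroup.nat_card]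
  obtain ⟨q, hq⟩ := IsCyclic.exists_generator (α := H ⧸ (S : Subgroup H))
  obtain ⟨h, rfl⟩ := QuotientGroup.mk'_surjective (S : Subgroup H) q
  have hqi : orderOf (QuotientGroup.mk' (S : Subgroup H) h) = (S : Subgroup H).index :=
    orderOf_eq_card_of_forall_mem_zpowers hq
  rcases Nat.lt_or_ge 1 j with hj2 | hj1
  · right; left
    suffices hi : (S : Subgroup H).index = 1 by
      exact ⟨j, ⟨(Subgroup.topEquiv.symm.trans (MulEquiv.subgroupCongr (index_eq_one.mp hi).symm)).trans eS⟩⟩
    set N := Nat.card (S : Subgroup H) with hN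
    have hpow : (h ^ N) ^ (S : Subgroup H).index = 1 := by
      rw [← pow_mul, hN, card_mul_index, pow_card_eq_one']
    set α : MulAut (DihedralGroup (2 ^ j)) := MulAut.congr eS (φ (h ^ N)) with hα
    have hα1 : α = 1 := mulAut_eq_one hj2 α _ hodd (by
      rw [hα, ← map_pow, ← map_pow, hpow, map_one, map_one])
    have h1 : φ (h ^ N) = 1 := by
      rw [hα, ← map_one (MulAut.congr eS)] at hα1
      exact (MulAut.congr eS).injective hα1
    have h2 : QuotientGroup.mk' (S : Subgroup H) h ^ N = 1 := by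
      rw [← map_pow]; exact (QuotientGroup.eq_one_iff _).mpr (hcS _ h1)
    have h3 := orderOf_dvd_of_pow_eq_one h2
    rw [hqi] at h3
    exact Nat.eq_one_of_dvd_coprimes S.card_coprime_index h3 dvd_rfl
  have hj' : j = 1 := by omega
  subst hj'
  have hS4 : Nat.card (S : Subgroup H) = 4 := by simpa using hcardS
  have h24 : (S : Subgroup H).index ∣ 24 := by
    have hperm : Nat.card (Equiv.Perm (S : Subgroup H)) = 24 := by
      rw [Nat.card_perm, hS4]; rfl
    have h1 : φ (h ^ 24) = 1 := by
      apply (show Function.Injective (MulAut.toPerm (M := (S : Subgroup H))) from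
        fun a b hab => MulEquiv.toEquiv_injective hab)
      rw [map_pow, map_pow, map_one, ← hperm, pow_card_eq_one']
    rw [← hqi]
    apply orderOf_dvd_of_pow_eq_one
    rw [← map_pow]; exact (QuotientGroup.eq_one_iff _).mpr (hcS _ h1)
  have h3 : (S : Subgroup H).index ∣ 3 := by
    have hc8 : Nat.Coprime (S : Subgroup H).index 8 := by
      rw [show (8 : ℕ) = 2 ^ 3 by norm_num]; exact Nat.Coprime.pow_right _ hodd.coprime_two_right
    exact hc8.dvd_of_dvd_mul_left (by simpa using h24)
  rcases (Nat.dvd_prime Nat.prime_three).mp h3 with hi | hi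
  · exact Or.inr (Or.inl ⟨1, ⟨(Subgroup.topEquiv.symm.trans
      (MulEquiv.subgroupCongr (index_eq_one.mp hi).symm)).trans eS⟩⟩)
  right; right
  have hcardH : Nat.card H = 12 := by rw [← card_mul_index (S : Subgroup H), hS4, hi]
  haveI : Fact (Nat.Prime 3) := ⟨Nat.prime_three⟩
  obtain ⟨t, ht⟩ := exists_prime_orderOf_dvd_card' (G := H) 3 (by rw [hcardH]; norm_num)
  set T := zpowers t with hT
  have hTc : Nat.card T = 3 := by rw [hT, Nat.card_zpowers, ht]
  have hcore : T.normalCore = ⊥ := by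
    by_contra hne
    have h1 : T.normalCore = T := by
      refine eq_of_le_of_card_ge (normalCore_le T) ?_
      have h2 : Nat.card T.normalCore ∣ 3 := hTc ▸ card_dvd_of_le (normalCore_le T)
      rcases (Nat.dvd_prime Nat.prime_three).mp h2 with h | h
      · exact absurd (card_eq_one.mp h) hne
      · rw [h, hTc]
    haveI : T.Normal := h1 ▸ T.normalCore_normal
    have hdis : Disjoint (S : Subgroup H) T := disjoint_iff.mpr (inf_eq_bot_of_coprime (by rw [hS4, hTc]; norm_num))
    have h2 : φ t = 1 := by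
      refine MulEquiv.ext fun x => Subtype.ext ?_
      rw [MulAut.conjNormal_apply, MulAut.one_apply, mul_inv_eq_iff_eq_mul]
      exact (commute_of_normal_of_disjoint (S : Subgroup H) T inferInstance inferInstance hdis _ _ x.2
        (mem_zpowers t)).eq.symm
    have h5 : t = 1 := disjoint_def.mp hdis (hcS t h2) (mem_zpowers t)
    rw [h5, orderOf_one] at ht; exact absurd ht (by norm_num)
  have hidx4 : T.index = 4 := by
    have := card_mul_index T; rw [hTc, hcardH] at this; omega
  let e₄ : H ⧸ T ≃ Fin 4 := Finite.equivFinOfCardEq hidx4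
  let ψ : H →* Equiv.Perm (Fin 4) := e₄.permCongrHom.toMonoidHom.comp (MulAction.toPermHom H (H ⧸ T))
  have hψ : Function.Injective ψ := by
    refine e₄.permCongrHom.injective.comp ((MonoidHom.ker_eq_bot_iff _).mp ?_)
    rw [← normalCore_eq_ker, hcore]
  have hrange : ψ.range = alternatingGroup (Fin 4) := by
    apply Equiv.Perm.eq_alternatingGroup_of_index_eq_two
    have h1 := card_mul_index ψ.range
    rw [← Nat.card_congr (MonoidHom.ofInjective hψ).toEquiv, hcardH, Nat.card_perm, Nat.card_fin,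
      show Nat.factorial 4 = 24 from rfl] at h1
    omega
  exact ⟨(MonoidHom.ofInjective hψ).trans (MulEquiv.subgroupCongr hrange)⟩

end Cfsg.Agent.FGS3.RestrictedTwoCyclic
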