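import Cfsg.Agent.Chars.SU3SylowAut
import Cfsg.Agent.Core.Cores
import Cfsg.Prelude.Def_Transfer
import Mathlib

/-!
The structure of the automorphism group of the coordinatised Sylow 2-subgroup of `SU₃(q)`, `q` even.
-/

set_option autoImplicit false

namespace Cfsg.Agent.FGS3.SU3Aut

open Cfsg.Agent.Chars

section Field

variable {F : Type*} [Field F] [Fintype F] [CharP F 2] {n q : ℕ}

/-- The fixed field of the `q`-power map. -/
def fixF (hfq : ∀ a b : F, (a + b) ^ q = a ^ q + b ^ q) (hq0 : q ≠ 0) : Subfield F where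
  carrier := {t | t ^ q = t}
  zero_mem' := zero_pow hq0
  one_mem' := one_pow q
  add_mem' {a b} ha hb := by
    show (a + b) ^ q = a + b
    rw [hfq, ha, hb]
  mul_mem' {a b} ha hb := by
    show (a * b) ^ q = a * b
    rw [mul_pow, ha, hb]
  neg_mem' {a} ha := by
    show (-a) ^ q = -a
    rw [CharTwo.neg_eq]; exact ha
  inv_mem' a ha := by
    show (a⁻¹) ^ q = a⁻¹
    rw [inv_pow, ha]

theorem finrank_eq (hq : q = 2 ^ n) (hF : Fintype.card F = q ^ 2) [Algebra (ZMod 2) F] :
    Module.finrank (ZMod 2) F = 2 * n := by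
  have h := Module.card_eq_pow_finrank (K := ZMod 2) (V := F)
  rw [ZMod.card, hF, hq, ← pow_mul, mul_comm n 2] at h
  exact (Nat.pow_right_injective le_rfl h).symm

theorem exists_not_fixed (hn : 1 ≤ n) (hq : q = 2 ^ n) (hF : Fintype.card F = q ^ 2) :
    ∃ w : F, w ^ q ≠ w := by
  classical
  by_contra h
  push Not at h
  have := (fix_facts hn hq hF).2.2 Finset.univ fun a _ => h a
  rw [Finset.card_univ, hF] at this
  have : 2 ≤ q := by rw [hq]; exact (Nat.pow_le_pow_right (by norm_num) hn : 2 ^ 1 ≤ 2 ^ n)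
  nlinarith

/-- A multiplicative additive map of the fixed field is a power of the Frobenius map. -/
theorem exists_frobenius (hn : 1 ≤ n) (hq : q = 2 ^ n) (hF : Fintype.card F = q ^ 2) (f : F → F)
    (hadd : ∀ s t, s ^ q = s → t ^ q = t → f (s + t) = f s + f t)
    (hmul : ∀ s t, s ^ q = s → t ^ q = t → f (s * t) = f s * f t) (h1 : f 1 = 1) :
    ∃ i, i < 2 * n ∧ ∀ t, t ^ q = t → f t = t ^ (2 ^ i) := by
  obtain ⟨hfq, -, -⟩ := fix_facts hn hq hF
  have hq0 : q ≠ 0 := by rw [hq]; positivity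
  haveI : Fact (Nat.Prime 2) := ⟨Nat.prime_two⟩
  letI : Algebra (ZMod 2) F := ZMod.algebra F 2
  let K : Subfield F := fixF hfq hq0
  haveI : CharP K 2 := K.subtype.charP K.subtype.injective 2
  letI : Algebra (ZMod 2) K := ZMod.algebra K 2
  let φ : K →+* F :=
    { toFun := fun t => f t
      map_one' := h1
      map_mul' := fun s t => hmul s t s.2 t.2
      map_zero' := by
        have := hadd 0 0 (zero_pow hq0) (zero_pow hq0)
        rw [add_zero] at this
        exact add_eq_left.1 this.symm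
      map_add' := fun s t => hadd s t s.2 t.2 }
  let φ' : K →ₐ[ZMod 2] F :=
    { φ with commutes' := fun r => RingHom.congr_fun (Subsingleton.elim (φ.comp (algebraMap (ZMod 2) K)) (algebraMap (ZMod 2) F)) r }
  haveI hT : @IsScalarTower (ZMod 2) K F Algebra.toSMul Algebra.toSMul Algebra.toSMul :=
    IsScalarTower.of_algebraMap_eq' (Subsingleton.elim _ _)
  haveI : Normal (ZMod 2) F := IsGalois.to_normal
  let σ : F →ₐ[ZMod 2] F := φ'.liftNormal F
  have hσ : ∀ t : K, σ t = f t := fun t => φ'.liftNormal_commutes F t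
  obtain ⟨⟨i, hi⟩, hpow⟩ := (FiniteField.bijective_frobeniusAlgHom_pow (ZMod 2) F).2 σ
  rw [finrank_eq hq hF] at hi
  refine ⟨i, hi, fun t ht => ?_⟩
  rw [← hσ ⟨t, ht⟩, ← hpow]
  simp [AlgHom.coe_pow, FiniteField.coe_frobeniusAlgHom, pow_iterate]

/-- Additive maps compatible with the norm are semilinear. -/
theorem exists_semilinear (hn : 1 ≤ n) (hq : q = 2 ^ n) (hF : Fintype.card F = q ^ 2) (fv fg : F →+ F)
    (hfv : Function.Injective fv) (hN : ∀ a, fg (a ^ (q + 1)) = fv a ^ (q + 1)) :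
    ∃ a, a ≠ 0 ∧ ∃ i, i < 2 * n ∧ ∀ x, fv x = a * x ^ (2 ^ i) := by
  classical
  obtain ⟨hfq, hqq, hfix⟩ := fix_facts hn hq hF
  have hq0 : q ≠ 0 := by rw [hq]; positivity
  have hadd : ∀ a : F, a + a = 0 := CharTwo.add_self_eq_zero
  have hB : ∀ a b, fg (a ^ q * b + b ^ q * a) = fv a ^ q * fv b + fv b ^ q * fv a := fun a b => by
    have h := hN (a + b)
    rw [map_add fv, pow_succ, pow_succ, hfq, hfq,
      show (a ^ q + b ^ q) * (a + b) = a ^ (q + 1) + b ^ (q + 1) + (a ^ q * b + b ^ q * a) by ring,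
      map_add, map_add, hN, hN] at h
    linear_combination h
  have hne : ∀ x, x ≠ 0 → fv x ≠ 0 := fun x hx h => hx (hfv (h.trans (map_zero fv).symm))
  have hline : ∀ t x, t ^ q = t → x ≠ 0 → (fv (t * x) / fv x) ^ q = fv (t * x) / fv x := by
    intro t x ht hx
    have h := hB x (t * x)
    rw [mul_pow, ht, show x ^ q * (t * x) + t * x ^ q * x = 0 by linear_combination hadd (t * (x ^ q * x)),
      map_zero] at h
    rw [div_pow, div_eq_div_iff (pow_ne_zero q (hne x hx)) (hne x hx)]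
    linear_combination -h - fv x ^ q * fv (t * x) * (CharTwo.two_eq_zero (R := F))
  have ha : fv 1 ≠ 0 := hne 1 one_ne_zero
  set a := fv 1 with hadef
  let f : F → F := fun t => fv t / a
  have hffix : ∀ t, t ^ q = t → f t ^ q = f t := fun t ht => by
    have := hline t 1 ht one_ne_zero
    rwa [mul_one] at this
  have hfinj : Function.Injective f := fun s t h => hfv ((div_left_inj' ha).1 h)
  have hf1 : f 1 = 1 := div_self ha
  have hfsurj : ∀ s, s ^ q = s → ∃ t, t ^ q = t ∧ f t = s := by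
    intro s hs
    let Fx : Finset F := Finset.univ.filter fun c => c ^ q = c
    have hsub : Fx.image f ⊆ Fx := fun c hc => by
      obtain ⟨t, ht, rfl⟩ := Finset.mem_image.1 hc
      exact Finset.mem_filter.2 ⟨Finset.mem_univ _, hffix t (Finset.mem_filter.1 ht).2⟩
    have heq := Finset.eq_of_subset_of_card_le hsub (Finset.card_image_of_injective _ hfinj).ge
    have hsF : s ∈ Fx.image f := heq.symm ▸ Finset.mem_filter.2 ⟨Finset.mem_univ _, hs⟩
    obtain ⟨t, ht, hts⟩ := Finset.mem_image.1 hsF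
    exact ⟨t, (Finset.mem_filter.1 ht).2, hts⟩
  have hsemi : ∀ t x, t ^ q = t → x ^ q ≠ x → ∀ μ, μ ^ q = μ →
      f (t * μ) = fv (t * x) / fv x * f μ := by
    intro t x ht hx μ hμ
    have hx0 : x ≠ 0 := fun h => hx (by rw [h, zero_pow hq0])
    have hxμ : x + μ ≠ 0 := fun h => hx (by rw [CharTwo.add_eq_zero.1 h]; exact hμ)
    have hw : (fv x / a) ^ q ≠ fv x / a := by
      intro h
      obtain ⟨s, hs, hsx⟩ := hfsurj _ h
      exact hx (hfinj hsx ▸ hs)
    set g := fv (t * x) / fv x with hg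
    set h := fv (t * (x + μ)) / fv (x + μ) with hh
    have hgq : g ^ q = g := hline t x ht hx0
    have hhq : h ^ q = h := hline t _ ht hxμ
    have h1 : g * (fv x / a) + f (t * μ) = h * (fv x / a + f μ) := by
      have e1 : g * fv x = fv (t * x) := div_mul_cancel₀ _ (hne x hx0)
      have e2 : h * fv (x + μ) = fv (t * (x + μ)) := div_mul_cancel₀ _ (hne _ hxμ)
      rw [mul_add, map_add, map_add, ← e1] at e2
      show g * (fv x / a) + fv (t * μ) / a = h * (fv x / a + fv μ / a)
      rw [← mul_div_assoc, ← add_div, ← add_div, ← mul_div_assoc, ← e2]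
    have hgh : g = h := by
      by_contra hne'
      apply hw
      have hw' : fv x / a = (h * f μ - f (t * μ)) / (g - h) := by
        rw [eq_div_iff (sub_ne_zero.2 hne')]
        linear_combination h1
      have hprod : (t * μ) ^ q = t * μ := by rw [mul_pow, ht, hμ]
      rw [hw', div_pow, CharTwo.sub_eq_add, CharTwo.sub_eq_add, hfq, hfq, mul_pow, hgq, hhq,
        hffix μ hμ, hffix _ hprod]
    rw [← hgh] at h1
    linear_combination h1
  have hfmul : ∀ s t, s ^ q = s → t ^ q = t → f (s * t) = f s * f t := by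
    intro s t hs ht
    obtain ⟨w, hw⟩ := exists_not_fixed hn hq hF
    have h1 := hsemi s w hs hw 1 (one_pow q)
    rw [mul_one, hf1, mul_one] at h1
    rw [hsemi s w hs hw t ht, h1]
  have hfadd : ∀ s t, s ^ q = s → t ^ q = t → f (s + t) = f s + f t := fun s t _ _ => by
    show fv (s + t) / a = fv s / a + fv t / a
    rw [map_add, add_div]
  obtain ⟨i, hi, hfi⟩ := exists_frobenius hn hq hF f hfadd hfmul hf1
  -- the norm
  have hsq : ∀ z : F, z ^ q = z → ∃ r, r ^ q = r ∧ z = r ^ (q + 1) := by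
    intro z hz
    obtain ⟨r, hr⟩ := FiniteField.isSquare_of_char_two (ringChar.eq F 2) z
    have hrq : r ^ q = r := CharTwo.sq_injective (by
      show (r ^ q) ^ 2 = r ^ 2
      rw [← pow_mul, mul_comm, pow_mul, pow_two, ← hr, hz])
    exact ⟨r, hrq, by rw [hr, pow_succ, hrq]⟩
  have hfgf : ∀ z, z ^ q = z → fg z = a ^ (q + 1) * z ^ (2 ^ i) := by
    intro z hz
    obtain ⟨r, hr, rfl⟩ := hsq z hz
    have hfr : fv r = a * r ^ (2 ^ i) := by
      rw [← hfi r hr]; exact (mul_div_cancel₀ _ ha).symm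
    rw [hN, hfr, mul_pow, ← pow_mul, ← pow_mul, mul_comm (2 ^ i)]
  have hpows : ∀ x y : F, (x + y) ^ (2 ^ i) = x ^ (2 ^ i) + y ^ (2 ^ i) := fun x y => add_pow_char_pow x y 2 i
  -- pointwise there are two choices
  have hnorm : ∀ x, fv x ^ (q + 1) = a ^ (q + 1) * (x ^ (2 ^ i)) ^ (q + 1) := fun x => by
    have hz : (x ^ (q + 1)) ^ q = x ^ (q + 1) := by rw [pow_succ, mul_pow, hqq, mul_comm]
    rw [← hN, hfgf _ hz, ← pow_mul, ← pow_mul, mul_comm (q + 1)]
  have hnorm' : ∀ x, (fv x / a) ^ (q + 1) = (x ^ (2 ^ i)) ^ (q + 1) := fun x => by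
    rw [div_pow, hnorm, mul_div_cancel_left₀ _ (pow_ne_zero _ ha)]
  have htwo : ∀ x, fv x / a = x ^ (2 ^ i) ∨ fv x / a = (x ^ (2 ^ i)) ^ q := by
    intro x
    have h1 := hnorm' x
    have h2 := hnorm' (x + 1)
    rw [map_add, ← hadef, add_div, div_self ha, hpows, one_pow, pow_succ, hfq, one_pow,
      pow_succ _ q, hfq, one_pow] at h2
    rw [pow_succ, pow_succ _ q] at h1
    set u := fv x / a
    set v := x ^ (2 ^ i)
    have htr : u ^ q + u = v ^ q + v := by linear_combination h2 - h1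
    have hmul0 : (u + v) * (u + v ^ q) = 0 := by
      linear_combination (-1 : F) * h1 + u * htr + (u * v + u * v ^ q) * (CharTwo.two_eq_zero (R := F))
    rcases mul_eq_zero.1 hmul0 with h | h
    · exact Or.inl (CharTwo.add_eq_zero.1 h)
    · exact Or.inr (CharTwo.add_eq_zero.1 h)
  rcases forall_or_exists_not (fun x => fv x / a = x ^ (2 ^ i)) with hall | ⟨y, hy⟩
  · exact ⟨a, ha, i, hi, fun x => by rw [← hall x, mul_div_cancel₀ _ ha]⟩
  · have hy' := (htwo y).resolve_left hy
    have hall : ∀ x, fv x / a = (x ^ (2 ^ i)) ^ q := by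
      intro x
      by_contra hx
      have hx' := (htwo x).resolve_right hx
      have hsum : fv (x + y) / a = fv x / a + fv y / a := by rw [map_add, add_div]
      rcases htwo (x + y) with h | h
      · rw [hsum, hpows, hx'] at h
        exact hy (add_left_cancel h)
      · rw [hsum, hpows, hfq, hy'] at h
        exact hx (add_right_cancel h)
    refine ⟨a, ha, (i + n) % (2 * n), Nat.mod_lt _ (by omega), fun x => ?_⟩
    rw [← mul_div_cancel₀ (fv x) ha, hall x, ← pow_mul, hq, ← pow_add]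
    congr 1
    by_cases h : i + n < 2 * n
    · rw [Nat.mod_eq_of_lt h]
    · rw [Nat.mod_eq_sub_mod (by omega), Nat.mod_eq_of_lt (by omega),
        show i + n = (i + n - 2 * n) + 2 * n by omega, Nat.add_sub_cancel, pow_add, mul_comm, pow_mul]
      congr 1
      rw [mul_comm 2 n, pow_mul, ← hq, ← hF]
      exact FiniteField.pow_card x

/-- The semilinear maps `x ↦ a * x ^ 2 ^ i` are pairwise different. -/
theorem semilinear_inj (hq : q = 2 ^ n) (hF : Fintype.card F = q ^ 2) {a b : F}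
    (ha : a ≠ 0) {i j : ℕ} (hi : i < 2 * n) (hj : j < 2 * n)
    (h : ∀ x : F, a * x ^ (2 ^ i) = b * x ^ (2 ^ j)) : a = b ∧ i = j := by
  haveI : Fact (Nat.Prime 2) := ⟨Nat.prime_two⟩
  letI : Algebra (ZMod 2) F := ZMod.algebra F 2
  have hab : a = b := by simpa using h 1
  subst hab
  refine ⟨rfl, ?_⟩
  have h' : ∀ x : F, x ^ (2 ^ i) = x ^ (2 ^ j) := fun x => mul_left_cancel₀ ha (h x)
  have heq : FiniteField.frobeniusAlgHom (ZMod 2) F ^ i = FiniteField.frobeniusAlgHom (ZMod 2) F ^ j :=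
    AlgHom.ext fun x => by
      simpa [AlgHom.coe_pow, FiniteField.coe_frobeniusAlgHom, pow_iterate] using h' x
  have := (FiniteField.bijective_frobeniusAlgHom_pow (ZMod 2) F).1
    (a₁ := ⟨i, (finrank_eq hq hF).symm ▸ hi⟩) (a₂ := ⟨j, (finrank_eq hq hF).symm ▸ hj⟩) heq
  exact congrArg Fin.val this

end Field

section Group

variable {F : Type*} [Field F] [Fintype F] [CharP F 2] {n q : ℕ} {X : Type*} [Group X]

theorem alpha_preserved (C : SUCoords F q X) (hn : 1 ≤ n) (hq : q = 2 ^ n)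
    (hF : Fintype.card F = q ^ 2) (f : MulAut X) (x y : X) (h : C.α x = C.α y) :
    C.α (f x) = C.α (f y) := by
  obtain ⟨fv, fg, hv, -⟩ := C.exists_induced hn hq hF f
  rw [← hv, ← hv, h]

/-- The action on the quotient by the centre, read in the coordinate `α`. -/
noncomputable def alphaAct (C : SUCoords F q X) (hn : 1 ≤ n) (hq : q = 2 ^ n)
    (hF : Fintype.card F = q ^ 2) : MulAut X →* Equiv.Perm F :=
  MonoidHom.mk' (fun f =>
    { toFun := fun a => C.α (f (C.exists_alpha hn hq hF a).choose)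
      invFun := fun a => C.α (f.symm (C.exists_alpha hn hq hF a).choose)
      left_inv := fun a => by
        have h := (C.exists_alpha hn hq hF (C.α (f (C.exists_alpha hn hq hF a).choose))).choose_spec
        show C.α (f.symm _) = a
        rw [alpha_preserved C hn hq hF f.symm _ _ h, MulEquiv.symm_apply_apply]
        exact (C.exists_alpha hn hq hF a).choose_spec
      right_inv := fun a => by
        have h := (C.exists_alpha hn hq hF (C.α (f.symm (C.exists_alpha hn hq hF a).choose))).choose_spec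
        show C.α (f _) = a
        rw [alpha_preserved C hn hq hF f _ _ h, MulEquiv.apply_symm_apply]
        exact (C.exists_alpha hn hq hF a).choose_spec })
    fun f g => Equiv.ext fun a => by
      show C.α (f (g _)) = C.α (f _)
      exact alpha_preserved C hn hq hF f _ _
        (C.exists_alpha hn hq hF (C.α (g (C.exists_alpha hn hq hF a).choose))).choose_spec.symm

theorem alphaAct_alpha (C : SUCoords F q X) (hn : 1 ≤ n) (hq : q = 2 ^ n)
    (hF : Fintype.card F = q ^ 2) (f : MulAut X) (x : X) :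
    alphaAct C hn hq hF f (C.α x) = C.α (f x) :=
  alpha_preserved C hn hq hF f _ x (C.exists_alpha hn hq hF (C.α x)).choose_spec

theorem mem_ker_iff (C : SUCoords F q X) (hn : 1 ≤ n) (hq : q = 2 ^ n)
    (hF : Fintype.card F = q ^ 2) (f : MulAut X) :
    f ∈ (alphaAct C hn hq hF).ker ↔ ∀ x, C.α (f x) = C.α x := by
  constructor
  · intro h x
    rw [← alphaAct_alpha C hn hq hF, MonoidHom.mem_ker.1 h]
    rfl
  · intro h
    refine MonoidHom.mem_ker.2 (Equiv.ext fun a => ?_)
    obtain ⟨x, rfl⟩ := C.exists_alpha hn hq hF a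
    rw [alphaAct_alpha]
    exact h x

theorem trace_ker_card (hn : 1 ≤ n) (hq : q = 2 ^ n) (hF : Fintype.card F = q ^ 2) (T : F →+ F)
    (hT : ∀ c, T c = c + c ^ q) : Nat.card T.ker = q := by
  classical
  obtain ⟨hfq, hqq, hfix⟩ := fix_facts hn hq hF
  let Fx : Finset F := Finset.univ.filter fun c => c ^ q = c
  have hker : Nat.card T.ker = Fx.card := by
    rw [Nat.card_eq_fintype_card, Fintype.card_subtype]
    congr 1; ext c
    simp only [Fx, Finset.mem_filter, Finset.mem_univ, true_and]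
    show T c = 0 ↔ c ^ q = c
    rw [hT, CharTwo.add_eq_zero]; exact eq_comm
  have hle : Fx.card ≤ q := hfix Fx fun c hc => (Finset.mem_filter.1 hc).2
  have hrle : T.range ≤ T.ker := by
    rintro _ ⟨c, rfl⟩
    show T (T c) = 0
    rw [hT (T c), hT, hfq, hqq]
    linear_combination (c + c ^ q) * (CharTwo.two_eq_zero (R := F))
  have hr := Nat.card_le_card_of_injective _ (AddSubgroup.inclusion_injective hrle)
  have hmul := T.ker.card_mul_index
  rw [AddSubgroup.index_ker, Nat.card_eq_fintype_card (α := F), hF] at hmul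
  nlinarith

theorem kernel_facts [Finite X] (C : SUCoords F q X) (hn : 1 ≤ n) (hq : q = 2 ^ n)
    (hF : Fintype.card F = q ^ 2) :
    Cfsg.IsElementaryAbelian 2 (alphaAct C hn hq hF).ker ∧
      Nat.card (alphaAct C hn hq hF).ker = 2 ^ (2 * n ^ 2) := by
  classical
  obtain ⟨hfq, hqq, -⟩ := fix_facts hn hq hF
  have hq0 : q ≠ 0 := by rw [hq]; positivity
  have h2 : (2 : F) = 0 := CharTwo.two_eq_zero
  have hadd : ∀ a : F, a + a = 0 := CharTwo.add_self_eq_zero
  have hsur := C.exists_alpha hn hq hF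
  let T : F →+ F := AddMonoidHom.mk' (fun c => c + c ^ q) fun a b => by rw [hfq]; ring
  set K := (alphaAct C hn hq hF).ker
  have hα : ∀ f : K, ∀ x, C.α (f.1 x) = C.α x := fun f => (mem_ker_iff C hn hq hF _).1 f.2
  let c : K → X → F := fun f x => C.γ (f.1 x) + C.γ x
  have hcmul : ∀ f x y, c f (x * y) = c f x + c f y := fun f x y => by
    simp only [c, map_mul, C.mul, hα]
    linear_combination hadd (C.α x ^ q * C.α y)
  -- trivial on the centre
  have hcen : ∀ f x, C.α x = 0 → c f x = 0 := by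
    intro f x hx
    obtain ⟨fv, fg, hv, hg, -, hN⟩ := C.exists_induced hn hq hF f.1
    have hz := C.mem x
    rw [hx, zero_pow (by omega)] at hz
    obtain ⟨r, hr⟩ := FiniteField.isSquare_of_char_two (ringChar.eq F 2) (C.γ x)
    have hrq : r ^ q = r := CharTwo.sq_injective (by
      show (r ^ q) ^ 2 = r ^ 2
      rw [← pow_mul, mul_comm, pow_mul, pow_two, ← hr]
      exact (CharTwo.add_eq_zero.1 hz).symm)
    obtain ⟨y, rfl⟩ := hsur r
    have hfix : fg (C.γ x) = C.γ x := by
      rw [hr, show C.α y * C.α y = C.α y ^ (q + 1) by rw [pow_succ, hrq], hN, hv, hα]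
    show C.γ (f.1 x) + C.γ x = 0
    rw [← hg x hx, hfix, hadd]
  have hcwd : ∀ f x y, C.α x = C.α y → c f x = c f y := by
    intro f x y h
    have h1 : C.α (x⁻¹ * y) = 0 := by
      have h2 := C.add x (x⁻¹ * y)
      rw [mul_inv_cancel_left, ← h] at h2
      exact add_eq_left.1 h2.symm
    conv_rhs => rw [show y = x * (x⁻¹ * y) by group, hcmul, hcen f _ h1, add_zero]
  choose r hr using hsur
  have hcker : ∀ f x, c f x ∈ T.ker := fun f x => by
    show c f x + c f x ^ q = 0
    have h1 := C.mem x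
    have h3 := C.mem (f.1 x)
    rw [hα] at h3
    simp only [c, hfq]
    linear_combination h1 + h3 + C.α x ^ (q + 1) * h2
  let φ : K → (F →+ T.ker) := fun f => AddMonoidHom.mk' (fun a => ⟨c f (r a), hcker f _⟩) fun a b =>
    Subtype.ext (by
      show c f (r (a + b)) = c f (r a) + c f (r b)
      rw [← hcmul]
      exact hcwd f _ _ (by rw [C.add, hr, hr, hr]))
  have hφ : ∀ f x, ((φ f (C.α x) : T.ker) : F) = c f x := fun f x => hcwd f _ _ (hr _)
  have hinj : Function.Injective φ := by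
    intro f g h
    refine Subtype.ext (MulEquiv.ext fun x => C.inj _ _ ((hα f x).trans (hα g x).symm) ?_)
    have := congrArg (fun ψ : F →+ T.ker => ((ψ (C.α x) : T.ker) : F)) h
    rw [hφ, hφ] at this
    exact add_right_cancel this
  have hmulφ : ∀ f g : K, ∀ a, φ (f * g) a = φ f a + φ g a := by
    intro f g a
    refine Subtype.ext ?_
    show C.γ (f.1 (g.1 (r a))) + C.γ (r a) = c f (r a) + c g (r a)
    rw [← hcwd f (g.1 (r a)) (r a) (hα g _)]
    simp only [c]
    linear_combination -hadd (C.γ (g.1 (r a)))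
  have hsurj : Function.Surjective φ := by
    intro h
    have hex : ∀ x, ∃ y, C.α y = C.α x ∧ C.γ y = C.γ x + (h (C.α x) : T.ker) := fun x => C.sur _ _ (by
      have hk : ((h (C.α x) : T.ker) : F) + ((h (C.α x) : T.ker) : F) ^ q = 0 := (h (C.α x)).2
      rw [hfq]
      linear_combination C.mem x + hk)
    choose F' hF'α hF'γ using hex
    have hinv : ∀ x, F' (F' x) = x := fun x => C.inj _ _ (by rw [hF'α, hF'α]) (by
      rw [hF'γ, hF'α, hF'γ, add_assoc, hadd, add_zero])
    have hhom : ∀ x y, F' (x * y) = F' x * F' y := fun x y => C.inj _ _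
      (by rw [hF'α, C.add, C.add, hF'α, hF'α])
      (by rw [hF'γ, C.mul, C.mul, hF'γ, hF'γ, hF'α, hF'α, C.add, map_add, AddSubgroup.coe_add]; ring)
    let e : MulAut X := MulEquiv.mk' ⟨F', F', hinv, hinv⟩ hhom
    have he : e ∈ K := (mem_ker_iff C hn hq hF e).2 hF'α
    refine ⟨⟨e, he⟩, AddMonoidHom.ext fun a => Subtype.ext ?_⟩
    show C.γ (F' (r a)) + C.γ (r a) = _
    rw [hF'γ, hr]
    linear_combination hadd (C.γ (r a))
  have hT2 : ∀ z : T.ker, z + z = 0 := fun z => Subtype.ext (hadd _)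
  refine ⟨⟨⟨⟨fun f g => hinj (AddMonoidHom.ext fun a => by rw [hmulφ, hmulφ, add_comm])⟩⟩, fun f hf => ?_⟩, ?_⟩
  · have h1 : φ 1 = 0 := AddMonoidHom.ext fun a => Subtype.ext (by
      show C.γ (r a) + C.γ (r a) = 0; exact hadd _)
    have : (⟨f, hf⟩ : K) * ⟨f, hf⟩ = 1 := hinj (AddMonoidHom.ext fun a => by
      rw [hmulφ, h1, hT2]; rfl)
    rw [pow_two]
    exact congrArg Subtype.val this
  · rw [Nat.card_congr (Equiv.ofBijective φ ⟨hinj, hsurj⟩)]
    haveI : Fact (Nat.Prime 2) := ⟨Nat.prime_two⟩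
    letI : Algebra (ZMod 2) F := ZMod.algebra F 2
    let S : Submodule (ZMod 2) F := AddSubgroup.toZModSubmodule 2 T.ker
    let e : (F →+ T.ker) ≃ (F →ₗ[ZMod 2] S) :=
      { toFun := fun h => AddMonoidHom.toZModLinearMap 2 (M₁ := S) h
        invFun := fun h => h.toAddMonoidHom
        left_inv := fun h => rfl
        right_inv := fun h => rfl }
    rw [Nat.card_congr e, Module.natCard_eq_pow_finrank (K := ZMod 2), Nat.card_zmod,
      Module.finrank_linearMap (ZMod 2) (ZMod 2), finrank_eq hq hF]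
    have hS : Nat.card S = q := trace_ker_card hn hq hF T fun c => rfl
    rw [Module.natCard_eq_pow_finrank (K := ZMod 2), Nat.card_zmod, hq] at hS
    rw [Nat.pow_right_injective le_rfl hS]
    ring

/-- The map `x ↦ a * x ^ 2 ^ i` as a permutation. -/
noncomputable def semi (p : Fˣ × Fin (2 * n)) : Equiv.Perm F :=
  Equiv.ofBijective (fun x => (p.1 : F) * x ^ (2 ^ (p.2 : ℕ))) (Finite.injective_iff_bijective.1 fun x y h =>
    iterateFrobenius_inj F 2 (p.2 : ℕ) (by
      simpa [iterateFrobenius_def] using mul_left_cancel₀ p.1.ne_zero h))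

theorem semi_apply (p : Fˣ × Fin (2 * n)) (x : F) : semi p x = (p.1 : F) * x ^ (2 ^ (p.2 : ℕ)) := rfl

theorem semi_inj (hq : q = 2 ^ n) (hF : Fintype.card F = q ^ 2) :
    Function.Injective (semi (F := F) (n := n)) := fun p r h => by
  obtain ⟨h1, h2⟩ := semilinear_inj hq hF p.1.ne_zero p.2.2 r.2.2 fun x => Equiv.congr_fun h x
  exact Prod.ext (Units.ext h1) (Fin.ext h2)

theorem range_eq [Finite X] (C : SUCoords F q X) (hn : 1 ≤ n) (hq : q = 2 ^ n)
    (hF : Fintype.card F = q ^ 2) :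
    ((alphaAct C hn hq hF).range : Set (Equiv.Perm F)) = Set.range (semi (F := F) (n := n)) := by
  classical
  obtain ⟨hfq, hqq, -⟩ := fix_facts hn hq hF
  have hq0 : q ≠ 0 := by rw [hq]; positivity
  have hsur := C.exists_alpha hn hq hF
  ext π
  constructor
  · rintro ⟨f, rfl⟩
    obtain ⟨fv, fg, hv, -, -, hN⟩ := C.exists_induced hn hq hF f
    have hfv : ∀ a, fv a = alphaAct C hn hq hF f a := fun a => by
      obtain ⟨x, rfl⟩ := hsur a
      rw [hv, alphaAct_alpha]
    obtain ⟨a, ha, i, hi, hai⟩ := exists_semilinear hn hq hF fv fg (fun x y h => by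
      rw [hfv, hfv] at h; exact (alphaAct C hn hq hF f).injective h) hN
    exact ⟨(Units.mk0 a ha, ⟨i, hi⟩), Equiv.ext fun x => by rw [semi_apply, ← hfv, hai]; rfl⟩
  · rintro ⟨⟨u, i⟩, rfl⟩
    have hp : ∀ x y : F, (x + y) ^ (2 ^ (i : ℕ)) = x ^ (2 ^ (i : ℕ)) + y ^ (2 ^ (i : ℕ)) :=
      fun x y => add_pow_char_pow x y 2 i
    set a : F := (u : F)
    set N : F := a ^ (q + 1) with hNdef
    have hNq : N ^ q = N := by rw [hNdef, pow_succ, mul_pow, hqq, mul_comm]
    have hcomm : ∀ z : F, (z ^ (2 ^ (i : ℕ))) ^ q = (z ^ q) ^ (2 ^ (i : ℕ)) := fun z => by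
      rw [← pow_mul, ← pow_mul, mul_comm]
    have hex : ∀ x, ∃ y, C.α y = a * C.α x ^ (2 ^ (i : ℕ)) ∧
        C.γ y = N * C.γ x ^ (2 ^ (i : ℕ)) := fun x => C.sur _ _ (by
      rw [mul_pow, mul_pow, hNq, hcomm, ← mul_add, ← hp, C.mem, hNdef, ← pow_mul, ← pow_mul, mul_comm (q + 1)])
    choose G hGα hGγ using hex
    have hhom : ∀ x y, G (x * y) = G x * G y := fun x y => C.inj _ _
      (by rw [hGα, C.add, C.add, hGα, hGα, hp, mul_add])
      (by
        rw [hGγ, C.mul, C.mul, hGγ, hGγ, hGα, hGα, hp, hp, mul_pow, mul_pow, hcomm, hNdef, pow_succ]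
        ring)
    have hinj : Function.Injective G := fun x y h => by
      have h1 : a * C.α x ^ (2 ^ (i : ℕ)) = a * C.α y ^ (2 ^ (i : ℕ)) := by rw [← hGα, ← hGα, h]
      have h2 : N * C.γ x ^ (2 ^ (i : ℕ)) = N * C.γ y ^ (2 ^ (i : ℕ)) := by rw [← hGγ, ← hGγ, h]
      refine C.inj _ _ (iterateFrobenius_inj F 2 i ?_) (iterateFrobenius_inj F 2 i ?_)
      · simpa [iterateFrobenius_def] using mul_left_cancel₀ u.ne_zero h1
      · simpa [iterateFrobenius_def] using mul_left_cancel₀ (pow_ne_zero _ u.ne_zero) h2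
    let e : MulAut X := MulEquiv.mk' (Equiv.ofBijective G (Finite.injective_iff_bijective.1 hinj)) hhom
    refine ⟨e, Equiv.ext fun z => ?_⟩
    obtain ⟨x, rfl⟩ := hsur z
    rw [alphaAct_alpha, semi_apply]
    exact hGα x

theorem pCore_le_ker [Finite X] (C : SUCoords F q X) (hn : 1 ≤ n) (hq : q = 2 ^ n)
    (hF : Fintype.card F = q ^ 2) :
    Cfsg.pCore 2 (MulAut X) ≤ (alphaAct C hn hq hF).ker := by
  classical
  intro f hf
  set Φ := alphaAct C hn hq hF
  have hran := range_eq C hn hq hF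
  have hn0 : 0 < 2 * n := by omega
  -- multiplications of two-power order are trivial
  have hmult : ∀ g ∈ Cfsg.pCore 2 (MulAut X), ∀ c : F, (∀ x, Φ g x = c * x) → c = 1 := by
    intro g hg c hgc
    obtain ⟨k, hk⟩ := Core.isPGroup_pCore 2 (MulAut X) ⟨g, hg⟩
    have hk' : g ^ (2 ^ k) = 1 := congrArg Subtype.val hk
    have hpow : ∀ j : ℕ, ∀ x, Φ (g ^ j) x = c ^ j * x := by
      intro j
      induction j with
      | zero => intro x; rw [pow_zero, map_one Φ, pow_zero, one_mul]; rfl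
      | succ j ih =>
        intro x
        rw [pow_succ, map_mul, Equiv.Perm.mul_apply, ih, hgc]
        ring
    have h1 := hpow (2 ^ k) 1
    rw [hk', map_one Φ, mul_one] at h1
    exact iterateFrobenius_inj F 2 k (by rw [iterateFrobenius_def, iterateFrobenius_def, one_pow]; exact h1.symm)
  obtain ⟨⟨u, i⟩, hui⟩ : Φ f ∈ Set.range (semi (F := F) (n := n)) := hran ▸ ⟨f, rfl⟩
  have hf' : ∀ x, Φ f x = (u : F) * x ^ (2 ^ (i : ℕ)) := fun x => by rw [← hui]; rfl
  have hi : ∀ b : F, b ≠ 0 → b ^ (2 ^ (i : ℕ)) = b := by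
    intro b hb
    obtain ⟨g, hg⟩ : semi (n := n) (Units.mk0 b hb, (⟨0, hn0⟩ : Fin (2 * n))) ∈
        (Φ.range : Set (Equiv.Perm F)) := hran.symm ▸ ⟨_, rfl⟩
    have hg' : ∀ x, Φ g x = b * x := fun x => by rw [hg, semi_apply]; simp
    have hmem : g * f * g⁻¹ * f⁻¹ ∈ Cfsg.pCore 2 (MulAut X) :=
      mul_mem ((Cfsg.pCore_normal 2 (MulAut X)).conj_mem f hf g) (inv_mem hf)
    have hc := hmult _ hmem (b / b ^ (2 ^ (i : ℕ))) fun x => by
      obtain ⟨y, rfl⟩ : ∃ y, Φ (f * g) y = x := (Φ (f * g)).surjective x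
      have hsurj : Φ (g * f * g⁻¹ * f⁻¹) (Φ (f * g) y) = Φ (g * f) y := by
        rw [← Equiv.Perm.mul_apply, ← map_mul]
        congr 2
        group
      rw [hsurj, map_mul, map_mul, Equiv.Perm.mul_apply, Equiv.Perm.mul_apply, hg', hf', hf', hg',
        mul_pow]
      field_simp
    exact ((div_eq_one_iff_eq (pow_ne_zero _ hb)).1 hc).symm
  have hi' : ∀ x : F, x ^ (2 ^ (i : ℕ)) = x := fun x => by
    rcases eq_or_ne x 0 with rfl | hx
    · exact zero_pow (pow_ne_zero _ two_ne_zero)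
    · exact hi x hx
  have hu := hmult f hf (u : F) fun x => by rw [hf', hi']
  refine MonoidHom.mem_ker.2 (Equiv.ext fun x => ?_)
  rw [hf', hu, hi', one_mul]
  rfl

/-- The main theorem in coordinates. -/
theorem structure_main [Finite X] (C : SUCoords F q X) (hn : 1 ≤ n) (hq : q = 2 ^ n)
    (hF : Fintype.card F = q ^ 2) :
    Cfsg.IsElementaryAbelian 2 (Cfsg.pCore 2 (MulAut X)) ∧
      Nat.card (Cfsg.pCore 2 (MulAut X)) = 2 ^ (2 * n ^ 2) ∧
      Nat.card (MulAut X) = 2 ^ (2 * n ^ 2) * (2 * n * ((2 ^ n) ^ 2 - 1)) := by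
  classical
  obtain ⟨hel, hcard⟩ := kernel_facts C hn hq hF
  have heq : Cfsg.pCore 2 (MulAut X) = (alphaAct C hn hq hF).ker :=
    le_antisymm (pCore_le_ker C hn hq hF) (Core.le_pCore inferInstance fun g => ⟨1, by
      rw [pow_one]; exact Subtype.ext (hel.2 g.1 g.2)⟩)
  rw [heq]
  refine ⟨hel, hcard, ?_⟩
  rw [← (alphaAct C hn hq hF).ker.card_mul_index, Subgroup.index_ker, hcard,
    show Nat.card (alphaAct C hn hq hF).range = Nat.card (Set.range (semi (F := F) (n := n))) from
      Nat.card_congr (Equiv.setCongr (range_eq C hn hq hF)),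
    Nat.card_range_of_injective (semi_inj hq hF), Nat.card_prod, Nat.card_fin, Nat.card_units,
    Nat.card_eq_fintype_card, hF, hq]
  ring

end Group

end Cfsg.Agent.FGS3.SU3Aut
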