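import Cfsg.Prelude.Def_Local
import Mathlib

/-!
A module for a `p`-soluble group spanned by the orbit of a vector fixed by a Sylow `p`-subgroup:
the augmentation submodule has no non-zero fixed vector.
-/

namespace Cfsg.Agent.FGS3.SpanningOrbit

variable {k V H : Type*} [Field k] [AddCommGroup V] [Module k V] [Group H] [Finite H]
  {p : ℕ} [Fact p.Prime] [CharP k p] (ρ : Representation k H V)

lemma comp_apply' (g h : H) (x : V) : ρ g (ρ h x) = ρ (g * h) x := by
  rw [map_mul, Module.End.mul_apply]

include p in
theorem eq_zero_of_invariant (hsol : Cfsg.IsPSolvable p H) (a : V)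
    (hfix : ∃ P : Sylow p H, ∀ x : H, x ∈ (P : Subgroup H) → ρ x a = a)
    (hspan : Submodule.span k {u : V | ∃ h : H, ρ h a = u} = ⊤) {v : V}
    (hv : v ∈ Submodule.span k {u : V | ∃ h : H, ρ h a - a = u})
    (hinv : ∀ h, ρ h v = v) : v = 0 := by
  classical
  obtain ⟨P, hP⟩ := hfix
  obtain ⟨n, M, h0, hn, hmono, hnormal, hfac⟩ := hsol
  -- projections onto vectors fixed by the terms of the series
  have key : ∀ i : Fin (n + 1), ∃ π : V →ₗ[k] V, (∀ h x, π (ρ h x) = ρ h (π x)) ∧
      (∀ g ∈ M i, ρ g (π a) = π a) ∧ (∀ x, (∀ h, ρ h x = x) → π x = x) := by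
    intro i
    induction i using Fin.induction with
    | zero =>
      refine ⟨LinearMap.id, fun _ _ => rfl, fun g hg => ?_, fun _ _ => rfl⟩
      rw [h0, Subgroup.mem_bot] at hg
      rw [hg, map_one]
      rfl
    | succ i ih =>
      obtain ⟨π, hcomm, hfixa, hid⟩ := ih
      set A := M i.castSucc
      set B := M i.succ
      haveI : A.Normal := hnormal _
      haveI : B.Normal := hnormal _
      have hAB : A ≤ B := hmono (Fin.castSucc_le_succ i)
      rcases hfac i with ⟨e, he⟩ | hcop
      · -- a `p`-factor
        refine ⟨π, hcomm, fun g hg => ?_, hid⟩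
        let S : Subgroup H := ((P : Subgroup H) ⊓ B) ⊔ A
        have hS : ∀ s ∈ S, ρ s (π a) = π a := by
          let T : Subgroup H :=
            { carrier := {s | ρ s (π a) = π a}
              one_mem' := by show ρ 1 (π a) = π a; rw [map_one]; rfl
              mul_mem' := fun {s t} hs ht => by
                show ρ (s * t) (π a) = π a
                rw [← comp_apply' ρ, ht, hs]
              inv_mem' := fun {s} hs => by
                show ρ s⁻¹ (π a) = π a
                conv_lhs => rw [← (show ρ s (π a) = π a from hs), comp_apply' ρ, inv_mul_cancel, map_one]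
                rfl }
          have hle : S ≤ T := sup_le (fun s hs => by
            show ρ s (π a) = π a
            rw [← hcomm, hP s hs.1]) hfixa
          exact fun s hs => hle hs
        refine hS g ?_
        -- `B = (P ∩ B) A`
        have hd1 : S.relIndex B ∣ p ^ e := he ▸ Subgroup.relIndex_dvd_of_le_left B le_sup_right
        have hd2 : S.relIndex B ∣ (P : Subgroup H).index := by
          refine (Subgroup.relIndex_dvd_of_le_left B (le_sup_left : (P : Subgroup H) ⊓ B ≤ S)).trans ?_
          rw [Subgroup.inf_relIndex_right]
          obtain ⟨c, hc⟩ := Subgroup.relIndex_dvd_index_of_normal B (P : Subgroup H)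
          have h2 := Subgroup.relIndex_mul_index (inf_le_left : (P : Subgroup H) ⊓ B ≤ (P : Subgroup H))
          have h3 := Subgroup.relIndex_mul_index (inf_le_right : (P : Subgroup H) ⊓ B ≤ B)
          rw [Subgroup.inf_relIndex_left] at h2
          rw [Subgroup.inf_relIndex_right] at h3
          refine ⟨c, Nat.eq_of_mul_eq_mul_left
            (Nat.pos_of_ne_zero (Subgroup.index_ne_zero_of_finite : (B.subgroupOf (P : Subgroup H)).index ≠ 0)) ?_⟩
          show B.relIndex (P : Subgroup H) * _ = B.relIndex (P : Subgroup H) * _
          rw [h2, ← h3, hc]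
          ring
        have h1 : S.relIndex B = 1 := Nat.eq_one_of_dvd_coprimes
          (Nat.Coprime.pow_left e ((Fact.out : p.Prime).coprime_iff_not_dvd.mpr P.not_dvd_index))
          hd1 hd2
        exact Subgroup.relIndex_eq_one.mp h1 hg
      · -- a `p'`-factor
        haveI : Fintype (B ⧸ A.subgroupOf B) := Fintype.ofFinite _
        let F : V →ₗ[k] V := ∑ q : B ⧸ A.subgroupOf B, (ρ ((Quotient.out q : B) : H)).comp π
        have hall : ∀ x, ∀ g ∈ A, ρ g (π x) = π x := by
          intro x g hg
          have hx : x ∈ Submodule.span k {u : V | ∃ h : H, ρ h a = u} := hspan ▸ Submodule.mem_top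
          induction hx using Submodule.span_induction with
          | mem y hy =>
            obtain ⟨h, rfl⟩ := hy
            rw [hcomm, comp_apply' ρ, show g * h = h * (h⁻¹ * g * h) by group, ← comp_apply' ρ,
              hfixa _ (by simpa using (hnormal i.castSucc).conj_mem g hg h⁻¹)]
          | zero => simp
          | add y z _ _ hy hz => rw [map_add, map_add, hy, hz]
          | smul c y _ hy => rw [map_smul, map_smul, hy]
        have hrep : ∀ (x : V) (b : B), ρ ((Quotient.out (b : B ⧸ A.subgroupOf B) : B) : H) (π x) =
            ρ (b : H) (π x) := by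
          intro x b
          obtain ⟨z, hz⟩ := QuotientGroup.mk_out_eq_mul (A.subgroupOf B) b
          rw [hz, Subgroup.coe_mul, ← comp_apply' ρ]
          congr 1
          exact hall x _ z.2
        have hF : ∀ x, F x = ∑ q : B ⧸ A.subgroupOf B, ρ ((Quotient.out q : B) : H) (π x) := fun x => by
          simp [F]
        let m : ℕ := Fintype.card (B ⧸ A.subgroupOf B)
        have hm : (m : k) ≠ 0 := by
          intro h0'
          rw [CharP.cast_eq_zero_iff k p] at h0'
          have hm' : m = A.relIndex B := by
            rw [Subgroup.relIndex, Subgroup.index_eq_card, Nat.card_eq_fintype_card]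
          exact (Fact.out : p.Prime).coprime_iff_not_dvd.mp hcop.symm (hm' ▸ h0')
        refine ⟨(m : k)⁻¹ • F, ?_, ?_, ?_⟩
        · intro h x
          rw [LinearMap.smul_apply, LinearMap.smul_apply, map_smul]
          congr 1
          rw [hF, hF, map_sum]
          let c : B ≃* B := MulAut.conjNormal h
          refine (Fintype.sum_equiv (QuotientGroup.congr (A.subgroupOf B) (A.subgroupOf B) c ?_).toEquiv
            _ _ fun q => ?_).symm
          · ext b
            constructor
            · rintro ⟨z, hz, rfl⟩
              show h * (z : H) * h⁻¹ ∈ A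
              exact (hnormal i.castSucc).conj_mem _ hz h
            · intro hb
              refine ⟨c.symm b, ?_, c.apply_symm_apply b⟩
              show ((c.symm b : B) : H) ∈ A
              rw [MulAut.conjNormal_symm_apply]
              simpa using (hnormal i.castSucc).conj_mem _ hb h⁻¹
          · induction q using QuotientGroup.induction_on with
            | H b =>
              show ρ h (ρ ((Quotient.out (b : B ⧸ A.subgroupOf B) : B) : H) (π x)) =
                ρ ((Quotient.out ((c b : B) : B ⧸ A.subgroupOf B) : B) : H) (π (ρ h x))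
              rw [hrep, hrep, hcomm, comp_apply' ρ, comp_apply' ρ, MulAut.conjNormal_apply,
                inv_mul_cancel_right]
        · intro g hg
          rw [LinearMap.smul_apply, map_smul]
          congr 1
          rw [hF, map_sum]
          refine Fintype.sum_equiv (Equiv.mulLeft ((⟨g, hg⟩ : B) : B ⧸ A.subgroupOf B)) _ _ fun q => ?_
          induction q using QuotientGroup.induction_on with
          | H b =>
            show ρ g (ρ ((Quotient.out (b : B ⧸ A.subgroupOf B) : B) : H) (π a)) =
              ρ ((Quotient.out (((⟨g, hg⟩ : B) * b : B) : B ⧸ A.subgroupOf B) : B) : H) (π a)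
            rw [hrep, hrep, comp_apply' ρ, Subgroup.coe_mul]
        · intro x hx
          rw [LinearMap.smul_apply, hF]
          simp only [hid x hx, hx, Finset.sum_const, Finset.card_univ]
          rw [← Nat.cast_smul_eq_nsmul k, smul_smul, inv_mul_cancel₀ hm, one_smul]
  obtain ⟨π, hcomm, hfixa, hid⟩ := key (Fin.last n)
  have hπ : Submodule.span k {u : V | ∃ h : H, ρ h a - a = u} ≤ LinearMap.ker π := by
    rw [Submodule.span_le]
    rintro _ ⟨h, rfl⟩
    rw [SetLike.mem_coe, LinearMap.mem_ker, map_sub, hcomm, hfixa h (hn ▸ Subgroup.mem_top h), sub_self]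
  rw [← hid v hinv]
  exact hπ hv

end Cfsg.Agent.FGS3.SpanningOrbit
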