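import Cfsg.Agent.Core.Cores
import Cfsg.Agent.FGS4.Subnormal

/-!
Casolo's formula for the number of elements of the subnormalizer of a `p`-subgroup.
-/

set_option autoImplicit false
set_option linter.unusedSectionVars false

namespace Cfsg.Agent.FGS3.Subnormalizer

open Subgroup Finset

/-- Co-weightings exist on finite posets. -/
theorem exists_coweight {α : Type*} [PartialOrder α] [DecidableEq α] [DecidableLE α] (X : Finset α) :
    ∃ w : α → ℤ, ∀ x ∈ X, ∑ y ∈ X with x ≤ y, w y = 1 := by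
  induction X using Finset.strongInduction with
  | _ X ih =>
    rcases X.eq_empty_or_nonempty with rfl | hX
    · exact ⟨0, by simp⟩
    obtain ⟨m, hm, hmin⟩ := X.exists_minimal hX
    obtain ⟨w, hw⟩ := ih (X.erase m) (erase_ssubset hm)
    refine ⟨Function.update w m (1 - ∑ y ∈ X.erase m with m ≤ y, w y), fun x hx => ?_⟩
    rcases eq_or_ne x m with rfl | hxm
    · rw [← insert_erase hm, filter_insert, if_pos le_rfl, erase_insert (notMem_erase _ _), sum_insert (by simp),
        Function.update_self, sum_congr rfl fun y hy => Function.update_of_ne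
          (ne_of_mem_erase (mem_of_mem_filter y hy)) _ _]
      ring
    · rw [← insert_erase hm, filter_insert, if_neg fun h => hxm (le_antisymm h (hmin hx h)),
        sum_congr rfl fun y hy => Function.update_of_ne (ne_of_mem_erase (mem_of_mem_filter y hy)) _ _]
      exact hw x (mem_erase.mpr ⟨hxm, hx⟩)

/-- Weightings exist on finite posets. -/
theorem exists_weight {α : Type*} [PartialOrder α] [DecidableEq α] [DecidableLE α] (X : Finset α) :
    ∃ u : α → ℤ, ∀ y ∈ X, ∑ x ∈ X with x ≤ y, u x = 1 := by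
  obtain ⟨w, hw⟩ := exists_coweight (α := αᵒᵈ) X
  exact ⟨w, fun y hy => hw y hy⟩

/-- The total co-weight is unchanged by passing to a subposet along a monotone retraction. -/
theorem sum_coweight_eq {α : Type*} [PartialOrder α] [DecidableEq α] [DecidableLE α]
    (X X₁ : Finset α) (h₁ : X₁ ⊆ X) (r : α → α) (hr : ∀ y ∈ X, r y ∈ X₁) (hle : ∀ y ∈ X, r y ≤ y)
    (hmax : ∀ x ∈ X₁, ∀ y ∈ X, x ≤ y → x ≤ r y) (w v : α → ℤ)
    (hw : ∀ x ∈ X, ∑ y ∈ X with x ≤ y, w y = 1) (hv : ∀ x ∈ X₁, ∑ y ∈ X₁ with x ≤ y, v y = 1) :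
    ∑ y ∈ X, w y = ∑ y ∈ X₁, v y := by
  obtain ⟨u, hu⟩ := exists_weight X₁
  have key : ∀ (Z : Finset α) (f : α → ℤ), (∀ y ∈ Z, ∑ x ∈ X₁ with x ≤ y, u x = 1) →
      (∀ x ∈ X₁, ∑ y ∈ Z with x ≤ y, f y = 1) → ∑ y ∈ Z, f y = ∑ x ∈ X₁, u x := by
    intro Z f h1 h2
    calc ∑ y ∈ Z, f y = ∑ y ∈ Z, ∑ x ∈ X₁ with x ≤ y, u x * f y :=
          sum_congr rfl fun y hy => by rw [← Finset.sum_mul, h1 y hy, one_mul]
      _ = ∑ x ∈ X₁, ∑ y ∈ Z with x ≤ y, u x * f y := by simp only [sum_filter]; exact sum_comm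
      _ = ∑ x ∈ X₁, u x := sum_congr rfl fun x hx => by rw [← Finset.mul_sum, h2 x hx, mul_one]
  rw [key X w (fun y hy => ?_) (fun x hx => hw x (h₁ hx)), key X₁ v hu hv]
  rw [show X₁.filter (· ≤ y) = X₁.filter (· ≤ r y) from filter_congr fun x hx =>
    ⟨fun h => hmax x hx y hy h, fun h => h.trans (hle y hy)⟩]
  exact hu _ (hr y hy)

variable {G : Type*} [Group G] [Finite G] (p : ℕ) [Fact p.Prime]

open scoped Classical in
/-- The `p`-subgroups of `Y`. -/
noncomputable def pS (Y : Subgroup G) : Finset (Subgroup G) :=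
  (Set.toFinite {R : Subgroup G | R ≤ Y ∧ IsPGroup p R}).toFinset

theorem mem_pS {Y R : Subgroup G} : R ∈ pS p Y ↔ R ≤ Y ∧ IsPGroup p R := by simp [pS]

open scoped Classical in
/-- The `p`-subgroups of `Y` normalized by `g`. -/
noncomputable def X (Y : Subgroup G) (g : G) : Finset (Subgroup G) :=
  (pS p Y).filter fun R => g ∈ normalizer (R : Set G)

open scoped Classical in
/-- A co-weighting of `X p Y g`. -/
noncomputable def w (Y : Subgroup G) (g : G) : Subgroup G → ℤ :=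
  (exists_coweight (X p Y g)).choose

open scoped Classical in
theorem w_spec (Y : Subgroup G) (g : G) {R : Subgroup G} (hR : R ∈ X p Y g) :
    ∑ R' ∈ X p Y g with R ≤ R', w p Y g R' = 1 :=
  (exists_coweight (X p Y g)).choose_spec R hR

/-- `R` is maximal among the `p`-subgroups of `Y`. -/
def IsMax (Y R : Subgroup G) : Prop := R ∈ pS p Y ∧ ∀ R' ∈ pS p Y, R ≤ R' → R' = R

/-- Conjugation by `x`. -/
noncomputable def cj (x : G) (M : Subgroup G) : Subgroup G := M.map (MulAut.conj x).toMonoidHom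

theorem cj_mul (x y : G) (M : Subgroup G) : cj (x * y) M = cj x (cj y M) := by
  rw [cj, cj, cj, Subgroup.map_map, map_mul]; rfl

theorem cj_one (M : Subgroup G) : cj 1 M = M := by
  rw [cj, map_one]; exact Subgroup.map_id M

theorem mem_cj {x g : G} {M : Subgroup G} : g ∈ cj x M ↔ x⁻¹ * g * x ∈ M := by
  rw [cj, Subgroup.mem_map_equiv]; simp

theorem cj_eq_self_iff {x : G} {M : Subgroup G} : cj x M = M ↔ x ∈ normalizer (M : Set G) := by
  rw [mem_normalizer_iff'']
  constructor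
  · intro h n
    conv_lhs => rw [← h]
    exact mem_cj
  · intro h
    ext n
    rw [mem_cj]
    exact (h n).symm

theorem cj_le_cj {x : G} {M N : Subgroup G} : cj x M ≤ cj x N ↔ M ≤ N :=
  map_le_map_iff_of_injective (MulAut.conj x).injective

theorem cj_mem_pS {x : G} {Y R : Subgroup G} (hx : x ∈ Y) (hR : R ∈ pS p Y) : cj x R ∈ pS p Y := by
  rw [mem_pS] at hR ⊢
  refine ⟨fun g hg => ?_, hR.2.map _⟩
  have h1 := mul_mem (mul_mem hx (hR.1 (mem_cj.mp hg))) (Y.inv_mem hx)
  rwa [show x * (x⁻¹ * g * x) * x⁻¹ = g by group] at h1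

theorem isMax_cj {x : G} {Y R : Subgroup G} (hx : x ∈ Y) (hR : IsMax p Y R) : IsMax p Y (cj x R) := by
  refine ⟨cj_mem_pS p hx hR.1, fun R' hR' h => ?_⟩
  have h1 := hR.2 _ (cj_mem_pS p (Y.inv_mem hx) hR') (by
    rw [← cj_le_cj (x := x), ← cj_mul, mul_inv_cancel, cj_one]; exact h)
  rw [← h1, ← cj_mul, mul_inv_cancel, cj_one]

theorem isMax_conj {Y M M' : Subgroup G} (hM : IsMax p Y M) (hM' : IsMax p Y M') :
    ∃ y ∈ Y, cj y M = M' := by
  have toSyl : ∀ {M : Subgroup G}, IsMax p Y M → ∃ S : Sylow p Y, (S : Subgroup Y).map Y.subtype = M := by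
    intro M hM
    obtain ⟨hMY, hMp⟩ := (mem_pS p).mp hM.1
    obtain ⟨S, hS⟩ := (hMp.of_equiv (subgroupOfEquivOfLe hMY).symm).exists_le_sylow
    refine ⟨S, hM.2 _ ((mem_pS p).mpr ⟨map_subtype_le _, S.2.map _⟩) ?_⟩
    rw [← map_subgroupOf_eq_of_le hMY]
    exact map_mono hS
  obtain ⟨S, rfl⟩ := toSyl hM
  obtain ⟨S', rfl⟩ := toSyl hM'
  obtain ⟨y, hy⟩ := MulAction.exists_smul_eq Y S S'
  refine ⟨y, y.2, ?_⟩
  rw [← hy, Sylow.coe_subgroup_smul]
  change (((S : Subgroup Y).map Y.subtype).map _) = ((S : Subgroup Y).map (MulAut.conj y).toMonoidHom).map Y.subtype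
  rw [Subgroup.map_map, Subgroup.map_map]
  congr 1

theorem exists_isMax (Y R : Subgroup G) (hR : R ∈ pS p Y) : ∃ M, IsMax p Y M ∧ R ≤ M := by
  classical
  obtain ⟨M, hM, hmax⟩ := ((pS p Y).filter (R ≤ ·)).exists_maximal ⟨R, by simp [hR]⟩
  rw [Finset.mem_filter] at hM
  exact ⟨M, ⟨hM.1, fun R' hR' h =>
    (le_antisymm h (hmax (mem_filter.mpr ⟨hR', hM.2.trans h⟩) h)).symm⟩, hM.2⟩

open scoped Classical in
/-- The elements of `Y` normalizing `M`. -/
noncomputable def nrm (Y M : Subgroup G) : Finset G :=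
  (Set.toFinite {x : G | x ∈ Y ∧ x ∈ normalizer (M : Set G)}).toFinset

theorem mem_nrm {Y M : Subgroup G} {x : G} :
    x ∈ nrm Y M ↔ x ∈ Y ∧ x ∈ normalizer (M : Set G) := by simp [nrm]

open scoped Classical in
/-- Orbit counting for the maximal `p`-subgroups of `Y`. -/
theorem sum_nrm [Fintype G] (Y : Subgroup G) {M₀ : Subgroup G} (hM₀ : IsMax p Y M₀)
    (S : Subgroup G → Prop) :
    ∑ M ∈ pS p Y with (IsMax p Y M ∧ S M), (nrm Y M).card =
      ((univ : Finset G).filter fun x => x ∈ Y ∧ S (cj x M₀)).card := by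
  rw [card_eq_sum_card_fiberwise (f := fun x => cj x M₀)
    (t := (pS p Y).filter fun M => IsMax p Y M ∧ S M) (fun x hx => by
      simp only [coe_filter, Finset.mem_univ, true_and, Set.mem_setOf_eq] at hx ⊢
      exact ⟨(isMax_cj p hx.1 hM₀).1, isMax_cj p hx.1 hM₀, hx.2⟩)]
  refine Finset.sum_congr rfl fun M hM => ?_
  rw [Finset.mem_filter] at hM
  obtain ⟨y, hy, rfl⟩ := isMax_conj p hM₀ hM.2.1
  refine card_nbij' (fun n => n * y) (fun x => x * y⁻¹) ?_ ?_ ?_ ?_
  · intro n hn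
    simp only [Finset.mem_coe, mem_nrm] at hn
    simp only [Finset.mem_coe, Finset.mem_filter, Finset.mem_univ, true_and, cj_mul,
      cj_eq_self_iff.mpr hn.2, and_true]
    exact ⟨Y.mul_mem hn.1 hy, hM.2.2⟩
  · intro x hx
    simp only [Finset.mem_coe, Finset.mem_filter, Finset.mem_univ, true_and] at hx
    simp only [Finset.mem_coe, mem_nrm, ← cj_eq_self_iff]
    refine ⟨Y.mul_mem hx.1.1 (Y.inv_mem hy), ?_⟩
    rw [← cj_mul, inv_mul_cancel_right, hx.2]
  · intro n _; exact mul_inv_cancel_right n y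
  · intro x _; exact inv_mul_cancel_right x y

open scoped Classical in
/-- The contribution of `R`. -/
noncomputable def b (Y R : Subgroup G) : ℤ := ∑ g ∈ nrm Y R, w p Y g R

open scoped Classical in
/-- Only maximal `p`-subgroups contribute. -/
theorem b_eq (k : ℕ) : ∀ Y R : Subgroup G, Nat.card G - Nat.card R ≤ k → R ∈ pS p Y →
    b p Y R = if IsMax p Y R then ((nrm Y R).card : ℤ) else 0 := by
  cases nonempty_fintype G
  induction k using Nat.strong_induction_on with
  | _ k ih =>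
  intro Y R hk hR
  have hsplit : ∀ g ∈ nrm Y R, w p Y g R = 1 - ∑ R' ∈ X p Y g with R < R', w p Y g R' := by
    intro g hg
    have hRX : R ∈ X p Y g := mem_filter.mpr ⟨hR, (mem_nrm.mp hg).2⟩
    have h1 := w_spec p Y g hRX
    have h2 : (X p Y g).filter (R ≤ ·) = insert R ((X p Y g).filter (R < ·)) := by
      ext R'
      simp only [Finset.mem_filter, Finset.mem_insert, le_iff_eq_or_lt]
      constructor
      · rintro ⟨h, rfl | h'⟩
        · exact Or.inl rfl
        · exact Or.inr ⟨h, h'⟩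
      · rintro (rfl | ⟨h, h'⟩)
        · exact ⟨hRX, Or.inl rfl⟩
        · exact ⟨h, Or.inr h'⟩
    rw [h2, Finset.sum_insert (by simp)] at h1
    linarith
  rw [b, Finset.sum_congr rfl hsplit, Finset.sum_sub_distrib, Finset.sum_const, nsmul_one]
  by_cases hmax : IsMax p Y R
  · rw [if_pos hmax, Finset.sum_eq_zero fun g _ => ?_, sub_zero]
    rw [Finset.sum_eq_zero]
    intro R' hR'
    rw [Finset.mem_filter, X, Finset.mem_filter] at hR'
    exact absurd (hmax.2 _ hR'.1.1 hR'.2.le) hR'.2.ne'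
  rw [if_neg hmax, sub_eq_zero]
  -- pass to the normalizer of `R`
  obtain ⟨hRY, hRp⟩ := (mem_pS p).mp hR
  set Y' : Subgroup G := Y ⊓ normalizer (R : Set G) with hY'
  have hnY : nrm Y R = (univ : Finset G).filter (· ∈ Y') := by ext x; simp [mem_nrm, hY']
  -- a strictly larger `p`-subgroup grows inside `Y'`
  have grow : ∀ R' ∈ pS p Y, R < R' → R < R' ⊓ normalizer (R : Set G) := by
    intro R' hR' hlt
    haveI : Group.IsNilpotent R' := ((mem_pS p).mp hR').2.isNilpotent
    have h1 : R.subgroupOf R' < ⊤ := lt_top_iff_ne_top.mpr fun h =>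
      hlt.not_ge (subgroupOf_eq_top.mp h)
    have h2 := Group.normalizerCondition_of_isNilpotent _ h1
    obtain ⟨y, hy, hyR⟩ := SetLike.exists_of_lt h2
    refine lt_of_le_of_ne (le_inf hlt.le le_normalizer) fun h => hyR ?_
    rw [mem_subgroupOf, h]
    refine ⟨y.2, mem_normalizer_fintype fun n hn => ?_⟩
    exact (mem_normalizer_iff.mp hy ⟨n, hlt.le hn⟩).mp hn
  have hretr : ∀ g ∈ nrm Y R, ∑ R' ∈ X p Y g with R < R', w p Y g R' =
      ∑ R' ∈ X p Y' g with R < R', w p Y' g R' := by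
    intro g hg
    obtain ⟨hgY, hgN⟩ := mem_nrm.mp hg
    have hup : ∀ (Z : Subgroup G), ∀ x ∈ (X p Z g).filter (R < ·),
        ∑ y ∈ (X p Z g).filter (R < ·) with x ≤ y, w p Z g y = 1 := by
      intro Z x hx
      rw [Finset.mem_filter] at hx
      rw [Finset.filter_filter, ← w_spec p Z g hx.1]
      exact Finset.sum_congr (filter_congr fun y _ => ⟨fun h => h.2, fun h => ⟨hx.2.trans_le h, h⟩⟩)
        fun _ _ => rfl
    refine sum_coweight_eq _ _ ?_ (fun R' => R' ⊓ normalizer (R : Set G)) ?_ (fun _ _ => inf_le_left)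
      ?_ _ _ (hup Y) (hup Y')
    · intro x hx
      simp only [Finset.mem_filter, X, mem_pS] at hx ⊢
      exact ⟨⟨⟨hx.1.1.1.trans inf_le_left, hx.1.1.2⟩, hx.1.2⟩, hx.2⟩
    · intro y hy
      rw [Finset.mem_filter, X, Finset.mem_filter] at hy
      obtain ⟨hyY, hyp⟩ := (mem_pS p).mp hy.1.1
      simp only [Finset.mem_filter, X, mem_pS]
      refine ⟨⟨⟨inf_le_inf_right _ hyY, hyp.to_le inf_le_left⟩, ?_⟩, grow _ hy.1.1 hy.2⟩
      refine mem_normalizer_fintype fun n hn => ⟨?_, ?_⟩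
      · exact (mem_normalizer_iff.mp hy.1.2 n).mp hn.1
      · exact mul_mem (mul_mem hgN hn.2) (Subgroup.inv_mem _ hgN)
    · intro x hx y _ hxy
      simp only [Finset.mem_filter, X, mem_pS] at hx
      exact le_inf hxy (hx.1.1.1.trans inf_le_right)
  rw [Finset.sum_congr rfl hretr,
    Finset.sum_comm' (t' := (pS p Y').filter (R < ·)) (s' := fun R' => nrm Y' R') (fun g R' => by
      simp only [hnY, X, Finset.mem_filter, Finset.mem_univ, true_and, mem_nrm]
      tauto)]
  have hb : ∀ R' ∈ (pS p Y').filter (R < ·), ∑ g ∈ nrm Y' R', w p Y' g R' =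
      if IsMax p Y' R' then ((nrm Y' R').card : ℤ) else 0 := by
    intro R' hR'
    rw [Finset.mem_filter] at hR'
    have hlt : Nat.card R < Nat.card R' := lt_of_not_ge fun h =>
      hR'.2.ne (eq_of_le_of_card_ge hR'.2.le h)
    have hle : Nat.card R' ≤ Nat.card G := Nat.le_of_dvd Nat.card_pos (card_subgroup_dvd_card R')
    exact ih (Nat.card G - Nat.card R') (by omega) Y' R' le_rfl hR'.1
  rw [Finset.sum_congr rfl hb, ← Finset.sum_filter, Finset.filter_filter]
  have hRY' : R ∈ pS p Y' := (mem_pS p).mpr ⟨le_inf hRY le_normalizer, hRp⟩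
  obtain ⟨M₀, hM₀, hRM₀⟩ := exists_isMax p Y' R hRY'
  have hnot : ¬ IsMax p Y' R := by
    intro h
    obtain ⟨R', hR', hle, hne⟩ : ∃ R' ∈ pS p Y, R ≤ R' ∧ R' ≠ R := by
      by_contra! hc
      exact hmax ⟨hR, hc⟩
    have h1 := grow R' hR' (lt_of_le_of_ne hle (Ne.symm hne))
    refine h1.ne (h.2 _ ((mem_pS p).mpr
      ⟨inf_le_inf_right _ ((mem_pS p).mp hR').1, ((mem_pS p).mp hR').2.to_le inf_le_left⟩) h1.le).symm
  have hcong : (pS p Y').filter (fun M => R < M ∧ IsMax p Y' M) =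
      (pS p Y').filter (fun M => IsMax p Y' M ∧ True) := by
    refine filter_congr fun M _ => ⟨fun h => ⟨h.2, trivial⟩, fun h => ⟨?_, h.1⟩⟩
    obtain ⟨hMY', hMp⟩ := (mem_pS p).mp h.1.1
    have hsup : R ⊔ M = M := h.1.2 _ ((mem_pS p).mpr ⟨sup_le ((mem_pS p).mp hRY').1 hMY',
      IsPGroup.to_sup_of_normal_left' hRp hMp (hMY'.trans inf_le_right)⟩) le_sup_right
    refine lt_of_le_of_ne (hsup ▸ le_sup_left) ?_
    rintro rfl
    exact hnot h.1
  rw [hcong, ← Nat.cast_sum, hnY]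
  refine congrArg Nat.cast ?_
  convert (sum_nrm p Y' hM₀ (fun _ => True)).symm using 2
  all_goals first
    | rfl
    | (ext; simp)

open scoped Classical in
/-- Casolo's formula. -/
theorem card_subnormalizer [Fintype G] {H : Subgroup G} (hH : IsPGroup p H) (P : Sylow p G) :
    Nat.card {g : G // ((H).subgroupOf (H ⊔ Subgroup.zpowers g)).IsSubnormal} =
      Nat.card {x : G // H ≤ cj x (P : Subgroup G)} := by
  have hgood : ∀ g : G, ((H).subgroupOf (H ⊔ Subgroup.zpowers g)).IsSubnormal ↔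
      ((X p ⊤ g).filter (H ≤ ·)).Nonempty := by
    intro g
    set K := H ⊔ zpowers g
    constructor
    · intro h
      have h1 := Core.le_pCore_of_isSubnormal h (hH.of_equiv (subgroupOfEquivOfLe le_sup_left).symm)
      refine ⟨(Cfsg.pCore p K).map K.subtype, ?_⟩
      simp only [Finset.mem_filter, X, mem_pS]
      refine ⟨⟨⟨le_top, (Core.isPGroup_pCore p K).map _⟩, ?_⟩, fun x hx => ?_⟩
      · refine mem_normalizer_fintype fun n hn => ?_
        obtain ⟨m, hm, rfl⟩ := hn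
        exact ⟨_, (Cfsg.pCore_normal p K).conj_mem m hm ⟨g, mem_sup_right (mem_zpowers g)⟩, rfl⟩
      · exact ⟨⟨x, mem_sup_left hx⟩, h1 (x := ⟨x, mem_sup_left hx⟩) hx, rfl⟩
    · rintro ⟨R, hR⟩
      simp only [Finset.mem_filter, X, mem_pS] at hR
      obtain ⟨⟨⟨-, hRp⟩, hgR⟩, hHR⟩ := hR
      have hKN : K ≤ normalizer (R : Set G) :=
        sup_le (hHR.trans le_normalizer) (zpowers_le.mpr hgR)
      haveI : (R.subgroupOf K).Normal := normal_subgroupOf_of_le_normalizer hKN
      haveI : Group.IsNilpotent (R.subgroupOf K) :=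
        (hRp.comap_of_injective K.subtype K.subtype_injective).isNilpotent
      exact IsSubnormal.trans (K := R.subgroupOf K) (comap_mono hHR)
        (FGS4.isSubnormal_of_isNilpotent _) (Normal.isSubnormal inferInstance)
  have hone : ∀ g : G, (∑ R ∈ X p ⊤ g with H ≤ R, w p ⊤ g R) =
      if ((H).subgroupOf (H ⊔ Subgroup.zpowers g)).IsSubnormal then (1 : ℤ) else 0 := by
    intro g
    split_ifs with h
    · obtain ⟨m, hm, hmin⟩ := ((X p ⊤ g).filter (H ≤ ·)).exists_minimal ((hgood g).mp h)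
      rw [Finset.mem_filter] at hm
      rw [← w_spec p ⊤ g hm.1]
      refine Finset.sum_congr (filter_congr fun R hR => ⟨fun hHR => ?_, fun h' => hm.2.trans h'⟩)
        fun _ _ => rfl
      have hR1 := hR
      have hm1 := hm.1
      simp only [Finset.mem_filter, X, mem_pS] at hR1 hm1
      have h2 : m ⊓ R ∈ (X p ⊤ g).filter (H ≤ ·) := by
        simp only [Finset.mem_filter, X, mem_pS]
        refine ⟨⟨⟨le_top, hR1.1.2.to_le inf_le_right⟩, ?_⟩, le_inf hm.2 hHR⟩
        exact mem_normalizer_fintype fun n hn =>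
          ⟨(mem_normalizer_iff.mp hm1.2 n).mp hn.1, (mem_normalizer_iff.mp hR1.2 n).mp hn.2⟩
      exact (hmin h2 inf_le_left).trans inf_le_right
    · rw [Finset.not_nonempty_iff_eq_empty.mp (mt (hgood g).mpr h), Finset.sum_empty]
  have hmain : ∑ g : G, ∑ R ∈ X p ⊤ g with H ≤ R, w p ⊤ g R =
      ∑ R ∈ pS p ⊤ with H ≤ R, b p ⊤ R := by
    simp only [b]
    refine Finset.sum_comm' (fun g R => ?_)
    simp only [Finset.mem_filter, Finset.mem_univ, true_and, X, mem_nrm, mem_top]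
    tauto
  have hP : IsMax p (⊤ : Subgroup G) (P : Subgroup G) :=
    ⟨(mem_pS p).mpr ⟨le_top, P.2⟩, fun R' hR' h => P.3 ((mem_pS p).mp hR').2 h⟩
  have hb : ∀ R ∈ (pS p (⊤ : Subgroup G)).filter (H ≤ ·), b p ⊤ R =
      if IsMax p ⊤ R then ((nrm ⊤ R).card : ℤ) else 0 := fun R hR =>
    b_eq p _ ⊤ R le_rfl (mem_filter.mp hR).1
  rw [Finset.sum_congr rfl hb, ← Finset.sum_filter, Finset.filter_filter] at hmain
  have hsum := sum_nrm p (⊤ : Subgroup G) hP (fun M => H ≤ M)
  simp only [and_comm (a := IsMax p ⊤ _)] at hsum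
  rw [← Nat.cast_sum, hsum, Finset.sum_congr rfl (fun g _ => hone g), Finset.sum_boole] at hmain
  rw [Nat.subtype_card _ (fun x => Finset.mem_filter.trans (and_iff_right (Finset.mem_univ x))),
    Nat.subtype_card _ (fun x => Finset.mem_filter.trans (and_iff_right (Finset.mem_univ x)))]
  simpa using hmain

end Cfsg.Agent.FGS3.Subnormalizer
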