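import Cfsg.Agent.FGS3.Subnormalizer

/-!
Counting along a `p`-series, and the two counting formulas for the subnormalizer.
-/

set_option autoImplicit false
set_option linter.unusedSectionVars false

namespace Cfsg.Agent.FGS3.Subnormalizer

open Subgroup Finset

/-- Counting the elements moving a point into a set. -/
theorem card_smul_mem {G α : Type*} [Group G] [MulAction G α] (a : α) (S : α → Prop) :
    Nat.card {x : G // S (x • a)} =
      Nat.card {b : α // b ∈ MulAction.orbit G a ∧ S b} * Nat.card (MulAction.stabilizer G a) := by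
  let e₀ := MulAction.orbitEquivQuotientStabilizer G a
  set T : Set (G ⧸ MulAction.stabilizer G a) := {q | S ((e₀.symm q : MulAction.orbit G a) : α)}
  have e1 : {x : G // S (x • a)} ≃ (QuotientGroup.mk ⁻¹' T : Set G) :=
    Equiv.subtypeEquivRight fun x => by
      simp only [Set.mem_preimage, T, Set.mem_setOf_eq]
      rw [MulAction.orbitEquivQuotientStabilizer_symm_apply]
  have e2 : T ≃ {b : α // b ∈ MulAction.orbit G a ∧ S b} :=
    { toFun := fun q => ⟨(e₀.symm q.1).1, (e₀.symm q.1).2, q.2⟩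
      invFun := fun b => ⟨e₀ ⟨b.1, b.2.1⟩, by simp [T, b.2.2]⟩
      left_inv := fun q => by simp
      right_inv := fun b => by simp }
  rw [Nat.card_congr e1, Nat.card_congr (QuotientGroup.preimageMkEquivSubgroupProdSet _ T),
    Nat.card_prod, Nat.card_congr e2, mul_comm]

variable {G : Type*} [Group G] [Finite G] (p : ℕ) [Fact p.Prime]

theorem card_subnormalizer_of_finite {H : Subgroup G} (hH : IsPGroup p H) (P : Sylow p G) :
    Nat.card {g : G // ((H).subgroupOf (H ⊔ Subgroup.zpowers g)).IsSubnormal} =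
      Nat.card {x : G // H ≤ cj x (P : Subgroup G)} := by
  cases nonempty_fintype G
  exact card_subnormalizer p hH P

theorem card_sylow_formula {H : Subgroup G} (P : Sylow p G) :
    Nat.card {x : G // H ≤ cj x (P : Subgroup G)} =
      Nat.card {Q : Sylow p G // H ≤ (Q : Subgroup G)} *
        Nat.card (normalizer ((P : Subgroup G) : Set G)) := by
  refine (card_smul_mem (G := G) P (fun Q : Sylow p G => H ≤ (Q : Subgroup G))).trans ?_
  congr 1
  · exact Nat.card_congr (Equiv.subtypeEquivRight fun Q => by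
      simp [MulAction.orbit_eq_univ G P])
  · rw [Sylow.stabilizer_eq_normalizer]; rfl

theorem card_conj_formula {H : Subgroup G} (P : Sylow p G) :
    Nat.card {x : G // H ≤ cj x (P : Subgroup G)} =
      Nat.card {K : Subgroup G // K ≤ (P : Subgroup G) ∧ ∃ g : G, K = H.map (MulAut.conj g).toMonoidHom} *
        Nat.card (normalizer (H : Set G)) := by
  letI : MulAction G (Subgroup G) :=
    { smul := cj, one_smul := cj_one, mul_smul := cj_mul }
  have e : {x : G // H ≤ cj x (P : Subgroup G)} ≃ {x : G // cj x H ≤ (P : Subgroup G)} :=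
    (Equiv.inv G).subtypeEquiv fun x => by
      show _ ↔ cj x⁻¹ H ≤ _
      rw [← cj_le_cj (x := x⁻¹), ← cj_mul, inv_mul_cancel, cj_one]
  rw [Nat.card_congr e]
  refine (card_smul_mem (G := G) H (fun K : Subgroup G => K ≤ (P : Subgroup G))).trans ?_
  congr 1
  · exact Nat.card_congr (Equiv.subtypeEquivRight fun K =>
      ⟨fun h => ⟨h.2, h.1.imp fun g hg => hg.symm⟩, fun h => ⟨h.2.imp fun g hg => hg.symm, h.1⟩⟩)
  · congr 2
    ext x
    rw [MulAction.mem_stabilizer_iff]
    exact cj_eq_self_iff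

/-- The centralizer of `H` modulo `K`, inside `M`. -/
noncomputable def centMod (H K M : Subgroup G) [K.Normal] : Subgroup G :=
  M ⊓ (centralizer ((H.map (QuotientGroup.mk' K) : Subgroup (G ⧸ K)) : Set (G ⧸ K))).comap (QuotientGroup.mk' K)

theorem mem_centMod {H K M : Subgroup G} [K.Normal] {u : G} :
    u ∈ centMod H K M ↔ u ∈ M ∧ ∀ h ∈ H, h * u * h⁻¹ * u⁻¹ ∈ K := by
  simp only [centMod, Subgroup.mem_inf, mem_comap, mem_centralizer_iff, SetLike.mem_coe, Subgroup.mem_map,
    forall_exists_index, and_imp, forall_apply_eq_imp_iff₂, ← QuotientGroup.eq_one_iff (N := K),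
    QuotientGroup.mk_mul, QuotientGroup.mk_inv, QuotientGroup.mk'_apply, mul_inv_eq_iff_eq_mul, one_mul]

open scoped Classical in
/-- One step across a factor of order prime to `p`. -/
theorem step_coprime {H K M : Subgroup G} [K.Normal] [M.Normal] (hKM : K ≤ M)
    (hcop : (K.relIndex M).Coprime p) (hH : IsPGroup p H) (P : Sylow p G) :
    Nat.card {x : G // cj x H ≤ (P : Subgroup G) ⊔ M} * Nat.card (centMod H K M) =
      Nat.card {x : G // cj x H ≤ (P : Subgroup G) ⊔ K} * Nat.card M := by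
  cases nonempty_fintype G
  set A : Set G := {x | cj x H ≤ (P : Subgroup G) ⊔ K}
  set B : Set G := {x | cj x H ≤ (P : Subgroup G) ⊔ M}
  have stab : ∀ {x m : G}, m ∈ M → (cj (m * x) H ≤ (P : Subgroup G) ⊔ M ↔ x ∈ B) := by
    intro x m hm
    have : cj m ((P : Subgroup G) ⊔ M) = (P : Subgroup G) ⊔ M :=
      cj_eq_self_iff.mpr (le_normalizer (mem_sup_right hm))
    conv_lhs => rw [cj_mul, ← this, cj_le_cj]
    rfl
  have hsplit : ∀ z ∈ (P : Subgroup G) ⊔ K, z ∈ M → z ∈ K := by
    intro z hz hzM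
    obtain ⟨a, ha, k, hk, rfl⟩ := mem_sup_of_normal_right.mp hz
    have haM : a ∈ M := (mul_mem_cancel_right (hKM hk)).mp hzM
    refine mul_mem ?_ hk
    have h1 : a ^ K.relIndex M ∈ K := pow_index_mem (K.subgroupOf M) ⟨a, haM⟩
    obtain ⟨j, hj⟩ := IsPGroup.iff_orderOf.mp P.2 ⟨a, ha⟩
    rw [Subgroup.orderOf_mk] at hj
    obtain ⟨e, he⟩ := exists_pow_eq_self_of_coprime (x := a) (n := K.relIndex M)
      (by rw [hj]; exact hcop.pow_right j)
    exact he ▸ pow_mem h1 e
  have hfib : ∀ x ∈ B, Nat.card {m : M // (m : G) * x ∈ A} = Nat.card (centMod H K M) := by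
    intro x hx
    -- move into `P`
    obtain ⟨S, hS⟩ := ((hH.map (MulAut.conj x).toMonoidHom).of_equiv
      (subgroupOfEquivOfLe (show cj x H ≤ (P : Subgroup G) ⊔ M from hx)).symm).exists_le_sylow
    obtain ⟨w, hw⟩ := MulAction.exists_smul_eq (↥((P : Subgroup G) ⊔ M)) S
      (P.subtype (le_sup_left : (P : Subgroup G) ≤ (P : Subgroup G) ⊔ M))
    obtain ⟨a, ha, m₀, hm₀, hwam⟩ := mem_sup_of_normal_right.mp w.2
    have hy : cj (m₀ * x) H ≤ (P : Subgroup G) := by
      have h1 : cj (w : G) (cj x H) ≤ (P : Subgroup G) := by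
        intro z hz
        rw [mem_cj] at hz
        have hzW : (w : G)⁻¹ * z * w ∈ (P : Subgroup G) ⊔ M := hx hz
        have h2 : (⟨_, hzW⟩ : ↥((P : Subgroup G) ⊔ M)) ∈ (S : Subgroup ↥((P : Subgroup G) ⊔ M)) :=
          hS (mem_subgroupOf.mpr hz)
        have h3 : w * ⟨_, hzW⟩ * w⁻¹ ∈ ((w • S : Sylow p ↥((P : Subgroup G) ⊔ M)) :
            Subgroup ↥((P : Subgroup G) ⊔ M)) := by
          rw [Sylow.coe_subgroup_smul]
          exact mem_map_of_mem _ h2
        rw [hw, Sylow.coe_subtype, mem_subgroupOf] at h3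
        simpa [mul_assoc] using h3
      rw [← cj_mul, ← hwam, mul_assoc, cj_mul] at h1
      intro z hz
      have h4 := h1 (mem_cj.mpr (show a⁻¹ * (a * z * a⁻¹) * a ∈ cj (m₀ * x) H by
        rwa [show a⁻¹ * (a * z * a⁻¹) * a = z by group]))
      have h5 := mul_mem (mul_mem ((P : Subgroup G).inv_mem ha) h4) ha
      rwa [show a⁻¹ * (a * z * a⁻¹) * a = z by group] at h5
    set y := m₀ * x
    have key : ∀ u : G, (u ∈ centMod H K M ↔
        (y * u * y⁻¹ ∈ M ∧ cj ((y * u * y⁻¹) * y) H ≤ (P : Subgroup G) ⊔ K)) := by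
      intro u
      have hM' : u ∈ M ↔ y * u * y⁻¹ ∈ M :=
        ⟨fun h => Normal.conj_mem inferInstance u h y, fun h => by
          simpa [mul_assoc] using Normal.conj_mem (inferInstance : M.Normal) _ h y⁻¹⟩
      rw [mem_centMod, ← hM']
      refine and_congr_right fun hu => ⟨fun h => ?_, fun h h₀ hh => ?_⟩
      · intro z hz
        rw [mem_cj] at hz
        have h1 := h _ hz
        set h₁ := (y * u * y⁻¹ * y)⁻¹ * z * (y * u * y⁻¹ * y) with hh₁
        rw [show z = (y * (h₁ * u * h₁⁻¹ * u⁻¹)⁻¹ * y⁻¹) * (y * h₁ * y⁻¹) by rw [hh₁]; group]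
        exact mul_mem (mem_sup_right (Normal.conj_mem inferInstance _ (K.inv_mem h1) y))
          (mem_sup_left (hy (mem_cj.mpr (by rwa [show y⁻¹ * (y * h₁ * y⁻¹) * y = h₁ by group]))))
      · have h1 : (y * u * y⁻¹ * y) * h₀ * (y * u * y⁻¹ * y)⁻¹ ∈ (P : Subgroup G) ⊔ K :=
          h (mem_cj.mpr (by rwa [show ((y * u * y⁻¹ * y))⁻¹ * ((y * u * y⁻¹ * y) * h₀ *
            (y * u * y⁻¹ * y)⁻¹) * (y * u * y⁻¹ * y) = h₀ by group]))
        have h2 : (y * h₀ * y⁻¹) ∈ (P : Subgroup G) ⊔ K :=
          mem_sup_left (hy (mem_cj.mpr (by rwa [show y⁻¹ * (y * h₀ * y⁻¹) * y = h₀ by group])))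
        have h3 := hsplit _ (mul_mem h1 (inv_mem h2)) (by
          rw [show y * u * y⁻¹ * y * h₀ * (y * u * y⁻¹ * y)⁻¹ * (y * h₀ * y⁻¹)⁻¹ =
            y * (u * (h₀ * u⁻¹ * h₀⁻¹)) * y⁻¹ by group]
          exact Normal.conj_mem inferInstance _
            (M.mul_mem hu (Normal.conj_mem inferInstance _ (M.inv_mem hu) h₀)) y)
        have h4 := Normal.conj_mem (inferInstance : K.Normal) _ (K.inv_mem h3) y⁻¹
        rwa [show y⁻¹ * (y * u * y⁻¹ * y * h₀ * (y * u * y⁻¹ * y)⁻¹ * (y * h₀ * y⁻¹)⁻¹)⁻¹ * y⁻¹⁻¹ =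
          h₀ * u * h₀⁻¹ * u⁻¹ by group] at h4
    refine Nat.card_congr
      { toFun := fun m => ⟨y⁻¹ * ((m.1 : G) * m₀⁻¹) * y, (key _).mpr ?_⟩
        invFun := fun u => ⟨⟨y * u * y⁻¹ * m₀, M.mul_mem ((key _).mp u.2).1 hm₀⟩, ?_⟩
        left_inv := fun m => Subtype.ext (Subtype.ext ?_)
        right_inv := fun u => Subtype.ext ?_ }
    · have hA : cj ((m.1 : G) * x) H ≤ (P : Subgroup G) ⊔ K := m.2
      rw [show y * (y⁻¹ * ((m.1 : G) * m₀⁻¹) * y) * y⁻¹ = (m.1 : G) * m₀⁻¹ by group,
        show (m.1 : G) * m₀⁻¹ * y = (m.1 : G) * x by simp [y, mul_assoc]]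
      exact ⟨M.mul_mem m.1.2 (M.inv_mem hm₀), hA⟩
    · have := ((key _).mp u.2).2
      show cj (y * u * y⁻¹ * m₀ * x) H ≤ _
      rwa [mul_assoc _ m₀ x]
    · show y * (y⁻¹ * ((m.1 : G) * m₀⁻¹) * y) * y⁻¹ * m₀ = m.1
      group
    · show y⁻¹ * (y * u * y⁻¹ * m₀ * m₀⁻¹) * y = u
      group
  -- double counting
  let e : {q : M × G // (q.1 : G) * q.2 ∈ A} ≃ M × A :=
    { toFun := fun q => (q.1.1, ⟨q.1.1 * q.1.2, q.2⟩)
      invFun := fun r => ⟨(r.1, (r.1 : G)⁻¹ * r.2), by simp⟩
      left_inv := fun q => by ext <;> simp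
      right_inv := fun r => by simp }
  have e' : {q : M × G // (q.1 : G) * q.2 ∈ A} ≃ Σ x : B, {m : M // (m : G) * x ∈ A} :=
    { toFun := fun q => ⟨⟨q.1.2, (stab q.1.1.2).mp (le_trans q.2 (sup_le_sup_left hKM _))⟩, ⟨q.1.1, q.2⟩⟩
      invFun := fun s => ⟨(s.2.1, s.1.1), s.2.2⟩
      left_inv := fun q => rfl
      right_inv := fun s => rfl }
  have h := (Nat.card_congr e).symm.trans (Nat.card_congr e')
  rw [Nat.card_prod, Nat.card_sigma, Finset.sum_congr rfl (fun x _ => hfib x.1 x.2), Finset.sum_const,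
    smul_eq_mul, Finset.card_univ, ← Nat.card_eq_fintype_card] at h
  rw [mul_comm _ (Nat.card M)]
  exact h.symm

theorem telescope : ∀ {n : ℕ} (f : Fin (n + 1) → ℕ) (g h : Fin n → ℕ),
    (∀ i : Fin n, f i.succ * g i = f i.castSucc * h i) → f (Fin.last n) * ∏ i, g i = f 0 * ∏ i, h i := by
  intro n
  induction n with
  | zero => intro f g h _; simp
  | succ n ih =>
    intro f g h hs
    have h1 := ih (fun i => f i.castSucc) (fun i => g i.castSucc) (fun i => h i.castSucc)
      (fun i => hs i.castSucc)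
    rw [Fin.prod_univ_castSucc, Fin.prod_univ_castSucc]
    have h2 := hs (Fin.last n)
    simp only [Fin.succ_last] at h2
    simp only [Fin.castSucc_zero] at h1
    calc f (Fin.last (n + 1)) * ((∏ i : Fin n, g i.castSucc) * g (Fin.last n))
        = (f (Fin.last n).castSucc * ∏ i : Fin n, g i.castSucc) * h (Fin.last n) := by
          rw [mul_comm (∏ i : Fin n, g i.castSucc), ← mul_assoc, h2]; ring
      _ = _ := by rw [h1]; ring

theorem series_formula {H : Subgroup G} (hH : IsPGroup p H) (P : Sylow p G)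
    (n : ℕ) (M : Fin (n + 1) → Subgroup G) (h0 : M 0 = ⊥) (hn : M (Fin.last n) = ⊤) (hmono : Monotone M)
    (hnormal : ∀ i, (M i).Normal)
    (hfac : ∀ i : Fin n, (∃ m : ℕ, (M i.castSucc).relIndex (M i.succ) = p ^ m) ∨
      ((M i.castSucc).relIndex (M i.succ)).Coprime p) :
    Nat.card {x : G // H ≤ cj x (P : Subgroup G)} =
      Nat.card (P : Subgroup G) *
        ∏ i : Fin n, (if ((M i.castSucc).relIndex (M i.succ)).Coprime p then
          Nat.card {u : G // u ∈ M i.succ ∧ ∀ h ∈ H, h * u * h⁻¹ * u⁻¹ ∈ M i.castSucc} / Nat.card (M i.castSucc)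
          else 1) := by
  classical
  let c : Fin n → ℕ := fun i => if ((M i.castSucc).relIndex (M i.succ)).Coprime p then
      haveI := hnormal i.castSucc
      Nat.card (centMod H (M i.castSucc) (M i.succ)) / Nat.card (M i.castSucc) else 1
  have hc : ∀ i, (if ((M i.castSucc).relIndex (M i.succ)).Coprime p then
          Nat.card {u : G // u ∈ M i.succ ∧ ∀ h ∈ H, h * u * h⁻¹ * u⁻¹ ∈ M i.castSucc} / Nat.card (M i.castSucc)
          else 1) = c i := fun i => by
    simp only [c]
    split_ifs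
    · congr 1
      exact Nat.card_congr (Equiv.subtypeEquivRight fun u => (mem_centMod).symm)
    · rfl
  simp only [hc]
  let r : Fin n → ℕ := fun i => if ((M i.castSucc).relIndex (M i.succ)).Coprime p then
    (M i.castSucc).relIndex (M i.succ) else 1
  let f : Fin (n + 1) → ℕ := fun i => Nat.card {x : G // cj x H ≤ (P : Subgroup G) ⊔ M i}
  have hstep : ∀ i : Fin n, f i.succ * c i = f i.castSucc * r i := by
    intro i
    haveI := hnormal i.castSucc
    haveI := hnormal i.succ
    have hle : M i.castSucc ≤ M i.succ := hmono (Fin.castSucc_le_succ i)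
    simp only [c, r]
    split_ifs with hcop
    · have hdvd : Nat.card (M i.castSucc) ∣ Nat.card (centMod H (M i.castSucc) (M i.succ)) := by
        refine card_dvd_of_le fun u hu => mem_centMod.mpr ⟨hle hu, fun h _ => ?_⟩
        exact mul_mem (Normal.conj_mem inferInstance u hu h) (inv_mem hu)
      have h := step_coprime p hle hcop hH P
      rw [← Nat.div_mul_cancel hdvd, ← card_mul_index ((M i.castSucc).subgroupOf (M i.succ)),
        Nat.card_congr (subgroupOfEquivOfLe hle).toEquiv, ← mul_assoc, ← mul_assoc,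
        mul_right_comm (Nat.card {x : G // cj x H ≤ (P : Subgroup G) ⊔ M i.castSucc})] at h
      exact Nat.eq_of_mul_eq_mul_right Nat.card_pos h
    · obtain ⟨m, hm⟩ := (hfac i).resolve_right hcop
      have heq : (P : Subgroup G) ⊔ M i.succ = (P : Subgroup G) ⊔ M i.castSucc := by
        refine le_antisymm (sup_le le_sup_left ?_) (sup_le_sup_left hle _)
        set q := QuotientGroup.mk' (M i.castSucc)
        have hp' : IsPGroup p ((M i.succ).map q) := by
          refine IsPGroup.of_card (n := m) ?_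
          rw [← hm, ← Subgroup.relIndex_ker (f := q), QuotientGroup.ker_mk']
        haveI : ((M i.succ).map q).Normal := Normal.map inferInstance q (QuotientGroup.mk'_surjective _)
        have h1 := hp'.le_sylow_of_normal (P.mapSurjective (QuotientGroup.mk'_surjective (M i.castSucc)))
        rw [Sylow.coe_mapSurjective, Subgroup.map_le_iff_le_comap, comap_map_eq,
          QuotientGroup.ker_mk'] at h1
        exact h1
      simp only [mul_one, f, heq]
  have hT := telescope f c r hstep
  have hlast : f (Fin.last n) = Nat.card G := by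
    simp only [f, hn, sup_top_eq, le_top]
    exact Nat.card_congr (Equiv.subtypeUnivEquiv fun _ => trivial)
  have hzero : f 0 = Nat.card {x : G // H ≤ cj x (P : Subgroup G)} := by
    simp only [f, h0, sup_bot_eq]
    exact Nat.card_congr ((Equiv.inv G).subtypeEquiv fun x => by
      show _ ↔ H ≤ cj x⁻¹ _
      rw [← cj_le_cj (x := x⁻¹), ← cj_mul, inv_mul_cancel, cj_one])
  have hr : Nat.card (P : Subgroup G) * ∏ i, r i = Nat.card G := by
    have hcard := telescope (fun i => Nat.card (M i)) (fun _ => 1)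
      (fun i => (M i.castSucc).relIndex (M i.succ)) (fun i => by
        rw [mul_one, ← card_mul_index ((M i.castSucc).subgroupOf (M i.succ)),
          Nat.card_congr (subgroupOfEquivOfLe (hmono (Fin.castSucc_le_succ i))).toEquiv]
        rfl)
    simp only [hn, h0, Subgroup.card_top, Subgroup.card_bot, Finset.prod_const_one, mul_one,
      one_mul] at hcard
    let s : Fin n → ℕ := fun i => if ((M i.castSucc).relIndex (M i.succ)).Coprime p then 1 else
      (M i.castSucc).relIndex (M i.succ)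
    have hrs : (∏ i, r i) * ∏ i, s i = (P : Subgroup G).index * Nat.card (P : Subgroup G) := by
      rw [← Finset.prod_mul_distrib, index_mul_card, hcard]
      refine Finset.prod_congr rfl fun i _ => ?_
      simp only [r, s]; split_ifs <;> simp
    have hrp : (∏ i, r i).Coprime p := Nat.Coprime.prod_left fun i _ => by
      simp only [r]; split_ifs with h
      · exact h
      · exact Nat.coprime_one_left p
    have hsP : (∏ i, s i).Coprime (P : Subgroup G).index := Nat.Coprime.prod_left fun i _ => by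
      simp only [s]; split_ifs with h
      · exact Nat.coprime_one_left _
      · obtain ⟨m, hm⟩ := (hfac i).resolve_right h
        rw [hm]
        exact Nat.Coprime.pow_left _ ((Fact.out : p.Prime).coprime_iff_not_dvd.mpr P.not_dvd_index)
    obtain ⟨k, hk⟩ := IsPGroup.iff_card.mp P.2
    have e1 : ∏ i, r i = (P : Subgroup G).index := by
      apply Nat.dvd_antisymm
      · exact (Nat.Coprime.pow_right k hrp).dvd_of_dvd_mul_right (hk ▸ Dvd.intro _ hrs)
      · exact hsP.symm.dvd_of_dvd_mul_right (Dvd.intro _ hrs.symm)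
    rw [e1, card_mul_index]
  rw [hlast, hzero] at hT
  have hrpos : 0 < ∏ i, r i := Finset.prod_pos fun i _ => by
    simp only [r]; split_ifs
    · exact Nat.pos_of_ne_zero index_ne_zero_of_finite
    · exact one_pos
  refine Nat.eq_of_mul_eq_mul_right hrpos ?_
  rw [← hT, mul_right_comm, hr]

end Cfsg.Agent.FGS3.Subnormalizer
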