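import Cfsg.Prelude.Def_Local
import Cfsg.Agent.FGS3.SubnormalizerSeries
import Cfsg.Agent.FGS3.FixedPointOrders

/-!
The number of `p`-elements of a `p`-solvable group against the number of Sylow `p`-subgroups.
-/

set_option autoImplicit false
set_option linter.unusedSectionVars false

namespace Cfsg.Agent.FGS3.Subnormalizer

open Subgroup Finset

variable {G : Type*} [Group G] [Finite G] (p : ℕ) [Fact p.Prime]

theorem card_centMod {H K M : Subgroup G} [K.Normal] [M.Normal] (hKM : K ≤ M) :
    Nat.card (centMod H K M) / Nat.card K =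
      FixedPointOrders.c (M.map (QuotientGroup.mk' K))
        ((H.map (QuotientGroup.mk' K) : Subgroup (G ⧸ K)) : Set (G ⧸ K)) := by
  set q := QuotientGroup.mk' K
  have hK : K ≤ centMod H K M := fun u hu =>
    mem_centMod.mpr ⟨hKM hu, fun h _ => mul_mem (Normal.conj_mem inferInstance u hu h) (inv_mem hu)⟩
  have hmap : (centMod H K M).map q = M.map q ⊓ centralizer ((H.map q : Subgroup (G ⧸ K)) : Set (G ⧸ K)) := by
    ext v
    constructor
    · rintro ⟨u, hu, rfl⟩; exact ⟨mem_map_of_mem q hu.1, hu.2⟩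
    · rintro ⟨⟨u, hu, rfl⟩, h⟩; exact ⟨u, ⟨hu, h⟩, rfl⟩
  rw [FixedPointOrders.c, ← hmap, ← relIndex_ker (f := q), QuotientGroup.ker_mk',
    ← card_mul_index (K.subgroupOf (centMod H K M)), Nat.card_congr (subgroupOfEquivOfLe hK).toEquiv,
    Nat.mul_div_cancel_left _ Nat.card_pos]
  rfl

/-- The factor bound, summed over a Sylow subgroup. -/
theorem factor_bound {K M : Subgroup G} [K.Normal] [M.Normal] (hKM : K ≤ M)
    (hcop : (K.relIndex M).Coprime p) (P : Sylow p G) [Fintype (P : Subgroup G)] :
    (∏ x : (P : Subgroup G), Nat.card (centMod (zpowers (x : G)) K M) / Nat.card K) ^ p ≤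
      K.relIndex M ^ Nat.card (P : Subgroup G) *
        (Nat.card (centMod (P : Subgroup G) K M) / Nat.card K) ^ ((p - 1) * Nat.card (P : Subgroup G)) := by
  classical
  set q := QuotientGroup.mk' K
  set Pb := (P : Subgroup G).map q
  haveI : Fintype Pb := Fintype.ofFinite _
  set π : (P : Subgroup G) →* Pb := q.subgroupMap (P : Subgroup G)
  have hπ : Function.Surjective π := MonoidHom.subgroupMap_surjective _ _
  have hcardM : Nat.card (M.map q) = K.relIndex M := by
    rw [← relIndex_ker (f := q), QuotientGroup.ker_mk']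
  haveI : (M.map q).Normal := Normal.map inferInstance q (QuotientGroup.mk'_surjective _)
  have hb := FixedPointOrders.prod_bound (P := Pb) (P.2.map q) ⊥ (M.map q)
    (by rw [normalizer_eq_top]; exact le_top)
    (by rw [hcardM]; exact (Fact.out : p.Prime).coprime_iff_not_dvd.mp hcop.symm)
    (fun r hr => by rw [mem_bot.mp hr]; exact one_mem _)
  have hterm : ∀ x : (P : Subgroup G), Nat.card (centMod (zpowers (x : G)) K M) / Nat.card K =
      FixedPointOrders.c (M.map q) {((π x : Pb) : G ⧸ K)} := by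
    intro x
    rw [card_centMod hKM, FixedPointOrders.c, FixedPointOrders.c, MonoidHom.map_zpowers,
      zpowers_eq_closure, centralizer_closure]
    rfl
  have hfib : ∀ y : Pb, (univ.filter fun x => π x = y).card = Nat.card π.ker := by
    intro y
    have h := MonoidHom.card_fiber_eq_of_mem_range π (x := y) (y := 1) (hπ y) (hπ 1)
    rw [h, Nat.card_eq_fintype_card, Fintype.card_subtype]
    exact congrArg Finset.card (filter_congr fun x _ => by simp [MonoidHom.mem_ker])
  have hprod : ∏ x : (P : Subgroup G), FixedPointOrders.c (M.map q) {((π x : Pb) : G ⧸ K)} =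
      (∏ y : Pb, FixedPointOrders.c (M.map q) {(y : G ⧸ K)}) ^ Nat.card π.ker := by
    rw [← Finset.prod_fiberwise univ π (fun x => FixedPointOrders.c (M.map q) {((π x : Pb) : G ⧸ K)}),
      ← Finset.prod_pow]
    refine Finset.prod_congr rfl fun y _ => ?_
    rw [Finset.prod_congr rfl (fun x hx => by rw [(Finset.mem_filter.mp hx).2]), Finset.prod_const, hfib]
  have hcard : Nat.card (P : Subgroup G) = Nat.card Pb * Nat.card π.ker := by
    rw [← card_mul_index π.ker, index_ker, MonoidHom.range_eq_top.mpr hπ, Subgroup.card_top, mul_comm]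
  rw [Finset.prod_congr rfl (fun x _ => hterm x), hprod, card_centMod hKM, ← hcardM, hcard, ← pow_mul,
    mul_comm _ p, pow_mul, ← mul_assoc (p - 1), pow_mul, pow_mul (FixedPointOrders.c _ _), ← mul_pow]
  exact Nat.pow_le_pow_left hb _

/-- `u ^ p ≥ |P| ^ p · n ^ (p - 1)`. -/
theorem pow_card_pElements (hG : Cfsg.IsPSolvable p G) (P : Sylow p G) :
    Nat.card (P : Subgroup G) ^ p * Nat.card (Sylow p G) ^ (p - 1) ≤
      Nat.card {g : G // ∃ k : ℕ, orderOf g = p ^ k} ^ p := by
  classical
  cases nonempty_fintype G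
  haveI := Fintype.ofFinite (P : Subgroup G)
  have hp : p.Prime := Fact.out
  obtain ⟨n, M, h0, hn, hmono, hnormal, hfac⟩ := hG
  set N := Nat.card (P : Subgroup G) with hN
  let cop : Fin n → Prop := fun i => ((M i.castSucc).relIndex (M i.succ)).Coprime p
  let e : Subgroup G → Fin n → ℕ := fun H i => if cop i then
      haveI := hnormal i.castSucc
      Nat.card (centMod H (M i.castSucc) (M i.succ)) / Nat.card (M i.castSucc) else 1
  let L : Subgroup G → ℕ := fun H => Nat.card {x : G // H ≤ cj x (P : Subgroup G)}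
  have hL : ∀ H : Subgroup G, IsPGroup p H → L H = N * ∏ i, e H i := by
    intro H hH
    rw [show L H = _ from series_formula p hH P n M h0 hn hmono hnormal hfac]
    congr 1
    refine Finset.prod_congr rfl fun i _ => ?_
    haveI := hnormal i.castSucc
    simp only [e, cop]
    split_ifs
    · exact congrArg (· / _) (Nat.card_congr (Equiv.subtypeEquivRight fun u => mem_centMod.symm))
    · rfl
  -- the product of the factor orders
  let r : Fin n → ℕ := fun i => if cop i then (M i.castSucc).relIndex (M i.succ) else 1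
  have hr : N * ∏ i, r i = Nat.card G := by
    have h1 := hL ⊥ IsPGroup.of_bot
    have h2 : ∀ i, e ⊥ i = r i := fun i => by
      simp only [e, r]
      split_ifs with h
      · haveI := hnormal i.castSucc
        haveI := hnormal i.succ
        rw [card_centMod (hmono (Fin.castSucc_le_succ i)), FixedPointOrders.c,
          inf_eq_left.mpr (fun m _ => mem_centralizer_iff.mpr fun g hg => by
            rw [Subgroup.map_bot] at hg; rw [show g = 1 from hg, one_mul, mul_one]),
          ← relIndex_ker (f := QuotientGroup.mk' (M i.castSucc)), QuotientGroup.ker_mk']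
      · rfl
    rw [Finset.prod_congr rfl fun i _ => h2 i] at h1
    rw [← h1]
    exact Nat.card_congr (Equiv.subtypeUnivEquiv fun _ => bot_le)
  -- the geometric mean
  have hgeom : (∏ x : (P : Subgroup G), L (zpowers (x : G))) ^ p ≤
      (Nat.card G * L (P : Subgroup G) ^ (p - 1)) ^ N := by
    have h1 : ∀ i, (∏ x : (P : Subgroup G), e (zpowers (x : G)) i) ^ p ≤
        r i ^ N * e (P : Subgroup G) i ^ ((p - 1) * N) := by
      intro i
      simp only [e, r]
      split_ifs with h
      · haveI := hnormal i.castSucc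
        haveI := hnormal i.succ
        exact factor_bound p (hmono (Fin.castSucc_le_succ i)) h P
      · simp
    rw [Finset.prod_congr rfl fun (x : (P : Subgroup G)) _ =>
        hL (zpowers (x : G)) (P.2.to_le (zpowers_le.mpr x.2)),
      hL _ P.2, Finset.prod_mul_distrib, Finset.prod_const, Finset.card_univ, ← Nat.card_eq_fintype_card,
      Finset.prod_comm, mul_pow, ← Finset.prod_pow]
    refine le_trans (Nat.mul_le_mul_left _ (Finset.prod_le_prod' fun i _ => h1 i)) (le_of_eq ?_)
    rw [Finset.prod_mul_distrib, Finset.prod_pow, Finset.prod_pow, ← hr, ← hN]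
    have hp1 : p = 1 + (p - 1) := (Nat.add_sub_cancel' hp.one_le).symm
    conv_lhs => arg 1; rw [← pow_mul, mul_comm, pow_mul, hp1]
    rw [pow_mul, pow_add, pow_one]
    simp only [mul_pow]
    ring
  -- the weighted count
  have hLpos : ∀ x : (P : Subgroup G), 0 < L (zpowers (x : G)) := fun x =>
    haveI : Nonempty {g : G // zpowers (x : G) ≤ cj g (P : Subgroup G)} :=
      ⟨⟨1, by rw [cj_one]; exact zpowers_le.mpr x.2⟩⟩
    Nat.card_pos
  have hLcj : ∀ g y : G, L (zpowers (g * y * g⁻¹)) = L (zpowers y) := by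
    intro g y
    refine Nat.card_congr ((Equiv.mulLeft g).subtypeEquiv fun x => ?_).symm
    show zpowers y ≤ cj x _ ↔ zpowers (g * y * g⁻¹) ≤ cj (g * x) _
    rw [zpowers_le, zpowers_le, cj_mul, mem_cj (x := g)]
    rw [show g⁻¹ * (g * y * g⁻¹) * g = y by group]
  let a : ↥(P : Subgroup G) → ℝ := fun x => (Nat.card G : ℝ) / L (zpowers (x : G))
  set u := Nat.card {g : G // ∃ k : ℕ, orderOf g = p ^ k} with hu
  have hsum : ∑ x, a x = u := by
    let F : G → ℝ := fun y => 1 / (L (zpowers y) : ℝ)
    have h1 : ∑ x, a x = ∑ g : G, ∑ x : (P : Subgroup G), F (g * x * g⁻¹) := by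
      rw [Finset.sum_comm]
      refine Finset.sum_congr rfl fun x _ => ?_
      simp only [F, hLcj, Finset.sum_const, Finset.card_univ, nsmul_eq_mul, a]
      rw [← Nat.card_eq_fintype_card]; ring
    have hfibre : ∀ y : G, ((univ : Finset (G × (P : Subgroup G))).filter
        fun gx => gx.1 * (gx.2 : G) * gx.1⁻¹ = y).card = L (zpowers y) := by
      intro y
      rw [← Fintype.card_subtype, ← Nat.card_eq_fintype_card]
      refine Nat.card_congr
        { toFun := fun gx => ⟨gx.1.1, zpowers_le.mpr (mem_cj.mpr ?_)⟩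
          invFun := fun g => ⟨(g.1, ⟨g.1⁻¹ * y * g.1, mem_cj.mp (zpowers_le.mp g.2)⟩), by group⟩
          left_inv := fun gx => Subtype.ext (Prod.ext rfl (Subtype.ext ?_))
          right_inv := fun g => rfl }
      · have h : gx.1.1⁻¹ * y * gx.1.1 = (gx.1.2 : G) :=
          (congrArg (fun z => gx.1.1⁻¹ * z * gx.1.1) gx.2.symm).trans (by group)
        rw [h]; exact gx.1.2.2
      · exact (congrArg (fun z => gx.1.1⁻¹ * z * gx.1.1) gx.2.symm).trans (by group)
    have h2 : ∀ y : G, (L (zpowers y) : ℝ) * F y = if ∃ k : ℕ, orderOf y = p ^ k then 1 else 0 := by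
      intro y
      split_ifs with h
      · obtain ⟨k, hk⟩ := h
        obtain ⟨Q, hQ⟩ := (IsPGroup.of_card (n := k) (by rw [Nat.card_zpowers, hk]) :
          IsPGroup p (zpowers y)).exists_le_sylow
        obtain ⟨g, hg⟩ := MulAction.exists_smul_eq G P Q
        haveI : Nonempty {x : G // zpowers y ≤ cj x (P : Subgroup G)} := ⟨⟨g, hQ.trans (by
          rw [← hg, Sylow.coe_subgroup_smul]; exact le_refl _)⟩⟩
        exact mul_one_div_cancel (by exact_mod_cast (Nat.card_pos (α := {x : G // zpowers y ≤ cj x (P : Subgroup G)})).ne')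
      · have hz : L (zpowers y) = 0 := by
          simp only [L, Nat.card_eq_zero, isEmpty_subtype]
          left
          intro g hg
          obtain ⟨k, hk⟩ := IsPGroup.iff_orderOf.mp (P.2.map (MulAut.conj g).toMonoidHom)
            ⟨y, zpowers_le.mp hg⟩
          exact h ⟨k, by rwa [Subgroup.orderOf_mk] at hk⟩
        rw [hz, Nat.cast_zero, zero_mul]
    rw [h1, ← Finset.sum_product', Finset.univ_product_univ, ← Finset.sum_fiberwise univ
      (fun gx : G × (P : Subgroup G) => gx.1 * (gx.2 : G) * gx.1⁻¹)]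
    rw [Finset.sum_congr rfl (fun y _ => by
      rw [Finset.sum_congr rfl (fun gx hgx => by rw [(Finset.mem_filter.mp hgx).2]), Finset.sum_const,
        nsmul_eq_mul, hfibre, h2]), Finset.sum_boole, hu,
      Nat.card_eq_fintype_card, Fintype.card_subtype]
  have hapos : ∀ x, 0 ≤ a x := fun x => by positivity
  have hamgm : ∏ x, a x ≤ ((u : ℝ) / N) ^ N := by
    have h := Real.geom_mean_le_arith_mean univ (fun _ => (1 : ℝ)) a (fun _ _ => zero_le_one)
      (by simp [Fintype.card_pos]) (fun x _ => hapos x)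
    simp only [Real.rpow_one, one_mul, Finset.sum_const, Finset.card_univ, nsmul_eq_mul, mul_one, hsum,
      ← Nat.card_eq_fintype_card, ← hN] at h
    calc ∏ x, a x = ((∏ x, a x) ^ ((N : ℝ)⁻¹)) ^ N :=
          (Real.rpow_inv_natCast_pow (Finset.prod_nonneg fun x _ => hapos x) Nat.card_pos.ne').symm
      _ ≤ _ := pow_le_pow_left₀ (Real.rpow_nonneg (Finset.prod_nonneg fun x _ => hapos x) _) h _
  -- combine
  have hLP : Nat.card (Sylow p G) * L (P : Subgroup G) = Nat.card G := by
    have h1 : Nat.card {Q : Sylow p G // (P : Subgroup G) ≤ (Q : Subgroup G)} = 1 :=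
      Nat.card_eq_one_iff_exists.mpr ⟨⟨P, le_rfl⟩, fun Q => Subtype.ext (Sylow.ext (P.3 Q.1.2 Q.2))⟩
    rw [show L (P : Subgroup G) = _ from card_sylow_formula p P, h1, one_mul,
      Sylow.card_eq_index_normalizer P]
    exact index_mul_card _
  have hNpos : (0 : ℝ) < N := by exact_mod_cast Nat.card_pos (α := (P : Subgroup G))
  have hGpos : (0 : ℝ) < Nat.card G := by exact_mod_cast Nat.card_pos (α := G)
  have key : ((Nat.card (Sylow p G) : ℝ) ^ (p - 1)) ^ N ≤ (((u : ℝ) / N) ^ p) ^ N := by
    calc ((Nat.card (Sylow p G) : ℝ) ^ (p - 1)) ^ N ≤ (∏ x, a x) ^ p := ?_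
      _ ≤ (((u : ℝ) / N) ^ N) ^ p := pow_le_pow_left₀ (Finset.prod_nonneg fun x _ => hapos x) hamgm p
      _ = _ := by rw [← pow_mul, ← pow_mul, mul_comm]
    have hden : (0 : ℝ) < (∏ x : (P : Subgroup G), (L (zpowers (x : G)) : ℝ)) ^ p :=
      pow_pos (Finset.prod_pos fun x _ => by exact_mod_cast hLpos x) p
    simp only [a, Finset.prod_div_distrib, Finset.prod_const, Finset.card_univ,
      ← Nat.card_eq_fintype_card, ← hN, div_pow]
    rw [le_div_iff₀ hden]
    have hp1 : p = 1 + (p - 1) := (Nat.add_sub_cancel' hp.one_le).symm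
    calc ((Nat.card (Sylow p G) : ℝ) ^ (p - 1)) ^ N * (∏ x : (P : Subgroup G), (L (zpowers (x : G)) : ℝ)) ^ p
        ≤ ((Nat.card (Sylow p G) : ℝ) ^ (p - 1)) ^ N *
            (((Nat.card G : ℝ) * (L (P : Subgroup G) : ℝ) ^ (p - 1)) ^ N) :=
          mul_le_mul_of_nonneg_left (by exact_mod_cast hgeom) (by positivity)
      _ = (((Nat.card (Sylow p G) : ℝ) * L (P : Subgroup G)) ^ (p - 1) * Nat.card G) ^ N := by
          rw [← mul_pow, mul_pow (Nat.card (Sylow p G) : ℝ)]; ring
      _ = ((Nat.card G : ℝ) ^ N) ^ p := by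
          rw [← Nat.cast_mul, hLP, ← pow_succ, ← pow_mul, ← pow_mul, mul_comm,
            Nat.sub_add_cancel hp.one_le]
  have key2 := (pow_le_pow_iff_left₀ (by positivity) (by positivity) Nat.card_pos.ne').mp key
  rw [div_pow, le_div_iff₀ (pow_pos hNpos p), mul_comm] at key2
  exact_mod_cast key2

end Cfsg.Agent.FGS3.Subnormalizer
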