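import Cfsg.Agent.FGS3.CyclicAction

/-!
# Groups of non prime power order with three automorphism orbits
-/

set_option autoImplicit false
set_option linter.style.haveILetI false
set_option linter.unusedSectionVars false

namespace Cfsg.Agent.FGS3.ThreeOrbits

open scoped IsMulCommutative

variable {G : Type*} [Group G] [Finite G] {p q : ℕ}

/-- Only `1` and elements of order `p` or `q`; equal order implies automorphic. -/
def Homog (G : Type*) [Group G] (p q : ℕ) : Prop :=
  (∀ g : G, g = 1 ∨ orderOf g = p ∨ orderOf g = q) ∧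
    ∀ x y : G, orderOf x = orderOf y → ∃ α : MulAut G, α x = y

theorem Homog.swap (h : Homog G p q) : Homog G q p := ⟨fun g => (h.1 g).imp id Or.symm, h.2⟩

theorem Homog.not_commute (h : Homog G p q) (hp : p.Prime) (hq : q.Prime) (hpq : p ≠ q) {x y : G}
    (hx : orderOf x = p) (hy : orderOf y = q) : ¬ Commute x y := by
  intro hc
  have h1 := hc.orderOf_mul_eq_mul_orderOf_of_coprime
    (by rw [hx, hy]; exact (Nat.coprime_primes hp hq).2 hpq)
  rw [hx, hy] at h1
  rcases h.1 (x * y) with h2 | h2 | h2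
  · rw [h2, orderOf_one] at h1
    exact hp.ne_one (Nat.eq_one_of_mul_eq_one_right h1.symm)
  · rw [h2] at h1
    have := hq.two_le; have := hp.pos
    nlinarith
  · rw [h2] at h1
    have := hp.two_le; have := hq.pos
    nlinarith

theorem Homog.orderOf_eq (h : Homog G p q) (hp : p.Prime) (hq : q.Prime) (hpq : p ≠ q)
    {P : Subgroup G} (hP : IsPGroup p P) {g : G} (hg : g ∈ P) (hg1 : g ≠ 1) : orderOf g = p := by
  rcases h.1 g with h2 | h2 | h2
  · exact absurd h2 hg1
  · exact h2
  · haveI := Fact.mk hp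
    obtain ⟨k, hk⟩ := IsPGroup.iff_orderOf.1 hP ⟨g, hg⟩
    rw [← Subgroup.orderOf_coe] at hk
    change orderOf g = p ^ k at hk
    rw [h2] at hk
    exact absurd ((Nat.prime_dvd_prime_iff_eq hq hp).1 (hq.dvd_of_dvd_pow (dvd_of_eq hk))).symm hpq

theorem Homog.two_mul_card_lt [Fact p.Prime] (h : Homog G p q) (hq : q.Prime) (hpq : p ≠ q)
    (P : Sylow p G) (hP : (P : Subgroup G) ≠ ⊥)
    (hN : ¬ Subgroup.normalizer (P : Set G) ≤ Subgroup.centralizer (P : Set G)) :
    2 * Nat.card {x : G // orderOf x = p} + 2 ≤ Nat.card G := by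
  classical
  set Z : Subgroup G := (P : Subgroup G) ⊓ Subgroup.centralizer (P : Set G) with hZ
  have hconj : ∀ Q : Sylow p G, ∃ g : G, g • P = Q := fun Q => MulAction.exists_smul_eq G P Q
  choose g hg using hconj
  -- a non-trivial central element of P
  haveI : Nontrivial (P : Subgroup G) := (Subgroup.nontrivial_iff_ne_bot _).2 hP
  haveI := P.2.center_nontrivial
  obtain ⟨⟨z, hz⟩, hz1⟩ := exists_ne (1 : Subgroup.center (P : Subgroup G))
  have hzZ : (z : G) ∈ Z := ⟨z.2, Subgroup.mem_centralizer_iff.2 fun w hw =>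
    congrArg Subtype.val (Subgroup.mem_center_iff.1 hz ⟨w, hw⟩)⟩
  have hz1' : (z : G) ≠ 1 := fun e => hz1 (Subtype.ext (Subtype.ext e))
  have hzp : orderOf (z : G) = p := h.orderOf_eq Fact.out hq hpq P.2 z.2 hz1'
  let f : Sylow p G × {w : Z // w ≠ 1} → {x : G // orderOf x = p} := fun a =>
    ⟨MulAut.conj (g a.1) (a.2.1 : G), by
      rw [MulEquiv.orderOf_eq]
      exact h.orderOf_eq Fact.out hq hpq P.2 a.2.1.2.1 fun e => a.2.2 (Subtype.ext e)⟩
  have hf : Function.Surjective f := by
    rintro ⟨x, hx⟩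
    obtain ⟨α, hα⟩ := h.2 z x (hzp.trans hx.symm)
    obtain ⟨Q, hQ⟩ := IsPGroup.exists_le_sylow (p := p)
      (P := (P : Subgroup G).map α.toMonoidHom) (P.2.map _)
    have hQ' : (Q : Subgroup G) = (P : Subgroup G).map α.toMonoidHom := by
      refine (Subgroup.eq_of_le_of_card_ge hQ ?_).symm
      rw [Subgroup.card_map_of_injective (f := α.toMonoidHom) α.injective, Q.card_eq_multiplicity,
        P.card_eq_multiplicity]
    have hgQ : (P : Subgroup G).map (MulAut.conj (g Q)).toMonoidHom = Q := by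
      conv_rhs => rw [← hg Q]
      rfl
    have hxQ : x ∈ (Q : Subgroup G) := by
      rw [hQ', ← hα]; exact Subgroup.mem_map_of_mem _ z.2
    have hxc : ∀ w ∈ (Q : Subgroup G), w * x = x * w := by
      rw [hQ']
      rintro _ ⟨w, hw, rfl⟩
      rw [← hα]
      show α w * α z = α z * α w
      rw [← map_mul, ← map_mul, Subgroup.mem_centralizer_iff.1 hzZ.2 w hw]
    obtain ⟨w, hw, hwx⟩ : ∃ w ∈ (P : Subgroup G), MulAut.conj (g Q) w = x := by
      rw [← hgQ] at hxQ; exact hxQ
    have hwc : w ∈ Subgroup.centralizer (P : Set G) := Subgroup.mem_centralizer_iff.2 fun u hu => by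
      apply (MulAut.conj (g Q)).injective
      rw [map_mul, map_mul, hwx]
      exact hxc _ (by rw [← hgQ]; exact Subgroup.mem_map_of_mem _ hu)
    refine ⟨(Q, ⟨⟨w, hw, hwc⟩, ?_⟩), Subtype.ext hwx⟩
    intro e
    have : w = 1 := congrArg Subtype.val e
    rw [← hwx, this, map_one, orderOf_one] at hx
    exact (Fact.out : p.Prime).ne_one hx.symm
  have hle := Nat.card_le_card_of_surjective f hf
  rw [Nat.card_prod] at hle
  have hcardW : Nat.card {w : Z // w ≠ 1} + 1 = Nat.card Z := by
    haveI := Fintype.ofFinite Z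
    rw [Nat.card_eq_fintype_card, Nat.card_eq_fintype_card]
    have h1 : 0 < Fintype.card Z := Fintype.card_pos
    simp only [ne_eq, Fintype.card_subtype_compl, Fintype.card_subtype_eq]
    omega
  -- the centre is a proper subgroup of the normalizer
  have hZN : Z ≤ Subgroup.normalizer (P : Set G) := inf_le_left.trans Subgroup.le_normalizer
  have hlt : 2 * Nat.card Z ≤ Nat.card (Subgroup.normalizer (P : Set G)) := by
    obtain ⟨c, hc⟩ := Subgroup.card_dvd_of_le hZN
    have hne : Z ≠ Subgroup.normalizer (P : Set G) := fun e => hN (e ▸ inf_le_right)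
    rcases Nat.lt_or_ge c 2 with hc2 | hc2
    · exfalso
      interval_cases c
      · rw [mul_zero] at hc
        exact Nat.card_pos.ne' hc
      · exact hne (Subgroup.eq_of_le_of_card_ge hZN (by rw [hc, mul_one]))
    · rw [hc, mul_comm]; exact Nat.mul_le_mul_left _ hc2
  have hn := Sylow.card_eq_index_normalizer P
  have hG := (Subgroup.normalizer (P : Set G)).index_mul_card
  rw [← hn] at hG
  have hpos : 0 < Nat.card (Sylow p G) := Nat.card_pos
  nlinarith

theorem Homog.exists_normal_sylow [hp : Fact p.Prime] [hq : Fact q.Prime] (h : Homog G p q)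
    (hpq : p ≠ q) (P : Sylow p G) (hP : (P : Subgroup G) ≠ ⊥)
    (hN : Subgroup.normalizer (P : Set G) ≤ Subgroup.centralizer (P : Set G)) :
    ∃ Q : Sylow q G, (Q : Subgroup G).Normal := by
  have hK := MonoidHom.ker_transferSylow_isComplement' P hN
  set K := (MonoidHom.transferSylow P hN).ker
  have hidx : K.index = Nat.card (P : Subgroup G) := hK.symm.index_eq_card
  have hcop : ∀ x ∈ K, orderOf x = p → False := by
    intro x hx hxp
    have h1 : p ∣ Nat.card K := hxp ▸ Subgroup.orderOf_dvd_natCard K hx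
    have h2 : Nat.card K = (P : Subgroup G).index := hK.index_eq_card.symm
    exact P.not_dvd_index (h2 ▸ h1)
  have hKq : IsPGroup q K := IsPGroup.iff_orderOf.2 fun x => by
    rcases h.1 (x : G) with h2 | h2 | h2
    · exact ⟨0, by rw [← Subgroup.orderOf_coe, h2, orderOf_one, pow_zero]⟩
    · exact absurd h2 fun e => hcop x x.2 e
    · exact ⟨1, by rw [← Subgroup.orderOf_coe, h2, pow_one]⟩
  obtain ⟨k, hk⟩ := IsPGroup.iff_card.1 P.2
  have hndvd : ¬ q ∣ K.index := by
    rw [hidx, hk]
    exact fun hd => hpq ((Nat.prime_dvd_prime_iff_eq hq.out hp.out).1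
      (hq.out.dvd_of_dvd_pow hd)).symm
  exact ⟨hKq.toSylow hndvd, (inferInstance : K.Normal)⟩

theorem Homog.exists_normal [hp : Fact p.Prime] [hq : Fact q.Prime] (h : Homog G p q)
    (hpq : p ≠ q) (hpG : p ∣ Nat.card G) (hqG : q ∣ Nat.card G) :
    (∃ P : Sylow p G, (P : Subgroup G).Normal) ∨ ∃ Q : Sylow q G, (Q : Subgroup G).Normal := by
  classical
  let P : Sylow p G := default
  let Q : Sylow q G := default
  have hP := P.ne_bot_of_dvd_card hpG
  have hQ := Q.ne_bot_of_dvd_card hqG
  by_cases h1 : Subgroup.normalizer (P : Set G) ≤ Subgroup.centralizer (P : Set G)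
  · exact Or.inr (h.exists_normal_sylow hpq P hP h1)
  by_cases h2 : Subgroup.normalizer (Q : Set G) ≤ Subgroup.centralizer (Q : Set G)
  · exact Or.inl (h.swap.exists_normal_sylow hpq.symm Q hQ h2)
  exfalso
  have e1 := h.two_mul_card_lt hq.out hpq P hP h1
  have e2 := h.swap.two_mul_card_lt hp.out hpq.symm Q hQ h2
  have e3 : Nat.card G ≤ 1 + (Nat.card {x : G // orderOf x = p} + Nat.card {x : G // orderOf x = q}) := by
    have hinj : Function.Injective (fun x : G => if hx : orderOf x = p then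
        (Sum.inr (Sum.inl ⟨x, hx⟩) : Unit ⊕ ({x : G // orderOf x = p} ⊕ {x : G // orderOf x = q}))
      else if hx' : orderOf x = q then Sum.inr (Sum.inr ⟨x, hx'⟩) else Sum.inl ()) := by
      intro a b e
      dsimp only at e
      rcases h.1 a with ha | ha | ha <;> rcases h.1 b with hb | hb | hb <;>
        simp_all [hp.out.ne_one.symm, hq.out.ne_one.symm, hpq.symm]
    refine (Nat.card_le_card_of_injective _ hinj).trans_eq ?_
    rw [Nat.card_sum, Nat.card_sum, Nat.card_unique]
  omega

/-- The conjugation action of `G` on an abelian normal subgroup, written additively. -/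
noncomputable def act (P : Subgroup G) [P.Normal] [IsMulCommutative P] :
    G →* AddMonoid.End (Additive P) where
  toFun g := MonoidHom.toAdditive (MulAut.conjNormal g).toMonoidHom
  map_one' := by
    refine DFunLike.ext _ _ fun v => ?_
    show Additive.ofMul (MulAut.conjNormal (1 : G) (Additive.toMul v)) = v
    rw [map_one]
    rfl
  map_mul' a b := by
    refine DFunLike.ext _ _ fun v => ?_
    show Additive.ofMul (MulAut.conjNormal (a * b) (Additive.toMul v)) = _
    rw [map_mul]
    rfl

theorem act_coe (P : Subgroup G) [P.Normal] [IsMulCommutative P] (g : G) (v : Additive P) :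
    ((Additive.toMul (act P g v) : P) : G) = g * ((Additive.toMul v : P) : G) * g⁻¹ :=
  MulAut.conjNormal_apply g (Additive.toMul v)

theorem act_self (P : Subgroup G) [P.Normal] [IsMulCommutative P] {g : G} (hg : g ∈ P) :
    act P g = 1 := by
  refine DFunLike.ext _ _ fun v => ?_
  apply Additive.toMul.injective
  apply Subtype.ext
  rw [act_coe]
  have := congrArg Subtype.val (mul_comm (⟨g, hg⟩ : P) (Additive.toMul v))
  show g * _ * g⁻¹ = _
  rw [show g * ((Additive.toMul v : P) : G) = ((Additive.toMul v : P) : G) * g from this,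
    mul_inv_cancel_right]
  rfl

theorem act_fixed (P : Subgroup G) [P.Normal] [IsMulCommutative P] {e : G}
    (he : orderOf e = q) (hfix : ∀ v ∈ P, e * v * e⁻¹ = v → v = 1) :
    ∑ i ∈ Finset.range q, act P e ^ i = 0 := by
  refine DFunLike.ext _ _ fun v => ?_
  show (∑ i ∈ Finset.range q, act P e ^ i) v = 0
  set s := (∑ i ∈ Finset.range q, act P e ^ i) v
  have h1 : act P e s = s := by
    have h2 : (act P e - 1) * (∑ i ∈ Finset.range q, act P e ^ i) = 0 := by
      rw [mul_geom_sum, ← map_pow, ← he, pow_orderOf_eq_one, map_one, sub_self]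
    have h3 := DFunLike.congr_fun h2 v
    exact sub_eq_zero.1 h3
  have h4 := hfix _ (Additive.toMul s).2 (by rw [← act_coe, h1])
  exact Additive.toMul.injective (Subtype.ext h4)

theorem Homog.forward [hp : Fact p.Prime] [hq : Fact q.Prime] (h : Homog G p q) (hpq : p ≠ q)
    (hpG : p ∣ Nat.card G) (hqG : q ∣ Nat.card G) (P : Sylow p G) (hPn : (P : Subgroup G).Normal) :
    ∃ n, 1 ≤ n ∧ Nat.card G = p ^ n * q ∧ IsMulCommutative (P : Subgroup G) ∧
      (∀ v ∈ (P : Subgroup G), v ^ p = 1) ∧ orderOf (p : ZMod q) = q - 1 ∧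
      ∀ x y : G, orderOf x = q → orderOf y = p → x * y * x⁻¹ ≠ y := by
  classical
  haveI := hPn
  haveI := Sylow.unique_of_normal P hPn
  have hP : (P : Subgroup G) ≠ ⊥ := P.ne_bot_of_dvd_card hpG
  have hfix : ∀ x y : G, orderOf x = q → orderOf y = p → x * y * x⁻¹ ≠ y := fun x y hx hy e =>
    h.swap.not_commute hq.out hp.out hpq.symm hx hy
      (show x * y = y * x from mul_inv_eq_iff_eq_mul.1 e)
  have hmem : ∀ g : G, orderOf g = p → g ∈ (P : Subgroup G) := by
    intro g hg
    obtain ⟨Q, hQ⟩ := IsPGroup.exists_le_sylow (p := p) (P := Subgroup.zpowers g)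
      (IsPGroup.of_card (n := 1) (by rw [Nat.card_zpowers, hg, pow_one]))
    rw [Subsingleton.elim Q P] at hQ
    exact hQ (Subgroup.mem_zpowers g)
  have hordP : ∀ v ∈ (P : Subgroup G), v ≠ 1 → orderOf v = p := fun v hv hv1 =>
    h.orderOf_eq hp.out hq.out hpq P.2 hv hv1
  have hexp : ∀ v ∈ (P : Subgroup G), v ^ p = 1 := fun v hv => by
    rcases eq_or_ne v 1 with rfl | hv1
    · exact one_pow _
    · rw [← hordP v hv hv1, pow_orderOf_eq_one]
  haveI hcomm : IsMulCommutative (P : Subgroup G) := by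
    haveI : Nontrivial (P : Subgroup G) := (Subgroup.nontrivial_iff_ne_bot _).2 hP
    haveI := P.2.center_nontrivial
    obtain ⟨⟨z, hz⟩, hz1⟩ := exists_ne (1 : Subgroup.center (P : Subgroup G))
    have hzp : orderOf (z : G) = p := hordP _ z.2 fun e => hz1 (Subtype.ext (Subtype.ext e))
    refine ⟨⟨fun a b => ?_⟩⟩
    rcases eq_or_ne (a : G) 1 with ha | ha
    · have : a = 1 := Subtype.ext ha
      rw [this, one_mul, mul_one]
    obtain ⟨α, hα⟩ := h.2 (z : G) a (hzp.trans (hordP _ a.2 ha).symm)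
    apply Subtype.ext
    apply α.symm.injective
    have hb : α.symm (b : G) ∈ (P : Subgroup G) := by
      rcases eq_or_ne (b : G) 1 with hb | hb
      · rw [hb, map_one]; exact one_mem _
      · exact hmem _ (by rw [MulEquiv.orderOf_eq]; exact hordP _ b.2 hb)
    simp only [Subgroup.coe_mul, map_mul, ← hα, α.symm_apply_apply]
    exact (congrArg Subtype.val (Subgroup.mem_center_iff.1 hz ⟨_, hb⟩)).symm
  set A := Additive (P : Subgroup G)
  haveI : Nontrivial A := (Subgroup.nontrivial_iff_ne_bot _).2 hP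
  have hexpA : ∀ v : A, p • v = 0 := fun v =>
    Additive.toMul.injective (Subtype.ext (hexp _ (Additive.toMul v).2))
  set ρ : G →* AddMonoid.End A := act (P : Subgroup G) with hρ
  have hsum : ∀ e : G, orderOf e = q → ∑ i ∈ Finset.range q, ρ e ^ i = 0 := fun e he =>
    act_fixed _ he fun v hv hev => by
      by_contra hv1
      exact hfix e v he (hordP v hv hv1) hev
  -- the complement has order q
  let Q : Sylow q G := default
  have hQ := Q.ne_bot_of_dvd_card hqG
  have hordQ : ∀ e ∈ (Q : Subgroup G), e ≠ 1 → orderOf e = q := fun e he he1 =>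
    h.swap.orderOf_eq hq.out hp.out hpq.symm Q.2 he he1
  have hQcard : Nat.card (Q : Subgroup G) = q := by
    haveI : Nontrivial (Q : Subgroup G) := (Subgroup.nontrivial_iff_ne_bot _).2 hQ
    haveI := Q.2.center_nontrivial
    obtain ⟨⟨z, hz⟩, hz1⟩ := exists_ne (1 : Subgroup.center (Q : Subgroup G))
    have hzq : orderOf (z : G) = q := hordQ _ z.2 fun e => hz1 (Subtype.ext (Subtype.ext e))
    by_contra hne
    have hlt : Subgroup.zpowers (z : G) < Q := by
      refine lt_of_le_of_ne (Subgroup.zpowers_le.2 z.2) fun e => hne ?_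
      rw [← e, Nat.card_zpowers, hzq]
    obtain ⟨w, hw, hwz⟩ := SetLike.exists_of_lt hlt
    have hzw : Commute (z : G) w :=
      (congrArg Subtype.val (Subgroup.mem_center_iff.1 hz ⟨w, hw⟩)).symm
    have hjw : ∀ j, orderOf ((z : G) ^ j * w) = q := fun j => by
      refine hordQ _ (mul_mem (pow_mem z.2 j) hw) fun e => hwz ?_
      rw [eq_inv_of_mul_eq_one_right e]
      exact inv_mem (Subgroup.pow_mem _ (Subgroup.mem_zpowers _) _)
    have h0 : ∑ j ∈ Finset.range q, ∑ i ∈ Finset.range q, ρ ((z : G) ^ j * w) ^ i = 0 :=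
      Finset.sum_eq_zero fun j _ => hsum _ (hjw j)
    rw [Finset.sum_comm] at h0
    rw [Finset.sum_eq_single_of_mem 0 (Finset.mem_range.2 hq.out.pos)] at h0
    · simp only [pow_zero, Finset.sum_const, Finset.card_range] at h0
      obtain ⟨v, hv⟩ := exists_ne (0 : A)
      have h1 : q • v = 0 := DFunLike.congr_fun h0 v
      have h2 : addOrderOf v = p := addOrderOf_eq_prime (hexpA v) hv
      have h3 := addOrderOf_dvd_iff_nsmul_eq_zero.2 h1
      rw [h2] at h3
      exact hpq ((Nat.prime_dvd_prime_iff_eq hp.out hq.out).1 h3)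
    · intro i hi hi0
      rw [Finset.mem_range] at hi
      have hzi : orderOf ((z : G) ^ i) = q := by
        rw [orderOf_pow' _ hi0, hzq, Nat.Coprime.gcd_eq_one, Nat.div_one]
        exact hq.out.coprime_iff_not_dvd.2 fun hd => by
          have := Nat.le_of_dvd (Nat.pos_of_ne_zero hi0) hd
          omega
      have h1 : ∀ j, ρ ((z : G) ^ j * w) ^ i = ρ ((z : G) ^ i) ^ j * ρ (w ^ i) := fun j => by
        rw [← map_pow, ← map_pow, ← map_mul, (hzw.pow_left j).mul_pow, ← pow_mul, ← pow_mul,
          mul_comm j i]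
      rw [Finset.sum_congr rfl fun j _ => h1 j, ← Finset.sum_mul, hsum _ hzi, zero_mul]
  obtain ⟨n, hn⟩ := IsPGroup.iff_card.1 P.2
  have hidx : (P : Subgroup G).index = q := by
    have hnp : IsPGroup q (G ⧸ (P : Subgroup G)) := by
      refine fun g => ?_
      obtain ⟨g, rfl⟩ := QuotientGroup.mk'_surjective (P : Subgroup G) g
      rcases h.1 g with h2 | h2 | h2
      · exact ⟨0, by rw [h2, map_one, one_pow]⟩
      · exact ⟨0, by rw [(QuotientGroup.eq_one_iff g).2 (hmem g h2) |> fun e => (e : (QuotientGroup.mk' (P : Subgroup G)) g = 1), one_pow]⟩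
      · exact ⟨1, by rw [← map_pow, pow_one, ← h2, pow_orderOf_eq_one, map_one]⟩
    obtain ⟨k, hk⟩ := IsPGroup.iff_card.1 hnp
    rw [← Subgroup.index_eq_card] at hk
    have h1 := (P : Subgroup G).card_mul_index
    have h2 := (Q : Subgroup G).card_mul_index
    rw [hQcard] at h2
    have hk0 : k ≠ 0 := by
      rintro rfl
      rw [pow_zero] at hk
      rw [hk, mul_one, hn] at h1
      exact hpq ((Nat.prime_dvd_prime_iff_eq hq.out hp.out).1
        (hq.out.dvd_of_dvd_pow (h1 ▸ hqG))).symm
    have h3 : k ≤ 1 := by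
      by_contra hk1
      have hdvd : q ^ 2 ∣ Nat.card G := by
        rw [← h1, hk]; exact Dvd.dvd.mul_left (pow_dvd_pow q (by omega)) _
      have := Q.pow_dvd_card_of_pow_dvd_card hdvd
      rw [hQcard] at this
      have := Nat.le_of_dvd hq.out.pos this
      have := hq.out.two_le
      nlinarith
    rw [hk, show k = 1 by omega, pow_one]
  have hcard : Nat.card G = p ^ n * q := by
    rw [← (P : Subgroup G).card_mul_index, hn, hidx]
  have hn1 : 1 ≤ n := Nat.one_le_iff_ne_zero.2 fun e => hP (Subgroup.eq_bot_of_card_eq _ (by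
    rw [hn, e, pow_zero]))
  refine ⟨n, hn1, hcard, hcomm, hexp, ?_, hfix⟩
  -- the primitive root
  obtain ⟨x, hx⟩ := exists_prime_orderOf_dvd_card' q hqG
  have hdec : ∀ g : G, ∃ (v : G) (k : ℕ), v ∈ (P : Subgroup G) ∧ g = v * x ^ k := by
    have hC : Subgroup.IsComplement' (P : Subgroup G) (Subgroup.zpowers x) := by
      refine Subgroup.isComplement'_of_coprime ?_ ?_
      · rw [Nat.card_zpowers, hx, hn, hcard]
      · rw [Nat.card_zpowers, hx, hn]
        exact ((Nat.coprime_primes hp.out hq.out).2 hpq).pow_left n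
    intro g
    obtain ⟨⟨⟨v, hv⟩, ⟨c, hc⟩⟩, rfl⟩ := hC.2 g
    obtain ⟨k, rfl⟩ := mem_powers_iff_mem_zpowers.2 hc
    exact ⟨v, k, hv, rfl⟩
  have hρdec : ∀ g : G, ∃ k : ℕ, ρ g = ρ x ^ k := fun g => by
    obtain ⟨v, k, hv, rfl⟩ := hdec g
    exact ⟨k, by rw [map_mul, map_pow, hρ, act_self _ hv, one_mul]⟩
  have hbeta : ∀ β : MulAut G, ∃ b : A ≃+ A,
      (∀ v : A, ((Additive.toMul (b v) : (P : Subgroup G)) : G) = β (Additive.toMul v : (P : Subgroup G))) ∧
      ∀ (g : G) (v : A), b (ρ g v) = ρ (β g) (b v) := by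
    intro β
    have hmap : ∀ (β : MulAut G) (v : G), v ∈ (P : Subgroup G) → β v ∈ (P : Subgroup G) := by
      intro β v hv
      rcases eq_or_ne v 1 with rfl | hv1
      · rw [map_one]; exact one_mem _
      · exact hmem _ (by rw [MulEquiv.orderOf_eq]; exact hordP v hv hv1)
    let e : A ≃+ A :=
      { toFun := fun v => Additive.ofMul ⟨β (Additive.toMul v : (P : Subgroup G)),
          hmap β _ (Additive.toMul v).2⟩
        invFun := fun v => Additive.ofMul ⟨β.symm (Additive.toMul v : (P : Subgroup G)),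
          hmap β.symm _ (Additive.toMul v).2⟩
        left_inv := fun v => Additive.toMul.injective (Subtype.ext (β.symm_apply_apply _))
        right_inv := fun v => Additive.toMul.injective (Subtype.ext (β.apply_symm_apply _))
        map_add' := fun v w => Additive.toMul.injective (Subtype.ext (map_mul β _ _)) }
    refine ⟨e, fun v => rfl,
      fun g v => Additive.toMul.injective (Subtype.ext ?_)⟩
    show β ((Additive.toMul (act (P : Subgroup G) g v) : (P : Subgroup G)) : G) =
      ((Additive.toMul (act (P : Subgroup G) (β g) (e v)) : (P : Subgroup G)) : G)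
    rw [act_coe, act_coe, map_mul, map_mul, map_inv]
    rfl
  refine orderOf_eq_of_transitive' (A := A) hexpA hpq (ρ x) ?_ (hsum x hx) ?_ ?_
  · intro hT
    obtain ⟨v, hv⟩ := exists_ne (0 : A)
    have hv1 : ((Additive.toMul v : (P : Subgroup G)) : G) ≠ 1 := fun e =>
      hv (Additive.toMul.injective (Subtype.ext e))
    apply hfix x _ hx (hordP _ (Additive.toMul v).2 hv1)
    rw [← act_coe]
    have h1 : act (P : Subgroup G) x v = v := DFunLike.congr_fun hT v
    rw [h1]
  · intro a c ha hc
    have hord : ∀ u : A, u ≠ 0 → orderOf ((Additive.toMul u : (P : Subgroup G)) : G) = p :=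
      fun u hu => hordP _ (Additive.toMul u).2 fun e => hu (Additive.toMul.injective (Subtype.ext e))
    obtain ⟨β, hβ⟩ := h.2 _ _ ((hord a ha).trans (hord c hc).symm)
    obtain ⟨b, hb, hbρ⟩ := hbeta β
    refine ⟨b, Additive.toMul.injective (Subtype.ext ((hb a).trans hβ)), ?_, ?_⟩
    · obtain ⟨k, hk⟩ := hρdec (β x)
      exact ⟨k, fun v => by rw [← hk]; exact hbρ x v⟩
    · obtain ⟨l, hl⟩ := hρdec (β.symm x)
      refine ⟨l, fun v => ?_⟩
      rw [← hl, hbρ, β.apply_symm_apply]
  · intro k hk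
    obtain ⟨β, hβ⟩ := h.2 x (x ^ k) (by
      rw [hx, (hx.symm ▸ hk.symm : (orderOf x).Coprime k).orderOf_pow, hx])
    obtain ⟨b, hb, hbρ⟩ := hbeta β
    exact ⟨b, fun v => by rw [← map_pow, ← hβ]; exact hbρ x v⟩

theorem orderOf_eq_or [hp : Fact p.Prime] [hq : Fact q.Prime] (hpq : p ≠ q) (P : Subgroup G)
    [P.Normal] (hidx : P.index = q) (hexp : ∀ v ∈ P, v ^ p = 1)
    (hfix : ∀ x y : G, orderOf x = q → orderOf y = p → x * y * x⁻¹ ≠ y) (g : G) :
    g ∈ P ∨ orderOf g = q := by
  refine or_iff_not_imp_left.2 fun hg => ?_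
  have hgq : g ^ q ∈ P := hidx ▸ Subgroup.pow_index_mem P g
  rcases eq_or_ne (g ^ q) 1 with h1 | h1
  · exact orderOf_eq_prime h1 fun e => hg (e ▸ one_mem P)
  exfalso
  have hg0 : g ^ p ≠ 1 := by
    intro e
    apply h1
    -- g has order p, so lies in P
    exfalso
    have h2 : (QuotientGroup.mk' P g) ^ p = 1 := by rw [← map_pow, e, map_one]
    have h3 : (QuotientGroup.mk' P g) ^ q = 1 := by
      rw [← map_pow]; exact (QuotientGroup.eq_one_iff _).2 hgq
    have h4 := Nat.dvd_gcd (orderOf_dvd_of_pow_eq_one h2) (orderOf_dvd_of_pow_eq_one h3)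
    rw [(Nat.coprime_primes hp.out hq.out).2 hpq, Nat.dvd_one, orderOf_eq_one_iff] at h4
    exact hg ((QuotientGroup.eq_one_iff _).1 h4)
  have hgp : orderOf (g ^ p) = q := orderOf_eq_prime (by
    rw [← pow_mul, mul_comm, pow_mul]; exact hexp _ hgq) hg0
  refine hfix _ _ hgp (orderOf_eq_prime (hexp _ hgq) h1) ?_
  rw [(Commute.pow_pow_self g p q).eq, mul_inv_cancel_right]

theorem converse [hp : Fact p.Prime] [hq : Fact q.Prime] (hpq : p ≠ q) (P : Subgroup G) [P.Normal]
    [IsMulCommutative P] (hcop : (Nat.card P).Coprime q) (hidx : P.index = q)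
    (hexp : ∀ v ∈ P, v ^ p = 1) (hprim : orderOf (p : ZMod q) = q - 1)
    (hfix : ∀ x y : G, orderOf x = q → orderOf y = p → x * y * x⁻¹ ≠ y)
    {x x' : G} (hx : orderOf x = q) (hx' : orderOf x' = q) {y y' : G} (hy : y ∈ P) (hy' : y' ∈ P)
    (hy1 : y ≠ 1) (hy'1 : y' ≠ 1) : ∃ α : MulAut G, α x = x' ∧ α y = y' := by
  classical
  set A := Additive P
  have hexpA : ∀ v : A, p • v = 0 := fun v =>
    Additive.toMul.injective (Subtype.ext (hexp _ (Additive.toMul v).2))
  have hsum : ∀ e : G, orderOf e = q → ∑ i ∈ Finset.range q, act P e ^ i = 0 := fun e he =>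
    act_fixed P he fun v hv hev => by
      by_contra hv1
      exact hfix e v he (orderOf_eq_prime (hexp v hv) hv1) hev
  obtain ⟨a, hay, ha⟩ := exists_intertwine' (A := A) hprim hpq hexpA _ _ (hsum x hx)
    (hsum x' hx') (y := Additive.ofMul ⟨y, hy⟩) (y' := Additive.ofMul ⟨y', hy'⟩)
    (fun e => hy1 (congrArg (fun v : A => ((Additive.toMul v : P) : G)) e))
    (fun e => hy'1 (congrArg (fun v : A => ((Additive.toMul v : P) : G)) e))
  let fn : P →* G := P.subtype.comp (AddEquiv.toMultiplicative a).toMonoidHom |>.comp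
    (MonoidHom.id P)
  have hfn : ∀ v : P, fn v = ((Additive.toMul (a (Additive.ofMul v)) : P) : G) := fun v => rfl
  let C := Subgroup.zpowers x
  let gx : C := ⟨x, Subgroup.mem_zpowers x⟩
  have hgen : ∀ c : C, c ∈ Subgroup.zpowers gx := by
    rintro ⟨c, k, rfl⟩; exact ⟨k, Subtype.ext (by simp [gx])⟩
  have hgx : orderOf x' ∣ orderOf gx := by
    rw [hx', ← Subgroup.orderOf_coe]; simp [gx, hx]
  let fg : C →* G := monoidHomOfForallMemZpowers hgen hgx
  have hfgx : fg gx = x' := monoidHomOfForallMemZpowers_apply_gen hgen hgx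
  have hK : Subgroup.IsComplement' P C := by
    refine Subgroup.isComplement'_of_coprime ?_ ?_
    · rw [Nat.card_zpowers, hx, ← hidx, P.card_mul_index]
    · rwa [Nat.card_zpowers, hx]
  have hpow : ∀ (k : ℕ) (v : A), a ((act P x ^ k) v) = (act P x' ^ k) (a v) := by
    intro k
    induction k with
    | zero => intro v; rfl
    | succ k ih =>
      intro v
      rw [pow_succ, pow_succ]
      show a ((act P x ^ k) (act P x v)) = (act P x' ^ k) (act P x' (a v))
      rw [ih]
      exact congrArg _ (ha v)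
  have hcompat : ∀ c : C, fn.comp (((P.normalizerMonoidHom).comp
      (Subgroup.inclusion (P.normalizer_eq_top ▸ le_top))) c).toMonoidHom =
      (MulAut.conj (fg c)).toMonoidHom.comp fn := by
    intro c
    obtain ⟨k, hk⟩ := mem_powers_iff_mem_zpowers.2 c.2
    have hc : c = gx ^ k := Subtype.ext (by rw [← hk]; rfl)
    refine MonoidHom.ext fun v => ?_
    show fn _ = fg c * fn v * (fg c)⁻¹
    rw [hc, map_pow fg, hfgx, hfn, hfn]
    have h1 := congrArg (fun w : A => ((Additive.toMul w : P) : G)) (hpow k (Additive.ofMul v))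
    simp only [← map_pow, act_coe] at h1
    refine Eq.trans (congrArg (fun w : A => ((Additive.toMul (a w) : P) : G))
      (Additive.toMul.injective (Subtype.ext ?_))) h1
    rw [act_coe]
    rfl
  let e := SemidirectProduct.mulEquivSubgroup hK
  let φ : G →* G := (SemidirectProduct.lift fn fg hcompat).comp e.symm.toMonoidHom
  have hφP : ∀ v : P, φ (v : G) = fn v := fun v => by
    have h1 : e (SemidirectProduct.inl v) = (v : G) := by
      show (v : G) * ((1 : C) : G) = v
      rw [Subgroup.coe_one, mul_one]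
    show SemidirectProduct.lift fn fg hcompat (e.symm (v : G)) = fn v
    rw [← h1, e.symm_apply_apply, SemidirectProduct.lift_inl]
  have hφx : φ x = x' := by
    have h1 : e (SemidirectProduct.inr gx) = x := by
      show ((1 : P) : G) * x = x
      rw [Subgroup.coe_one, one_mul]
    show SemidirectProduct.lift fn fg hcompat (e.symm x) = x'
    rw [← h1, e.symm_apply_apply, SemidirectProduct.lift_inr, hfgx]
  have hsurj : Function.Surjective φ := by
    rw [← MonoidHom.range_eq_top, eq_top_iff]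
    have hK' : Subgroup.IsComplement' P (Subgroup.zpowers x') := by
      refine Subgroup.isComplement'_of_coprime ?_ ?_
      · rw [Nat.card_zpowers, hx', ← hidx, P.card_mul_index]
      · rwa [Nat.card_zpowers, hx']
    rw [← hK'.sup_eq_top]
    refine sup_le (fun v hv => ?_) (Subgroup.zpowers_le.2 ⟨x, hφx⟩)
    refine ⟨(Additive.toMul (a.symm (Additive.ofMul ⟨v, hv⟩)) : P), ?_⟩
    rw [hφP, hfn]
    simp
  refine ⟨MulEquiv.ofBijective φ ⟨Finite.injective_iff_surjective.2 hsurj, hsurj⟩, hφx, ?_⟩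
  show φ y = y'
  rw [show y = ((⟨y, hy⟩ : P) : G) from rfl, hφP, hfn, hay]
  rfl

end Cfsg.Agent.FGS3.ThreeOrbits
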