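import Cfsg.Agent.FGS3.PGroupFrattini
import Cfsg.Agent.Transfer.Tate
import Cfsg.Agent.Transfer.CentralTransfer
import Cfsg.Agent.Components.FStar
import Cfsg.Agent.Core.MinimalNormal

/-!
Groups with a two-generator non-commutative Sylow subgroup: the generalized Fitting subgroup.
-/

set_option autoImplicit false
set_option linter.unusedSectionVars false

namespace Cfsg.Agent.FGS3.TwoGenSylow

open Subgroup Cfsg
open scoped commutatorElement

variable {G : Type*} [Group G] [Finite G] {p : ℕ} [Fact p.Prime]

/-- The Frattini subgroup of `P`, inside `G`. -/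
def phi (P : Sylow p G) : Subgroup G := (frattini (P : Subgroup G)).map (P : Subgroup G).subtype

/-- A normal subgroup of `P` outside `Φ(P)` has a cyclic quotient in `P`. -/
theorem exists_gen (P : Sylow p G) (hgen : (frattini (P : Subgroup G)).index = p ^ 2) {A : Subgroup G}
    (hA : A ≤ (P : Subgroup G)) (hAΦ : ¬ A ≤ phi P) :
    ∃ a ∈ A, ∃ w ∈ (P : Subgroup G), (P : Subgroup G) = closure {a, w} := by
  have hp : p.Prime := Fact.out
  set F := frattini (P : Subgroup G)
  obtain ⟨a, haA, haΦ⟩ := SetLike.not_le_iff_exists.mp hAΦ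
  set a' : (P : Subgroup G) := ⟨a, hA haA⟩
  have haF : a' ∉ F := fun h => haΦ ⟨a', h, rfl⟩
  haveI : IsMulCommutative ((P : Subgroup G) ⧸ F) := ⟨⟨quotient_frattini_comm P.2⟩⟩
  letI : CommGroup ((P : Subgroup G) ⧸ F) :=
    { (inferInstance : Group _) with mul_comm := quotient_frattini_comm P.2 }
  set q := QuotientGroup.mk' F
  have hord : orderOf (q a') = p := orderOf_eq_prime (quotient_frattini_pow P.2 _)
    (fun h => haF ((QuotientGroup.eq_one_iff a').mp h))
  have hcard : Nat.card ((P : Subgroup G) ⧸ F) = p ^ 2 := hgen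
  obtain ⟨w', hw'⟩ : ∃ w', w' ∉ zpowers (q a') := by
    by_contra! hc
    have h1 : Nat.card (zpowers (q a')) = p ^ 2 := by
      rw [(eq_top_iff' _).mpr hc, Subgroup.card_top, hcard]
    rw [Nat.card_zpowers, hord] at h1
    nlinarith [hp.two_le]
  obtain ⟨w, rfl⟩ := QuotientGroup.mk'_surjective F w'
  refine ⟨a, haA, w, w.2, ?_⟩
  have htop : closure ({a', w} : Set (P : Subgroup G)) = ⊤ := by
    refine closure_eq_top_of_quotient_frattini ?_
    rw [Set.image_pair]
    set T := closure ({(a' : (P : Subgroup G) ⧸ F), (w : (P : Subgroup G) ⧸ F)} : Set ((P : Subgroup G) ⧸ F))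
    have h1 : zpowers (q a') < T := lt_of_le_of_ne (zpowers_le.mpr (subset_closure (Or.inl rfl)))
      fun h => hw' (h ▸ subset_closure (Or.inr rfl))
    refine eq_top_of_card_eq _ ?_
    obtain ⟨j, hj, hTj⟩ := (Nat.dvd_prime_pow hp).mp (hcard ▸ card_subgroup_dvd_card T)
    have h2 : Nat.card (zpowers (q a')) < Nat.card T :=
      lt_of_not_ge fun h => h1.ne (eq_of_le_of_card_ge h1.le h)
    rw [Nat.card_zpowers, hord, hTj] at h2
    rw [hcard, hTj]
    congr 1
    have : 1 < j := (Nat.pow_lt_pow_iff_right hp.one_lt).mp (by rwa [pow_one])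
    omega
  have := congrArg (Subgroup.map (P : Subgroup G).subtype) htop
  rw [MonoidHom.map_closure, Set.image_pair, ← MonoidHom.range_eq_map, range_subtype] at this
  exact this.symm

theorem derived_le (P : Sylow p G) (hgen : (frattini (P : Subgroup G)).index = p ^ 2) {A : Subgroup G}
    (hA : A ≤ (P : Subgroup G)) (hAΦ : ¬ A ≤ phi P) (hn : (P : Subgroup G) ≤ normalizer (A : Set G)) :
    ∀ x ∈ (P : Subgroup G), ∀ y ∈ (P : Subgroup G), ⁅x, y⁆ ∈ A := by
  obtain ⟨a, ha, w, hw, hP⟩ := exists_gen P hgen hA hAΦ
  -- work modulo `A`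
  haveI : (A.subgroupOf (P : Subgroup G)).Normal := normal_subgroupOf_of_le_normalizer hn
  set q := QuotientGroup.mk' (A.subgroupOf (P : Subgroup G))
  have hcyc : ∀ z : (P : Subgroup G), q z ∈ zpowers (q ⟨w, hw⟩) := by
    intro z
    suffices (P : Subgroup G) ≤ ((zpowers (q ⟨w, hw⟩)).comap q).map (P : Subgroup G).subtype by
      obtain ⟨z', hz', he⟩ := this z.2
      rwa [← Subtype.ext (he : (z' : G) = z)]
    conv_lhs => rw [hP]
    rw [closure_le]
    intro x hx
    simp only [Set.mem_insert_iff, Set.mem_singleton_iff] at hx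
    rcases hx with hx | hx
    · subst hx
      refine Subgroup.mem_map.mpr ⟨(⟨x, hA ha⟩ : (P : Subgroup G)), ?_, rfl⟩
      rw [mem_comap, show q ⟨x, hA ha⟩ = 1 from
        (QuotientGroup.eq_one_iff (N := A.subgroupOf (P : Subgroup G)) _).mpr (mem_subgroupOf.mpr ha)]
      exact one_mem _
    · rw [hx]
      exact Subgroup.mem_map.mpr ⟨(⟨w, hw⟩ : (P : Subgroup G)), mem_zpowers _, rfl⟩
  intro x hx y hy
  have : q ⁅(⟨x, hx⟩ : (P : Subgroup G)), (⟨y, hy⟩ : (P : Subgroup G))⁆ = 1 := by
    obtain ⟨i, hi⟩ := mem_zpowers_iff.mp (hcyc ⟨x, hx⟩)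
    obtain ⟨j, hj⟩ := mem_zpowers_iff.mp (hcyc ⟨y, hy⟩)
    rw [map_commutatorElement, ← hi, ← hj, commutatorElement_eq_one_iff_commute]
    exact (Commute.refl _).zpow_zpow i j
  exact mem_subgroupOf.mp ((QuotientGroup.eq_one_iff _).mp this)

/-- Two trivially meeting normal subgroups of `P` outside `Φ(P)` force `P` abelian. -/
theorem not_two (P : Sylow p G) (hna : ¬ IsMulCommutative (P : Subgroup G))
    (hgen : (frattini (P : Subgroup G)).index = p ^ 2) {A B : Subgroup G}
    (hA : A ≤ (P : Subgroup G)) (hAΦ : ¬ A ≤ phi P) (hAn : (P : Subgroup G) ≤ normalizer (A : Set G))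
    (hB : B ≤ (P : Subgroup G)) (hBΦ : ¬ B ≤ phi P) (hBn : (P : Subgroup G) ≤ normalizer (B : Set G))
    (hAB : A ⊓ B = ⊥) : False :=
  hna ⟨⟨fun x y => Subtype.ext (commutatorElement_eq_one_iff_mul_comm.mp (mem_bot.mp
    (hAB ▸ mem_inf.mpr ⟨derived_le P hgen hA hAΦ hAn _ x.2 _ y.2, derived_le P hgen hB hBΦ hBn _ x.2 _ y.2⟩)))⟩⟩

/-- A `p'`-subgroup normal in `G` is trivial here. -/
theorem card_coprime_of_complement {A : Type*} [Group A] [Finite A]
    (h : Cfsg.HasNormalPComplement p A) (hperf : commutator A = ⊤) : (Nat.card A).Coprime p := by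
  obtain ⟨Q, N, hN, hc⟩ := h
  haveI := hN
  have hQ : Nat.card (A ⧸ N) = Nat.card (Q : Subgroup A) := hc.symm.index_eq_card
  obtain ⟨k, hk⟩ := IsPGroup.iff_card.mp Q.2
  haveI : Group.IsNilpotent (A ⧸ N) := (IsPGroup.of_card (hQ.trans hk)).isNilpotent
  have htriv : Subsingleton (A ⧸ N) := by
    by_contra h
    rw [not_subsingleton_iff_nontrivial] at h
    refine (Group.IsSolvable.commutator_lt_top_of_nontrivial (A ⧸ N)).ne (top_le_iff.mp ?_)
    rw [← map_top_of_surjective _ (QuotientGroup.mk'_surjective N), ← hperf]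
    simp only [commutator_def, map_commutator]
    exact commutator_mono le_top le_top
  rw [Nat.card_of_subsingleton (1 : A ⧸ N)] at hQ
  rw [Nat.coprime_comm, (Fact.out : p.Prime).coprime_iff_not_dvd]
  intro hd
  exact Q.ne_bot_of_dvd_card hd (card_eq_one.mp hQ.symm)

/-- Tate's theorem for a perfect `P`-invariant subgroup. -/
theorem coprime_of_perfect (P : Sylow p G) {A : Subgroup G} (hPA : (P : Subgroup G) ≤ normalizer (A : Set G))
    (hperf : ⁅A, A⁆ = A) (h : A ⊓ (P : Subgroup G) ≤ phi P) : (Nat.card A).Coprime p := by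
  set X : Subgroup G := (P : Subgroup G) ⊔ A
  set P₀ : Sylow p X := P.subtype le_sup_left
  haveI : (A.subgroupOf X).Normal :=
    normal_subgroupOf_of_le_normalizer (sup_le hPA le_normalizer)
  have hh : A.subgroupOf X ⊓ (P₀ : Subgroup X) ≤ (frattini (P₀ : Subgroup X)).map (P₀ : Subgroup X).subtype := by
    rintro ⟨x, hx⟩ ⟨hxA, hxP⟩
    obtain ⟨⟨y, hy⟩, hyΦ, hyx⟩ := h (x := x) ⟨hxA, hxP⟩
    let e : (P : Subgroup G) ≃* (P₀ : Subgroup X) := (Subgroup.subgroupOfEquivOfLe le_sup_left).symm
    refine ⟨e ⟨y, hy⟩, ?_, Subtype.ext hyx⟩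
    exact frattini_le_comap_frattini_of_surjective (φ := e.toMonoidHom) e.surjective hyΦ
  rw [← Nat.card_congr (subgroupOfEquivOfLe (le_sup_right : A ≤ X)).toEquiv]
  refine card_coprime_of_complement (Transfer.hasNormalPComplement_of_inf_le_frattini P₀ _ hh) ?_
  apply Subgroup.map_injective (A.subgroupOf X).subtype_injective
  rw [map_subtype_commutator, ← MonoidHom.range_eq_map, range_subtype]
  apply Subgroup.map_injective X.subtype_injective
  rw [map_commutator, map_subgroupOf_eq_of_le le_sup_right, hperf]

theorem main (P : Sylow p G) (hna : ¬ IsMulCommutative (P : Subgroup G))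
    (hgen : (frattini (P : Subgroup G)).index = p ^ 2) (hcore : Cfsg.pPrimeCore p G = ⊥)
    (hfrat : (phi P).normalCore = ⊥) [hFn : (Cfsg.generalizedFittingSubgroup G).Normal] :
    (Cfsg.generalizedFittingSubgroup G ≠ ⊥ ∧ ∀ K : Subgroup G, K.Normal → K ≠ ⊥ → Cfsg.generalizedFittingSubgroup G ≤ K) ∧
      IsCyclic ↥((P : Subgroup G).map (QuotientGroup.mk' (Cfsg.generalizedFittingSubgroup G))) ∧
      (¬ IsMulCommutative (Cfsg.generalizedFittingSubgroup G) → ∀ K L : Subgroup G, Cfsg.IsComponent K → Cfsg.IsComponent L → ∃ x ∈ (P : Subgroup G), L = K.map (MulAut.conj x).toMonoidHom) := by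
  classical
  have hp : p.Prime := Fact.out
  haveI : Nontrivial G := by
    by_contra h
    rw [not_nontrivial_iff_subsingleton] at h
    exact hna ⟨⟨fun a b => Subtype.ext (Subsingleton.elim _ _)⟩⟩
  have noPhi : ∀ N : Subgroup G, N.Normal → N ≤ phi P → N = ⊥ := fun N hN h =>
    le_bot_iff.mp (hfrat ▸ (normal_le_normalCore.mpr h))
  have noPrime : ∀ N : Subgroup G, N.Normal → (Nat.card N).Coprime p → N = ⊥ := fun N hN h =>
    le_bot_iff.mp (hcore ▸ Core.le_pPrimeCore hN h)
  -- nontrivial normal subgroups meet `P` outside `Φ(P)`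
  have hout : ∀ N : Subgroup G, N.Normal → N ≠ ⊥ → ¬ N ⊓ (P : Subgroup G) ≤ phi P := by
    intro N hN hne h
    haveI := hN
    obtain ⟨Q, C, hC, hcomp⟩ := Transfer.hasNormalPComplement_of_inf_le_frattini P N h
    haveI := hC
    have hidx : C.index = Nat.card (Q : Subgroup N) := hcomp.symm.index_eq_card
    have hCb : C = ⊥ := by
      have hcopC : (Nat.card C).Coprime p := by
        rw [← hcomp.index_eq_card, Nat.coprime_comm, hp.coprime_iff_not_dvd]
        exact Q.not_dvd_index
      -- `C` is the normal Hall subgroup, hence characteristic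
      haveI : C.Characteristic := by
        rw [characteristic_iff_map_le]
        intro φ
        have h1 : IsPGroup p (N ⧸ C) := IsPGroup.of_card
          (hidx.trans (Q.card_eq_multiplicity))
        intro x hx
        obtain ⟨j, hj⟩ := h1 (x : N ⧸ C)
        rw [← QuotientGroup.mk_pow, QuotientGroup.eq_one_iff] at hj
        obtain ⟨y, hy, rfl⟩ := hx
        have h2 : orderOf (φ.toMonoidHom y) ∣ Nat.card C := by
          rw [orderOf_injective _ φ.injective]
          have := orderOf_dvd_natCard (⟨y, hy⟩ : C)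
          rwa [Subgroup.orderOf_mk] at this
        obtain ⟨e, he⟩ := exists_pow_eq_self_of_coprime (x := φ.toMonoidHom y) (n := p ^ j)
          ((hcopC.pow_right j).symm.coprime_dvd_right h2)
        exact he ▸ pow_mem hj e
      have h3 := noPrime (C.map N.subtype) (ConjAct.normal_of_characteristic_of_normal)
        (by rwa [card_map_of_injective N.subtype_injective])
      exact (map_eq_bot_iff_of_injective _ N.subtype_injective).mp h3
    have hNp : IsPGroup p N := by
      obtain ⟨k, hk⟩ := IsPGroup.iff_card.mp Q.2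
      refine IsPGroup.of_card (n := k) ?_
      rw [← hk, ← hidx, hCb, index_bot]
    exact hne (noPhi N hN ((le_inf le_rfl (hNp.le_sylow_of_normal P)).trans h))
  have hPn : ∀ N : Subgroup G, N.Normal → (P : Subgroup G) ≤ normalizer ((N ⊓ (P : Subgroup G) : Subgroup G) : Set G) := by
    intro N hN a ha
    exact mem_normalizer_fintype fun n hn =>
      ⟨hN.conj_mem n hn.1 a, mul_mem (mul_mem ha hn.2) ((P : Subgroup G).inv_mem ha)⟩
  -- the unique minimal normal subgroup
  obtain ⟨K, hK⟩ := Core.exists_isMinNormal (G := G)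
  haveI := hK.1
  have huniq : ∀ N : Subgroup G, N.Normal → N ≠ ⊥ → K ≤ N := by
    intro N hN hne
    rcases hK.2.2 (K ⊓ N) (by haveI := hN; infer_instance) inf_le_left with h | h
    · exfalso
      refine not_two P hna hgen inf_le_right (hout K hK.1 hK.2.1) (hPn K hK.1) inf_le_right
        (hout N hN hne) (hPn N hN) ?_
      rw [inf_inf_inf_comm, h, bot_inf_eq]
    · exact h ▸ inf_le_right
  have hqc : ∀ N : Subgroup G, [N.Normal] → N ≠ ⊥ →
      IsCyclic ((P : Subgroup G).map (QuotientGroup.mk' N)) := by
    intro N hN hne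
    obtain ⟨a, ha, w, hw, hP⟩ := exists_gen P hgen inf_le_right (hout N hN hne)
    have : (P : Subgroup G).map (QuotientGroup.mk' N) = zpowers (QuotientGroup.mk' N w) := by
      rw [hP, MonoidHom.map_closure, Set.image_pair, QuotientGroup.mk'_apply,
        (QuotientGroup.eq_one_iff a).mpr ha.1, Subgroup.closure_insert_one, ← zpowers_eq_closure]
    rw [this]; infer_instance
  set F := fittingSubgroup G with hF
  set E := layer G with hE
  have hFp : F = pCore p G := Core.fittingSubgroup_eq_pCore hcore
  have hFn' : F.Normal := hFp ▸ Cfsg.pCore_normal p G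
  -- every component has order divisible by `p`
  have hcompp : ∀ T : Subgroup G, IsComponent T → p ∣ Nat.card T := by
    intro T hT
    by_contra hd
    have := Core.le_piCore_of_isSubnormal (π := ({p}ᶜ : Set ℕ)) hT.1
      ((Core.isPiNat_compl_singleton_iff_coprime hp).mpr ((hp.coprime_iff_not_dvd.mpr hd).symm))
    rw [← Core.pPrimeCore_eq_piCore, hcore, le_bot_iff] at this
    exact Components.component_ne_bot hT this
  by_cases hFbot : F = ⊥
  · -- no abelian normal subgroup: `F* = E`
    have hstar : generalizedFittingSubgroup G = E := by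
      show E ⊔ F = E
      rw [hFbot, sup_bot_eq]
    haveI hEn : E.Normal := hstar ▸ hFn
    have hEne : E ≠ ⊥ := by
      intro h
      have h1 := Components.centralizer_generalizedFitting_le (G := G)
      rw [hstar, h] at h1
      obtain ⟨g, hg⟩ := exists_ne (1 : G)
      exact hg (mem_bot.mp (h1 (mem_centralizer_iff.mpr fun b hb => by rw [mem_bot.mp hb, one_mul, mul_one])))
    have hKE : K ≤ E := huniq E hEn hEne
    have hZ : E ⊓ centralizer (E : Set G) = ⊥ := by
      by_contra h
      haveI : (E ⊓ centralizer (E : Set G)).Normal := inferInstance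
      have h1 := Components.le_fitting (N := E ⊓ centralizer (E : Set G)) inferInstance
        (Components.isNilpotent_of_commute (le_bot_iff.mp (by
          rw [le_bot_iff, commutator_eq_bot_iff_le_centralizer]
          exact inf_le_right.trans (centralizer_le inf_le_left))))
      exact h (le_bot_iff.mp (hFbot ▸ h1))
    -- `P` is transitive on components
    have htrans : ∀ T U : Subgroup G, IsComponent T → IsComponent U →
        ∃ x ∈ (P : Subgroup G), U = T.map (MulAut.conj x).toMonoidHom := by
      intro T U hT hU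
      by_contra! hne
      let O : Set (Subgroup G) := {L | ∃ x ∈ (P : Subgroup G), L = T.map (MulAut.conj x).toMonoidHom}
      let O' : Set (Subgroup G) := {L | IsComponent L ∧ L ∉ O}
      have hOc : ∀ L ∈ O, IsComponent L := by
        rintro L ⟨x, -, rfl⟩; exact Components.isComponent_conj hT x
      have hinv : ∀ (S : Set (Subgroup G)), (∀ L ∈ S, ∀ x ∈ (P : Subgroup G), L.map (MulAut.conj x).toMonoidHom ∈ S) →
          (P : Subgroup G) ≤ normalizer ((sSup S : Subgroup G) : Set G) := by
        intro S hS a ha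
        rw [mem_normalizer_iff_map_conj_eq]
        refine eq_of_le_of_card_ge ?_ (card_map_of_injective (MulAut.conj a).injective).ge
        rw [sSup_eq_iSup, Subgroup.map_iSup]
        refine iSup_le fun L => ?_
        rw [Subgroup.map_iSup]
        refine iSup_le fun hL => ?_
        exact le_iSup₂_of_le (L.map (MulAut.conj a).toMonoidHom) (hS L hL a ha) le_rfl
      have hmm : ∀ (L : Subgroup G) (a b : G), (L.map (MulAut.conj a).toMonoidHom).map (MulAut.conj b).toMonoidHom =
          L.map (MulAut.conj (b * a)).toMonoidHom := fun L a b => by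
        rw [Subgroup.map_map, map_mul]; rfl
      have hOinv : ∀ L ∈ O, ∀ x ∈ (P : Subgroup G), L.map (MulAut.conj x).toMonoidHom ∈ O := by
        rintro L ⟨y, hy, rfl⟩ x hx
        exact ⟨x * y, mul_mem hx hy, hmm T y x⟩
      have hO'inv : ∀ L ∈ O', ∀ x ∈ (P : Subgroup G), L.map (MulAut.conj x).toMonoidHom ∈ O' := by
        rintro L ⟨hL, hLO⟩ x hx
        refine ⟨Components.isComponent_conj hL x, fun h => hLO ?_⟩
        have := hOinv _ h x⁻¹ ((P : Subgroup G).inv_mem hx)
        rw [hmm, inv_mul_cancel, map_one] at this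
        rwa [show L.map (1 : MulAut G).toMonoidHom = L from Subgroup.map_id L] at this
      have hperf : ∀ S : Set (Subgroup G), (∀ L ∈ S, IsComponent L) → ⁅sSup S, sSup S⁆ = sSup S := by
        intro S hS
        refine le_antisymm ?_ (sSup_le fun L hL => ?_)
        · exact commutator_le.mpr fun a ha b hb => mul_mem (mul_mem (mul_mem ha hb)
            ((sSup S).inv_mem ha)) ((sSup S).inv_mem hb)
        · conv_lhs => rw [← Components.component_commutator_self (hS L hL)]
          exact commutator_mono (le_sSup hL) (le_sSup hL)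
      have hnotPhi : ∀ S : Set (Subgroup G), (∀ L ∈ S, IsComponent L) → S.Nonempty →
          (∀ L ∈ S, ∀ x ∈ (P : Subgroup G), L.map (MulAut.conj x).toMonoidHom ∈ S) →
          ¬ sSup S ⊓ (P : Subgroup G) ≤ phi P := by
        intro S hS ⟨L, hL⟩ hSinv h
        have h1 := coprime_of_perfect P (hinv S hSinv) (hperf S hS) h
        exact hp.coprime_iff_not_dvd.mp h1.symm
          ((hcompp L (hS L hL)).trans (card_dvd_of_le (le_sSup hL)))
      have hPinf : ∀ S : Set (Subgroup G), (∀ L ∈ S, ∀ x ∈ (P : Subgroup G), L.map (MulAut.conj x).toMonoidHom ∈ S) →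
          (P : Subgroup G) ≤ normalizer ((sSup S ⊓ (P : Subgroup G) : Subgroup G) : Set G) := fun S hS =>
        (le_inf (hinv S hS) le_normalizer).trans inf_normalizer_le_normalizer_inf
      refine not_two P hna hgen inf_le_right
        (hnotPhi O hOc ⟨T, 1, one_mem _, by rw [map_one]; exact (Subgroup.map_id T).symm⟩ hOinv)
        (hPinf O hOinv) inf_le_right
        (hnotPhi O' (fun L h => h.1) ⟨U, hU, fun ⟨x, hx, h⟩ => hne x hx h⟩ hO'inv) (hPinf O' hO'inv) ?_
      have hcomm : sSup O ≤ centralizer ((sSup O' : Subgroup G) : Set G) := by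
        refine sSup_le fun L hL => ?_
        rw [le_centralizer_iff]
        refine sSup_le fun L' hL' => ?_
        exact Components.components_commute_le hL'.1 (hOc L hL) (fun h => hL'.2 (h ▸ hL))
      have hAE : sSup O ≤ E := sSup_le fun L hL => Components.component_le_layer (hOc L hL)
      rw [inf_inf_inf_comm, eq_bot_iff]
      refine inf_le_left.trans (le_trans ?_ hZ.le)
      refine le_inf (inf_le_left.trans hAE) ?_
      -- central in the layer
      rw [le_centralizer_iff]
      refine Components.layer_le_iff.mpr fun L hL => ?_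
      rw [le_centralizer_iff]
      by_cases hLO : L ∈ O
      · exact inf_le_right.trans ((le_centralizer_iff.mp hcomm).trans (centralizer_le (le_sSup hLO)))
      · exact inf_le_left.trans (hcomm.trans (centralizer_le (le_sSup (show L ∈ O' from ⟨hL, hLO⟩))))
    have hEK : E ≤ K := by
      by_contra hne
      obtain ⟨T, hT, hTK⟩ : ∃ T, IsComponent T ∧ ¬ T ≤ K := by
        by_contra! hc; exact hne (Components.layer_le_iff.mpr hc)
      refine hK.2.1 (le_bot_iff.mp (le_trans (le_inf hKE ?_) hZ.le))
      rw [le_centralizer_iff]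
      refine Components.layer_le_iff.mpr fun U hU => ?_
      have hUK : ¬ U ≤ K := fun h => hTK (by
        obtain ⟨x, -, rfl⟩ := htrans U T hU hT
        rintro _ ⟨u, hu, rfl⟩
        exact hK.1.conj_mem u (h hu) x)
      exact (commutator_eq_bot_iff_le_centralizer).mp
        ((Components.component_le_or_commutator_normal hU K).resolve_left hUK)
    refine ⟨⟨?_, fun N hN hne => ?_⟩, hqc _ ?_, fun _ => htrans⟩
    · rw [hstar]; exact hEne
    · rw [hstar]; exact hEK.trans (huniq N hN hne)
    · rw [hstar]; exact hEne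
  · -- abelian case
    haveI := hFn'
    have hKF : K ≤ F := huniq F hFn' hFbot
    have hFgp : IsPGroup p F := hFp ▸ Core.isPGroup_pCore p G
    have hFP : F ≤ (P : Subgroup G) := hFgp.le_sylow_of_normal P
    -- no components
    have hEbot : E = ⊥ := by
      by_contra hne
      haveI hEn : E.Normal := by
        constructor
        intro a ha g
        have h1 : E.map (MulAut.conj g).toMonoidHom = E := Components.layer_map (MulAut.conj g)
        exact h1 ▸ mem_map_of_mem _ ha
      have hKE : K ≤ E := huniq E hEn hne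
      have hKZ : K ≤ centralizer (E : Set G) :=
        le_centralizer_iff.mp (Components.layer_le_centralizer_fitting.trans (centralizer_le hKF))
      have hperfE : ⁅E, E⁆ = E := by
        refine le_antisymm (commutator_le_left E E) (Components.layer_le_iff.mpr fun L hL => ?_)
        conv_lhs => rw [← Components.component_commutator_self hL]
        exact commutator_mono (Components.component_le_layer hL) (Components.component_le_layer hL)
      refine hout K hK.1 hK.2.1 ?_
      rintro z ⟨hzK, hzP⟩
      have hzEP : z ∈ E ⊓ (P : Subgroup G) := ⟨hKE hzK, hzP⟩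
      -- transfer to a Sylow subgroup of `E`
      set S := (P : Subgroup G).subgroupOf E
      let f : S →* ((P : Subgroup G) ⧸ frattini (P : Subgroup G)) :=
        (QuotientGroup.mk' (frattini (P : Subgroup G))).comp
          ((E.subtype.comp S.subtype).codRestrict (P : Subgroup G) fun s => s.2)
      letI : CommGroup ((P : Subgroup G) ⧸ frattini (P : Subgroup G)) :=
        { (inferInstance : Group _) with mul_comm := quotient_frattini_comm P.2 }
      have hzc : (⟨z, hKE hzK⟩ : E) ∈ center E := mem_center_iff.mpr fun b =>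
        Subtype.ext (mem_centralizer_iff.mp (hKZ hzK) b b.2)
      have hcomE : commutator E = ⊤ := by
        apply Subgroup.map_injective E.subtype_injective
        rw [map_subtype_commutator, hperfE, ← MonoidHom.range_eq_map, range_subtype]
      have h1 := Transfer.pow_index_eq_one_of_mem_center f ⟨⟨z, hKE hzK⟩, hzP⟩ hzc (hcomE ▸ mem_top _)
      have h2 : ¬ p ∣ S.index := by
        intro hd
        have hdvd : S.index ∣ (P : Subgroup G).index := by
          show (P : Subgroup G).relIndex E ∣ _
          have e1 := relIndex_mul_relIndex ((P : Subgroup G) ⊓ E) (P : Subgroup G) ((P : Subgroup G) ⊔ E)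
            inf_le_left le_sup_left
          rw [← relIndex_mul_relIndex ((P : Subgroup G) ⊓ E) E ((P : Subgroup G) ⊔ E) inf_le_right le_sup_right,
            inf_relIndex_left, inf_relIndex_right, relIndex_sup_right, mul_comm ((P : Subgroup G).relIndex E)] at e1
          rw [← Nat.eq_of_mul_eq_mul_left (Nat.pos_of_ne_zero index_ne_zero_of_finite) e1]
          exact relIndex_dvd_index_of_le le_sup_left
        exact P.not_dvd_index (hd.trans hdvd)
      refine ⟨⟨z, hzP⟩, ?_, rfl⟩
      apply (QuotientGroup.eq_one_iff (⟨z, hzP⟩ : (P : Subgroup G))).mp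
      obtain ⟨e, he⟩ := exists_pow_eq_self_of_coprime (x := (QuotientGroup.mk' (frattini (P : Subgroup G)) ⟨z, hzP⟩))
        (n := S.index) (((hp.coprime_iff_not_dvd.mpr h2).symm).coprime_dvd_right
          (orderOf_dvd_of_pow_eq_one (quotient_frattini_pow P.2 _)))
      rw [← QuotientGroup.mk'_apply, ← he]
      exact (congrArg (· ^ e) h1).trans (one_pow e)
    have hstar : generalizedFittingSubgroup G = F := by
      show E ⊔ F = F
      rw [hEbot, bot_sup_eq]
    -- `F` is elementary abelian
    have hFfrat : frattini F = ⊥ := by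
      apply (map_eq_bot_iff_of_injective _ F.subtype_injective).mp
      refine noPhi _ (ConjAct.normal_of_characteristic_of_normal) ?_
      -- `Φ(F) ≤ Φ(P)`
      haveI : ((frattini (P : Subgroup G)).comap (inclusion hFP)).Normal := inferInstance
      have h1 : frattini F ≤ (frattini (P : Subgroup G)).comap (inclusion hFP) := by
        refine frattini_le_of_elementary (p := p) ?_ (fun x => ?_)
        · rw [← map_le_iff_le_comap, _root_.commutator_def, map_commutator]
          exact (commutator_mono le_top le_top).trans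
            ((_root_.commutator_def (P : Subgroup G)).symm.le.trans (commutator_le_frattini P.2))
        · rw [mem_comap, map_pow]; exact pow_mem_frattini P.2 _
      rintro _ ⟨x, hx, rfl⟩
      exact ⟨_, h1 hx, rfl⟩
    have hFc : ∀ a b : F, a * b = b * a := by
      intro a b
      have h := commutator_le_frattini hFgp (commutator_mem_commutator (mem_top a) (mem_top b))
      rw [hFfrat, mem_bot] at h
      exact commutatorElement_eq_one_iff_mul_comm.mp h
    have hFe : ∀ a : F, a ^ p = 1 := fun a => mem_bot.mp (hFfrat ▸ pow_mem_frattini hFgp a)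
    haveI : IsMulCommutative F := ⟨⟨hFc⟩⟩
    have hKP : K ≤ (P : Subgroup G) := hKF.trans hFP
    -- `F = K`
    have hFK : F ≤ K := by
      by_contra hne
      have hKΦ : ¬ K ≤ phi P := fun h => hK.2.1 (noPhi K hK.1 h)
      obtain ⟨a, ha, w, hw, hPeq⟩ := exists_gen P hgen hKP hKΦ
      have hder := derived_le P hgen hKP hKΦ le_normalizer'
      obtain ⟨h₀, hh₀F, hh₀K⟩ := SetLike.not_le_iff_exists.mp hne
      -- decompose along `w`
      have hsup : (P : Subgroup G) ≤ K ⊔ zpowers w := by
        conv_lhs => rw [hPeq]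
        rw [closure_le]
        rintro _ (rfl | rfl)
        · exact mem_sup_left ha
        · exact mem_sup_right (mem_zpowers _)
      have hdec : ∀ x ∈ F, ∃ k ∈ K, ∃ y ∈ zpowers w, y ∈ F ∧ k * y = x := by
        intro x hx
        obtain ⟨k, hk, y, hy, rfl⟩ := mem_sup_of_normal_left.mp (hsup (hFP hx))
        exact ⟨k, hk, y, hy, (mul_mem_cancel_left (hKF hk)).mp hx, rfl⟩
      obtain ⟨k₀, hk₀, h, hhw, hhF, heq₀⟩ := hdec h₀ hh₀F
      have hhK : h ∉ K := fun hh => hh₀K (heq₀ ▸ mul_mem hk₀ hh)
      have hhp : orderOf h = p := by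
        have := hFe ⟨h, hhF⟩
        exact orderOf_eq_prime (congrArg Subtype.val this) (fun h1 => hhK (h1 ▸ one_mem K))
      have hcent : ∀ x ∈ (P : Subgroup G), Commute x h := by
        intro x hx
        obtain ⟨k, hk, y, hy, rfl⟩ := mem_sup_of_normal_left.mp (hsup hx)
        obtain ⟨i, rfl⟩ := mem_zpowers_iff.mp hy
        obtain ⟨j, rfl⟩ := mem_zpowers_iff.mp hhw
        exact Commute.mul_left (congrArg Subtype.val (hFc ⟨k, hKF hk⟩ ⟨w ^ j, hhF⟩))
          ((Commute.refl w).zpow_zpow i j)
      -- `F = K × ⟨h⟩`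
      have hgenF : ∀ x : F, ∃ k : K, ∃ i : ℕ, (x : G) = k * h ^ i := by
        intro x
        obtain ⟨k, hk, y, hy, hyF, hxeq⟩ := hdec x x.2
        -- `F ∩ ⟨w⟩` is cyclic of exponent `p`
        haveI : IsCyclic (zpowers w) := inferInstance
        have hy' : (⟨y, hy⟩ : zpowers w) ∈ zpowers (⟨h, hhw⟩ : zpowers w) := by
          haveI : Fintype (zpowers w) := Fintype.ofFinite _
          have hsub : Finset.univ.filter (· ∈ zpowers (⟨h, hhw⟩ : zpowers w)) ⊆
              Finset.univ.filter (fun z : zpowers w => z ^ p = 1) := by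
            intro z hz
            obtain ⟨i, rfl⟩ := mem_zpowers_iff.1 (Finset.mem_filter.1 hz).2
            refine Finset.mem_filter.mpr ⟨Finset.mem_univ _, Subtype.ext ?_⟩
            rw [SubmonoidClass.coe_pow, coe_zpow, coe_one, ← zpow_natCast, ← zpow_mul, mul_comm, zpow_mul,
              zpow_natCast]
            show (h ^ p) ^ i = 1
            rw [show h ^ p = 1 from congrArg Subtype.val (hFe ⟨h, hhF⟩)]
            exact one_zpow i
          have heqs := Finset.eq_of_subset_of_card_le hsub ((IsCyclic.card_pow_eq_one_le hp.pos).trans (by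
            rw [← Fintype.card_subtype, ← Nat.card_eq_fintype_card, Nat.card_zpowers, Subgroup.orderOf_mk, hhp]))
          have hmem : (⟨y, hy⟩ : zpowers w) ∈ Finset.univ.filter (fun z : zpowers w => z ^ p = 1) :=
            Finset.mem_filter.mpr ⟨Finset.mem_univ _, Subtype.ext (show y ^ p = 1 from congrArg Subtype.val (hFe ⟨y, hyF⟩))⟩
          rw [← heqs] at hmem
          exact (Finset.mem_filter.mp hmem).2
        obtain ⟨i, hi⟩ := mem_powers_iff_mem_zpowers.mpr hy'
        exact ⟨⟨k, hk⟩, i, by
          have hi' : h ^ i = y := congrArg Subtype.val hi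
          rw [← hxeq, ← hi']⟩
      have hunique : ∀ (k k' : K) (i i' : ℕ), (k : G) * h ^ i = k' * h ^ i' → k = k' := by
        intro k k' i i' he
        have h1 : h ^ ((i : ℤ) - i') ∈ K := by
          have h2 : h ^ ((i : ℤ) - i') = (k : G)⁻¹ * k' := by
            rw [zpow_sub, zpow_natCast, zpow_natCast, eq_inv_mul_iff_mul_eq, ← mul_assoc, he,
              mul_inv_cancel_right]
          rw [h2]; exact mul_mem (K.inv_mem k.2) k'.2
        have hdis : zpowers h ⊓ K = ⊥ := by
          by_contra hb
          have h3 : zpowers h ⊓ K = zpowers h := by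
            refine eq_of_le_of_card_ge inf_le_left ?_
            have h4 : Nat.card (zpowers h ⊓ K : Subgroup G) ∣ p :=
              hhp ▸ Nat.card_zpowers h ▸ card_dvd_of_le inf_le_left
            rcases (Nat.dvd_prime hp).mp h4 with h5 | h5
            · exact absurd (card_eq_one.mp h5) hb
            · rw [h5, Nat.card_zpowers, hhp]
          exact hhK ((h3.symm.le.trans inf_le_right) (mem_zpowers h))
        have h6 : h ^ ((i : ℤ) - i') = 1 := mem_bot.mp (hdis ▸ ⟨zpow_mem (mem_zpowers h) _, h1⟩)
        have h7 : h ^ i = h ^ i' := by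
          rw [← zpow_natCast, ← zpow_natCast h i']
          rwa [zpow_sub, mul_inv_eq_one] at h6
        rw [h7] at he
        exact Subtype.ext (mul_right_cancel he)
      choose kf jf hkf using hgenF
      letI : CommGroup K :=
        { (inferInstance : Group K) with
          mul_comm := fun a b => Subtype.ext (congrArg Subtype.val (hFc ⟨a, hKF a.2⟩ ⟨b, hKF b.2⟩) :) }
      have hπ : ∀ (x : F) (k : K) (i : ℕ), (x : G) = k * h ^ i → kf x = k := fun x k i hx =>
        hunique _ _ _ _ ((hkf x).symm.trans hx)
      have hπmul : ∀ x y : F, kf (x * y) = kf x * kf y := fun x y => by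
        refine hπ _ _ (jf x + jf y) ?_
        rw [coe_mul, coe_mul, hkf x, hkf y, pow_add]
        have hc : Commute (h ^ jf x) (kf y : G) :=
          ((hcent _ (hKP (kf y).2)).symm).pow_left _
        simp only [mul_assoc]
        congr 1
        rw [← mul_assoc, hc.eq, mul_assoc]
      -- conjugation on `F` and on `K`
      let cF : G → F → F := fun g x => ⟨g⁻¹ * x * g, by
        simpa using hFn'.conj_mem _ x.2 g⁻¹⟩
      let cK : G → K → K := fun g k => ⟨g * k * g⁻¹, hK.1.conj_mem _ k.2 g⟩
      have hcFmul : ∀ g x y, cF g (x * y) = cF g x * cF g y := fun g x y => Subtype.ext (by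
        simp only [cF, coe_mul]; group)
      have hcKmul : ∀ g x y, cK g (x * y) = cK g x * cK g y := fun g x y => Subtype.ext (by
        simp only [cK, coe_mul]; group)
      let T : G → F → K := fun g x => cK g (kf (cF g x))
      have hTP : ∀ (g c : G), c ∈ (P : Subgroup G) → ∀ x, T (g * c) x = T g x := by
        intro g c hc x
        have h1 : kf (cF (g * c) x) = ⟨c⁻¹ * kf (cF g x) * c, by
            simpa using hK.1.conj_mem _ (kf (cF g x)).2 c⁻¹⟩ := by
          refine hπ _ _ (jf (cF g x)) ?_
          show (g * c)⁻¹ * (x : G) * (g * c) = c⁻¹ * kf (cF g x) * c * h ^ jf (cF g x)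
          have h2 : g⁻¹ * (x : G) * g = kf (cF g x) * h ^ jf (cF g x) := hkf (cF g x)
          rw [show (g * c)⁻¹ * (x : G) * (g * c) = c⁻¹ * (g⁻¹ * x * g) * c by group, h2]
          rw [mul_assoc (c⁻¹ * (kf (cF g x) : G)) c, ((hcent c hc).pow_right _).eq]
          group
        apply Subtype.ext
        show g * c * (kf (cF (g * c) x) : G) * (g * c)⁻¹ = g * kf (cF g x) * g⁻¹
        rw [h1]; group
      let Tq : G ⧸ (P : Subgroup G) → F → K := fun q => Quotient.liftOn' q T fun g g' hgg => by
        rw [QuotientGroup.leftRel_apply] at hgg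
        funext x
        rw [← hTP g _ hgg x, mul_inv_cancel_left]
      cases nonempty_fintype G
      let ψ : F →* K := MonoidHom.mk' (fun x => ∏ q : G ⧸ (P : Subgroup G), Tq q x) fun x y => by
        rw [← Finset.prod_mul_distrib]
        refine Finset.prod_congr rfl fun q _ => ?_
        induction q using QuotientGroup.induction_on with
        | H g => show T g (x * y) = T g x * T g y; simp only [T, hcFmul, hπmul, hcKmul]
      have hψK : ∀ x : F, ∀ hx : (x : G) ∈ K, ψ x = (⟨x, hx⟩ : K) ^ (P : Subgroup G).index := by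
        intro x hx
        rw [index, Nat.card_eq_fintype_card, ← Finset.card_univ, ← Finset.prod_const]
        refine Finset.prod_congr rfl fun q _ => ?_
        induction q using QuotientGroup.induction_on with
        | H g =>
          show T g x = _
          have h1 : kf (cF g x) = ⟨g⁻¹ * x * g, by simpa using hK.1.conj_mem _ hx g⁻¹⟩ :=
            hπ _ _ 0 (by simp [cF])
          apply Subtype.ext
          show g * (kf (cF g x) : G) * g⁻¹ = x
          rw [h1]; group
      have hψG : ∀ (g : G) (x : F), ψ x = 1 → ψ (cF g x) = 1 := by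
        intro g x hx
        have key : ∀ q, Tq q (cF g x) = cK g⁻¹ (Tq (g • q) x) := by
          intro q
          induction q using QuotientGroup.induction_on with
          | H u =>
            show T u (cF g x) = cK g⁻¹ (T (g * u) x)
            have : cF u (cF g x) = cF (g * u) x := Subtype.ext (by simp only [cF]; group)
            apply Subtype.ext
            simp only [T, this, cK]
            group
        let hom : K →* K := MonoidHom.mk' (cK g⁻¹) (hcKmul g⁻¹)
        show (∏ q, Tq q (cF g x)) = 1
        rw [Finset.prod_congr rfl fun q _ => key q]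
        have h2 : ∏ q, Tq (g • q) x = ∏ q, Tq q x :=
          Fintype.prod_equiv (MulAction.toPerm g) _ _ fun q => rfl
        rw [show (∏ q, cK g⁻¹ (Tq (g • q) x)) = hom (∏ q, Tq (g • q) x) from (map_prod hom _ _).symm, h2,
          show (∏ q, Tq q x) = 1 from hx, map_one]
      -- the kernel of `ψ` is normal and meets `K` trivially
      set D := ψ.ker.map F.subtype
      haveI hDn : D.Normal := ⟨by
        rintro _ ⟨x, hx, rfl⟩ g
        exact ⟨cF g⁻¹ x, hψG g⁻¹ x hx, by simp [cF]⟩⟩
      have hcopK : ∀ k : K, k ^ (P : Subgroup G).index = 1 → k = 1 := by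
        intro k hk
        have h1 : k ^ p = 1 := Subtype.ext (congrArg Subtype.val (hFe ⟨k, hKF k.2⟩) :)
        have h2 := pow_gcd_eq_one.mpr ⟨hk, h1⟩
        rwa [show Nat.gcd (P : Subgroup G).index p = 1 from (hp.coprime_iff_not_dvd.mpr P.not_dvd_index).symm,
          pow_one] at h2
      have hDK : D ⊓ K = ⊥ := by
        rw [eq_bot_iff]
        rintro _ ⟨⟨x, hx, rfl⟩, hxK⟩
        have h1 : (⟨(x : G), hxK⟩ : K) = 1 := hcopK _ ((hψK x hxK).symm.trans hx)
        exact mem_bot.mpr (congrArg Subtype.val h1)
      have hDne : D ≠ ⊥ := by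
        intro hD
        have hinj : Function.Injective ψ :=
          (MonoidHom.ker_eq_bot_iff _).mp ((map_eq_bot_iff_of_injective _ F.subtype_injective).mp hD)
        have h1 := Nat.card_le_card_of_injective ψ hinj
        exact hne (eq_of_le_of_card_ge hKF h1).ge
      exact hK.2.1 (le_bot_iff.mp (hDK ▸ le_inf (huniq D hDn hDne) le_rfl))
    refine ⟨⟨?_, fun N hN hne => ?_⟩, hqc _ ?_, fun hnc => absurd ?_ hnc⟩
    · rw [hstar]; exact hFbot
    · rw [hstar]; exact hFK.trans (huniq N hN hne)
    · rw [hstar]; exact hFbot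
    · rw [hstar]; infer_instance
where
  le_normalizer' {H K : Subgroup G} [K.Normal] : H ≤ normalizer (K : Set G) := by
    rw [normalizer_eq_top]; exact le_top

end Cfsg.Agent.FGS3.TwoGenSylow
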