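import Mathlib
import Cfsg.Agent.FGS3.TwoGroupCyclic
import Cfsg.Agent.OddLocal.UniqueSubgroup

/-!
Elementary abelian quotients of 2-groups acting on abelian groups of odd order.
-/

set_option autoImplicit false

namespace Cfsg.Agent.FGS3.TwoQuot

open Subgroup

universe u v

/-- The bound: `i` is at most half of `x`, with two small exceptions. -/
def P (x i : ℕ) : Prop := 2 * i ≤ x ∨ (x = 3 ∧ i ≤ 2) ∨ (x = 1 ∧ i = 1)

lemma P.mul {x i y j : ℕ} (h : P x i) (h' : P y j) : P (x * y) (i * j) := by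
  rcases h with h | ⟨rfl, hi⟩ | ⟨rfl, rfl⟩
  · rcases h' with h' | ⟨rfl, hj⟩ | ⟨rfl, rfl⟩
    · left
      have := Nat.mul_le_mul h h'
      nlinarith
    · left
      have := Nat.mul_le_mul h hj
      nlinarith
    · left; omega
  · rcases h' with h' | ⟨rfl, hj⟩ | ⟨rfl, rfl⟩
    · left
      have := Nat.mul_le_mul hi h'
      nlinarith
    · left
      have := Nat.mul_le_mul hi hj
      omega
    · exact Or.inr (Or.inl ⟨rfl, by omega⟩)
  · rw [one_mul, one_mul]; exact h'

lemma sq_bound {y a b : ℕ} (hy : y ≠ 1) (ha : P y a) (hb : P y b) (h3 : y = 3 → a = 1 ∨ b = 1) :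
    2 * (2 * (a * b)) ≤ y * y := by
  rcases ha with ha | ⟨rfl, ha⟩ | ⟨rfl, -⟩
  · rcases hb with hb | ⟨rfl, hb⟩ | ⟨rfl, -⟩
    · have := Nat.mul_le_mul ha hb
      nlinarith
    · rcases h3 rfl with rfl | rfl <;> omega
    · exact absurd rfl hy
  · have hb' : b ≤ 2 := by rcases hb with hb | ⟨-, hb⟩ | ⟨h, -⟩ <;> omega
    rcases h3 rfl with rfl | rfl <;> omega
  · exact absurd rfl hy

/-- The property proved by induction on `V`. -/
def Bound (V : Type u) [CommGroup V] : Prop :=
  ∀ (S : Type v) [Group S] [Finite S], IsPGroup 2 S → ∀ (φ : S →* MulAut V) (N : Subgroup S)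
    (A : Type v) [CommGroup A] (χ : N →* A), N.Normal → (∀ a : A, a * a = 1) →
    (∀ (n m : N) (s : S), (m : S) = s * n * s⁻¹ → χ m = χ n) →
    (∀ n : N, φ (n : S) = 1 → χ n = 1) →
    P (Nat.card V) (Nat.card χ.range)

variable {V : Type u} [CommGroup V] [Finite V]

lemma odd_sqrt (hodd : Odd (Nat.card V)) (v : V) :
    (v ^ ((Nat.card V + 1) / 2)) * (v ^ ((Nat.card V + 1) / 2)) = v := by
  obtain ⟨k, hk⟩ := hodd
  rw [← pow_add, show (Nat.card V + 1) / 2 + (Nat.card V + 1) / 2 = Nat.card V + 1 by omega,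
    pow_succ, pow_card_eq_one', one_mul]

lemma eq_one_of_pow_two (hodd : Odd (Nat.card V)) {v : V} {e : ℕ} (h : v ^ 2 ^ e = 1) : v = 1 :=
  orderOf_eq_one_iff.mp (Nat.eq_one_of_dvd_coprimes
    (Nat.Coprime.pow_left e (Nat.coprime_two_left.mpr hodd))
    (orderOf_dvd_of_pow_eq_one h) (orderOf_dvd_natCard v))

/-- Restriction of an action to an invariant subgroup. -/
def restrictHom {S : Type v} [Group S] (φ : S →* MulAut V) (W : Subgroup V)
    (hW : ∀ s : S, ∀ w ∈ W, φ s w ∈ W) : S →* MulAut W where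
  toFun s :=
    { toFun := fun w => ⟨φ s w, hW s w w.2⟩
      invFun := fun w => ⟨φ s⁻¹ w, hW s⁻¹ w w.2⟩
      left_inv := fun w => Subtype.ext (by
        show φ s⁻¹ (φ s w) = (w : V)
        rw [← MulAut.mul_apply, ← map_mul, inv_mul_cancel, map_one, MulAut.one_apply])
      right_inv := fun w => Subtype.ext (by
        show φ s (φ s⁻¹ w) = (w : V)
        rw [← MulAut.mul_apply, ← map_mul, mul_inv_cancel, map_one, MulAut.one_apply])
      map_mul' := fun a b => Subtype.ext (map_mul (φ s) (a : V) b) }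
  map_one' := MulEquiv.ext fun w => Subtype.ext (by
    show φ 1 w = (w : V)
    rw [map_one, MulAut.one_apply])
  map_mul' := fun s t => MulEquiv.ext fun w => Subtype.ext (by
    show φ (s * t) w = φ s (φ t w)
    rw [map_mul, MulAut.mul_apply])

lemma restrictHom_apply {S : Type v} [Group S] (φ : S →* MulAut V) (W : Subgroup V)
    (hW : ∀ s : S, ∀ w ∈ W, φ s w ∈ W) (s : S) (w : W) :
    ((restrictHom φ W hW s w : W) : V) = φ s w := rfl

/-- The induced action on the quotient by an invariant subgroup. -/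
noncomputable def quotientHom {S : Type v} [Group S] (φ : S →* MulAut V) (W : Subgroup V)
    (hW : ∀ s : S, ∀ w ∈ W, φ s w ∈ W) : S →* MulAut (V ⧸ W) where
  toFun s := QuotientGroup.congr W W (φ s) (by
    refine le_antisymm ?_ ?_
    · rintro _ ⟨w, hw, rfl⟩; exact hW s w hw
    · intro w hw
      refine ⟨φ s⁻¹ w, hW s⁻¹ w hw, ?_⟩
      show φ s (φ s⁻¹ w) = w
      rw [← MulAut.mul_apply, ← map_mul, mul_inv_cancel, map_one, MulAut.one_apply])
  map_one' := MulEquiv.ext fun v => by
    induction v using QuotientGroup.induction_on with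
    | H v => simp
  map_mul' := fun s t => MulEquiv.ext fun v => by
    induction v using QuotientGroup.induction_on with
    | H v => simp

/-- Cardinality of the image as a product over a subgroup. -/
lemma card_range_eq {N A : Type v} [Group N] [CommGroup A] [Finite N] (χ : N →* A)
    (K : Subgroup N) :
    Nat.card χ.range = Nat.card (K.map χ) *
      Nat.card ((QuotientGroup.mk' (K.map χ)).comp χ).range := by
  have hle : K.map χ ≤ χ.range := Subgroup.map_le_range χ K
  rw [MonoidHom.range_comp, ← Subgroup.relIndex_ker (f := QuotientGroup.mk' (K.map χ)), QuotientGroup.ker_mk', Subgroup.relIndex,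
    ← Subgroup.card_mul_index ((K.map χ).subgroupOf χ.range)]
  congr 1
  exact Nat.card_congr (Subgroup.subgroupOfEquivOfLe hle).toEquiv

/-- Reduction along an invariant subgroup. -/
lemma reduce (hodd : Odd (Nat.card V)) {S : Type v} [Group S] [Finite S] (hS : IsPGroup 2 S)
    (φ : S →* MulAut V) (W : Subgroup V) (hW : ∀ s : S, ∀ w ∈ W, φ s w ∈ W)
    (hbW : Bound.{u, v} W) (hbQ : Bound.{u, v} (V ⧸ W)) (N : Subgroup S) (hN : N.Normal)
    {A : Type v} [CommGroup A] (χ : N →* A) (hA : ∀ a : A, a * a = 1)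
    (hinv : ∀ (n m : N) (s : S), (m : S) = s * n * s⁻¹ → χ m = χ n)
    (hker : ∀ n : N, φ (n : S) = 1 → χ n = 1) :
    P (Nat.card V) (Nat.card χ.range) := by
  haveI := hN
  let K₀ : Subgroup S := N ⊓ (restrictHom φ W hW).ker
  let K : Subgroup N := K₀.subgroupOf N
  have h1 : P (Nat.card W) (Nat.card ((QuotientGroup.mk' (K.map χ)).comp χ).range) := by
    refine hbW S hS (restrictHom φ W hW) N _ _ hN ?_ ?_ ?_
    · intro a
      induction a using QuotientGroup.induction_on with
      | H a => rw [← QuotientGroup.mk_mul, hA, QuotientGroup.mk_one]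
    · intro n m s hs
      rw [MonoidHom.comp_apply, MonoidHom.comp_apply, hinv n m s hs]
    · intro n hn
      rw [MonoidHom.comp_apply]
      exact (QuotientGroup.eq_one_iff _).mpr (mem_map_of_mem χ (show n ∈ K from ⟨n.2, hn⟩))
  have h2 : P (Nat.card (V ⧸ W)) (Nat.card (K.map χ)) := by
    let j : K₀ →* N := Subgroup.inclusion inf_le_left
    have hr : (χ.comp j).range = K.map χ := by
      rw [MonoidHom.range_comp]
      congr 1
      ext a
      exact ⟨fun ⟨b, hb⟩ => hb ▸ b.2, fun ha => ⟨⟨a.1, ha⟩, rfl⟩⟩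
    rw [← hr]
    refine hbQ S hS (quotientHom φ W hW) K₀ A (χ.comp j) inferInstance hA ?_ ?_
    · intro n m s hs
      exact hinv (j n) (j m) s hs
    · intro n hn
      refine hker (j n) (MulEquiv.ext fun v => ?_)
      show φ (n : S) v = v
      have hfix : ∀ w ∈ W, φ (n : S) w = w := fun w hw =>
        by
          have := DFunLike.congr_fun (MonoidHom.mem_ker.mp n.2.2) ⟨w, hw⟩
          exact congrArg Subtype.val this
      have hv := DFunLike.congr_fun hn (v : V ⧸ W)
      have hv' : v⁻¹ * φ (n : S) v ∈ W := by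
        refine QuotientGroup.eq.mp ?_
        simpa [quotientHom] using hv.symm
      have hpow : ∀ k : ℕ, φ ((n : S) ^ k) v = v * (v⁻¹ * φ (n : S) v) ^ k := by
        intro k
        induction k with
        | zero => simp
        | succ k ih =>
          rw [pow_succ', map_mul, MulAut.mul_apply, ih, map_mul, hfix _ (pow_mem hv' k), pow_succ',
            ← mul_assoc, mul_inv_cancel_left]
      obtain ⟨e, he⟩ := hS (n : S)
      have h := hpow (2 ^ e)
      rw [he, map_one, MulAut.one_apply, left_eq_mul] at h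
      exact (eq_inv_of_mul_eq_one_right (eq_one_of_pow_two hodd h)).trans (inv_inv v)
  rw [card_range_eq χ K, mul_comm, Subgroup.card_eq_card_quotient_mul_card_subgroup W,
    mul_comm (Nat.card (V ⧸ W))]
  exact h1.mul h2

/-- The fixed points of an automorphism. -/
def fixedSubgroup (e : MulAut V) : Subgroup V where
  carrier := {v | e v = v}
  one_mem' := map_one e
  mul_mem' := fun {a b} ha hb => by show e (a * b) = a * b; rw [map_mul, ha, hb]
  inv_mem' := fun {a} ha => by show e a⁻¹ = a⁻¹; rw [map_inv, ha]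

lemma mem_fixedSubgroup {e : MulAut V} {v : V} : v ∈ fixedSubgroup e ↔ e v = v := Iff.rfl

lemma card_le_two_of_cyclic {M A : Type v} {Γ : Type u} [Group M] [Group Γ] [Group A]
    (f : M →* Γ) (g : M →* A) (hA : ∀ a : A, a * a = 1) (hker : ∀ m, f m = 1 → g m = 1)
    (C : Subgroup Γ) [IsCyclic C] (hC : ∀ m, f m ∈ C) : Nat.card g.range ≤ 2 := by
  haveI : IsCyclic f.range :=
    isCyclic_of_injective (Subgroup.inclusion (show f.range ≤ C from by
      rintro _ ⟨m, rfl⟩; exact hC m)) (Subgroup.inclusion_injective _)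
  obtain ⟨⟨_, m₀, rfl⟩, hgen⟩ := IsCyclic.exists_generator (α := f.range)
  have hle : g.range ≤ zpowers (g m₀) := by
    rintro _ ⟨m, rfl⟩
    obtain ⟨k, hk⟩ := mem_zpowers_iff.mp (hgen ⟨f m, m, rfl⟩)
    have hk' : f m₀ ^ k = f m := congrArg Subtype.val hk
    have h1 : g ((m₀ ^ k)⁻¹ * m) = 1 := hker _ (by rw [map_mul, map_inv, map_zpow, hk', inv_mul_cancel])
    rw [map_mul, map_inv, map_zpow, inv_mul_eq_one] at h1
    exact mem_zpowers_iff.mpr ⟨k, h1⟩
  have hord : orderOf (g m₀) ∣ 2 := orderOf_dvd_of_pow_eq_one (by rw [pow_two]; exact hA _)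
  haveI : Finite (zpowers (g m₀)) := Nat.finite_of_card_ne_zero (by
    rw [Nat.card_zpowers]; exact ne_zero_of_dvd_ne_zero two_ne_zero hord)
  refine (Subgroup.card_le_of_le hle).trans ?_
  rw [Nat.card_zpowers]
  exact Nat.le_of_dvd two_pos hord

lemma range_le_four_of_cyclic_index_two {M A : Type v} {Γ : Type u} [Group M] [Finite M] [Group Γ]
    [CommGroup A] (f : M →* Γ) (g : M →* A) (hA : ∀ a : A, a * a = 1)
    (hker : ∀ m, f m = 1 → g m = 1) (C : Subgroup Γ) [IsCyclic C] (hidx : C.index ≤ 2)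
    (hC0 : C.index ≠ 0) : Nat.card g.range ≤ 4 := by
  let M₀ : Subgroup M := C.comap f
  have h2 : Nat.card (M₀.map g) ≤ 2 := by
    have hr : (g.comp M₀.subtype).range = M₀.map g := by
      rw [MonoidHom.range_comp, Subgroup.range_subtype]
    rw [← hr]
    exact card_le_two_of_cyclic (f.comp M₀.subtype) _ hA (fun m hm => hker _ hm) C fun m => m.2
  have hidx2 : M₀.index ≤ 2 := by
    rw [Subgroup.index_comap]
    refine le_trans ?_ hidx
    rw [← Subgroup.relIndex_top_right C]
    exact Subgroup.relIndex_le_of_le_right le_top (by rwa [Subgroup.relIndex_top_right])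
  have h3 : Nat.card ((QuotientGroup.mk' (M₀.map g)).comp g).range ≤ 2 := by
    refine le_trans ?_ hidx2
    rw [← Subgroup.index_ker]
    refine Nat.le_of_dvd (Nat.pos_of_ne_zero Subgroup.index_ne_zero_of_finite)
      (Subgroup.index_dvd_of_le fun m hm => ?_)
    exact (QuotientGroup.eq_one_iff _).mpr (mem_map_of_mem g hm)
  rw [card_range_eq g M₀]
  calc _ ≤ 2 * 2 := Nat.mul_le_mul h2 h3
    _ = 4 := rfl

lemma aut_of_card_three (h3 : Nat.card V = 3) {f : MulAut V} (hf : f ≠ 1) (v : V) : f v = v⁻¹ := by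
  by_cases hv : v = 1
  · subst hv; simp
  haveI : Fact (Nat.card V).Prime := ⟨h3 ▸ Nat.prime_three⟩
  have hv' : zpowers v = ⊤ :=
    ((zpowers v).eq_bot_or_eq_top_of_prime_card).resolve_left (fun h => hv (zpowers_eq_bot.mp h))
  have ho : orderOf v = 3 := by rw [← Nat.card_zpowers, hv', Subgroup.card_top, h3]
  have hv3 : v * (v * v) = 1 := by rw [← pow_two, ← pow_succ', show 2 + 1 = orderOf v by omega, pow_orderOf_eq_one]
  have hall : ∀ w : V, w = 1 ∨ w = v ∨ w = v⁻¹ := by
    intro w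
    obtain ⟨k, rfl⟩ := mem_zpowers_iff.mp (hv' ▸ mem_top w : w ∈ zpowers v)
    rw [← zpow_mod_orderOf, ho]
    have h0 := Int.emod_nonneg k (show (3 : ℤ) ≠ 0 by norm_num)
    have h3' := Int.emod_lt_of_pos k (show (0 : ℤ) < 3 by norm_num)
    push_cast
    interval_cases h : k % 3
    · left; simp
    · right; left; simp
    · right; right
      rw [zpow_two, ← eq_inv_of_mul_eq_one_right hv3]
  rcases hall (f v) with h | h | h
  · exact absurd (f.injective (h.trans (map_one f).symm)) hv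
  · refine absurd (MulEquiv.ext fun w => ?_) hf
    rcases hall w with rfl | rfl | rfl <;> simp [h]
  · exact h

set_option maxHeartbeats 1600000 in
theorem bound_of_odd : ∀ (V : Type u) [CommGroup V] [Finite V], Odd (Nat.card V) →
    Bound.{u, v} V := by
  intro V _ _ hodd
  induction hV : Nat.card V using Nat.strong_induction_on generalizing V with
  | h x ih =>
  intro S _ _ hS φ N A _ χ hN hA hinv hker
  haveI := hN
  subst hV
  rcases subsingleton_or_nontrivial V with hsub | hnt
  · refine Or.inr (Or.inr ⟨Nat.card_unique, ?_⟩)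
    haveI : Subsingleton χ.range := ⟨fun a b => Subtype.ext (by
      obtain ⟨_, m, rfl⟩ := a
      obtain ⟨_, k, rfl⟩ := b
      show χ m = χ k
      rw [hker m (MulEquiv.ext fun w => Subsingleton.elim _ _),
        hker k (MulEquiv.ext fun w => Subsingleton.elim _ _)])⟩
    exact Nat.card_unique
  -- reduction along a proper invariant subgroup
  have hred : ∀ (S : Type v) [Group S] [Finite S], IsPGroup 2 S → ∀ (φ : S →* MulAut V)
      (W : Subgroup V), W ≠ ⊥ → W ≠ ⊤ → (∀ s : S, ∀ w ∈ W, φ s w ∈ W) → ∀ (N : Subgroup S)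
      (A : Type v) [CommGroup A] (χ : N →* A), N.Normal → (∀ a : A, a * a = 1) →
      (∀ (n m : N) (s : S), (m : S) = s * n * s⁻¹ → χ m = χ n) →
      (∀ n : N, φ (n : S) = 1 → χ n = 1) → P (Nat.card V) (Nat.card χ.range) := by
    intro S _ _ hS φ W hW0 hW1 hW N A _ χ hN hA hinv hker
    have hlt1 : Nat.card W < Nat.card V := by
      refine lt_of_le_of_ne (Subgroup.card_le_card_group W) fun h => hW1 (Subgroup.eq_top_of_card_eq W h)
    have hmul := Subgroup.card_eq_card_quotient_mul_card_subgroup W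
    have hlt2 : Nat.card (V ⧸ W) < Nat.card V := by
      haveI : Nontrivial W := (Subgroup.nontrivial_iff_ne_bot W).mpr hW0
      have h1 : 1 < Nat.card W := Finite.one_lt_card
      have h2 : 0 < Nat.card (V ⧸ W) := Nat.card_pos
      nlinarith
    exact reduce hodd hS φ W hW (ih _ hlt1 W (hodd.of_dvd_nat (Subgroup.card_subgroup_dvd_card W)) rfl)
      (ih _ hlt2 (V ⧸ W) (hodd.of_dvd_nat (Subgroup.card_quotient_dvd_card W)) rfl) N hN χ hA hinv hker
  by_cases hirr : ∃ W : Subgroup V, W ≠ ⊥ ∧ W ≠ ⊤ ∧ ∀ s : S, ∀ w ∈ W, φ s w ∈ W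
  · obtain ⟨W, hW0, hW1, hW⟩ := hirr
    exact hred S hS φ W hW0 hW1 hW N A χ hN hA hinv hker
  push Not at hirr
  have hV3 : 3 ≤ Nat.card V := by
    have h1 : 1 < Nat.card V := Finite.one_lt_card
    obtain ⟨k, hk⟩ := hodd
    omega
  let Γ := φ.range
  have hΓ : IsPGroup 2 Γ := hS.of_surjective φ.rangeRestrict φ.rangeRestrict_surjective
  -- `Γ` trivial
  rcases subsingleton_or_nontrivial Γ with hΓ1 | hΓ1
  · left
    haveI : Subsingleton χ.range := ⟨fun a b => Subtype.ext (by
      obtain ⟨_, m, rfl⟩ := a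
      obtain ⟨_, k, rfl⟩ := b
      show χ m = χ k
      rw [hker m (congrArg Subtype.val (Subsingleton.elim (φ.rangeRestrict m) 1)),
        hker k (congrArg Subtype.val (Subsingleton.elim (φ.rangeRestrict k) 1))])⟩
    rw [Nat.card_unique (α := χ.range)]
    omega
  haveI : Fact (Nat.Prime 2) := ⟨Nat.prime_two⟩
  -- the inversion
  have hinvol : ∀ c : Γ, orderOf c = 2 → (∀ s : Γ, s * c = c * s) → ∀ v : V, (c : MulAut V) v = v⁻¹ := by
    intro c hc hcc v
    have hsq : ∀ v : V, (c : MulAut V) ((c : MulAut V) v) = v := fun v => by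
      have h1 : (c * c : Γ) = 1 := by rw [← pow_two, ← hc, pow_orderOf_eq_one]
      have h2 := congrArg (fun t : Γ => (t : MulAut V) v) h1
      simpa using h2
    have hWtriv : fixedSubgroup (c : MulAut V) = ⊥ := by
      by_contra hne
      have hWtop : fixedSubgroup (c : MulAut V) ≠ ⊤ := fun h => by
        have hc1 : c = 1 := Subtype.ext (MulEquiv.ext fun w => by
          have := mem_fixedSubgroup.mp (h ▸ mem_top w : w ∈ fixedSubgroup (c : MulAut V))
          simpa using this)
        rw [hc1, orderOf_one] at hc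
        omega
      obtain ⟨s, w, hw, hsw⟩ := hirr _ hne hWtop
      apply hsw
      have h1 := congrArg (fun t : Γ => (t : MulAut V) w) (hcc (φ.rangeRestrict s))
      show (c : MulAut V) (φ s w) = φ s w
      simp only [Subgroup.coe_mul, MulAut.mul_apply, MonoidHom.coe_rangeRestrict] at h1
      rw [← h1, mem_fixedSubgroup.mp hw]
    have hmem : v * (c : MulAut V) v ∈ fixedSubgroup (c : MulAut V) := by
      show (c : MulAut V) (v * (c : MulAut V) v) = _
      rw [map_mul, hsq, mul_comm]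
    rw [hWtriv, Subgroup.mem_bot] at hmem
    exact eq_inv_of_mul_eq_one_right hmem
  obtain ⟨⟨z, hzc⟩, hz⟩ : ∃ z : Subgroup.center Γ, orderOf z = 2 := by
    haveI := hΓ.center_nontrivial
    exact exists_prime_orderOf_dvd_card' 2 (((hΓ.to_subgroup (Subgroup.center Γ)).nontrivial_iff_card.mp
      inferInstance).elim fun n hn => hn.2 ▸ dvd_pow_self 2 (by omega))
  rw [Subgroup.orderOf_mk] at hz
  have hzc' : ∀ s : Γ, s * z = z * s := Subgroup.mem_center_iff.mp hzc
  have hzinv := hinvol z hz hzc'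
  have huniq : ∀ c : Γ, orderOf c = 2 → (∀ s : Γ, s * c = c * s) → c = z := fun c hc hcc =>
    Subtype.ext (MulEquiv.ext fun v => by rw [hinvol c hc hcc, hzinv])
  by_cases hfour : ∃ w : Γ, orderOf w = 2 ∧ w ≠ z ∧ ∀ s : Γ, s * w * s⁻¹ = w ∨ s * w * s⁻¹ = w * z
  swap
  · -- `Γ` has a cyclic subgroup of index at most two
    push Not at hfour
    obtain ⟨C, hCidx, hCc⟩ : ∃ C : Subgroup Γ, C.index ≤ 2 ∧ IsCyclic C := by
      by_cases hx : ∃ x : Γ, orderOf x = 2 ∧ x ≠ z
      · obtain ⟨x, hx, hxz⟩ := hx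
        obtain ⟨C, hC, hCc⟩ := exists_cyclic_index_two hΓ hz hzc' huniq
          (fun w hw hwz => hfour w hw hwz) hx hxz
        exact ⟨C, hC.le, hCc⟩
      · push Not at hx
        have hu : OddLocal.UniqueOrderP 2 Γ := by
          intro a b ha hb ha1
          by_cases hb1 : b = 1
          · rw [hb1]; exact one_mem _
          rw [hx b (orderOf_eq_prime hb hb1), ← hx a (orderOf_eq_prime ha ha1)]
          exact mem_zpowers a
        rcases OddLocal.isCyclic_or_quaternion hΓ hu with hc | ⟨-, k, ⟨eq⟩⟩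
        · exact ⟨⊤, by rw [Subgroup.index_top]; omega,
            isCyclic_of_surjective (Subgroup.topEquiv (G := Γ)).symm Subgroup.topEquiv.symm.surjective⟩
        · haveI : NeZero (2 ^ k) := ⟨(Nat.two_pow_pos k).ne'⟩
          refine ⟨zpowers (eq.symm (QuaternionGroup.a 1)), ?_, inferInstance⟩
          have h1 := Subgroup.card_mul_index (zpowers (eq.symm (QuaternionGroup.a (1 : ZMod (2 * 2 ^ k)))))
          rw [Nat.card_zpowers, MulEquiv.orderOf_eq, QuaternionGroup.orderOf_a_one,
            Nat.card_congr eq.toEquiv, Nat.card_eq_fintype_card (α := QuaternionGroup (2 ^ k)),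
            QuaternionGroup.card] at h1
          refine le_of_eq (Nat.eq_of_mul_eq_mul_left (show 0 < 2 * 2 ^ k by positivity) ?_)
          rw [h1]; ring
    haveI := hCc
    have hker' : ∀ m : N, φ.rangeRestrict.comp N.subtype m = 1 → χ m = 1 := fun m hm =>
      hker m (congrArg Subtype.val hm)
    have h4 := range_le_four_of_cyclic_index_two (φ.rangeRestrict.comp N.subtype) χ hA hker' C hCidx
      Subgroup.index_ne_zero_of_finite
    by_cases hp : (Nat.card V).Prime
    · haveI := Fact.mk hp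
      haveI : IsCyclic V := isCyclic_of_prime_card rfl
      haveI : IsCyclic (ZMod (Nat.card V))ˣ := inferInstance
      haveI : IsCyclic (MulAut V) :=
        isCyclic_of_injective (IsCyclic.mulAutMulEquiv V).toMonoidHom (IsCyclic.mulAutMulEquiv V).injective
      have h2 := card_le_two_of_cyclic (φ.rangeRestrict.comp N.subtype) χ hA hker' ⊤
        (fun m => mem_top _)
      rcases Nat.lt_or_ge (Nat.card V) 4 with h | h
      · exact Or.inr (Or.inl ⟨by omega, h2⟩)
      · left; omega
    · left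
      have h9 : 9 ≤ Nat.card V := by
        by_contra hlt
        obtain ⟨k, hk⟩ := hodd
        have : k ≤ 3 := by omega
        interval_cases k
        all_goals (rw [hk] at hp hV3; first | omega | norm_num at hp)
      omega
  -- `Γ` is imprimitive
  obtain ⟨e, he, hez, hconj⟩ := hfour
  have hne_conj : ∃ s : Γ, s * e * s⁻¹ ≠ e := by
    by_contra! hall
    exact hez (huniq e he fun s => mul_inv_eq_iff_eq_mul.mp (hall s))
  set ε : MulAut V := (e : MulAut V) with hε
  set ε' : MulAut V := ((e * z : Γ) : MulAut V) with hε'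
  have hε'app : ∀ v, ε' v = (ε v)⁻¹ := fun v => by
    rw [hε', hε, Subgroup.coe_mul, MulAut.mul_apply, hzinv, map_inv]
  have hεsq : ∀ v : V, ε (ε v) = v := fun v => by
    have h1 : (e * e : Γ) = 1 := by rw [← pow_two, ← he, pow_orderOf_eq_one]
    have h2 := congrArg (fun t : Γ => (t : MulAut V) v) h1
    simpa using h2
  let S₀ : Subgroup S := (Subgroup.centralizer ({e} : Set Γ)).comap φ.rangeRestrict
  have hS₀ : ∀ s, s ∈ S₀ ↔ φ.rangeRestrict s * e * (φ.rangeRestrict s)⁻¹ = e := fun s => by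
    rw [Subgroup.mem_comap, Subgroup.mem_centralizer_singleton_iff, mul_inv_eq_iff_eq_mul]
  let W := fixedSubgroup ε
  let W' := fixedSubgroup ε'
  have hsεW : ∀ (s : S) (d d' : Γ), φ.rangeRestrict s * d * (φ.rangeRestrict s)⁻¹ = d' →
      ∀ w, (d : MulAut V) w = w → (d' : MulAut V) (φ s w) = φ s w := by
    intro s d d' h w hw
    have h1 := congrArg (fun t : Γ => (t : MulAut V) w) (mul_inv_eq_iff_eq_mul.mp h)
    simp only [Subgroup.coe_mul, MulAut.mul_apply, MonoidHom.coe_rangeRestrict] at h1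
    rw [← h1, hw]
  have hW : ∀ s ∈ S₀, ∀ w ∈ W, φ s w ∈ W := fun s hs w hw => hsεW s e e ((hS₀ s).mp hs) w hw
  have hconjez : ∀ t : Γ, t * (e * z) * t⁻¹ = t * e * t⁻¹ * z := fun t => by
    rw [show t * (e * z) * t⁻¹ = t * e * (z * t⁻¹) by group, ← hzc' t⁻¹, ← mul_assoc]
  have hzz : z * z = 1 := by rw [← pow_two, ← hz, pow_orderOf_eq_one]
  have hW' : ∀ s ∈ S₀, ∀ w ∈ W', φ s w ∈ W' := fun s hs w hw =>
    hsεW s (e * z) (e * z) (by rw [hconjez, (hS₀ s).mp hs]) w hw
  have hswap : ∀ s, s ∉ S₀ → φ.rangeRestrict s * e * (φ.rangeRestrict s)⁻¹ = e * z := fun s hs =>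
    (hconj _).resolve_left fun h => hs ((hS₀ s).mpr h)
  have hWW' : ∀ s, s ∉ S₀ → (∀ w ∈ W, φ s w ∈ W') ∧ ∀ w ∈ W', φ s w ∈ W := fun s hs =>
    ⟨fun w hw => hsεW s e (e * z) (hswap s hs) w hw,
     fun w hw => hsεW s (e * z) e (by rw [hconjez, hswap s hs, mul_assoc, hzz, mul_one]) w hw⟩
  obtain ⟨t₀, ht₀⟩ : ∃ t : S, t ∉ S₀ := by
    obtain ⟨⟨_, t, rfl⟩, hs⟩ := hne_conj
    exact ⟨t, fun h => hs ((hS₀ t).mp h)⟩
  have hS₀mul : ∀ s t, s ∉ S₀ → t ∉ S₀ → s * t ∈ S₀ := fun s t hs ht => by
    rw [hS₀, map_mul]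
    calc φ.rangeRestrict s * φ.rangeRestrict t * e * (φ.rangeRestrict s * φ.rangeRestrict t)⁻¹
        = φ.rangeRestrict s * (φ.rangeRestrict t * e * (φ.rangeRestrict t)⁻¹) * (φ.rangeRestrict s)⁻¹ := by
          group
      _ = e := by rw [hswap t ht, hconjez, hswap s hs, mul_assoc, hzz, mul_one]
  -- `V = W × W'`
  have hcardV : Nat.card V = Nat.card W * Nat.card W' := by
    rw [← Nat.card_prod]
    refine (Nat.card_congr (Equiv.ofBijective (fun w : W × W' => (w.1 : V) * w.2) ⟨?_, ?_⟩)).symm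
    · rintro ⟨⟨a, ha⟩, ⟨b, hb⟩⟩ ⟨⟨a', ha'⟩, ⟨b', hb'⟩⟩ h
      have hb1 : ε b = b⁻¹ := by rw [← inv_inj, ← hε'app, inv_inv]; exact hb
      have hb2 : ε b' = b'⁻¹ := by rw [← inv_inj, ← hε'app, inv_inv]; exact hb'
      simp only at h
      have h1 := congrArg ε h
      rw [map_mul, map_mul, mem_fixedSubgroup.mp ha, mem_fixedSubgroup.mp ha', hb1, hb2] at h1
      have h2 : a * a = a' * a' := by
        have := congrArg₂ (· * ·) h h1
        simpa [mul_mul_mul_comm] using this
      have h3 : a = a' := by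
        have hpow : ∀ v : V, (v * v) ^ ((Nat.card V + 1) / 2) = v := fun v => by
          rw [mul_pow, odd_sqrt hodd]
        rw [← hpow a, ← hpow a', h2]
      subst h3
      obtain rfl := mul_left_cancel h
      rfl
    · intro v
      have ha : v * ε v ∈ W := by
        show ε (v * ε v) = _
        rw [map_mul, hεsq, mul_comm]
      have hb : v * (ε v)⁻¹ ∈ W' := by
        show ε' (v * (ε v)⁻¹) = _
        rw [hε'app, map_mul, map_inv, hεsq, mul_inv, inv_inv, mul_comm]
      refine ⟨(⟨_, pow_mem ha ((Nat.card V + 1) / 2)⟩, ⟨_, pow_mem hb ((Nat.card V + 1) / 2)⟩), ?_⟩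
      show (v * ε v) ^ _ * (v * (ε v)⁻¹) ^ _ = v
      rw [← mul_pow, mul_mul_mul_comm, mul_inv_cancel, mul_one, mul_pow, odd_sqrt hodd]
  have hWcard : Nat.card W = Nat.card W' := by
    refine le_antisymm ?_ ?_
    · exact Nat.card_le_card_of_injective (fun w : W => (⟨φ t₀ w, (hWW' t₀ ht₀).1 w w.2⟩ : W'))
        fun a b h => Subtype.ext ((φ t₀).injective (congrArg Subtype.val h))
    · exact Nat.card_le_card_of_injective (fun w : W' => (⟨φ t₀ w, (hWW' t₀ ht₀).2 w w.2⟩ : W))
        fun a b h => Subtype.ext ((φ t₀).injective (congrArg Subtype.val h))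
  have hW1 : Nat.card W ≠ 1 := fun h => by
    rw [← hWcard, h] at hcardV
    omega
  have hWtop : W ≠ ⊤ := fun h => by
    rw [← hWcard, h, Subgroup.card_top] at hcardV
    have : Nat.card V * 2 ≤ Nat.card V * Nat.card V := Nat.mul_le_mul_left _ (by omega)
    omega
  have hWbot : W ≠ ⊥ := fun h => hW1 (by rw [h, Subgroup.card_bot])
  have hWlt : Nat.card W < Nat.card V :=
    lt_of_le_of_ne (Subgroup.card_le_card_group W) fun h => hWtop (Subgroup.eq_top_of_card_eq W h)
  have hbW : Bound.{u, v} W := ih _ hWlt W (hodd.of_dvd_nat (Subgroup.card_subgroup_dvd_card W)) rfl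
  have hbW' : Bound.{u, v} W' :=
    ih _ (hWcard ▸ hWlt) W' (hodd.of_dvd_nat (Subgroup.card_subgroup_dvd_card W')) rfl
  have hS₀p : IsPGroup 2 S₀ := hS.to_subgroup S₀
  by_cases hNS : N ≤ S₀
  · -- `N` fixes `W`
    let N₀ := N.subgroupOf S₀
    let eqv : N₀ ≃* N := Subgroup.subgroupOfEquivOfLe hNS
    have := hred S₀ hS₀p (φ.comp S₀.subtype) W hWbot hWtop (fun s w hw => hW s s.2 w hw) N₀ A
      (χ.comp eqv.toMonoidHom) inferInstance hA
      (fun n m s hs => hinv (eqv n) (eqv m) s (congrArg Subtype.val hs))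
      (fun n hn => hker (eqv n) hn)
    rwa [MonoidHom.range_comp, eqv.toMonoidHom.range_eq_top.mpr eqv.surjective,
      ← MonoidHom.range_eq_map] at this
  obtain ⟨t, htN, htS⟩ := SetLike.not_le_iff_exists.mp hNS
  let N₁ : Subgroup N := S₀.subgroupOf N
  have hN₁idx : N₁.index ≤ 2 := by
    refine le_of_eq (Subgroup.index_eq_two_iff.mpr ⟨⟨t, htN⟩, fun b => ?_⟩)
    rw [xor_iff_iff_not, Subgroup.mem_subgroupOf, Subgroup.mem_subgroupOf, Subgroup.coe_mul]
    constructor
    · intro hbt hb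
      exact htS (by simpa using mul_mem (inv_mem hb) hbt)
    · intro hb
      exact hS₀mul b t hb htS
  -- the elements of `N ⊓ S₀`
  let M : Subgroup S₀ := N.subgroupOf S₀
  let i : M →* N := { toFun := fun m => ⟨((m : S₀) : S), m.2⟩, map_one' := rfl, map_mul' := fun _ _ => rfl }
  let χ₀ : M →* A := χ.comp i
  have hrange : χ₀.range = N₁.map χ := by
    refine le_antisymm ?_ ?_
    · rintro _ ⟨m, rfl⟩
      exact mem_map_of_mem χ (show i m ∈ N₁ from (m : S₀).2)
    · rintro _ ⟨n, hn, rfl⟩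
      exact ⟨⟨⟨(n : S), hn⟩, n.2⟩, rfl⟩
  let ψ := restrictHom (φ.comp S₀.subtype) W (fun s w hw => hW s s.2 w hw)
  let ψ' := restrictHom (φ.comp S₀.subtype) W' (fun s w hw => hW' s s.2 w hw)
  let K₀ : Subgroup S₀ := M ⊓ ψ'.ker
  let K : Subgroup M := K₀.subgroupOf M
  have h1 : P (Nat.card W') (Nat.card ((QuotientGroup.mk' (K.map χ₀)).comp χ₀).range) := by
    refine hbW' S₀ hS₀p ψ' M _ _ inferInstance ?_ ?_ ?_
    · intro a
      induction a using QuotientGroup.induction_on with
      | H a => rw [← QuotientGroup.mk_mul, hA, QuotientGroup.mk_one]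
    · intro n m s hs
      rw [MonoidHom.comp_apply, MonoidHom.comp_apply]
      show QuotientGroup.mk' _ (χ (i m)) = QuotientGroup.mk' _ (χ (i n))
      rw [hinv (i n) (i m) s (congrArg Subtype.val hs)]
    · intro n hn
      rw [MonoidHom.comp_apply]
      exact (QuotientGroup.eq_one_iff _).mpr (mem_map_of_mem χ₀ (show n ∈ K from ⟨n.2, hn⟩))
  have h2 : P (Nat.card W) (Nat.card (K.map χ₀)) := by
    let j : K₀ →* M := Subgroup.inclusion inf_le_left
    have hr : (χ₀.comp j).range = K.map χ₀ := by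
      rw [MonoidHom.range_comp]
      congr 1
      ext a
      exact ⟨fun ⟨b, hb⟩ => hb ▸ b.2, fun ha => ⟨⟨a.1, ha⟩, rfl⟩⟩
    rw [← hr]
    refine hbW S₀ hS₀p ψ K₀ A (χ₀.comp j) inferInstance hA ?_ ?_
    · intro n m s hs
      exact hinv (i (j n)) (i (j m)) s (congrArg Subtype.val hs)
    · intro n hn
      refine hker (i (j n)) (MulEquiv.ext fun v => ?_)
      show φ ((n : S₀) : S) v = v
      have hfix : ∀ w ∈ W, φ ((n : S₀) : S) w = w := fun w hw =>
        by
          have := DFunLike.congr_fun hn ⟨w, hw⟩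
          exact congrArg Subtype.val this
      have hfix' : ∀ w ∈ W', φ ((n : S₀) : S) w = w := fun w hw =>
        by
          have := DFunLike.congr_fun (MonoidHom.mem_ker.mp n.2.2) ⟨w, hw⟩
          exact congrArg Subtype.val this
      have ha : v * ε v ∈ W := by
        show ε (v * ε v) = _
        rw [map_mul, hεsq, mul_comm]
      have hb : v * (ε v)⁻¹ ∈ W' := by
        show ε' (v * (ε v)⁻¹) = _
        rw [hε'app, map_mul, map_inv, hεsq, mul_inv, inv_inv, mul_comm]
      have hv : v = ((v * ε v) * (v * (ε v)⁻¹)) ^ ((Nat.card V + 1) / 2) := by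
        rw [mul_mul_mul_comm, mul_inv_cancel, mul_one, mul_pow, odd_sqrt hodd]
      rw [hv, map_pow, map_mul, hfix _ ha, hfix' _ hb]
  -- for `|W| = 3` one of the two factors is trivial
  have h3 : Nat.card W' = 3 → Nat.card ((QuotientGroup.mk' (K.map χ₀)).comp χ₀).range = 1 ∨
      Nat.card (K.map χ₀) = 1 := by
    intro hy
    by_cases htriv : K.map χ₀ = ⊥
    · right; rw [htriv, Subgroup.card_bot]
    left
    obtain ⟨k, hk, hk1⟩ : ∃ k ∈ K, χ₀ k ≠ 1 := by
      by_contra! hall
      exact htriv ((Subgroup.map_eq_bot_iff _).mpr fun k hk => hall k hk)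
    -- the conjugate of `k` by `t` acts non-trivially on `W'`
    have hkW : ∀ w ∈ W', φ ((k : S₀) : S) w = w := fun w hw =>
      by
        have := DFunLike.congr_fun (MonoidHom.mem_ker.mp hk.2) ⟨w, hw⟩
        exact congrArg Subtype.val this
    set k' : S := t * ((k : S₀) : S) * t⁻¹ with hk'
    have hk'S : k' ∈ S₀ := by
      have h := hS₀mul (t * ((k : S₀) : S)) t⁻¹
        (fun h => htS (by simpa using mul_mem h (inv_mem (k : S₀).2))) (fun h => htS (by simpa using inv_mem h))
      exact h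
    have hk'N : k' ∈ N := hN.conj_mem _ (i k).2 t
    have hχk' : χ₀ ⟨⟨k', hk'S⟩, hk'N⟩ = χ₀ k := hinv (i k) _ t hk'
    have hnk : ψ' ⟨k', hk'S⟩ ≠ 1 := by
      intro h1'
      refine hk1 ?_
      show χ (i k) = 1
      refine hker (i k) (MulEquiv.ext fun v => ?_)
      show φ ((k : S₀) : S) v = v
      have hfix : ∀ w ∈ W, φ ((k : S₀) : S) w = w := by
        intro w hw
        have h5 : φ k' (φ t w) = φ t w :=
          by
            have := DFunLike.congr_fun h1' ⟨φ t w, (hWW' t htS).1 w hw⟩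
            exact congrArg Subtype.val this
        rw [hk', ← MulAut.mul_apply, ← map_mul, mul_assoc (t * _), inv_mul_cancel, mul_one, map_mul,
          MulAut.mul_apply] at h5
        exact (φ t).injective h5
      have ha : v * ε v ∈ W := by
        show ε (v * ε v) = _
        rw [map_mul, hεsq, mul_comm]
      have hb : v * (ε v)⁻¹ ∈ W' := by
        show ε' (v * (ε v)⁻¹) = _
        rw [hε'app, map_mul, map_inv, hεsq, mul_inv, inv_inv, mul_comm]
      have hv : v = ((v * ε v) * (v * (ε v)⁻¹)) ^ ((Nat.card V + 1) / 2) := by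
        rw [mul_mul_mul_comm, mul_inv_cancel, mul_one, mul_pow, odd_sqrt hodd]
      rw [hv, map_pow, map_mul, hfix _ ha, hkW _ hb]
    haveI : Subsingleton ((QuotientGroup.mk' (K.map χ₀)).comp χ₀).range := by
      refine ⟨fun a b => Subtype.ext ?_⟩
      have hall : ∀ m : M, χ₀ m ∈ K.map χ₀ := by
        intro m
        by_cases hm : ψ' (m : S₀) = 1
        · exact mem_map_of_mem χ₀ (show m ∈ K from ⟨m.2, hm⟩)
        have heq : ψ' (m : S₀) = ψ' ⟨k', hk'S⟩ :=
          MulEquiv.ext fun w => by rw [aut_of_card_three hy hm, aut_of_card_three hy hnk]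
        set m' : M := ⟨⟨k', hk'S⟩, hk'N⟩ with hm'
        have h1'' : m'⁻¹ * m ∈ K := ⟨(m'⁻¹ * m).2, by
          show ψ' ((m' : S₀)⁻¹ * (m : S₀)) = 1
          rw [map_mul, map_inv, heq, inv_mul_cancel]⟩
        have := mul_mem (mem_map_of_mem χ₀ hk) (mem_map_of_mem χ₀ h1'')
        rwa [← hχk', map_mul, map_inv, mul_inv_cancel_left] at this
      obtain ⟨_, m, rfl⟩ := a
      obtain ⟨_, m', rfl⟩ := b
      show QuotientGroup.mk' (K.map χ₀) (χ₀ m) = QuotientGroup.mk' (K.map χ₀) (χ₀ m')
      rw [QuotientGroup.mk'_apply, QuotientGroup.mk'_apply,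
        (QuotientGroup.eq_one_iff _).mpr (hall m), (QuotientGroup.eq_one_iff _).mpr (hall m')]
    exact Nat.card_unique
  left
  have hout : Nat.card ((QuotientGroup.mk' (N₁.map χ)).comp χ).range ≤ 2 := by
    refine le_trans ?_ hN₁idx
    rw [← Subgroup.index_ker]
    refine Nat.le_of_dvd (Nat.pos_of_ne_zero Subgroup.index_ne_zero_of_finite)
      (Subgroup.index_dvd_of_le fun m hm => ?_)
    exact (QuotientGroup.eq_one_iff _).mpr (mem_map_of_mem χ hm)
  rw [hWcard] at h2
  have hb := sq_bound (by rwa [← hWcard]) h1 h2 h3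
  rw [hcardV, hWcard, card_range_eq χ N₁]
  rw [← hrange] at hout ⊢
  rw [card_range_eq χ₀ K]
  calc 2 * ((Nat.card (K.map χ₀) * Nat.card ((QuotientGroup.mk' (K.map χ₀)).comp χ₀).range) * _)
      ≤ 2 * ((Nat.card (K.map χ₀) * Nat.card ((QuotientGroup.mk' (K.map χ₀)).comp χ₀).range) * 2) :=
        Nat.mul_le_mul_left _ (Nat.mul_le_mul_left _ hout)
    _ = 2 * (2 * (Nat.card ((QuotientGroup.mk' (K.map χ₀)).comp χ₀).range * Nat.card (K.map χ₀))) := by
        ring
    _ ≤ _ := hb

end Cfsg.Agent.FGS3.TwoQuot
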